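import Cfsg.Prelude.Def_G2
import Cfsg.Agent.Linear.Transvection

/-!
# Automorphisms of the split octonion algebra

Short root elements, the interchange, the pairs of `SL_2` on a quaternion subalgebra and its orthogonal
complement, and an extra involution.
-/

set_option autoImplicit false

namespace Cfsg.Agent.Forms.G2

open Matrix

variable {F : Type*} [Field F]

/-- The linear map of an element of `G₂`. -/
def act (g : Cfsg.Lie.G2 F) (x : Fin 8 → F) : Fin 8 → F :=
  ((g : GL (Fin 8) F) : Matrix (Fin 8) (Fin 8) F) *ᵥ x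

theorem act_mulAut (g : Cfsg.Lie.G2 F) (x y : Fin 8 → F) :
    act g (Cfsg.Lie.zornMul x y) = Cfsg.Lie.zornMul (act g x) (act g y) := g.2 x y

theorem act_mul (g h : Cfsg.Lie.G2 F) (x : Fin 8 → F) : act (g * h) x = act g (act h x) := by
  simp [act, Matrix.mulVec_mulVec]

theorem act_one (x : Fin 8 → F) : act (1 : Cfsg.Lie.G2 F) x = x := by
  simp [act]

theorem act_inv_act (g : Cfsg.Lie.G2 F) (x : Fin 8 → F) : act g⁻¹ (act g x) = x := by
  rw [← act_mul, inv_mul_cancel, act_one]

theorem act_act_inv (g : Cfsg.Lie.G2 F) (x : Fin 8 → F) : act g (act g⁻¹ x) = x := by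
  rw [← act_mul, mul_inv_cancel, act_one]

theorem ext_act {g h : Cfsg.Lie.G2 F} (H : ∀ x, act g x = act h x) : g = h := by
  refine Subtype.ext (Units.ext (Matrix.ext fun i j => ?_))
  have h1 := congrFun (H (Pi.single j 1)) i
  simpa [act, Matrix.mulVec_single] using h1

theorem act_linear (g : Cfsg.Lie.G2 F) (c : F) (x y : Fin 8 → F) :
    act g (c • x + y) = c • act g x + act g y := by
  simp [act, Matrix.mulVec_add, Matrix.mulVec_smul]

/-- An element from an invertible linear map respecting the product. -/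
def ofLin (f : (Fin 8 → F) ≃ₗ[F] (Fin 8 → F))
    (h : ∀ x y, f (Cfsg.Lie.zornMul x y) = Cfsg.Lie.zornMul (f x) (f y)) : Cfsg.Lie.G2 F :=
  ⟨(LinearMap.GeneralLinearGroup.generalLinearEquiv F (Fin 8 → F)).symm.trans
      Matrix.GeneralLinearGroup.toLin.symm f, fun x y => by
    have e : ∀ z, (Units.coeHom (Matrix (Fin 8) (Fin 8) F)
        ((LinearMap.GeneralLinearGroup.generalLinearEquiv F (Fin 8 → F)).symm.trans
          Matrix.GeneralLinearGroup.toLin.symm f)) *ᵥ z = f z := fun z => by
      exact LinearMap.toMatrix'_mulVec _ z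
    rw [e, e, e, h]⟩

theorem act_ofLin (f : (Fin 8 → F) ≃ₗ[F] (Fin 8 → F))
    (h : ∀ x y, f (Cfsg.Lie.zornMul x y) = Cfsg.Lie.zornMul (f x) (f y)) (x : Fin 8 → F) :
    act (ofLin f h) x = f x := LinearMap.toMatrix'_mulVec _ x

/-! ### Short root elements and the interchange -/

/-- Short root element, first kind. -/
def phiFun (v : Fin 3 → F) (x : Fin 8 → F) : Fin 8 → F :=
  let t := v 0 * x 4 + v 1 * x 5 + v 2 * x 6
  ![x 0 + t, x 1 - (x 0 - x 7) * v 0 - t * v 0, x 2 - (x 0 - x 7) * v 1 - t * v 1,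
    x 3 - (x 0 - x 7) * v 2 - t * v 2, x 4 - (v 1 * x 3 - v 2 * x 2), x 5 - (v 2 * x 1 - v 0 * x 3),
    x 6 - (v 0 * x 2 - v 1 * x 1), x 7 - t]

/-- Short root element, second kind. -/
def psiFun (v : Fin 3 → F) (x : Fin 8 → F) : Fin 8 → F :=
  let t := v 0 * x 1 + v 1 * x 2 + v 2 * x 3
  ![x 0 + t, x 1 - (v 1 * x 6 - v 2 * x 5), x 2 - (v 2 * x 4 - v 0 * x 6),
    x 3 - (v 0 * x 5 - v 1 * x 4), x 4 - (x 0 - x 7) * v 0 - t * v 0,
    x 5 - (x 0 - x 7) * v 1 - t * v 1, x 6 - (x 0 - x 7) * v 2 - t * v 2, x 7 - t]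

/-- Interchange of the diagonal. -/
def swapFun (x : Fin 8 → F) : Fin 8 → F :=
  ![x 7, -x 4, -x 5, -x 6, -x 1, -x 2, -x 3, x 0]

theorem phiFun_inv (v : Fin 3 → F) (x : Fin 8 → F) : phiFun (-v) (phiFun v x) = x := by
  funext i; fin_cases i <;> simp [phiFun] <;> ring

theorem psiFun_inv (v : Fin 3 → F) (x : Fin 8 → F) : psiFun (-v) (psiFun v x) = x := by
  funext i; fin_cases i <;> simp [psiFun] <;> ring

theorem phiFun_mul (v : Fin 3 → F) (x y : Fin 8 → F) :
    phiFun v (Cfsg.Lie.zornMul x y) = Cfsg.Lie.zornMul (phiFun v x) (phiFun v y) := by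
  funext i
  fin_cases i <;> simp [phiFun, Cfsg.Lie.zornMul, Cfsg.Lie.dot3, Cfsg.Lie.cross3] <;> ring

theorem psiFun_mul (v : Fin 3 → F) (x y : Fin 8 → F) :
    psiFun v (Cfsg.Lie.zornMul x y) = Cfsg.Lie.zornMul (psiFun v x) (psiFun v y) := by
  funext i
  fin_cases i <;> simp [psiFun, Cfsg.Lie.zornMul, Cfsg.Lie.dot3, Cfsg.Lie.cross3] <;> ring

theorem swapFun_mul (x y : Fin 8 → F) :
    swapFun (Cfsg.Lie.zornMul x y) = Cfsg.Lie.zornMul (swapFun x) (swapFun y) := by
  funext i
  fin_cases i <;> simp [swapFun, Cfsg.Lie.zornMul, Cfsg.Lie.dot3, Cfsg.Lie.cross3] <;> ring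

/-- Short root element, first kind, in `G₂`. -/
def phi (v : Fin 3 → F) : Cfsg.Lie.G2 F :=
  ofLin { toFun := phiFun v
          map_add' := fun x y => by funext i; fin_cases i <;> simp [phiFun] <;> ring
          map_smul' := fun c x => by funext i; fin_cases i <;> simp [phiFun] <;> ring
          invFun := phiFun (-v)
          left_inv := phiFun_inv v
          right_inv := fun x => by simpa using phiFun_inv (-v) x }
    (phiFun_mul v)

/-- Short root element, second kind, in `G₂`. -/
def psi (v : Fin 3 → F) : Cfsg.Lie.G2 F :=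
  ofLin { toFun := psiFun v
          map_add' := fun x y => by funext i; fin_cases i <;> simp [psiFun] <;> ring
          map_smul' := fun c x => by funext i; fin_cases i <;> simp [psiFun] <;> ring
          invFun := psiFun (-v)
          left_inv := psiFun_inv v
          right_inv := fun x => by simpa using psiFun_inv (-v) x }
    (psiFun_mul v)

/-- The interchange in `G₂`. -/
def swap8 : Cfsg.Lie.G2 F :=
  ofLin { toFun := swapFun
          map_add' := fun x y => by funext i; fin_cases i <;> simp [swapFun] <;> ring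
          map_smul' := fun c x => by funext i; fin_cases i <;> simp [swapFun]
          invFun := swapFun
          left_inv := fun x => by funext i; fin_cases i <;> simp [swapFun]
          right_inv := fun x => by funext i; fin_cases i <;> simp [swapFun] }
    swapFun_mul

/-! ### Pairs of `SL_2` -/

/-- Action of a pair of matrices: conjugation on the quaternions, both sides on the complement. -/
def pairFun (g k : Matrix (Fin 2) (Fin 2) F) (x : Fin 8 → F) : Fin 8 → F :=
  ![(g 0 0 * x 0 + g 0 1 * x 4) * g 1 1 - (g 0 0 * x 1 + g 0 1 * x 7) * g 1 0,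
    (g 0 0 * x 1 + g 0 1 * x 7) * g 0 0 - (g 0 0 * x 0 + g 0 1 * x 4) * g 0 1,
    (g 1 1 * x 2 - g 1 0 * x 6) * k 0 0 + (g 1 1 * x 3 + g 1 0 * x 5) * k 0 1,
    (g 1 1 * x 2 - g 1 0 * x 6) * k 1 0 + (g 1 1 * x 3 + g 1 0 * x 5) * k 1 1,
    (g 1 0 * x 0 + g 1 1 * x 4) * g 1 1 - (g 1 0 * x 1 + g 1 1 * x 7) * g 1 0,
    (g 0 1 * x 2 - g 0 0 * x 6) * k 1 0 + (g 0 1 * x 3 + g 0 0 * x 5) * k 1 1,
    (g 0 0 * x 6 - g 0 1 * x 2) * k 0 0 - (g 0 1 * x 3 + g 0 0 * x 5) * k 0 1,
    (g 1 0 * x 1 + g 1 1 * x 7) * g 0 0 - (g 1 0 * x 0 + g 1 1 * x 4) * g 0 1]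

set_option maxHeartbeats 1600000 in
theorem pairFun_comp (g g' k k' : Matrix (Fin 2) (Fin 2) F) (x : Fin 8 → F) :
    pairFun g k (pairFun g' k' x) = pairFun (g * g') (k * k') x := by
  funext i
  fin_cases i <;> simp [pairFun, Matrix.mul_apply, Fin.sum_univ_two] <;> ring

theorem pairFun_one (x : Fin 8 → F) : pairFun 1 1 x = x := by
  funext i
  fin_cases i <;> simp [pairFun]

/-- The linear map of a pair. -/
def pairEquiv (g : SpecialLinearGroup (Fin 2) F × SpecialLinearGroup (Fin 2) F) :
    (Fin 8 → F) ≃ₗ[F] (Fin 8 → F) where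
  toFun := pairFun g.1.1 g.2.1
  map_add' x y := by
    funext i; fin_cases i <;> simp [pairFun] <;> ring
  map_smul' c x := by
    funext i; fin_cases i <;> simp [pairFun] <;> ring
  invFun := pairFun (g⁻¹).1.1 (g⁻¹).2.1
  left_inv x := by
    rw [pairFun_comp]
    change pairFun ((g.1⁻¹ * g.1 : SpecialLinearGroup (Fin 2) F)).1
      ((g.2⁻¹ * g.2 : SpecialLinearGroup (Fin 2) F)).1 x = x
    rw [inv_mul_cancel, inv_mul_cancel]
    exact pairFun_one x
  right_inv x := by
    rw [pairFun_comp]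
    change pairFun ((g.1 * g.1⁻¹ : SpecialLinearGroup (Fin 2) F)).1
      ((g.2 * g.2⁻¹ : SpecialLinearGroup (Fin 2) F)).1 x = x
    rw [mul_inv_cancel, mul_inv_cancel]
    exact pairFun_one x

theorem pairEquiv_apply (g : SpecialLinearGroup (Fin 2) F × SpecialLinearGroup (Fin 2) F)
    (x : Fin 8 → F) : pairEquiv g x = pairFun g.1.1 g.2.1 x := rfl

set_option maxHeartbeats 4000000 in
theorem pairFun_transvection (i j : Fin 2) (h : i ≠ j) (c : F) (x y : Fin 8 → F) :
    pairFun (Matrix.transvection i j c) 1 (Cfsg.Lie.zornMul x y) =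
        Cfsg.Lie.zornMul (pairFun (Matrix.transvection i j c) 1 x)
          (pairFun (Matrix.transvection i j c) 1 y) ∧
      pairFun 1 (Matrix.transvection i j c) (Cfsg.Lie.zornMul x y) =
        Cfsg.Lie.zornMul (pairFun 1 (Matrix.transvection i j c) x)
          (pairFun 1 (Matrix.transvection i j c) y) := by
  fin_cases i <;> fin_cases j <;> first | exact absurd rfl h | skip
  all_goals
    constructor <;> funext p <;> fin_cases p <;>
      simp [pairFun, Matrix.transvection, Cfsg.Lie.zornMul,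
        Cfsg.Lie.dot3, Cfsg.Lie.cross3] <;> ring

theorem pairFun_mul (g : SpecialLinearGroup (Fin 2) F × SpecialLinearGroup (Fin 2) F)
    (x y : Fin 8 → F) :
    pairEquiv g (Cfsg.Lie.zornMul x y) =
      Cfsg.Lie.zornMul (pairEquiv g x) (pairEquiv g y) := by
  let K : Subgroup (SpecialLinearGroup (Fin 2) F × SpecialLinearGroup (Fin 2) F) :=
    { carrier := {g | ∀ x y, pairEquiv g (Cfsg.Lie.zornMul x y) =
        Cfsg.Lie.zornMul (pairEquiv g x) (pairEquiv g y)}
      one_mem' := fun x y => by simp [pairEquiv, pairFun_one]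
      mul_mem' := fun {g h} hg hh x y => by
        have e : ∀ z, pairEquiv (g * h) z = pairEquiv g (pairEquiv h z) := fun z => by
          simp [pairEquiv, pairFun_comp]
        rw [e, e, e, hh, hg]
      inv_mem' := fun {g} hg x y => by
        have e : ∀ z, pairEquiv g⁻¹ z = (pairEquiv g).symm z := fun z => rfl
        rw [e, e, e, LinearEquiv.symm_apply_eq, hg, LinearEquiv.apply_symm_apply,
          LinearEquiv.apply_symm_apply] }
  have h1 : K.comap (MonoidHom.inl _ _) = ⊤ :=
    Linear.eq_top_of_transvection_mem fun i j h c x y => by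
      exact (pairFun_transvection i j h c x y).1
  have h2 : K.comap (MonoidHom.inr _ _) = ⊤ :=
    Linear.eq_top_of_transvection_mem fun i j h c x y => by
      exact (pairFun_transvection i j h c x y).2
  have hg : g ∈ K := by
    rw [show g = (g.1, 1) * (1, g.2) from Prod.ext (mul_one _).symm (one_mul _).symm]
    exact K.mul_mem (SetLike.le_def.1 h1.ge (Subgroup.mem_top g.1))
      (SetLike.le_def.1 h2.ge (Subgroup.mem_top g.2))
  exact hg x y

/-- Pairs of `SL_2` in `G₂`. -/
def pair : SpecialLinearGroup (Fin 2) F × SpecialLinearGroup (Fin 2) F →* Cfsg.Lie.G2 F :=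
  MonoidHom.mk' (fun g => ofLin (pairEquiv g) (pairFun_mul g)) fun g h => ext_act fun x => by
    rw [act_mul, act_ofLin, act_ofLin, act_ofLin, pairEquiv_apply, pairEquiv_apply, pairEquiv_apply,
      pairFun_comp]
    rfl

theorem act_pair (g : SpecialLinearGroup (Fin 2) F × SpecialLinearGroup (Fin 2) F) (x : Fin 8 → F) :
    act (pair g) x = pairFun g.1.1 g.2.1 x := act_ofLin (pairEquiv g) (pairFun_mul g) x

/-! ### The extra involution -/

/-- The action of the pair `(d, d)`, `d = [0 u; 1 0]`. -/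
def extraFun (u : F) (x : Fin 8 → F) : Fin 8 → F :=
  ![x 7, u * x 4, -x 5, x 6 / u, x 1 / u, -x 2, u * x 3, x 0]

theorem extraFun_mul {u : F} (hu : u ≠ 0) (x y : Fin 8 → F) :
    extraFun u (Cfsg.Lie.zornMul x y) = Cfsg.Lie.zornMul (extraFun u x) (extraFun u y) := by
  funext i
  fin_cases i <;> simp [extraFun, Cfsg.Lie.zornMul, Cfsg.Lie.dot3, Cfsg.Lie.cross3] <;>
    field_simp <;> ring

theorem extraFun_invol {u : F} (hu : u ≠ 0) (x : Fin 8 → F) : extraFun u (extraFun u x) = x := by
  funext i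
  fin_cases i <;> simp [extraFun] <;> field_simp

/-- The extra involution in `G₂`. -/
def extra (u : F) (hu : u ≠ 0) : Cfsg.Lie.G2 F :=
  ofLin { toFun := extraFun u
          map_add' := fun x y => by funext i; fin_cases i <;> simp [extraFun] <;> ring
          map_smul' := fun c x => by funext i; fin_cases i <;> simp [extraFun] <;> ring
          invFun := extraFun u
          left_inv := extraFun_invol hu
          right_inv := extraFun_invol hu }
    (extraFun_mul hu)

theorem extra_mul_self (u : F) (hu : u ≠ 0) : extra u hu * extra u hu = 1 :=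
  ext_act fun x => by
    rw [act_mul, extra, act_ofLin, act_ofLin, act_one]
    exact extraFun_invol hu x

end Cfsg.Agent.Forms.G2
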