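import Cfsg.Agent.Forms.G2Model
import Cfsg.Agent.Forms.SylowTwoTools
import Cfsg.Agent.Forms.SylowTwoSymp
import Cfsg.Agent.Linear.Card
import Cfsg.Agent.GeomClasses.SubfieldInvolution

/-!
# Sylow two-subgroups of `G₂` in odd characteristic

The stabiliser of a primitive idempotent embeds in `SL₃` and its orbit is the set of all of them, which
bounds the two-part of the order; a subgroup of pairs of `SL₂` with an extra involution attains it.
-/

set_option autoImplicit false

namespace Cfsg.Agent.Forms.G2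

open Matrix Cfsg.Lie

variable {F : Type*} [Field F]

/-! ### Primitive idempotents -/

/-- The idempotent `e`. -/
def idem : Fin 8 → F := ![1, 0, 0, 0, 0, 0, 0, 0]

/-- The unit. -/
def unit8 : Fin 8 → F := ![1, 0, 0, 0, 0, 0, 0, 1]

theorem zornMul_unit_left (x : Fin 8 → F) : zornMul unit8 x = x := by
  funext i; fin_cases i <;> simp [unit8, zornMul, dot3, cross3]

theorem zornMul_unit_right (x : Fin 8 → F) : zornMul x unit8 = x := by
  funext i; fin_cases i <;> simp [unit8, zornMul, dot3, cross3]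

theorem act_unit (g : Cfsg.Lie.G2 F) : act g unit8 = unit8 := by
  have h : zornMul (act g unit8) unit8 = unit8 := by
    nth_rewrite 2 [← act_act_inv g unit8]
    rw [← act_mulAut, zornMul_unit_left, act_act_inv]
  rwa [zornMul_unit_right] at h

theorem act_smul (g : Cfsg.Lie.G2 F) (c : F) (x : Fin 8 → F) : act g (c • x) = c • act g x := by
  simp [act, Matrix.mulVec_smul]

theorem act_add (g : Cfsg.Lie.G2 F) (x y : Fin 8 → F) : act g (x + y) = act g x + act g y := by
  simp [act, Matrix.mulVec_add]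

theorem act_zero (g : Cfsg.Lie.G2 F) : act g (0 : Fin 8 → F) = 0 := by
  simp [act]

/-- The primitive idempotents. -/
abbrev Idem (F : Type*) [Field F] : Type _ :=
  {x : Fin 8 → F // x 0 + x 7 = 1 ∧ x 1 * x 4 + x 2 * x 5 + x 3 * x 6 = x 0 * x 7}

theorem idem_iff (x : Fin 8 → F) :
    (x 0 + x 7 = 1 ∧ x 1 * x 4 + x 2 * x 5 + x 3 * x 6 = x 0 * x 7) ↔
      zornMul x x = x ∧ x ≠ 0 ∧ x ≠ unit8 := by
  constructor
  · rintro ⟨h1, h2⟩
    refine ⟨?_, fun h => ?_, fun h => ?_⟩
    · funext i
      fin_cases i <;> simp [zornMul, dot3, cross3]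
      · linear_combination h2 + x 0 * h1
      · linear_combination x 1 * h1
      · linear_combination x 2 * h1
      · linear_combination x 3 * h1
      · linear_combination x 4 * h1
      · linear_combination x 5 * h1
      · linear_combination x 6 * h1
      · linear_combination h2 + x 7 * h1
    · simp [h] at h1
    · simp [h, unit8] at h2
  · rintro ⟨h, hne, hne1⟩
    have e : ∀ i, zornMul x x i = x i := fun i => congrFun h i
    have e0 := e 0; have e1 := e 1; have e2 := e 2; have e3 := e 3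
    have e4 := e 4; have e5 := e 5; have e6 := e 6; have e7 := e 7
    simp [zornMul, dot3, cross3] at e0 e1 e2 e3 e4 e5 e6 e7
    have hs : x 0 + x 7 = 1 := by
      by_contra hs
      have hz : ∀ t : F, x 0 * t + x 7 * t = t → t = 0 := fun t ht => by
        have h3 : (x 0 + x 7 - 1) * t = 0 := by linear_combination ht
        exact (mul_eq_zero.1 h3).resolve_left (sub_ne_zero.2 hs)
      have h1 : x 1 = 0 := hz _ (by linear_combination e1)
      have h2 : x 2 = 0 := hz _ (by linear_combination e2)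
      have h3 : x 3 = 0 := hz _ (by linear_combination e3)
      have h4 : x 4 = 0 := hz _ (by linear_combination e4)
      have h5 : x 5 = 0 := hz _ (by linear_combination e5)
      have h6 : x 6 = 0 := hz _ (by linear_combination e6)
      simp only [h1, h2, h3, h4, h5, h6, zero_mul, mul_zero, add_zero, zero_add] at e0 e7
      rcases mul_eq_zero.1 (show x 0 * (x 0 - 1) = 0 by linear_combination e0) with a | a <;>
        rcases mul_eq_zero.1 (show x 7 * (x 7 - 1) = 0 by linear_combination e7) with b | b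
      · exact hne (funext fun i => by fin_cases i <;> simp [a, b, h1, h2, h3, h4, h5, h6])
      · exact hs (by linear_combination a + b)
      · exact hs (by linear_combination a + b)
      · exact hne1 (funext fun i => by
          fin_cases i <;> simp [unit8, sub_eq_zero.1 a, sub_eq_zero.1 b, h1, h2, h3, h4, h5, h6])
    exact ⟨hs, by linear_combination e0 - x 0 * hs⟩

theorem act_idem_mem (g : Cfsg.Lie.G2 F) (x : Idem F) :
    act g x.1 0 + act g x.1 7 = 1 ∧
      act g x.1 1 * act g x.1 4 + act g x.1 2 * act g x.1 5 + act g x.1 3 * act g x.1 6 =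
        act g x.1 0 * act g x.1 7 := by
  obtain ⟨h, hne, hne1⟩ := (idem_iff x.1).1 x.2
  refine (idem_iff _).2 ⟨by rw [← act_mulAut, h], fun e => hne ?_, fun e => hne1 ?_⟩
  · rw [← act_inv_act g x.1, e, act_zero]
  · rw [← act_inv_act g x.1, e, act_unit]

instance : MulAction (Cfsg.Lie.G2 F) (Idem F) where
  smul g x := ⟨act g x.1, act_idem_mem g x⟩
  one_smul x := Subtype.ext (act_one x.1)
  mul_smul g h x := Subtype.ext (act_mul g h x.1)

theorem smul_idem_val (g : Cfsg.Lie.G2 F) (x : Idem F) : (g • x).1 = act g x.1 := rfl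

/-- The base idempotent. -/
def base : Idem F := ⟨idem, by simp [idem]⟩

theorem exists_act_idem (x : Idem F) : ∃ g : Cfsg.Lie.G2 F, act g x.1 = idem := by
  obtain ⟨x, hs, hd⟩ := x
  change ∃ g : Cfsg.Lie.G2 F, act g x = idem
  have fin1 : ∀ y : Fin 8 → F, y 4 = 0 → y 5 = 0 → y 6 = 0 →
      (y 0 = 1 ∧ y 7 = 0 ∨ y 0 = 0 ∧ y 7 = 1) → ∃ g : Cfsg.Lie.G2 F, act g y = idem := by
    intro y h4 h5 h6 hA
    rcases hA with ⟨a, b⟩ | ⟨a, b⟩
    · refine ⟨phi ![y 1, y 2, y 3], ?_⟩
      rw [phi, act_ofLin]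
      funext i
      fin_cases i <;> simp [phiFun, idem, h4, h5, h6, a, b] <;> ring
    · refine ⟨swap8 * phi ![-y 1, -y 2, -y 3], ?_⟩
      rw [act_mul, phi, act_ofLin, swap8, act_ofLin]
      funext i
      fin_cases i <;> simp [swapFun, phiFun, idem, h4, h5, h6, a, b] <;> ring
  have hl : ∃ l : F, l * x 0 = 1 ∨ l * x 7 = -1 := by
    by_cases h0 : x 0 = 0
    · exact ⟨-1, Or.inr (by rw [h0, zero_add] at hs; rw [hs]; ring)⟩
    · exact ⟨(x 0)⁻¹, Or.inl (inv_mul_cancel₀ h0)⟩
  obtain ⟨l, hl⟩ := hl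
  set g₁ : Cfsg.Lie.G2 F := psi ![l * x 4, l * x 5, l * x 6]
  have hk : (1 - l * x 0) * (1 + l * x 7) = 0 := by
    rcases hl with h | h <;> rw [h] <;> ring
  set y := act g₁ x with hy
  have hyv : y = psiFun ![l * x 4, l * x 5, l * x 6] x := act_ofLin _ _ x
  have h4 : y 4 = 0 := by
    rw [hyv]; simp [psiFun]; linear_combination x 4 * hk - l * l * x 4 * hd
  have h5 : y 5 = 0 := by
    rw [hyv]; simp [psiFun]; linear_combination x 5 * hk - l * l * x 5 * hd
  have h6 : y 6 = 0 := by
    rw [hyv]; simp [psiFun]; linear_combination x 6 * hk - l * l * x 6 * hd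
  have hy2 := act_idem_mem g₁ ⟨x, hs, hd⟩
  simp only [← hy, h4, h5, h6, mul_zero, add_zero] at hy2
  obtain ⟨hs', hd'⟩ := hy2
  obtain ⟨g, hg⟩ := fin1 y h4 h5 h6 (by
    rcases mul_eq_zero.1 hd'.symm with a | b
    · exact Or.inr ⟨a, by rw [a, zero_add] at hs'; exact hs'⟩
    · exact Or.inl ⟨by rw [b, add_zero] at hs'; exact hs', b⟩)
  exact ⟨g * g₁, by rw [act_mul]; exact hg⟩

theorem orbit_base : MulAction.orbit (Cfsg.Lie.G2 F) (base : Idem F) = Set.univ := by
  refine Set.eq_univ_of_forall fun x => ?_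
  obtain ⟨g, hg⟩ := exists_act_idem x
  exact ⟨g⁻¹, Subtype.ext (by
    change act g⁻¹ idem = x.1
    rw [← hg, act_inv_act])⟩

/-! ### The stabiliser -/

/-- The first three off-diagonal coordinates. -/
def inA (a : Fin 3 → F) : Fin 8 → F := ![0, a 0, a 1, a 2, 0, 0, 0, 0]

/-- The last three off-diagonal coordinates. -/
def inB (b : Fin 3 → F) : Fin 8 → F := ![0, 0, 0, 0, b 0, b 1, b 2, 0]

theorem stab_fixes {g : Cfsg.Lie.G2 F} (hg : g ∈ MulAction.stabilizer (Cfsg.Lie.G2 F) (base : Idem F)) :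
    act g idem = idem :=
  congrArg Subtype.val (MulAction.mem_stabilizer_iff.1 hg)

/-- The block on the first three off-diagonal coordinates. -/
def blockA (g : Cfsg.Lie.G2 F) : Matrix (Fin 3) (Fin 3) F :=
  Matrix.of fun i j => act g (inA (Pi.single j 1)) (Fin.succ (Fin.castLE (by norm_num) i))

theorem act_inA {g : Cfsg.Lie.G2 F} (hg : act g idem = idem) (a : Fin 3 → F) :
    act g (inA a) = inA (blockA g *ᵥ a) := by
  have hform : ∀ c, act g (inA c) = inA ![act g (inA c) 1, act g (inA c) 2, act g (inA c) 3] := by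
    intro c
    have h1 : zornMul idem (inA c) = inA c := by
      funext i; fin_cases i <;> simp [idem, inA, zornMul, dot3, cross3]
    have h2 : zornMul (inA c) idem = 0 := by
      funext i; fin_cases i <;> simp [idem, inA, zornMul, dot3, cross3]
    have e1 := congrArg (act g) h1
    have e2 := congrArg (act g) h2
    rw [act_mulAut, hg] at e1 e2
    rw [act_zero] at e2
    have k := fun i => congrFun e1 i
    have k0 := k 4; have k1 := k 5; have k2 := k 6; have k7 := k 7
    have l0 := congrFun e2 0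
    simp [idem, zornMul, dot3, cross3] at k0 k1 k2 k7 l0
    generalize act g (inA c) = z at k0 k1 k2 k7 l0 ⊢
    funext i
    fin_cases i <;> simp [inA, ← k0, ← k1, ← k2, ← k7, l0]
  have hsum : inA a = a 0 • inA (Pi.single (0 : Fin 3) 1) + a 1 • inA (Pi.single (1 : Fin 3) 1) +
      a 2 • inA (Pi.single (2 : Fin 3) 1) := by
    funext i; fin_cases i <;> simp [inA]
  rw [hsum, act_add, act_add, act_smul, act_smul, act_smul, hform (Pi.single (0 : Fin 3) 1),
    hform (Pi.single (1 : Fin 3) 1), hform (Pi.single (2 : Fin 3) 1)]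
  funext i
  fin_cases i <;>
    simp [inA, blockA, Matrix.mulVec, dotProduct, Fin.sum_univ_three] <;> ring

theorem det_blockA {g : Cfsg.Lie.G2 F} (hg : act g idem = idem) : (blockA g).det = 1 := by
  have hp : ∀ a b c : Fin 3 → F,
      zornMul (inA a) (zornMul (inA b) (inA c)) = dot3 a (cross3 b c) • idem := by
    intro a b c
    funext i; fin_cases i <;> simp [idem, inA, zornMul, dot3, cross3]
  have h := congrArg (act g) (hp (Pi.single 0 1) (Pi.single 1 1) (Pi.single 2 1))
  rw [act_mulAut, act_mulAut, act_inA hg, act_inA hg, act_inA hg, act_smul, hg, hp] at h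
  have h0 := congrFun h 0
  simp [idem, dot3, cross3, Matrix.mulVec, dotProduct, Fin.sum_univ_three] at h0
  rw [Matrix.det_fin_three]
  linear_combination h0

/-- The stabiliser of `e` inside `SL₃`. -/
def stabHom : MulAction.stabilizer (Cfsg.Lie.G2 F) (base : Idem F) →* SpecialLinearGroup (Fin 3) F :=
  MonoidHom.mk' (fun g => ⟨blockA g.1, det_blockA (stab_fixes g.2)⟩) fun g h => Subtype.ext (by
    change blockA (g.1 * h.1) = blockA g.1 * blockA h.1
    refine Matrix.ext fun i j => ?_
    have e : act (g.1 * h.1) (inA (Pi.single j 1)) =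
        inA (blockA g.1 *ᵥ (blockA h.1 *ᵥ Pi.single j 1)) := by
      rw [act_mul, act_inA (stab_fixes h.2), act_inA (stab_fixes g.2)]
    have e1 := congrFun e (Fin.succ (Fin.castLE (by norm_num) i))
    rw [Matrix.mulVec_mulVec, Matrix.mulVec_single] at e1
    fin_cases i <;> simpa [blockA, inA] using e1)

theorem stabHom_injective : Function.Injective (stabHom (F := F)) := by
  rw [injective_iff_map_eq_one]
  intro g hg
  have he := stab_fixes g.2
  have hM : blockA g.1 = 1 := congrArg Subtype.val hg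
  have hA : ∀ a, act g.1 (inA a) = inA a := fun a => by rw [act_inA he, hM, Matrix.one_mulVec]
  have hf : act g.1 (unit8 + (-1 : F) • idem) = unit8 + (-1 : F) • idem := by
    rw [act_add, act_smul, act_unit, he]
  have hB : ∀ b c : Fin 3 → F, act g.1 (inB (cross3 b c)) = inB (cross3 b c) := by
    intro b c
    have h : zornMul (inA b) (inA c) = inB (cross3 b c) := by
      funext i; fin_cases i <;> simp [inA, inB, zornMul, dot3, cross3]
    rw [← h, act_mulAut, hA, hA]
  refine Subtype.ext (ext_act fun x => ?_)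
  have hx : x = x 0 • idem + x 7 • (unit8 + (-1 : F) • idem) + inA ![x 1, x 2, x 3] +
      x 4 • inB (cross3 (Pi.single 1 1) (Pi.single 2 1)) +
      x 5 • inB (cross3 (Pi.single 2 1) (Pi.single 0 1)) +
      x 6 • inB (cross3 (Pi.single 0 1) (Pi.single 1 1)) := by
    funext i; fin_cases i <;> simp [idem, unit8, inA, inB, cross3]
  rw [Subgroup.coe_one, act_one, hx]
  simp only [act_add, act_smul, act_unit, he, hA, hB]

/-! ### Counting -/

theorem card_dot_eq [Fintype F] {q : ℕ} (hF : Fintype.card F = q) (a : Fin 3 → F) (ha : a ≠ 0)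
    (c : F) : Nat.card {b : Fin 3 → F // a 0 * b 0 + a 1 * b 1 + a 2 * b 2 = c} = q ^ 2 := by
  have hq2 : Nat.card (Fin 2 → F) = q ^ 2 := by
    rw [Nat.card_fun, Nat.card_eq_fintype_card (α := F), hF, Nat.card_fin]
  rw [← hq2]
  by_cases h0 : a 0 = 0
  · by_cases h1 : a 1 = 0
    · have h2 : a 2 ≠ 0 := fun h2 => ha (funext fun i => by fin_cases i <;> assumption)
      refine Nat.card_congr
        { toFun := fun b => ![b.1 0, b.1 1]
          invFun := fun f => ⟨![f 0, f 1, c / a 2], by simp [h0, h1]; field_simp⟩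
          left_inv := fun b => Subtype.ext (funext fun i => by
            have := b.2
            fin_cases i <;> simp
            field_simp; linear_combination -this + (b.1 0) * h0 + (b.1 1) * h1)
          right_inv := fun f => funext fun i => by fin_cases i <;> simp }
    · refine Nat.card_congr
        { toFun := fun b => ![b.1 0, b.1 2]
          invFun := fun f => ⟨![f 0, (c - a 2 * f 1) / a 1, f 1], by simp [h0]; field_simp; ring⟩
          left_inv := fun b => Subtype.ext (funext fun i => by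
            have := b.2
            fin_cases i <;> simp
            field_simp; linear_combination -this + (b.1 0) * h0)
          right_inv := fun f => funext fun i => by fin_cases i <;> simp }
  · refine Nat.card_congr
      { toFun := fun b => ![b.1 1, b.1 2]
        invFun := fun f => ⟨![(c - a 1 * f 0 - a 2 * f 1) / a 0, f 0, f 1], by simp; field_simp; ring⟩
        left_inv := fun b => Subtype.ext (funext fun i => by
          have := b.2
          fin_cases i <;> simp
          field_simp; linear_combination -this)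
        right_inv := fun f => funext fun i => by fin_cases i <;> simp }

theorem card_idem [Fintype F] {q : ℕ} (hF : Fintype.card F = q) :
    Nat.card (Idem F) = q ^ 3 * (q ^ 3 + 1) := by
  classical
  let e : Idem F ≃ Σ p : (Fin 3 → F) × F,
      {b : Fin 3 → F // p.1 0 * b 0 + p.1 1 * b 1 + p.1 2 * b 2 = p.2 * (1 - p.2)} :=
    { toFun := fun x => ⟨(![x.1 1, x.1 2, x.1 3], x.1 0), ![x.1 4, x.1 5, x.1 6], by
        have h7 : x.1 7 = 1 - x.1 0 := by linear_combination x.2.1
        simpa [← h7] using x.2.2⟩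
      invFun := fun p => ⟨![p.1.2, p.1.1 0, p.1.1 1, p.1.1 2, p.2.1 0, p.2.1 1, p.2.1 2, 1 - p.1.2],
        by simpa using p.2.2⟩
      left_inv := fun x => Subtype.ext (funext fun i => by
        fin_cases i <;> simp
        linear_combination -x.2.1)
      right_inv := fun p => by
        obtain ⟨⟨a, t⟩, b, hb⟩ := p
        have ea : ![a 0, a 1, a 2] = a := by funext i; fin_cases i <;> rfl
        have eb : ![b 0, b 1, b 2] = b := by funext i; fin_cases i <;> rfl
        refine Sigma.subtype_ext ?_ ?_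
        · simpa using ea
        · simpa using eb }
  rw [Nat.card_congr e, Nat.card_sigma, Fintype.sum_prod_type,
    ← Finset.add_sum_erase _ _ (Finset.mem_univ (0 : Fin 3 → F))]
  have h0 : ∑ t : F, Nat.card {b : Fin 3 → F //
      (0 : Fin 3 → F) 0 * b 0 + (0 : Fin 3 → F) 1 * b 1 + (0 : Fin 3 → F) 2 * b 2 = t * (1 - t)} =
      2 * q ^ 3 := by
    have hz : ∀ t : F, Nat.card {b : Fin 3 → F //
        (0 : Fin 3 → F) 0 * b 0 + (0 : Fin 3 → F) 1 * b 1 + (0 : Fin 3 → F) 2 * b 2 = t * (1 - t)} =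
        if t = 0 ∨ t = 1 then q ^ 3 else 0 := by
      intro t
      split_ifs with h
      · have ht : t * (1 - t) = 0 := by rcases h with rfl | rfl <;> ring
        rw [Nat.card_congr (Equiv.subtypeUnivEquiv fun b => by simp [ht]), Nat.card_fun,
          Nat.card_eq_fintype_card (α := F), hF, Nat.card_fin]
      · refine (Nat.card_eq_zero.2 (Or.inl ⟨fun b => h ?_⟩))
        have := b.2
        simp at this
        rcases this with h1 | h1
        · exact Or.inl h1
        · exact Or.inr (sub_eq_zero.1 h1).symm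
    rw [Finset.sum_congr rfl fun t _ => hz t, Finset.sum_ite, Finset.sum_const_zero, add_zero,
      Finset.sum_const, show (Finset.univ.filter fun t : F => t = 0 ∨ t = 1) = {0, 1} by ext; simp,
      Finset.card_insert_of_notMem (by simp), Finset.card_singleton, smul_eq_mul]
  rw [h0, Finset.sum_congr rfl fun a ha => Finset.sum_congr rfl fun t _ =>
      card_dot_eq hF a (Finset.ne_of_mem_erase ha) _,
    Finset.sum_const, Finset.sum_const, Finset.card_erase_of_mem (Finset.mem_univ _), Finset.card_univ,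
    Finset.card_univ, hF, Fintype.card_fun, hF, Fintype.card_fin, smul_eq_mul, smul_eq_mul]
  have : 1 ≤ q ^ 3 := Nat.one_le_pow _ _ (by rw [← hF]; exact Fintype.card_pos)
  obtain ⟨A, hA⟩ : ∃ A, q ^ 3 = A + 1 := ⟨q ^ 3 - 1, by omega⟩
  rw [show q * q ^ 2 = q ^ 3 by ring, hA, Nat.add_sub_cancel]
  ring

/-- The two-part of the order is at most `(q^2 - 1)^2`. -/
theorem val_card_le [Fintype F] {q : ℕ} (hF : Fintype.card F = q) (hq : Odd q) :
    padicValNat 2 (Nat.card (Cfsg.Lie.G2 F)) ≤ 2 * padicValNat 2 (q ^ 2 - 1) := by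
  classical
  haveI := Fact.mk Nat.prime_two
  have hq2 : q % 2 = 1 := Nat.odd_iff.1 hq
  have hq1 : 1 < q := hF ▸ Fintype.one_lt_card
  haveI : Finite (Cfsg.Lie.G2 F) := inferInstance
  have hG : Nat.card (Cfsg.Lie.G2 F) = Nat.card (Idem F) *
      Nat.card (MulAction.stabilizer (Cfsg.Lie.G2 F) (base : Idem F)) := by
    rw [← Subgroup.index_mul_card (MulAction.stabilizer (Cfsg.Lie.G2 F) (base : Idem F)),
      MulAction.index_stabilizer, orbit_base, Set.ncard_univ]
  have hdvd : Nat.card (MulAction.stabilizer (Cfsg.Lie.G2 F) (base : Idem F)) ∣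
      Nat.card (SpecialLinearGroup (Fin 3) F) :=
    Subgroup.card_dvd_of_injective _ stabHom_injective
  have hSL := GeomClasses.SubfieldInvolution.card_SL (F := F) (n := 3) (by norm_num) hF
  simp only [Finset.prod_range_succ, Finset.prod_range_zero, pow_zero, pow_one, one_mul] at hSL
  have h3 : q < q ^ 3 := by
    calc q = q ^ 1 := (pow_one q).symm
      _ < q ^ 3 := Nat.pow_lt_pow_right hq1 (by norm_num)
  have h32 : q ^ 2 < q ^ 3 := Nat.pow_lt_pow_right hq1 (by norm_num)
  have hvq : padicValNat 2 q = 0 := padicValNat.eq_zero_of_not_dvd (by omega)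
  have hsq : q ^ 2 - 1 = (q + 1) * (q - 1) := Nat.sq_sub_sq q 1
  have hone := val_pow_pm_one hq hq1 (m := 3) (by norm_num)
  have hone1 := val_pow_pm_one hq hq1 (m := 1) one_ne_zero
  rw [pow_one] at hone1
  have h31 : padicValNat 2 3 = 0 := padicValNat.eq_zero_of_not_dvd (by norm_num)
  have hcube : q ^ 3 % 4 = q % 4 := by
    rw [Nat.pow_mod]
    rcases (by omega : q % 4 = 1 ∨ q % 4 = 3) with h | h <;> rw [h]
  have hf : padicValNat 2 (q ^ 3 - q) = padicValNat 2 (q ^ 2 - 1) := by
    rw [show q ^ 3 - q = q * (q ^ 2 - 1) by rw [Nat.mul_sub, mul_one]; ring_nf,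
      padicValNat.mul (by omega) (by rw [hsq]; exact Nat.mul_ne_zero (by omega) (by omega)), hvq,
      zero_add]
  have hf2 : padicValNat 2 (q ^ 3 - q ^ 2) = padicValNat 2 (q - 1) := by
    rw [show q ^ 3 - q ^ 2 = q ^ 2 * (q - 1) by rw [Nat.mul_sub, mul_one]; ring_nf,
      padicValNat.mul (by positivity) (by omega), padicValNat.pow, hvq, mul_zero, zero_add]
  have hs0 : Nat.card (SpecialLinearGroup (Fin 3) F) ≠ 0 := Nat.card_pos.ne'
  have hv := congrArg (padicValNat 2) hSL
  rw [padicValNat.mul hs0 (by omega), padicValNat.mul (Nat.mul_ne_zero (by omega) (by omega))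
    (by omega), padicValNat.mul (by omega) (by omega), hf, hf2] at hv
  have hle : padicValNat 2 (Nat.card (MulAction.stabilizer (Cfsg.Lie.G2 F) (base : Idem F))) ≤
      padicValNat 2 (Nat.card (SpecialLinearGroup (Fin 3) F)) :=
    (padicValNat_dvd_iff_le hs0).1 (pow_padicValNat_dvd.trans hdvd)
  rw [hG, card_idem hF, padicValNat.mul (Nat.mul_ne_zero (by omega) (by omega)) Nat.card_pos.ne',
    padicValNat.mul (by omega) (by omega), padicValNat.pow, hvq, mul_zero, zero_add]
  have hc : padicValNat 2 (q ^ 2 - 1) = padicValNat 2 (q + 1) + padicValNat 2 (q - 1) := by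
    rw [hsq, padicValNat.mul (by omega) (by omega)]
  rcases (by omega : q % 4 = 1 ∨ q % 4 = 3) with h | h
  · have := hone.1 (hcube.trans h)
    have := hone1.1 h
    omega
  · have := hone.2 (hcube.trans h)
    have := hone1.2 h
    omega

/-! ### The Sylow subgroup -/

/-- Conjugation of `SL₂` by `[0 u; 1 0]`. -/
def theta (u : F) (hu : u ≠ 0) : MulAut (SpecialLinearGroup (Fin 2) F) where
  toFun g := ⟨!![g.1 1 1, u * g.1 1 0; g.1 0 1 / u, g.1 0 0], by
    have h := g.2
    rw [Matrix.det_fin_two] at h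
    rw [Matrix.det_fin_two_of]; field_simp; linear_combination h⟩
  invFun g := ⟨!![g.1 1 1, u * g.1 1 0; g.1 0 1 / u, g.1 0 0], by
    have h := g.2
    rw [Matrix.det_fin_two] at h
    rw [Matrix.det_fin_two_of]; field_simp; linear_combination h⟩
  left_inv g := by
    ext i j; fin_cases i <;> fin_cases j <;> simp <;> field_simp
  right_inv g := by
    ext i j; fin_cases i <;> fin_cases j <;> simp <;> field_simp
  map_mul' g h := by
    refine Subtype.ext (Matrix.ext fun i j => ?_)
    change (!![(g.1 * h.1) 1 1, u * (g.1 * h.1) 1 0; (g.1 * h.1) 0 1 / u, (g.1 * h.1) 0 0] :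
        Matrix (Fin 2) (Fin 2) F) i j = ((!![g.1 1 1, u * g.1 1 0; g.1 0 1 / u, g.1 0 0] : Matrix (Fin 2) (Fin 2) F) *
      !![h.1 1 1, u * h.1 1 0; h.1 0 1 / u, h.1 0 0]) i j
    fin_cases i <;> fin_cases j <;> simp [Matrix.mul_apply, Fin.sum_univ_two] <;>
      field_simp <;> ring

theorem theta_val (u : F) (hu : u ≠ 0) (g : SpecialLinearGroup (Fin 2) F) :
    (theta u hu g).1 = !![g.1 1 1, u * g.1 1 0; g.1 0 1 / u, g.1 0 0] := rfl

theorem extra_conj (u : F) (hu : u ≠ 0)
    (g : SpecialLinearGroup (Fin 2) F × SpecialLinearGroup (Fin 2) F) :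
    extra u hu * pair g * extra u hu = pair (theta u hu g.1, theta u hu g.2) := by
  refine ext_act fun x => ?_
  rw [act_mul, act_mul, extra, act_ofLin, act_ofLin, act_pair, act_pair]
  change extraFun u (pairFun g.1.1 g.2.1 (extraFun u x)) = pairFun _ _ x
  funext i
  simp only [theta_val]
  fin_cases i <;> simp [extraFun, pairFun] <;> field_simp <;> ring

theorem exists_theta_sylow [Finite F] (u : F) (hu : u ≠ 0) :
    ∃ D : Sylow 2 (SpecialLinearGroup (Fin 2) F), ∀ g ∈ D, theta u hu g ∈ D := by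
  haveI := Fact.mk Nat.prime_two
  haveI : Finite (SpecialLinearGroup (Fin 2) F) := inferInstance
  have h2 : theta u hu * theta u hu = 1 := MulEquiv.ext fun g => (theta u hu).symm_apply_apply g
  have hp : IsPGroup 2 (Subgroup.zpowers (theta u hu)) := by
    intro g
    refine ⟨1, ?_⟩
    obtain ⟨n, hn⟩ := Subgroup.mem_zpowers_iff.1 g.2
    refine Subtype.ext ?_
    rw [Subgroup.coe_pow, ← hn, pow_one, Subgroup.coe_one, sq, ← (Commute.refl _).mul_zpow, h2,
      _root_.one_zpow]
  obtain ⟨D, hD⟩ := hp.nonempty_fixed_point_of_prime_not_dvd_card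
    (Sylow 2 (SpecialLinearGroup (Fin 2) F)) (not_dvd_card_sylow 2 _)
  refine ⟨D, fun g hg => ?_⟩
  have h := hD ⟨theta u hu, Subgroup.mem_zpowers _⟩
  have h3 : theta u hu g ∈ (theta u hu • D : Sylow 2 (SpecialLinearGroup (Fin 2) F)) :=
    Set.smul_mem_smul_set hg
  rwa [show (theta u hu • D : Sylow 2 (SpecialLinearGroup (Fin 2) F)) = D from h] at h3

theorem pair_ker_cases {g : SpecialLinearGroup (Fin 2) F × SpecialLinearGroup (Fin 2) F}
    (h : pair g = 1) : g = 1 ∨ g = (-1, -1) := by
  have hx : ∀ x, pairFun g.1.1 g.2.1 x = x := fun x => by rw [← act_pair, h, act_one]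
  have e := fun i j => congrFun (hx (Pi.single i 1)) j
  have a00 := e 0 1
  have a04 := e 0 4
  have a11 := e 1 1
  have a00' := e 0 0
  have a22 := e 2 2
  have a23 := e 2 3
  have a32 := e 3 2
  have a33 := e 3 3
  simp [pairFun] at a00 a04 a11 a00' a22 a23 a32 a33
  set g1 := g.1.1 with hg1
  set g2 := g.2.1 with hg2
  have hd := g.1.2
  rw [Matrix.det_fin_two, ← hg1] at hd
  have hp : g1 0 0 ≠ 0 := fun h0 => by rw [h0] at a11; simp at a11
  have hr : g1 0 1 = 0 := by
    rcases a00 with h1 | h1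
    · exact absurd h1 hp
    · exact h1
  have ht : g1 1 1 ≠ 0 := fun h0 => by rw [h0] at a00'; simp at a00'
  have hs : g1 1 0 = 0 := by
    rcases a04 with h1 | h1
    · exact h1
    · exact absurd h1 ht
  have htp : g1 1 1 = g1 0 0 := by
    have h1 : g1 0 0 * g1 1 1 = g1 0 0 * g1 0 0 := by linear_combination hd - a11 + g1 1 0 * hr
    exact mul_left_cancel₀ hp h1
  have hk10 : g2 1 0 = 0 := a23.resolve_left ht
  have hk01 : g2 0 1 = 0 := a32.resolve_left ht
  rw [htp] at a22 a33
  rcases mul_self_eq_one_iff.1 (show g1 0 0 * g1 0 0 = 1 by linear_combination a11) with h1 | h1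
  · left
    rw [h1, one_mul] at a22 a33
    ext i j <;> fin_cases i <;> fin_cases j <;>
      simp [← hg1, ← hg2, hr, hs, htp, hk10, hk01, h1, a22, a33]
  · right
    have b22 : g2 0 0 = -1 := by rw [h1] at a22; linear_combination -a22
    have b33 : g2 1 1 = -1 := by rw [h1] at a33; linear_combination -a33
    ext i j <;> fin_cases i <;> fin_cases j <;>
      simp [← hg1, ← hg2, hr, hs, htp, hk10, hk01, h1, b22, b33]

theorem extra_ne_pair {u : F} (hu : u ≠ 0) (hns : ¬ IsSquare (-u))
    (g : SpecialLinearGroup (Fin 2) F × SpecialLinearGroup (Fin 2) F) : pair g ≠ extra u hu := by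
  intro h
  have hx : ∀ x, pairFun g.1.1 g.2.1 x = extraFun u x := fun x => by
    rw [← act_pair, h, extra, act_ofLin]; rfl
  have h14 := congrFun (hx (Pi.single 1 1)) 4
  simp [pairFun, extraFun] at h14
  refine hns ⟨u * g.1.1 1 0, ?_⟩
  field_simp at h14
  linear_combination u * h14

/-- The Sylow two-subgroups of `G₂(q)`, `q` odd. -/
theorem g2_sqComm [Fintype F] {q : ℕ} (hF : Fintype.card F = q) (hq : Odd q)
    (P : Sylow 2 (Cfsg.Lie.G2 F)) : SqComm ↥(P : Subgroup (Cfsg.Lie.G2 F)) := by
  classical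
  haveI := Fact.mk Nat.prime_two
  have hq2 : q % 2 = 1 := Nat.odd_iff.1 hq
  obtain ⟨p, hp, hcp⟩ : ∃ p, p.Prime ∧ CharP F p :=
    ⟨ringChar F, CharP.char_is_prime F _, inferInstance⟩
  haveI := Fact.mk hp
  have hp2 : p ≠ 2 := by
    rintro rfl
    obtain ⟨n, -, hn⟩ := FiniteField.card F 2
    rw [hF] at hn
    rw [hn, Nat.pow_mod] at hq2
    simp at hq2
  have hq1 : 1 < q := hF ▸ Fintype.one_lt_card
  obtain ⟨ν, hν⟩ := FiniteField.exists_nonsquare (F := F) (by
    rwa [ne_eq, ringChar.eq_iff.2 (inferInstance : CharP F p)])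
  have hν0 : ν ≠ 0 := fun h => hν (h ▸ ⟨0, (mul_zero _).symm⟩)
  set u := -ν
  have hu : u ≠ 0 := neg_ne_zero.2 hν0
  have hns : ¬ IsSquare (-u) := by simpa [u] using hν
  obtain ⟨D, hDθ⟩ := exists_theta_sylow u hu
  obtain ⟨k, hk, ⟨e⟩⟩ := Linear.sylow_two_SL2 p hp2 D
  have hD : SqComm ↥(D : Subgroup (SpecialLinearGroup (Fin 2) F)) :=
    sqComm_congr e.symm (sqComm_quaternion k hk)
  obtain ⟨φ, hφ⟩ : ∃ φ : ↥(D : Subgroup (SpecialLinearGroup (Fin 2) F)) ×
      ↥(D : Subgroup (SpecialLinearGroup (Fin 2) F)) →* Cfsg.Lie.G2 F,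
      ∀ x, φ x = pair ((x.1 : SpecialLinearGroup (Fin 2) F), (x.2 : SpecialLinearGroup (Fin 2) F)) :=
    ⟨pair.comp (MonoidHom.prodMap (D : Subgroup (SpecialLinearGroup (Fin 2) F)).subtype
      (D : Subgroup (SpecialLinearGroup (Fin 2) F)).subtype), fun _ => rfl⟩
  set R := φ.range
  set w := extra u hu
  have hw : w * w = 1 := extra_mul_self u hu
  have hwinv : w⁻¹ = w := inv_eq_of_mul_eq_one_right hw
  have hR : IsPGroup 2 R := by
    have h1 : IsPGroup 2 (↥(D : Subgroup (SpecialLinearGroup (Fin 2) F)) ×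
        ↥(D : Subgroup (SpecialLinearGroup (Fin 2) F))) := by
      intro x
      obtain ⟨a, ha⟩ := D.2 x.1
      obtain ⟨b, hb⟩ := D.2 x.2
      refine ⟨a + b, Prod.ext ?_ ?_⟩
      · change x.1 ^ (2 ^ (a + b)) = 1
        rw [pow_add, pow_mul, ha, one_pow]
      · change x.2 ^ (2 ^ (a + b)) = 1
        rw [pow_add, mul_comm, pow_mul, hb, one_pow]
    exact h1.of_surjective φ.rangeRestrict φ.rangeRestrict_surjective
  have hconj : ∀ r ∈ R, w * r * w⁻¹ ∈ R := by
    rintro _ ⟨x, rfl⟩
    rw [hwinv]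
    refine ⟨(⟨_, hDθ _ x.1.2⟩, ⟨_, hDθ _ x.2.2⟩), ?_⟩
    simp only [hφ]
    exact (extra_conj u hu ((x.1 : SpecialLinearGroup (Fin 2) F), (x.2 : SpecialLinearGroup (Fin 2) F))).symm
  have hnorm : Subgroup.zpowers w ≤ Subgroup.normalizer (R : Set (Cfsg.Lie.G2 F)) := by
    rw [Subgroup.zpowers_le, Subgroup.mem_normalizer_iff]
    refine fun r => ⟨fun h => hconj r h, fun h => ?_⟩
    have := hconj _ h
    rwa [hwinv, show w * (w * r * w) * w = (w * w) * r * (w * w) by group, hw, one_mul, mul_one]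
      at this
  have hWp : IsPGroup 2 (Subgroup.zpowers w) := by
    intro g
    refine ⟨1, ?_⟩
    obtain ⟨n, hn⟩ := Subgroup.mem_zpowers_iff.1 g.2
    refine Subtype.ext ?_
    rw [Subgroup.coe_pow, ← hn, pow_one, Subgroup.coe_one, sq, ← (Commute.refl _).mul_zpow, hw,
      _root_.one_zpow]
  set P₁ := R ⊔ Subgroup.zpowers w
  have hP₁ : IsPGroup 2 P₁ := hR.to_sup_of_normal_left' hWp hnorm
  obtain ⟨j, hj⟩ := IsPGroup.iff_card.1 hP₁
  have hwR : w ∉ R := fun ⟨x, hx⟩ => extra_ne_pair hu hns _ ((hφ x).symm.trans hx)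
  have hlt : R < P₁ := lt_of_le_of_ne le_sup_left fun h =>
    hwR (h ▸ Subgroup.mem_sup_right (Subgroup.mem_zpowers w))
  have hcR : 2 * Nat.card R ≤ Nat.card P₁ := by
    obtain ⟨i, hi⟩ := IsPGroup.iff_card.1 hR
    have hle : Nat.card R < Nat.card P₁ := by
      refine lt_of_le_of_ne (Nat.le_of_dvd Nat.card_pos (Subgroup.card_dvd_of_le hlt.le)) fun h => ?_
      exact hlt.ne (Subgroup.eq_of_le_of_card_ge hlt.le h.ge)
    rw [hi, hj] at hle ⊢
    rw [← pow_succ']
    exact Nat.pow_le_pow_right two_pos ((Nat.pow_lt_pow_iff_right one_lt_two).1 hle)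
  have hker : Nat.card φ.ker ≤ 2 := by
    have hsub : ∀ x ∈ φ.ker, x = 1 ∨ (x.1.1, x.2.1) = ((-1, -1) :
        SpecialLinearGroup (Fin 2) F × SpecialLinearGroup (Fin 2) F) := by
      intro x hx
      rcases pair_ker_cases ((hφ x).symm.trans (MonoidHom.mem_ker.1 hx)) with h | h
      · exact Or.inl (Prod.ext (Subtype.ext (congrArg Prod.fst h)) (Subtype.ext (congrArg Prod.snd h)))
      · exact Or.inr h
    let f : φ.ker → Bool := fun x => decide (x = 1)
    have hf : Function.Injective f := by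
      intro a b hab
      simp only [f, decide_eq_decide] at hab
      by_cases ha : a = 1
      · rw [ha, hab.1 ha]
      · have hb : b ≠ 1 := fun h => ha (hab.2 h)
        rcases hsub _ a.2 with h | h
        · exact absurd (Subtype.ext h) ha
        rcases hsub _ b.2 with h' | h'
        · exact absurd (Subtype.ext h') hb
        have := h.trans h'.symm
        exact Subtype.ext (Prod.ext (Subtype.ext (congrArg Prod.fst this))
          (Subtype.ext (congrArg Prod.snd this)))
    calc Nat.card φ.ker ≤ Nat.card Bool := Nat.card_le_card_of_injective f hf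
      _ = 2 := by simp
  have hcD : Nat.card (D : Subgroup (SpecialLinearGroup (Fin 2) F)) =
      2 ^ padicValNat 2 (q ^ 2 - 1) := by
    rw [D.card_eq_multiplicity, Nat.factorization_def _ Nat.prime_two, Linear.card_SL_two, hF,
      padicValNat.mul (by omega) (by
        have := Nat.one_lt_pow two_ne_zero hq1
        omega), padicValNat.eq_zero_of_not_dvd (by omega : ¬ 2 ∣ q), zero_add]
  have hprod : Nat.card φ.ker * Nat.card R = 2 ^ (2 * padicValNat 2 (q ^ 2 - 1)) := by
    rw [show Nat.card R = φ.ker.index from (Subgroup.index_ker φ).symm, Subgroup.card_mul_index,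
      Nat.card_prod, hcD, ← pow_add, two_mul]
  have hlow : 2 ^ (2 * padicValNat 2 (q ^ 2 - 1)) ≤ Nat.card P₁ :=
    hprod ▸ le_trans (Nat.mul_le_mul_right _ hker) hcR
  have hup : j ≤ padicValNat 2 (Nat.card (Cfsg.Lie.G2 F)) :=
    (padicValNat_dvd_iff_le Nat.card_pos.ne').1 (hj ▸ Subgroup.card_subgroup_dvd_card P₁)
  rw [hj, Nat.pow_le_pow_iff_right one_lt_two] at hlow
  have hval := val_card_le hF hq
  let P₀ : Sylow 2 (Cfsg.Lie.G2 F) := Sylow.ofCard P₁ (by
    rw [hj, Nat.factorization_def _ Nat.prime_two]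
    congr 1
    omega)
  refine sylow_sqComm_of_one P₀ ?_ P
  change SqComm P₁
  let ψ : ↥(D : Subgroup (SpecialLinearGroup (Fin 2) F)) × ↥(D : Subgroup (SpecialLinearGroup (Fin 2) F))
      →* P₁ := φ.codRestrict P₁ fun x => Subgroup.mem_sup_left ⟨x, rfl⟩
  let wP : P₁ := ⟨w, Subgroup.mem_sup_right (Subgroup.mem_zpowers w)⟩
  refine sqComm_of_gen (S := Set.range ψ ∪ {wP}) ?_ ?_
  · rw [eq_top_iff]
    rintro ⟨x, hx⟩ -
    have hle : P₁ ≤ (Subgroup.closure (Set.range ψ ∪ {wP})).map P₁.subtype := by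
      refine sup_le ?_ ((Subgroup.zpowers_le).2 ⟨wP, Subgroup.subset_closure (Or.inr rfl), rfl⟩)
      rintro _ ⟨y, rfl⟩
      exact ⟨ψ y, Subgroup.subset_closure (Or.inl ⟨y, rfl⟩), rfl⟩
    obtain ⟨y, hy, hyx⟩ := hle hx
    rwa [show (⟨x, hx⟩ : P₁) = y from Subtype.ext hyx.symm]
  · rintro s (⟨x, rfl⟩ | rfl)
    · have h2 : ∀ f : ↥(D : Subgroup (SpecialLinearGroup (Fin 2) F)) →* P₁,
          ∀ d, f d ^ 2 ∈ commutator P₁ := by
        intro f d
        have h3 : (commutator ↥(D : Subgroup (SpecialLinearGroup (Fin 2) F))).map f ≤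
            commutator P₁ := by
          rw [commutator_def, commutator_def, Subgroup.map_commutator]
          exact Subgroup.commutator_mono le_top le_top
        rw [← map_pow]
        exact h3 (Subgroup.mem_map_of_mem _ (hD d))
      have hc : Commute ((ψ.comp (MonoidHom.inl _ _)) x.1) ((ψ.comp (MonoidHom.inr _ _)) x.2) :=
        (MonoidHom.commute_inl_inr x.1 x.2).map ψ
      rw [show ψ x = (ψ.comp (MonoidHom.inl _ _)) x.1 * (ψ.comp (MonoidHom.inr _ _)) x.2 by
        rw [MonoidHom.comp_apply, MonoidHom.comp_apply, ← map_mul]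
        exact congrArg ψ (Prod.ext (mul_one _).symm (one_mul _).symm), hc.mul_pow]
      exact Subgroup.mul_mem _ (h2 _ x.1) (h2 _ x.2)
    · rw [show (wP : P₁) ^ 2 = 1 from Subtype.ext (by rw [pow_two]; exact hw)]
      exact Subgroup.one_mem _

end Cfsg.Agent.Forms.G2
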