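import Cfsg.Agent.GeomClasses.SubspaceMax
import Cfsg.Prelude.Def_ClassicalGeometry

/-!
# Borel and maximal parabolic subgroups of `GL_n`
-/

set_option autoImplicit false

namespace Cfsg.Agent.Forms

open Matrix
open scoped MatrixGroups

variable {F : Type*} [Field F]

/-- The span of the first `k` coordinate vectors. -/
def coordSub (F : Type*) [Field F] (n k : ℕ) : Submodule F (Fin n → F) where
  carrier := {v | ∀ i : Fin n, k ≤ (i : ℕ) → v i = 0}
  add_mem' ha hb i hi := by simp [ha i hi, hb i hi]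
  zero_mem' := fun _ _ => rfl
  smul_mem' c _ ha i hi := by simp [ha i hi]

/-- The stabiliser of `coordSub`. -/
abbrev coordStab (F : Type*) [Field F] (n k : ℕ) : Subgroup (GL (Fin n) F) :=
  Cfsg.stabilizing (Cfsg.glToMat (Fin n) F) {v : Fin n → F | ∀ i : Fin n, k ≤ (i : ℕ) → v i = 0}

theorem coordStab_eq (n k : ℕ) :
    coordStab F n k = Cfsg.Geo.subspaceStabilizer (coordSub F n k) := rfl

theorem single_mem_coordSub {n k : ℕ} {j : Fin n} (hj : (j : ℕ) < k) (c : F) :
    (Pi.single j c : Fin n → F) ∈ coordSub F n k := fun i hi => by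
  rw [Pi.single_eq_of_ne]; rintro rfl; omega

theorem mem_coordStab {n k : ℕ} {g : GL (Fin n) F} :
    g ∈ coordStab F n k ↔
      ∀ i j : Fin n, k ≤ (i : ℕ) → (j : ℕ) < k → (g : Matrix (Fin n) (Fin n) F) i j = 0 := by
  rw [coordStab_eq, GeomClasses.mem_subspaceStabilizer_iff]
  constructor
  · intro h i j hi hj
    have := h _ (single_mem_coordSub (k := k) hj (1 : F)) i hi
    simpa [Matrix.mulVec_single] using this
  · intro h v hv i hi
    rw [Matrix.mulVec, dotProduct]
    refine Finset.sum_eq_zero fun j _ => ?_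
    rcases lt_or_ge (j : ℕ) k with hj | hj
    · rw [h i j hi hj, zero_mul]
    · rw [hv j hj, mul_zero]

theorem coordSub_ne_bot {n k : ℕ} (hk0 : 0 < k) (hn : 0 < n) : coordSub F n k ≠ ⊥ := fun h => by
  have := single_mem_coordSub (n := n) (k := k) (j := ⟨0, hn⟩) hk0 (1 : F)
  rw [h, Submodule.mem_bot] at this
  simpa using congrFun this ⟨0, hn⟩

theorem coordSub_ne_top {n k : ℕ} (hkn : k < n) : coordSub F n k ≠ ⊤ := fun h => by
  have : (Pi.single ⟨k, hkn⟩ 1 : Fin n → F) ∈ coordSub F n k := h ▸ Submodule.mem_top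
  simpa using this ⟨k, hkn⟩ le_rfl

/-- An invertible diagonal matrix. -/
def diagGL {n : ℕ} (d : Fin n → Fˣ) : GL (Fin n) F :=
  Units.map (Matrix.diagonalRingHom (Fin n) F).toMonoidHom (MulEquiv.piUnits.symm d)

@[simp] theorem diagGL_val {n : ℕ} (d : Fin n → Fˣ) :
    (diagGL d : Matrix (Fin n) (Fin n) F) = Matrix.diagonal fun i => (d i : F) := rfl

/-- Parabolics are maximal subgroups. -/
theorem isCoatom_coordStab {n k : ℕ} (hk0 : 0 < k) (hkn : k < n) : IsCoatom (coordStab F n k) := by
  have hW1 := coordSub_ne_top (F := F) hkn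
  have hW0 := coordSub_ne_bot (F := F) hk0 (by omega : 0 < n)
  have hι : Nontrivial (Fin n) := Fin.nontrivial_iff_two_le.2 (by omega)
  obtain ⟨hne, hmax⟩ := GeomClasses.isMaximalIn_stab_specialLinear hι hW0 hW1
  rw [coordStab_eq]
  refine ⟨fun h => absurd (by rw [h, top_inf_eq]) hne.ne, fun K hK => ?_⟩
  have hdiag : ∀ c : Fˣ, ∃ d ∈ coordStab F n k, GeneralLinearGroup.det d = c := by
    intro c
    refine ⟨diagGL (Function.update 1 ⟨0, by omega⟩ c), ?_, ?_⟩
    · rw [mem_coordStab]
      intro i j hi hj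
      have hij : i ≠ j := by rintro rfl; omega
      simp [hij]
    · refine Units.ext ?_
      rw [GeneralLinearGroup.val_det_apply, diagGL_val, Matrix.det_diagonal, Finset.prod_eq_single
        (⟨0, by omega⟩ : Fin n)]
      · simp
      · intro b _ hb; simp [Function.update_of_ne hb]
      · simp
  rcases hmax (K ⊓ Cfsg.Geo.specialLinear (Fin n) F) (inf_le_inf_right _ hK.le) inf_le_right
    with h | h
  · exfalso
    refine hK.not_ge fun g hg => ?_
    obtain ⟨d, hd, hdet⟩ := hdiag (GeneralLinearGroup.det g)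
    rw [coordStab_eq] at hd
    have hmem : d⁻¹ * g ∈ K ⊓ Cfsg.Geo.specialLinear (Fin n) F := by
      refine ⟨K.mul_mem (K.inv_mem (hK.le hd)) hg, ?_⟩
      show GeneralLinearGroup.det (d⁻¹ * g) = 1
      rw [map_mul, map_inv, hdet, inv_mul_cancel]
    rw [h] at hmem
    simpa using Subgroup.mul_mem _ hd hmem.1
  · rw [eq_top_iff]
    intro g _
    obtain ⟨d, hd, hdet⟩ := hdiag (GeneralLinearGroup.det g)
    have hdK : d ∈ K := hK.le hd
    have hmem : d⁻¹ * g ∈ Cfsg.Geo.specialLinear (Fin n) F := by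
      show GeneralLinearGroup.det (d⁻¹ * g) = 1
      rw [map_mul, map_inv, hdet, inv_mul_cancel]
    rw [← h] at hmem
    simpa using K.mul_mem hdK hmem.1

/-- A stabiliser determines its subspace. -/
theorem eq_or_bot_or_top_of_stab_le {ι : Type} [Fintype ι] [DecidableEq ι]
    {W U : Submodule F (ι → F)}
    (h : Cfsg.Geo.subspaceStabilizer W ≤ Cfsg.Geo.subspaceStabilizer U) :
    U = ⊥ ∨ U = ⊤ ∨ U = W := by
  by_contra hc
  push Not at hc
  obtain ⟨hU0, hU1, hUW⟩ := hc
  by_cases hle : U ≤ W
  · obtain ⟨x, hxW, hxU⟩ := SetLike.exists_of_lt (lt_of_le_of_ne hle hUW)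
    obtain ⟨u, huU, hu0⟩ := U.exists_mem_ne_zero_of_ne_bot hU0
    have hux : u ∉ Submodule.span F {x} := by
      intro h'
      obtain ⟨c, rfl⟩ := Submodule.mem_span_singleton.1 h'
      have hc : c ≠ 0 := fun hc => hu0 (by rw [hc, zero_smul])
      exact hxU (by simpa [smul_smul, inv_mul_cancel₀ hc] using U.smul_mem c⁻¹ huU)
    obtain ⟨w, hw, hwu⟩ := GeomClasses.exists_dot hux
    have hwx := hw x (Submodule.mem_span_singleton_self x)
    have := GeomClasses.mem_subspaceStabilizer_iff.1
      (h (GeomClasses.tv_mem_stab_of_center x w hwx hxW)) u huU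
    rw [GeomClasses.tv_mulVec, hwu, one_smul] at this
    exact hxU ((U.add_mem_iff_right huU).1 this)
  · obtain ⟨u, huU, huW⟩ := SetLike.not_le_iff_exists.1 hle
    obtain ⟨w, hw, hwu⟩ := GeomClasses.exists_dot huW
    obtain ⟨v, hwv, hvU⟩ : ∃ v, w ⬝ᵥ v = 0 ∧ v ∉ U := by
      by_contra hc
      push Not at hc
      refine hU1 (eq_top_iff.2 fun y _ => ?_)
      have h1 := hc (y - (w ⬝ᵥ y) • u) (by rw [dotProduct_sub, dotProduct_smul, hwu]; simp)
      simpa using U.add_mem h1 (U.smul_mem (w ⬝ᵥ y) huU)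
    have := GeomClasses.mem_subspaceStabilizer_iff.1
      (h (GeomClasses.tv_mem_stab_of_axis v w hwv hw)) u huU
    rw [GeomClasses.tv_mulVec, hwu, one_smul] at this
    exact hvU ((U.add_mem_iff_right huU).1 this)

theorem finrank_coordSub {n k : ℕ} (hk : k ≤ n) : Module.finrank F (coordSub F n k) = k := by
  have e : coordSub F n k ≃ₗ[F] (Fin k → F) :=
    { toFun := fun v j => (v : Fin n → F) (Fin.castLE hk j)
      map_add' := fun _ _ => rfl
      map_smul' := fun _ _ => rfl
      invFun := fun w => ⟨fun i => if h : (i : ℕ) < k then w ⟨i, h⟩ else 0,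
        fun i hi => dif_neg (by omega)⟩
      left_inv := fun v => by
        refine Subtype.ext (funext fun i => ?_)
        by_cases h : (i : ℕ) < k
        · simp only [dif_pos h]; rfl
        · simp only [dif_neg h]; exact (v.2 i (by omega)).symm
      right_inv := fun w => funext fun j => by simp }
  rw [e.finrank_eq, Module.finrank_fin_fun]

theorem coordStab_map_conj_ne {n k : ℕ} (hk0 : 0 < k) (hkn : k < n) (h2 : 2 * k ≠ n)
    (g : GL (Fin n) F) :
    (coordStab F n k).map (MulAut.conj g).toMonoidHom ≠ coordStab F n (n - k) := by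
  intro heq
  set f : (Fin n → F) ≃ₗ[F] (Fin n → F) :=
    (GeneralLinearGroup.toLin g).toLinearEquiv with hf
  have hf' : ∀ x, f x = (g : Matrix (Fin n) (Fin n) F) *ᵥ x := fun x => rfl
  set U := (coordSub F n k).map (f : (Fin n → F) →ₗ[F] (Fin n → F))
  have hle : Cfsg.Geo.subspaceStabilizer (coordSub F n (n - k)) ≤
      Cfsg.Geo.subspaceStabilizer U := by
    intro a ha
    rw [← coordStab_eq, ← heq] at ha
    obtain ⟨b, hb, rfl⟩ := ha
    rw [SetLike.mem_coe, coordStab_eq, GeomClasses.mem_subspaceStabilizer_iff] at hb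
    rw [GeomClasses.mem_subspaceStabilizer_iff]
    rintro _ ⟨x, hx, rfl⟩
    refine ⟨(b : Matrix (Fin n) (Fin n) F) *ᵥ x, hb x hx, ?_⟩
    simp [hf', Matrix.mulVec_mulVec, mul_assoc]
  have hfin : Module.finrank F U = k := by
    rw [LinearEquiv.finrank_map_eq, finrank_coordSub hkn.le]
  rcases eq_or_bot_or_top_of_stab_le hle with h | h | h
  · rw [h, finrank_bot] at hfin; omega
  · rw [h, finrank_top, Module.finrank_fin_fun] at hfin; omega
  · rw [h, finrank_coordSub (by omega)] at hfin; omega

theorem coordStab_equiv {n k : ℕ} (hk : k ≤ n) :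
    Nonempty (coordStab F n k ≃* coordStab F n (n - k)) := by
  set φ : GL (Fin n) F → GL (Fin n) F := fun g =>
    ⟨((g⁻¹ : GL (Fin n) F) : Matrix (Fin n) (Fin n) F)ᵀ.submatrix Fin.rev Fin.rev,
      (g : Matrix (Fin n) (Fin n) F)ᵀ.submatrix Fin.rev Fin.rev,
      by
        rw [Matrix.submatrix_mul _ _ _ _ _ Fin.rev_bijective |>.symm, ← transpose_mul,
          ← Units.val_mul, mul_inv_cancel, Units.val_one, transpose_one,
          submatrix_one _ Fin.rev_injective],
      by
        rw [Matrix.submatrix_mul _ _ _ _ _ Fin.rev_bijective |>.symm, ← transpose_mul,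
          ← Units.val_mul, inv_mul_cancel, Units.val_one, transpose_one,
          submatrix_one _ Fin.rev_injective]⟩ with hφ
  have hval : ∀ g, (φ g : Matrix (Fin n) (Fin n) F) =
      ((g⁻¹ : GL (Fin n) F) : Matrix (Fin n) (Fin n) F)ᵀ.submatrix Fin.rev Fin.rev := fun g => rfl
  have hinv : ∀ g, φ (φ g) = g := fun g => by
    refine Units.ext (Matrix.ext fun i j => ?_)
    rw [hval]
    show (φ g).inv (j.rev) (i.rev) = _
    simp [hφ]
  have hmul : ∀ a b, φ (a * b) = φ a * φ b := fun a b => by
    refine Units.ext ?_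
    rw [Units.val_mul, hval, hval, hval, _root_.mul_inv_rev, Units.val_mul, transpose_mul,
      Matrix.submatrix_mul _ _ _ _ _ Fin.rev_bijective]
  have hmap : ∀ (m : ℕ), m ≤ n → ∀ g ∈ coordStab F n m, φ g ∈ coordStab F n (n - m) := by
    intro m hm g hg
    rw [mem_coordStab]
    intro i j hi hj
    have := mem_coordStab.1 (Subgroup.inv_mem _ hg) j.rev i.rev
      (by rw [Fin.val_rev]; omega) (by rw [Fin.val_rev]; omega)
    simpa [hval] using this
  refine ⟨{ toFun := fun g => ⟨φ g, hmap k hk g g.2⟩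
            invFun := fun g => ⟨φ g, by
              have := hmap (n - k) (Nat.sub_le _ _) g g.2
              rwa [Nat.sub_sub_self hk] at this⟩
            left_inv := fun g => Subtype.ext (hinv g)
            right_inv := fun g => Subtype.ext (hinv g)
            map_mul' := fun a b => Subtype.ext (hmul a b) }⟩

/-- Order of a maximal parabolic. -/
theorem card_coordStab [Fintype F] {q : ℕ} (hF : Fintype.card F = q) (n k : ℕ) (hk : k ≤ n) :
    Nat.card (coordStab F n k) = q ^ (k * (n - k)) * (∏ i : Fin k, (q ^ k - q ^ (i : ℕ))) *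
      ∏ i : Fin (n - k), (q ^ (n - k) - q ^ (i : ℕ)) := by
  classical
  obtain ⟨r, rfl⟩ := Nat.exists_eq_add_of_le hk
  rw [Nat.add_sub_cancel_left]
  let re := Matrix.reindex (α := F) (finSumFinEquiv (m := k) (n := r)).symm (finSumFinEquiv (m := k) (n := r)).symm
  have hblock : ∀ g : coordStab F (k + r) k,
      (re (g.1 : Matrix (Fin (k + r)) (Fin (k + r)) F)).toBlocks₂₁ = 0 := by
    intro g
    refine Matrix.ext fun i j => ?_
    exact mem_coordStab.1 g.2 _ _ (by simp) (by simp)
  have hdet : ∀ g : coordStab F (k + r) k,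
      IsUnit (re (g.1 : Matrix (Fin (k + r)) (Fin (k + r)) F)).toBlocks₁₁ ∧
        IsUnit (re (g.1 : Matrix (Fin (k + r)) (Fin (k + r)) F)).toBlocks₂₂ := by
    intro g
    have h1 : IsUnit (re (g.1 : Matrix (Fin (k + r)) (Fin (k + r)) F)).det := by
      rw [Matrix.reindex_apply, det_submatrix_equiv_self]
      exact (Matrix.isUnit_iff_isUnit_det _).1 g.1.isUnit
    rw [← fromBlocks_toBlocks (re _), hblock g, det_fromBlocks_zero₂₁, IsUnit.mul_iff] at h1
    exact ⟨(Matrix.isUnit_iff_isUnit_det _).2 h1.1, (Matrix.isUnit_iff_isUnit_det _).2 h1.2⟩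
  let e : coordStab F (k + r) k ≃ (GL (Fin k) F × GL (Fin r) F) × Matrix (Fin k) (Fin r) F :=
    Equiv.ofBijective (fun g => (((hdet g).1.unit, (hdet g).2.unit), (re g.1.1).toBlocks₁₂))
      ⟨fun g g' h => by
        simp only [Prod.mk.injEq, Units.ext_iff, IsUnit.unit_spec] at h
        refine Subtype.ext (Units.ext (re.injective ?_))
        rw [← fromBlocks_toBlocks (re _), ← fromBlocks_toBlocks (re (g'.1 : Matrix _ _ F)),
          hblock g, hblock g', h.1.1, h.1.2, h.2],
      fun p => by
        have hu : IsUnit (re.symm (fromBlocks p.1.1.1 p.2 0 p.1.2.1)) := by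
          rw [Matrix.isUnit_iff_isUnit_det, Matrix.reindex_symm, Matrix.reindex_apply,
            det_submatrix_equiv_self, det_fromBlocks_zero₂₁]
          exact ((Matrix.isUnit_iff_isUnit_det _).1 p.1.1.isUnit).mul
            ((Matrix.isUnit_iff_isUnit_det _).1 p.1.2.isUnit)
        have hval : re (hu.unit : Matrix (Fin (k + r)) (Fin (k + r)) F) =
            fromBlocks p.1.1.1 p.2 0 p.1.2.1 := by
          rw [IsUnit.unit_spec, Equiv.apply_symm_apply]
        refine ⟨⟨hu.unit, mem_coordStab.2 fun i j hi hj => ?_⟩, ?_⟩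
        · obtain ⟨i', rfl⟩ : ∃ i' : Fin r, Fin.natAdd k i' = i :=
            ⟨⟨i - k, by omega⟩, Fin.ext (by simp; omega)⟩
          obtain ⟨j', rfl⟩ : ∃ j' : Fin k, Fin.castAdd r j' = j := ⟨⟨j, hj⟩, rfl⟩
          have := congrFun (congrFun hval (Sum.inr i')) (Sum.inl j')
          simpa [re] using this
        · simp only [Prod.ext_iff, Units.ext_iff, IsUnit.unit_spec, Equiv.apply_symm_apply]
          simp⟩
  rw [Nat.card_congr e, Nat.card_prod, Nat.card_prod, Matrix.card_GL_field, Matrix.card_GL_field, hF]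
  have hM : Nat.card (Matrix (Fin k) (Fin r) F) = q ^ (k * r) := by
    rw [show Matrix (Fin k) (Fin r) F = (Fin k → Fin r → F) from rfl, Nat.card_eq_fintype_card,
      Fintype.card_pi_const, Fintype.card_pi_const, hF, ← pow_mul, mul_comm]
  rw [hM]
  ring

/-- Order of the Borel subgroup. -/
theorem card_lowerTriangular [Fintype F] {q : ℕ} (hF : Fintype.card F = q) (n : ℕ) :
    Nat.card {g : GL (Fin n) F // ∀ i j : Fin n, i < j → (g : Matrix (Fin n) (Fin n) F) i j = 0} =
      q ^ (n * (n - 1) / 2) * (q - 1) ^ n := by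
  classical
  have hdetd : ∀ g : {g : GL (Fin n) F //
      ∀ i j : Fin n, i < j → (g : Matrix (Fin n) (Fin n) F) i j = 0},
      ∀ i, (g.1 : Matrix (Fin n) (Fin n) F) i i ≠ 0 := by
    intro g i hi
    have h := ((Matrix.isUnit_iff_isUnit_det _).1 g.1.isUnit).ne_zero
    rw [Matrix.det_of_lowerTriangular _ (fun a b hab => g.2 a b hab)] at h
    exact h (Finset.prod_eq_zero (Finset.mem_univ i) hi)
  let e : {g : GL (Fin n) F // ∀ i j : Fin n, i < j → (g : Matrix (Fin n) (Fin n) F) i j = 0} ≃
      (Fin n → Fˣ) × ((Σ i : Fin n, Fin (i : ℕ)) → F) :=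
    Equiv.ofBijective (fun g => (fun i => Units.mk0 _ (hdetd g i),
        fun p => (g.1 : Matrix (Fin n) (Fin n) F) p.1 ⟨p.2, p.2.2.trans p.1.2⟩))
      ⟨fun g g' h => by
        simp only [Prod.mk.injEq, funext_iff, Units.ext_iff, Units.val_mk0] at h
        refine Subtype.ext (Units.ext (Matrix.ext fun i j => ?_))
        rcases lt_trichotomy i j with hij | rfl | hij
        · rw [g.2 i j hij, g'.2 i j hij]
        · exact h.1 i
        · exact h.2 ⟨i, ⟨j, hij⟩⟩,
      fun p => by
        set M : Matrix (Fin n) (Fin n) F := Matrix.of fun i j =>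
          if h : (j : ℕ) < i then p.2 ⟨i, ⟨j, h⟩⟩ else if i = j then (p.1 i : F) else 0
        have hlow : ∀ i j : Fin n, i < j → M i j = 0 := fun i j hij => by
          have h : ¬ (j < i) := not_lt.2 hij.le
          simp [M, hij.ne, h]
        have hu : IsUnit M := by
          rw [Matrix.isUnit_iff_isUnit_det, isUnit_iff_ne_zero,
            Matrix.det_of_lowerTriangular M (fun a b hab => hlow a b hab)]
          exact Finset.prod_ne_zero_iff.2 fun i _ => by simp [M]
        refine ⟨⟨hu.unit, hlow⟩, Prod.ext (funext fun i => Units.ext ?_) (funext fun x => ?_)⟩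
        · simp [M]
        · exact dif_pos x.2.2⟩
  rw [Nat.card_congr e, Nat.card_prod, Nat.card_fun, Nat.card_fun, Nat.card_units,
    Nat.card_sigma, Nat.card_fin, Nat.card_eq_fintype_card (α := F), hF, mul_comm]
  congr 2
  rw [← Finset.sum_range_id, ← Fin.sum_univ_eq_sum_range (fun i => i)]
  simp

/-- The normaliser of the diagonal torus. -/
theorem mem_normalizer_diagonal_iff (hF : ∃ a : F, a ≠ 0 ∧ a ≠ 1) {n : ℕ} (g : GL (Fin n) F) :
    g ∈ Subgroup.normalizer
        ((Units.map (Matrix.diagonalRingHom (Fin n) F).toMonoidHom).range :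
          Subgroup (GL (Fin n) F)) ↔
      ∀ i : Fin n, ∃! j : Fin n, (g : Matrix (Fin n) (Fin n) F) i j ≠ 0 := by
  set D : Subgroup (GL (Fin n) F) :=
    (Units.map (Matrix.diagonalRingHom (Fin n) F).toMonoidHom).range
  have hD : ∀ x : GL (Fin n) F,
      x ∈ D ↔ ∀ i j, i ≠ j → (x : Matrix (Fin n) (Fin n) F) i j = 0 := by
    intro x
    constructor
    · rintro ⟨d, rfl⟩ i j hij
      exact Matrix.diagonal_apply_ne _ hij
    · intro h
      have hdiag : (x : Matrix (Fin n) (Fin n) F) =
          diagonal fun i => (x : Matrix (Fin n) (Fin n) F) i i := by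
        ext i j
        rcases eq_or_ne i j with rfl | hij
        · simp
        · simp [hij, h i j hij]
      have hne : ∀ i, (x : Matrix (Fin n) (Fin n) F) i i ≠ 0 := by
        intro i hi
        have h1 := ((Matrix.isUnit_iff_isUnit_det _).1 x.isUnit).ne_zero
        rw [hdiag, det_diagonal] at h1
        exact h1 (Finset.prod_eq_zero (Finset.mem_univ i) hi)
      exact ⟨MulEquiv.piUnits.symm fun i => Units.mk0 _ (hne i),
        Units.ext ((diagGL_val fun i => Units.mk0 _ (hne i)).trans (by simpa using hdiag.symm))⟩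
  have hrow : ∀ i, ∃ j, (g : Matrix (Fin n) (Fin n) F) i j ≠ 0 := by
    intro i
    by_contra h
    push Not at h
    exact ((Matrix.isUnit_iff_isUnit_det _).1 g.isUnit).ne_zero
      (Matrix.det_eq_zero_of_row_eq_zero i h)
  constructor
  · intro hg i
    obtain ⟨j, hj⟩ := hrow i
    refine ⟨j, hj, fun j' hj' => ?_⟩
    by_contra hne
    obtain ⟨a, ha0, ha1⟩ := hF
    obtain ⟨d, hd⟩ : ∃ d : GL (Fin n) F, (d : Matrix (Fin n) (Fin n) F) =
        diagonal (fun l => if l = j' then a else 1) :=
      ⟨diagGL fun l => if l = j' then Units.mk0 a ha0 else 1, by simp [apply_ite Units.val]⟩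
    have hmem := (Subgroup.mem_normalizer_iff.1 hg d).1
      ((hD d).2 fun l l' h => by rw [hd]; simp [h])
    have hmul : (g : Matrix (Fin n) (Fin n) F) * d =
        ((g * d * g⁻¹ : GL (Fin n) F) : Matrix (Fin n) (Fin n) F) * g := by
      rw [← Units.val_mul, ← Units.val_mul, inv_mul_cancel_right]
    obtain ⟨e, he⟩ : ∃ e : Fin n → F,
        ((g * d * g⁻¹ : GL (Fin n) F) : Matrix (Fin n) (Fin n) F) = diagonal e :=
      ⟨fun l => ((g * d * g⁻¹ : GL (Fin n) F) : Matrix (Fin n) (Fin n) F) l l, by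
        ext l l'
        rcases eq_or_ne l l' with rfl | hll
        · simp
        · simp [hll, (hD _).1 hmem l l' hll]⟩
    rw [hd, he] at hmul
    have h1 := congrFun (congrFun hmul i) j
    have h2 := congrFun (congrFun hmul i) j'
    rw [Matrix.mul_diagonal, Matrix.diagonal_mul, if_neg (Ne.symm hne), mul_one] at h1
    rw [Matrix.mul_diagonal, Matrix.diagonal_mul, if_pos rfl, ← mul_right_cancel₀ hj
      (((one_mul _).trans h1) : 1 * (g : Matrix (Fin n) (Fin n) F) i j = _), one_mul,
      mul_eq_left₀ hj'] at h2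
    exact ha1 h2
  · intro hmon
    choose σ hσ hσu using hmon
    have hzero : ∀ i j, j ≠ σ i → (g : Matrix (Fin n) (Fin n) F) i j = 0 := fun i j h =>
      by_contra fun h' => h (hσu i j h')
    have hsurj : Function.Surjective σ := by
      intro j
      by_contra h
      push Not at h
      refine ((Matrix.isUnit_iff_isUnit_det _).1 g.isUnit).ne_zero
        (Matrix.det_eq_zero_of_column_eq_zero j fun i => hzero i j (fun e => h i e.symm))
    have hinj : Function.Injective σ := Finite.injective_iff_surjective.2 hsurj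
    rw [Subgroup.mem_normalizer_iff]
    intro x
    simp only [hD]
    have hconj : ∀ i j, ((g * x * g⁻¹ : GL (Fin n) F) : Matrix (Fin n) (Fin n) F) i j *
        (g : Matrix (Fin n) (Fin n) F) j (σ j) =
        (g : Matrix (Fin n) (Fin n) F) i (σ i) *
          (x : Matrix (Fin n) (Fin n) F) (σ i) (σ j) := by
      intro i j
      have h : ((g * x * g⁻¹ : GL (Fin n) F) : Matrix (Fin n) (Fin n) F) * g =
          (g : Matrix (Fin n) (Fin n) F) * x := by
        rw [← Units.val_mul, ← Units.val_mul, inv_mul_cancel_right]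
      have h' := congrFun (congrFun h i) (σ j)
      rw [Matrix.mul_apply, Matrix.mul_apply, Finset.sum_eq_single j, Finset.sum_eq_single (σ i)]
        at h'
      · exact h'
      · intro l _ hl; rw [hzero i l hl, zero_mul]
      · simp
      · intro l _ hl; rw [hzero l (σ j) (fun e => hl (hinj e.symm)), mul_zero]
      · simp
    constructor
    · intro hx i j hij
      have := hconj i j
      rw [hx _ _ (hinj.ne hij), mul_zero] at this
      exact (mul_eq_zero.1 this).resolve_right (hσ j)
    · intro hx a b hab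
      obtain ⟨i, rfl⟩ := hsurj a
      obtain ⟨j, rfl⟩ := hsurj b
      have := hconj i j
      rw [hx i j (fun e => hab (by rw [e])), zero_mul] at this
      exact (mul_eq_zero.1 this.symm).resolve_left (hσ i)

end Cfsg.Agent.Forms
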