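import Cfsg.Agent.Forms.InvolTwoOrthCent

/-!
# Centralisers in `Ω⁺_{2m}(q)` of involutions of `O⁺_{2m}(q)`, `q` even
-/

set_option autoImplicit false
set_option linter.unusedSectionVars false

namespace Cfsg.Agent.Forms

open Module

variable {F : Type*} [Field F] [CharP F 2]

theorem orth_plus_order {q : ℕ} (hq : 2 ≤ q) {L O : ℕ} (hL : 1 ≤ L)
    (h : O * (q ^ L + 1) =
      2 * (q ^ (L * (L - 1)) * ∏ i ∈ Finset.range L, (q ^ (2 * (i + 1)) - 1))) :
    O = 2 * (q ^ (L * (L - 1)) * (q ^ L - 1) *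
      ∏ i ∈ Finset.range (L - 1), (q ^ (2 * (i + 1)) - 1)) := by
  obtain ⟨j, rfl⟩ : ∃ j, L = j + 1 := ⟨L - 1, by omega⟩
  simp only [Nat.add_sub_cancel] at h ⊢
  obtain ⟨A, hA⟩ : ∃ A, q ^ (j + 1) = A + 1 :=
    ⟨q ^ (j + 1) - 1, by have := Nat.one_le_pow (j + 1) q (by omega); omega⟩
  have e : q ^ (2 * (j + 1)) - 1 = A * (A + 2) := by
    rw [two_mul (j + 1), pow_add, hA, Nat.sub_eq_iff_eq_add (by nlinarith)]
    ring
  rw [Finset.prod_range_succ, e, hA] at h
  rw [hA, Nat.add_sub_cancel]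
  refine mul_right_cancel₀ (b := A + 2) (by omega) (Eq.trans (by ring) (h.trans ?_))
  ring

/-- Elements of an index-two subgroup in a centraliser. -/
theorem card_omega_commute_eq {ι : Type} [Fintype ι] [DecidableEq ι] [Finite F]
    (Q : QuadraticForm F (ι → F)) (x : Cfsg.isometryGroup F ⇑Q) :
    Nat.card {g : ↥(Cfsg.Omega F ⇑Q) // (g : ↥(Cfsg.isometryGroup F ⇑Q)) * x =
        x * (g : ↥(Cfsg.isometryGroup F ⇑Q))} =
      Nat.card {g : commutator (orthGroup Q) //
        (g : orthGroup Q) ∈ involCent (QuadraticMap.polarBilin Q) Q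
          (isomNil (isometryEquiv Q x))} := by
  refine Nat.card_congr (Equiv.subtypeEquiv (omegaEquivTwo Q).toEquiv fun g => ?_)
  rw [← commute_iff_involCent_orth]
  change _ ↔ isometryEquiv Q (g : Cfsg.isometryGroup F ⇑Q) * _ = _ * isometryEquiv Q _
  rw [← map_mul, ← map_mul, (isometryEquiv Q).injective.eq_iff]

theorem isomNil_isometryEquiv {ι : Type} [Fintype ι] [DecidableEq ι] (Q : QuadraticForm F (ι → F))
    (x : Cfsg.isometryGroup F ⇑Q) :
    isomNil (isometryEquiv Q x) = Matrix.mulVecLin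
      (((x : Matrix.GeneralLinearGroup ι F) : Matrix ι ι F) - 1) := by
  refine LinearMap.ext fun v => ?_
  rw [isomNil_apply, isometryEquiv_apply, Matrix.mulVecLin_apply, Matrix.sub_mulVec,
    Matrix.one_mulVec]

/-- The three centraliser orders in `Ω⁺_{2m}(q)`, stated for a form equal to `quadFormPlus`. -/
theorem card_omega_centralizer_plus [Fintype F] {q : ℕ} (hF : Fintype.card F = q) {m : ℕ}
    (hexc : Fintype.card F ≠ 2 ∨ m ≠ 2) (hm : 1 ≤ m)
    {Q' : (Fin m ⊕ Fin m → F) → F} (hQQ : ⇑(qPlus m F) = Q') (x : Cfsg.isometryGroup F Q')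
    (hx : x ^ 2 = 1) :
    let M : Matrix (Fin m ⊕ Fin m) (Fin m ⊕ Fin m) F :=
      ((x : Matrix.GeneralLinearGroup (Fin m ⊕ Fin m) F) : Matrix _ _ F) - 1
    let N := Nat.card {g : ↥(Cfsg.Omega F Q') // (g : ↥(Cfsg.isometryGroup F Q')) * x =
      x * (g : ↥(Cfsg.isometryGroup F Q'))}
    ∃ k r l : ℕ, M.rank = 2 * k + r ∧ m = 2 * k + r + l ∧
      ((r = 0 ∧ ∀ v, Q' (M.mulVec v) = 0) ∨ ((r = 1 ∨ r = 2) ∧ ¬ ∀ v, Q' (M.mulVec v) = 0)) ∧
      (r = 0 → N = q ^ (2 * (k * k) + 4 * (k * l) - k) * sympOrd q k *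
        (if l = 0 then 1 else q ^ (l * (l - 1)) * (q ^ l - 1) *
          ∏ i ∈ Finset.range (l - 1), (q ^ (2 * (i + 1)) - 1))) ∧
      (r = 1 → N = q ^ (2 * (k * k) + k + 4 * (k * l)) * sympOrd q k * sympOrd q l) ∧
      (r = 2 → N = q ^ (2 * (k * k) + 5 * k + 4 * (k * l) + 2 * l + 2) * sympOrd q k *
        sympOrd q l) := by
  subst hQQ
  intro M N
  have hQ : (QuadraticMap.polarBilin (qPlus m F)).Nondegenerate := qPlus_nondegenerate
  have hV : finrank F (Fin m ⊕ Fin m → F) = 2 * m := by simp [two_mul]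
  have hgen := closure_reflectionSet_char_two hQ (by
    rw [Nat.card_eq_fintype_card]
    rcases hexc with h | h
    · exact Or.inl h
    · exact Or.inr (Or.inl (by omega)))
  have hn1 : 1 ≤ finrank F (Fin m ⊕ Fin m → F) := by omega
  have hK := (commutator_index_two_of_gen two_eq_zero_of_charTwo hQ hgen hn1).1
  have hP := isQuadPair_quad (qPlus m F) hQ
  have hx2 : isometryEquiv (qPlus m F) x ^ 2 = 1 := by rw [← map_pow, hx, map_one]
  have hn := isomNil_isInvol hP hx2
  have hnM : isomNil (isometryEquiv (qPlus m F) x) = Matrix.mulVecLin M := isomNil_isometryEquiv (qPlus m F) x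
  obtain ⟨k, r, hdim, ⟨f, hf⟩, hcase⟩ := exists_adapted hP hn
  have hr : r ≤ 2 := by rcases hcase with ⟨h, -⟩ | ⟨h, -⟩ <;> omega
  have hW : finrank F (coreSub F (Sum.inl : Fin m → Fin m ⊕ Fin m)) = m := by
    rw [coreSub, finrank_comap_equiv _ Sum.inl_injective, Fintype.card_fin]
  obtain ⟨L, S, U, O, hL, hle, hS, hC, hO, hU0, hU1, hU2⟩ :=
    card_involCent_plus hF hQ (qPlus_core (F := F) m).zero hW hV hn hr hdim hf
  have hN : N = Nat.card {g : commutator (orthGroup (qPlus m F)) //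
      (g : orthGroup (qPlus m F)) ∈ involCent (QuadraticMap.polarBilin (qPlus m F)) (qPlus m F)
        (isomNil (isometryEquiv (qPlus m F) x))} := card_omega_commute_eq (qPlus m F) x
  obtain ⟨l, rfl⟩ : ∃ l, m = 2 * k + r + l := ⟨m - (2 * k + r), by omega⟩
  have hq : 2 ≤ q := hF ▸ Fintype.one_lt_card
  have hhalf : (¬ IsAltInvol (QuadraticMap.polarBilin (qPlus _ F)) (isomNil (isometryEquiv (qPlus _ F) x)) ∨ l ≠ 0) →
      2 * N = Nat.card (involCent (QuadraticMap.polarBilin (qPlus _ F)) (qPlus _ F) (isomNil (isometryEquiv (qPlus _ F) x))) := by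
    intro h
    obtain ⟨g, hg, hgK⟩ := exists_notMem_commutator hQ hgen hn1 hn
      (h.imp id fun h => by rw [hdim, hV]; omega)
    rw [hN]
    exact two_mul_card_inf hK hg hgK
  have halt : IsAltInvol (QuadraticMap.polarBilin (qPlus _ F)) (isomNil (isometryEquiv (qPlus _ F) x)) ↔
      ∀ v, (qPlus _ F) (M.mulVec v) = 0 := by
    rw [alt_iff_norm hn, hnM]; rfl
  have hk2 : k ≤ k * k := Nat.le_mul_self k
  refine ⟨k, r, l, ?_, rfl, by rwa [← halt], fun h => ?_, fun h => ?_, fun h => ?_⟩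
  · rw [hnM] at hdim; exact hdim
  all_goals subst h
  · -- alternating
    obtain rfl : L = l := by omega
    rw [hU0 rfl, mul_one, if_neg (by omega), one_mul] at hC
    rw [show 2 * (2 * k + 0 + L) - (2 * k + 0) - 1 = 2 * k + 2 * L - 1 by omega, Nat.mul_sub,
      mul_one, show 2 * k * (2 * k + 2 * L) = 4 * (k * k) + 4 * (k * L) by ring,
      show 2 * k * (2 * k) = 4 * (k * k) by ring] at hS
    rcases Nat.eq_zero_or_pos L with hL0 | hL0
    · subst hL0
      have hO1 : O = 1 := by simp at hO; omega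
      rw [hO1, mul_one] at hC
      rw [if_pos rfl, mul_one, show 2 * (k * k) + 4 * (k * 0) - k = S by omega, mul_comm, ← hC, hN]
      have halt' : IsAltInvol (QuadraticMap.polarBilin (qPlus _ F)) (isomNil (isometryEquiv (qPlus _ F) x)) := by
        rcases hcase with ⟨-, h⟩ | ⟨h, -⟩
        · exact h
        · omega
      have hle' := involCent_le_commutator hQ hgen hn1 hn halt' (by rw [hdim, hV])
      exact Nat.card_congr
        { toFun := fun g => ⟨g.1.1, g.2⟩
          invFun := fun g => ⟨⟨g.1, hle' g.2⟩, g.2⟩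
          left_inv := fun g => rfl
          right_inv := fun g => rfl }
    · rw [orth_plus_order hq hL0 hO, ← hhalf (Or.inr (by omega))] at hC
      rw [if_neg (by omega), show 2 * (k * k) + 4 * (k * L) - k = S by omega]
      refine mul_left_cancel₀ (two_ne_zero (α := ℕ)) (hC.trans ?_)
      ring
  · -- rank odd
    obtain rfl : L = l + 1 := by omega
    have hnalt : ¬ IsAltInvol (QuadraticMap.polarBilin (qPlus _ F)) (isomNil (isometryEquiv (qPlus _ F) x)) := by
      rcases hcase with ⟨h, -⟩ | ⟨-, h⟩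
      · omega
      · exact h
    rw [hU1 rfl, if_neg (by omega), one_mul, orth_plus_order hq (by omega) hO,
      ← hhalf (Or.inl hnalt)] at hC
    rw [show 2 * (2 * k + 1 + l) - (2 * k + 1) - 1 = 2 * k + 2 * l by omega,
      show 2 * k * (2 * k + 2 * l) = 4 * (k * k) + 4 * (k * l) by ring,
      show 2 * k * (2 * k) = 4 * (k * k) by ring] at hS
    rw [show 2 * (k * k) + k + 4 * (k * l) = S by omega]
    simp only [Nat.add_sub_cancel] at hC
    have h1 : q ^ (l + 1) - 1 ≠ 0 := by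
      have : q ≤ q ^ (l + 1) := Nat.le_self_pow (by omega) q
      omega
    refine mul_left_cancel₀ (two_ne_zero (α := ℕ))
      (mul_right_cancel₀ (b := q ^ l * (q ^ (l + 1) - 1))
        (mul_ne_zero (pow_ne_zero _ (by omega)) h1) (hC.trans ?_))
    rw [show sympOrd q l = q ^ (l ^ 2) * ∏ i ∈ Finset.range l, (q ^ (2 * (i + 1)) - 1) from rfl,
      show (l + 1) * l = l ^ 2 + l by ring, pow_add]
    ring
  · -- rank even, not alternating
    obtain rfl : L = l + 2 := by omega
    have hnalt : ¬ IsAltInvol (QuadraticMap.polarBilin (qPlus _ F)) (isomNil (isometryEquiv (qPlus _ F) x)) := by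
      rcases hcase with ⟨h, -⟩ | ⟨-, h⟩
      · omega
      · exact h
    rw [hU2 rfl, if_pos rfl, orth_plus_order hq (by omega) hO, ← hhalf (Or.inl hnalt)] at hC
    rw [show 2 * (2 * k + 2 + l) - (2 * k + 2) - 1 = 2 * k + 1 + 2 * l by omega,
      show 2 * k * (2 * k + 1 + 2 * l) = 4 * (k * k) + 2 * k + 4 * (k * l) by ring,
      show 2 * k * (2 * k) = 4 * (k * k) by ring] at hS
    rw [show 2 * (k * k) + 5 * k + 4 * (k * l) + 2 * l + 2 = 2 * k + S + (2 * l + 2) by omega]
    rw [show l + 2 - 1 = l + 1 by omega, show 2 * (l + 2) - 2 = 2 * (l + 1) by omega,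
      Finset.prod_range_succ] at hC
    have h1 : q ^ (l + 2) - 1 ≠ 0 := by
      have : q ≤ q ^ (l + 2) := Nat.le_self_pow (by omega) q
      omega
    have h2 : q ^ (2 * (l + 1)) - 1 ≠ 0 := by
      have : q ≤ q ^ (2 * (l + 1)) := Nat.le_self_pow (by omega) q
      omega
    refine mul_left_cancel₀ (two_ne_zero (α := ℕ))
      (mul_right_cancel₀ (b := q ^ (l + 1) * (q ^ (l + 2) - 1) * (q ^ (2 * (l + 1)) - 1))
        (mul_ne_zero (mul_ne_zero (pow_ne_zero _ (by omega)) h1) h2) (hC.trans ?_))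
    rw [show sympOrd q l = q ^ (l ^ 2) * ∏ i ∈ Finset.range l, (q ^ (2 * (i + 1)) - 1) from rfl,
      show (l + 2) * (l + 1) = l ^ 2 + l + (2 * l + 2) by ring, pow_add q (l ^ 2 + l), pow_add q (l ^ 2),
      pow_add q (2 * k + S), pow_add q (2 * k) S, pow_add q (2 * k) 1, pow_add q l 1]
    ring

end Cfsg.Agent.Forms
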