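import Cfsg.Agent.Forms.InvolTwoOrthClass
import Cfsg.Agent.Forms.InvolTwoOmegaCent
import Cfsg.Agent.Forms.InvolTwoSymp

/-!
# Conjugacy of involutions of symplectic and orthogonal groups in characteristic two
-/

set_option autoImplicit false

namespace Cfsg.Agent.Forms

open Module

variable {F V : Type*} [Field F] [CharP F 2] [AddCommGroup V] [Module F V] [FiniteDimensional F V]

section Family

variable {Q : QuadraticForm F V}

/-- A reflection changes the parity of the intersection with a maximal singular subspace. -/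
theorem finrank_inf_reflection (hQ : (QuadraticMap.polarBilin Q).Nondegenerate)
    {U W : Submodule F V} (hU : ∀ w ∈ U, Q w = 0) (hW : ∀ w ∈ W, Q w = 0)
    (hdU : 2 * finrank F U = finrank F V) (hdW : 2 * finrank F W = finrank F V) {y : V}
    (hy : Q y ≠ 0) :
    finrank F ↥(U ⊓ W.map ((reflection Q y : V ≃ₗ[F] V) : V →ₗ[F] V)) + 1 = finrank F ↥(U ⊓ W) ∨
      finrank F ↥(U ⊓ W) + 1 = finrank F ↥(U ⊓ W.map ((reflection Q y : V ≃ₗ[F] V) : V →ₗ[F] V)) := by
  set B := QuadraticMap.polarBilin Q with hB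
  have hI := isForm_quadratic Q hQ
  set r := (reflection Q y : V ≃ₗ[F] V) with hr
  set W' := W.map (r : V →ₗ[F] V) with hW'
  have hW's : ∀ w ∈ W', Q w = 0 := by
    rintro _ ⟨w, hw, rfl⟩
    rw [LinearEquiv.coe_coe, hr, (reflection Q y).2.2 w, hW w hw]
  have hdW' : finrank F W' = finrank F W := LinearEquiv.finrank_map_eq _ _
  have hperp : ∀ X : Submodule F V, (∀ w ∈ X, Q w = 0) → 2 * finrank F X = finrank F V →
      perp B X = X := fun X hX hd => (Submodule.eq_of_le_of_finrank_eq (singular_le_perp hX) (by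
        have := hI.finrank_perp X
        change finrank F X = finrank F (perp (QuadraticMap.polarBilin Q) X)
        omega)).symm
  -- the hyperplane fixed by the reflection
  let φ : W →ₗ[F] F := (B y).comp W.subtype
  have hφ0 : φ ≠ 0 := by
    intro h
    have : y ∈ perp B W := fun w hw => by
      have := LinearMap.congr_fun h ⟨w, hw⟩
      exact hI.refl _ _ this
    rw [hperp W hW hdW] at this
    exact hy (hW y this)
  set H := (LinearMap.ker φ).map W.subtype with hH
  have hmemH : ∀ x, x ∈ H ↔ x ∈ W ∧ B y x = 0 := by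
    intro x
    constructor
    · rintro ⟨z, hz, rfl⟩
      exact ⟨z.2, hz⟩
    · rintro ⟨h1, h2⟩
      exact ⟨⟨x, h1⟩, h2, rfl⟩
  have hdH : finrank F H + 1 = finrank F W := by
    have h1 := LinearMap.finrank_range_add_finrank_ker φ
    have h2 : finrank F (LinearMap.range φ) = 1 := by
      refine le_antisymm ((Submodule.finrank_le _).trans (by simp)) ?_
      rw [Nat.one_le_iff_ne_zero, Ne, Submodule.finrank_eq_zero, LinearMap.range_eq_bot]
      exact hφ0
    rw [hH, Submodule.finrank_map_subtype_eq]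
    omega
  have hrfix : ∀ x, B y x = 0 → r x = x := fun x hx => by
    rw [hr, reflection_apply, show QuadraticMap.polar Q y x = 0 from hx, mul_zero, zero_smul, sub_zero]
  have hHW : H ≤ W := fun x hx => ((hmemH x).1 hx).1
  have hHW' : H ≤ W' := fun x hx => ⟨x, hHW hx, hrfix x ((hmemH x).1 hx).2⟩
  have hWW : W ⊓ W' ≤ H := by
    rintro _ ⟨hx, w, hw, rfl⟩
    rw [hmemH]
    refine ⟨hx, ?_⟩
    by_cases h0 : B y w = 0
    · rw [LinearEquiv.coe_coe, hrfix w h0, h0]
    · exfalso
      have hc : (Q y)⁻¹ * QuadraticMap.polar Q y w ≠ 0 := mul_ne_zero (inv_ne_zero hy) h0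
      have h1 : w - r w ∈ W := W.sub_mem hw hx
      rw [hr, reflection_apply, sub_sub_cancel] at h1
      exact hy (hW y ((Submodule.smul_mem_iff _ hc).1 h1))
  set K := U ⊓ H with hK
  set X := U ⊓ perp B H with hX
  -- one more dimension orthogonal to the hyperplane
  have hdX : finrank F X = finrank F K + 1 := by
    have h1 : perp B (U ⊔ H) = X := by
      ext v
      constructor
      · intro hv
        have h2 : v ∈ perp B U := fun u hu => hv u (Submodule.mem_sup_left hu)
        rw [hperp U hU hdU] at h2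
        exact ⟨h2, fun u hu => hv u (Submodule.mem_sup_right hu)⟩
      · rintro ⟨hv1, hv2⟩ u hu
        obtain ⟨a, ha, b, hb, rfl⟩ := Submodule.mem_sup.1 hu
        rw [map_add, LinearMap.add_apply, hv2 b hb,
          show B a v = 0 from polar_zero_of_singular hU ha hv1, add_zero]
    have h2 := hI.finrank_perp (U ⊔ H)
    rw [← hB, h1] at h2
    have h3 := Submodule.finrank_sup_add_finrank_inf_eq U H
    rw [← hK] at h3
    omega
  have hKX : K ≤ X := fun v hv => ⟨hv.1, singular_le_perp (fun w hw => hW w (hHW hw)) hv.2⟩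
  obtain ⟨u, huX, huK⟩ : ∃ u ∈ X, u ∉ K := by
    by_contra h
    push Not at h
    have := Submodule.finrank_mono (show X ≤ K from h)
    omega
  -- singular vectors orthogonal to the hyperplane lie on one of the two subspaces
  have hsplit : u ∈ W ∨ u ∈ W' := by
    have hyH : y ∈ perp B H := fun x hx => hI.refl _ _ ((hmemH x).1 hx).2
    have hWH : W ≤ perp B H := fun w hw x hx => polar_zero_of_singular hW (hHW hx) hw
    have hle : W ⊔ Submodule.span F {y} ≤ perp B H :=
      sup_le hWH (by rw [Submodule.span_singleton_le_iff_mem]; exact hyH)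
    have hd : finrank F W + 1 ≤ finrank F ↥(W ⊔ Submodule.span F {y}) := by
      refine Submodule.finrank_lt_finrank_of_lt (lt_of_le_of_ne le_sup_left fun e => hy (hW y ?_))
      rw [e]
      exact Submodule.mem_sup_right (Submodule.mem_span_singleton_self y)
    have heq : W ⊔ Submodule.span F {y} = perp B H := by
      refine Submodule.eq_of_le_of_finrank_le hle ?_
      have := hI.finrank_perp H
      rw [← hB] at this
      omega
    have hu := huX.2
    rw [SetLike.mem_coe, ← heq, Submodule.mem_sup] at hu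
    obtain ⟨w, hw, z, hz, rfl⟩ := hu
    obtain ⟨a, rfl⟩ := Submodule.mem_span_singleton.1 hz
    rcases eq_or_ne a 0 with rfl | ha
    · exact Or.inl (by simpa using hw)
    refine Or.inr ⟨w, hw, ?_⟩
    have h0 : Q (w + a • y) = 0 := hU _ huX.1
    rw [QuadraticMap.map_add Q, hW w hw, QuadraticMap.map_smul, QuadraticMap.polar_smul_right,
      QuadraticMap.polar_comm Q w y, smul_eq_mul, smul_eq_mul, zero_add, mul_assoc, ← mul_add,
      mul_eq_zero, or_iff_right ha] at h0
    rw [LinearEquiv.coe_coe, hr, reflection_apply,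
      show (Q y)⁻¹ * QuadraticMap.polar Q y w = -a by field_simp; linear_combination h0]
    module
  have hinf : ∀ Z : Submodule F V, (∀ w ∈ Z, Q w = 0) → H ≤ Z → K ≤ U ⊓ Z ∧ U ⊓ Z ≤ X :=
    fun Z hZ hHZ => ⟨inf_le_inf_left U hHZ,
      fun v hv => ⟨hv.1, fun x hx => polar_zero_of_singular hZ (hHZ hx) hv.2⟩⟩
  obtain ⟨l1, u1⟩ := hinf W hW hHW
  obtain ⟨l2, u2⟩ := hinf W' hW's hHW'
  have m1 := Submodule.finrank_mono l1
  have m2 := Submodule.finrank_mono u1
  have m3 := Submodule.finrank_mono l2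
  have m4 := Submodule.finrank_mono u2
  have hnot : ¬ (finrank F ↥(U ⊓ W) = finrank F X ∧ finrank F ↥(U ⊓ W') = finrank F X) := by
    rintro ⟨e1, e2⟩
    have d1 := Submodule.eq_of_le_of_finrank_eq u1 e1
    have d2 := Submodule.eq_of_le_of_finrank_eq u2 e2
    exact huK ⟨huX.1, hWW ⟨(d1.symm ▸ huX : u ∈ U ⊓ W).2, (d2.symm ▸ huX : u ∈ U ⊓ W').2⟩⟩
  have hgt : finrank F K < finrank F ↥(U ⊓ W) ∨ finrank F K < finrank F ↥(U ⊓ W') := by
    rcases hsplit with h | h
    · exact Or.inl (Submodule.finrank_lt_finrank_of_lt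
        (lt_of_le_of_ne l1 fun e => huK (e.symm ▸ ⟨huX.1, h⟩)))
    · exact Or.inr (Submodule.finrank_lt_finrank_of_lt
        (lt_of_le_of_ne l2 fun e => huK (e.symm ▸ ⟨huX.1, h⟩)))
  omega

/-- The Dickson invariant is the change of parity of the intersection with a maximal singular
subspace. -/
theorem finrank_inf_map (hQ : (QuadraticMap.polarBilin Q).Nondegenerate)
    (hgen : Subgroup.closure (reflectionSet Q) = ⊤) {U : Submodule F V} (hU : ∀ w ∈ U, Q w = 0)
    (hdU : 2 * finrank F U = finrank F V) (g : orthGroup Q) :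
    ((finrank F ↥(U ⊓ U.map ((g : V ≃ₗ[F] V) : V →ₗ[F] V)) : ℕ) : ZMod 2) =
      (finrank F U : ZMod 2) + dickson g := by
  suffices H : ∀ W : Submodule F V, (∀ w ∈ W, Q w = 0) → 2 * finrank F W = finrank F V →
      ((finrank F ↥(U ⊓ W.map ((g : V ≃ₗ[F] V) : V →ₗ[F] V)) : ℕ) : ZMod 2) =
        (finrank F ↥(U ⊓ W) : ZMod 2) + dickson g by
    rw [H U hU hdU, inf_idem]
  have hg : g ∈ Subgroup.closure (reflectionSet Q) := hgen ▸ Subgroup.mem_top g
  induction hg using Subgroup.closure_induction with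
  | mem x hx =>
    intro W hW hdW
    obtain ⟨v, hv, rfl⟩ := hx
    rw [dickson_reflection hQ hv]
    rcases finrank_inf_reflection hQ hU hW hdU hdW hv with h | h
    · rw [← h, Nat.cast_add, Nat.cast_one, add_assoc, show (1 : ZMod 2) + 1 = 0 from rfl, add_zero]
    · rw [← h, Nat.cast_add, Nat.cast_one]
  | one =>
    intro W _ _
    rw [dickson_one, add_zero]
    rw [show W.map ((((1 : orthGroup Q)) : V ≃ₗ[F] V) : V →ₗ[F] V) = W from Submodule.map_id W]
  | mul x y _ _ hx hy =>
    intro W hW hdW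
    have hmap : W.map (((x * y : orthGroup Q) : V ≃ₗ[F] V) : V →ₗ[F] V) =
        (W.map ((y : V ≃ₗ[F] V) : V →ₗ[F] V)).map ((x : V ≃ₗ[F] V) : V →ₗ[F] V) :=
      Submodule.map_comp _ _ _
    rw [hmap, hx _ (by rintro _ ⟨w, hw, rfl⟩; exact (y.2.2 w).trans (hW w hw))
      (by rw [LinearEquiv.finrank_map_eq]; exact hdW), hy W hW hdW, dickson_mul hQ x (hgen ▸ Subgroup.mem_top y), add_assoc]
    rw [add_comm (dickson y)]
  | inv x _ hx =>
    intro W hW hdW
    have hmap : (W.map (((x⁻¹ : orthGroup Q) : V ≃ₗ[F] V) : V →ₗ[F] V)).map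
        ((x : V ≃ₗ[F] V) : V →ₗ[F] V) = W := by
      rw [← Submodule.map_comp]
      refine (congrArg (fun f => Submodule.map f W) ?_).trans (Submodule.map_id W)
      exact LinearMap.ext fun v => congrArg (fun k : orthGroup Q => (k : V ≃ₗ[F] V) v) (mul_inv_cancel x)
    have h1 := hx (W.map (((x⁻¹ : orthGroup Q) : V ≃ₗ[F] V) : V →ₗ[F] V))
      (by rintro _ ⟨w, hw, rfl⟩; exact ((x⁻¹).2.2 w).trans (hW w hw))
      (by rw [LinearEquiv.finrank_map_eq]; exact hdW)
    rw [hmap] at h1
    have h2 : dickson x⁻¹ = dickson x := by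
      have h3 := dickson_mul hQ x⁻¹ (h := x) (hgen ▸ Subgroup.mem_top x)
      rw [inv_mul_cancel, dickson_one, eq_comm, add_eq_zero_iff_eq_neg] at h3
      rw [h3, ZMod.neg_eq_self_mod_two]
    rw [h2, h1, add_assoc, CharTwo.add_self_eq_zero, add_zero]

end Family

variable {B : LinearMap.BilinForm F V} {N : V → F} {c : F} {n : V →ₗ[F] V}

/-- An alternating type has even rank. -/
theorem IsAltInvol.even_rank (hP : IsQuadPair B N c) (hn : IsInvolTwo B N c n)
    (h : IsAltInvol B n) : Even (finrank F (LinearMap.range n)) := by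
  obtain ⟨W, hW⟩ := (LinearMap.ker n).exists_isCompl
  obtain ⟨-, hnd, hd, halt⟩ := hn.involForm_props hP hW.symm
  obtain ⟨a, ha⟩ := finrank_eq_ker_add_two_mul _ (halt.2 h)
  rw [show LinearMap.ker (involForm B n W) = ⊥ from
    (Submodule.eq_bot_iff _).2 fun x hx => hnd.1 x fun y => by
      rw [LinearMap.mem_ker.1 hx]; rfl, finrank_bot] at ha
  exact ⟨a, by omega⟩

/-- The zero set of `v ↦ B (v, n v)` has index `|F|` unless the type is alternating. -/
theorem natCard_zero_beta [Fintype F] (hP : IsQuadPair B N c) (hn : IsInvolTwo B N c n)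
    (h : ¬ IsAltInvol B n) :
    Nat.card {v : V // B v (n v) = 0} * Fintype.card F = Nat.card V := by
  obtain ⟨v0, hv0⟩ := not_forall.1 h
  let ψ : V →+ F := AddMonoidHom.mk' (fun v => B v (n v)) fun u v => by
    simp only [map_add, LinearMap.add_apply, hn.beta_symm hP v u]
    linear_combination CharTwo.add_self_eq_zero (B u (n v))
  have hsurj : Function.Surjective ψ := by
    intro a
    obtain ⟨t, ht⟩ := FiniteField.isSquare_of_char_two (ringChar.eq F 2) (a / B v0 (n v0))
    refine ⟨t • v0, ?_⟩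
    show B (t • v0) (n (t • v0)) = a
    simp only [map_smul, LinearMap.smul_apply, smul_eq_mul]
    rw [← mul_assoc, ← ht, div_mul_cancel₀ _ hv0]
  have h2 := AddSubgroup.card_eq_card_quotient_mul_card_addSubgroup ψ.ker
  rw [Nat.card_congr (QuotientAddGroup.quotientKerEquivOfSurjective ψ hsurj).toEquiv,
    Nat.card_eq_fintype_card (α := F)] at h2
  rw [h2, mul_comm]
  rfl

section Sp

variable {m : ℕ} [Fintype F]

/-- Conjugacy of involutions of `Sp_{2m}` in characteristic two. -/
theorem sp_involution_isConj_iff (a b : Matrix.symplecticGroup (Fin m) F) (ha : orderOf a = 2)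
    (hb : orderOf b = 2) :
    IsConj a b ↔ ((a : Matrix (Fin m ⊕ Fin m) (Fin m ⊕ Fin m) F) - 1).rank =
        ((b : Matrix (Fin m ⊕ Fin m) (Fin m ⊕ Fin m) F) - 1).rank ∧
      (Even ((a : Matrix (Fin m ⊕ Fin m) (Fin m ⊕ Fin m) F) - 1).rank →
        Nat.card {v : Fin m ⊕ Fin m → F // Cfsg.sympForm m F v
          ((a : Matrix (Fin m ⊕ Fin m) (Fin m ⊕ Fin m) F).mulVec v) = 0} =
        Nat.card {v : Fin m ⊕ Fin m → F // Cfsg.sympForm m F v
          ((b : Matrix (Fin m ⊕ Fin m) (Fin m ⊕ Fin m) F).mulVec v) = 0}) := by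
  have hP := isQuadPair_sympB (F := F) (m := m)
  set e := spEquiv m F
  have hsq : ∀ t : Matrix.symplecticGroup (Fin m) F, orderOf t = 2 → t ^ 2 = 1 := fun t h => by
    rw [← h]; exact pow_orderOf_eq_one t
  have hnil : ∀ t, isomNil (e t) = spNil t := fun t => LinearMap.ext fun v => by
    rw [spNil_apply, isomNil_apply]
  have hV : ∀ t : Matrix.symplecticGroup (Fin m) F, t ^ 2 = 1 →
      (IsAltInvol (sympB m F) (spNil t) → Nat.card {v : Fin m ⊕ Fin m → F // Cfsg.sympForm m F v
          ((t : Matrix (Fin m ⊕ Fin m) (Fin m ⊕ Fin m) F).mulVec v) = 0} =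
            Nat.card (Fin m ⊕ Fin m → F)) ∧
      (¬ IsAltInvol (sympB m F) (spNil t) → Nat.card {v : Fin m ⊕ Fin m → F // Cfsg.sympForm m F v
          ((t : Matrix (Fin m ⊕ Fin m) (Fin m ⊕ Fin m) F).mulVec v) = 0} * Fintype.card F =
            Nat.card (Fin m ⊕ Fin m → F)) := by
    intro t ht
    have hiff : ∀ v : Fin m ⊕ Fin m → F, Cfsg.sympForm m F v
        ((t : Matrix (Fin m ⊕ Fin m) (Fin m ⊕ Fin m) F).mulVec v) = sympB m F v (spNil t v) := by
      intro v
      rw [← sympB_apply]
      show _ = sympB m F v (((t : Matrix (Fin m ⊕ Fin m) (Fin m ⊕ Fin m) F) - 1).mulVec v)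
      rw [Matrix.sub_mulVec, Matrix.one_mulVec, map_sub, sympB_isAlt v, sub_zero]
    simp only [hiff]
    exact ⟨fun h => Nat.card_congr (Equiv.subtypeUnivEquiv h),
      natCard_zero_beta hP (sp_isInvol t ht)⟩
  have hmap : IsConj a b ↔ IsConj (e a) (e b) :=
    ⟨e.toMonoidHom.map_isConj, fun h => by simpa using e.symm.toMonoidHom.map_isConj h⟩
  have hq : 1 < Fintype.card F := Fintype.one_lt_card
  have hpos : Nat.card (Fin m ⊕ Fin m → F) ≠ 0 := Nat.card_ne_zero.2 ⟨inferInstance, inferInstance⟩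
  obtain ⟨va, va'⟩ := hV a (hsq a ha)
  obtain ⟨vb, vb'⟩ := hV b (hsq b hb)
  rw [hmap, ← spNil_rank, ← spNil_rank]
  constructor
  · intro h
    obtain ⟨h1, h2⟩ := isConj_invariants h
    rw [hnil, hnil] at h1 h2
    refine ⟨h1, fun _ => ?_⟩
    by_cases hA : IsAltInvol (sympB m F) (spNil a)
    · rw [va hA, vb (h2.1 hA)]
    · exact Nat.eq_of_mul_eq_mul_right (by omega) ((va' hA).trans (vb' (h2.not.1 hA)).symm)
  · rintro ⟨h1, h2⟩
    refine isConj_of_invariants hP (by rw [← map_pow, hsq a ha, map_one])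
      (by rw [← map_pow, hsq b hb, map_one]) (by rw [hnil, hnil]; exact h1) ?_
    rw [hnil, hnil]
    constructor
    · intro hA
      by_contra hB
      have := h2 (hA.even_rank hP (sp_isInvol a (hsq a ha)))
      rw [va hA] at this
      have h3 := vb' hB
      rw [← this] at h3
      exact absurd (Nat.eq_of_mul_eq_mul_left (Nat.pos_of_ne_zero hpos) (h3.trans (mul_one _).symm))
        (by omega)
    · intro hB
      by_contra hA
      have := h2 (h1 ▸ hB.even_rank hP (sp_isInvol b (hsq b hb)))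
      rw [vb hB] at this
      have h3 := va' hA
      rw [this] at h3
      exact absurd (Nat.eq_of_mul_eq_mul_left (Nat.pos_of_ne_zero hpos) (h3.trans (mul_one _).symm))
        (by omega)

end Sp

section Orth

variable [Finite F] {ι : Type} [Fintype ι] [DecidableEq ι]
variable {Q : QuadraticForm F (ι → F)} {Q' : (ι → F) → F}

/-- Conjugacy of involutions of an orthogonal group is that in the symplectic group. -/
theorem orth_isConj_iff_polar (hQQ : ⇑Q = Q') (hQ : (QuadraticMap.polarBilin Q).Nondegenerate)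
    (t s : Cfsg.isometryGroup F Q') (ht : orderOf t = 2) (hs : orderOf s = 2) :
    IsConj t s ↔ ∃ g ∈ Cfsg.preserving (Units.coeHom (Matrix ι ι F))
      (fun u v => Q' (u + v) - Q' u - Q' v),
      g * (t : GL ι F) * g⁻¹ = (s : GL ι F) := by
  subst hQQ
  constructor
  · intro h
    obtain ⟨k, hk⟩ := isConj_iff.1 h
    refine ⟨k.1, fun u v => ?_, congrArg Subtype.val hk⟩
    show Q (Matrix.mulVec _ u + Matrix.mulVec _ v) - _ - _ = _
    rw [← Matrix.mulVec_add]
    exact congrArg₂ (· - ·) (congrArg₂ (· - ·) (k.2 (u + v) (u + v)) (k.2 u u)) (k.2 v v)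
  · rintro ⟨g, hg, hconj⟩
    have hP := isQuadPair_quad Q hQ
    have h1 : IsConj (isometryEquiv Q t) (isometryEquiv Q s) := by
      have hint : ∀ v, (g : Matrix ι ι F).mulVec (isomNil (isometryEquiv Q t) v) =
          isomNil (isometryEquiv Q s) ((g : Matrix ι ι F).mulVec v) := by
        intro v
        have hm : (g : Matrix ι ι F) * ((t : GL ι F) : Matrix ι ι F) =
            ((s : GL ι F) : Matrix ι ι F) * (g : Matrix ι ι F) := by
          rw [← Units.val_mul, ← Units.val_mul, ← hconj, inv_mul_cancel_right]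
        rw [isomNil_apply, isomNil_apply, isometryEquiv_apply, isometryEquiv_apply,
          Matrix.mulVec_sub, Matrix.mulVec_mulVec, Matrix.mulVec_mulVec, hm]
      let e : (ι → F) ≃ₗ[F] (ι → F) := glEquiv ι F g
      have he : ∀ v, e v = (g : Matrix ι ι F).mulVec v := fun v => rfl
      refine isConj_of_invariants hP (by rw [← map_pow, ← ht, pow_orderOf_eq_one, map_one])
        (by rw [← map_pow, ← hs, pow_orderOf_eq_one, map_one])
        (rank_eq_of_intertwine e fun v => by rw [he, he]; exact hint v) ?_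
      have key : ∀ v, QuadraticMap.polarBilin Q (e v) (isomNil (isometryEquiv Q s) (e v)) =
          QuadraticMap.polarBilin Q v (isomNil (isometryEquiv Q t) v) := by
        intro v
        rw [he, ← hint v]
        exact hg _ _
      constructor
      · intro h v
        rw [← e.apply_symm_apply v, key]
        exact h _
      · intro h v
        rw [← key]
        exact h _
    simpa using (isometryEquiv Q).symm.toMonoidHom.map_isConj h1

/-- Membership of an element in `Ω` in characteristic two. -/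
theorem mem_Omega_iff_even (hQQ : ⇑Q = Q') (hQ : (QuadraticMap.polarBilin Q).Nondegenerate)
    (hgen : Subgroup.closure (reflectionSet Q) = ⊤) (hn : 1 ≤ finrank F (ι → F))
    (t : Cfsg.isometryGroup F Q') :
    t ∈ Cfsg.Omega F Q' ↔ Even (((t : GL ι F) : Matrix ι ι F) - 1).rank := by
  subst hQQ
  rw [mem_omega_iff, mem_commutator_iff_even hQ hgen hn, isomNil_isometryEquiv]
  rfl

/-- Splitting of an involution class of `O` in `Ω`. -/
theorem omega_conj_spec (hQQ : ⇑Q = Q') (hQ : (QuadraticMap.polarBilin Q).Nondegenerate)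
    (hgen : Subgroup.closure (reflectionSet Q) = ⊤) (hn1 : 1 ≤ finrank F (ι → F))
    (t s : Cfsg.isometryGroup F Q') (ht : orderOf t = 2) (hconj : IsConj t s) :
    (¬ (2 * (((t : GL ι F) : Matrix ι ι F) - 1).rank = finrank F (ι → F) ∧
        ∀ v, Q' (v + ((t : GL ι F) : Matrix ι ι F).mulVec v) = 0) →
      ∃ g ∈ Cfsg.Omega F Q', g * t * g⁻¹ = s) ∧
    ((2 * (((t : GL ι F) : Matrix ι ι F) - 1).rank = finrank F (ι → F) ∧
        ∀ v, Q' (v + ((t : GL ι F) : Matrix ι ι F).mulVec v) = 0) →
      ((∃ g ∈ Cfsg.Omega F Q', g * t * g⁻¹ = s) ↔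
        Even (finrank F ↥(LinearMap.range (Matrix.toLin' (((t : GL ι F) : Matrix ι ι F) - 1)) ⊓
          LinearMap.range (Matrix.toLin' (((s : GL ι F) : Matrix ι ι F) - 1)))))) := by
  subst hQQ
  have hP := isQuadPair_quad Q hQ
  set e := isometryEquiv Q
  have hmem : ∀ g, g ∈ Cfsg.Omega F ⇑Q ↔ e g ∈ commutator (orthGroup Q) := mem_omega_iff Q
  have hK := commutator_index_two_of_gen two_eq_zero_of_charTwo hQ hgen hn1
  have hnt : ∀ x : Cfsg.isometryGroup F ⇑Q, isomNil (e x) =
      Matrix.toLin' (((x : GL ι F) : Matrix ι ι F) - 1) := fun x => by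
    rw [isomNil_isometryEquiv]; rfl
  have hinv := isomNil_isInvol hP (g := e t) (by rw [← map_pow, ← ht, pow_orderOf_eq_one, map_one])
  have halt : IsAltInvol (QuadraticMap.polarBilin Q) (isomNil (e t)) ↔
      ∀ v, Q (v + ((t : GL ι F) : Matrix ι ι F).mulVec v) = 0 := by
    rw [alt_iff_norm hinv]
    refine forall_congr' fun v => ?_
    rw [isomNil_apply, isometryEquiv_apply, sub_eq_add_neg, add_comm]
    have : -v = v := by funext i; simp [CharTwo.neg_eq]
    rw [this]
  have hrk : finrank F (LinearMap.range (isomNil (e t))) = (((t : GL ι F) : Matrix ι ι F) - 1).rank := by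
    rw [isomNil_isometryEquiv]; rfl
  obtain ⟨k, hk⟩ := isConj_iff.1 hconj
  rw [← halt, ← hrk]
  constructor
  · intro h
    by_cases hkK : k ∈ Cfsg.Omega F ⇑Q
    · exact ⟨k, hkK, hk⟩
    obtain ⟨c, hc, hcK⟩ := exists_notMem_commutator hQ hgen hn1 hinv (by
      by_cases ha : IsAltInvol (QuadraticMap.polarBilin Q) (isomNil (e t))
      · exact Or.inr (lt_of_le_of_ne hinv.two_mul_rank_le fun e' => h ⟨e', ha⟩)
      · exact Or.inl ha)
    obtain ⟨c', rfl⟩ : ∃ c', e c' = c := ⟨e.symm c, e.apply_symm_apply c⟩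
    refine ⟨k * c', ?_, ?_⟩
    · rw [hmem] at hkK ⊢
      rw [map_mul, Subgroup.mul_mem_iff_of_index_two hK.1]
      exact iff_of_false hkK hcK
    · have hct : c' * t = t * c' := e.injective (by
        rw [map_mul, map_mul]; exact (commute_iff_involCent_orth _ _).2 hc)
      rw [show k * c' * t * (k * c')⁻¹ = k * (c' * t * c'⁻¹) * k⁻¹ by group, hct,
        mul_inv_cancel_right, hk]
  · rintro ⟨hd, ha⟩
    have hev := ha.even_rank hP hinv
    rw [← hnt, ← hnt]
    set U := LinearMap.range (isomNil (e t)) with hUdef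
    have hU : ∀ w ∈ U, Q w = 0 := by
      rintro _ ⟨v, rfl⟩; exact (alt_iff_norm hinv).1 ha v
    have key : ∀ g : Cfsg.isometryGroup F ⇑Q, g * t * g⁻¹ = s →
        ((finrank F ↥(U ⊓ LinearMap.range (isomNil (e s))) : ℕ) : ZMod 2) = dickson (e g) := by
      intro g hg
      have hmap : U.map ((e g : (ι → F) ≃ₗ[F] (ι → F)) : (ι → F) →ₗ[F] (ι → F)) =
          LinearMap.range (isomNil (e s)) := by
        have hgs : e g * e t = e s * e g := by
          rw [← map_mul, ← map_mul, ← hg, inv_mul_cancel_right]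
        have := intertwine_of_conj hgs
        ext x
        constructor
        · rintro ⟨_, ⟨v, rfl⟩, rfl⟩
          exact ⟨_, (this v).symm⟩
        · rintro ⟨v, rfl⟩
          obtain ⟨w, rfl⟩ := (e g : (ι → F) ≃ₗ[F] (ι → F)).surjective v
          exact ⟨_, ⟨w, rfl⟩, this w⟩
      rw [← hmap, finrank_inf_map hQ hgen hU hd, ZMod.natCast_eq_zero_iff_even.2 hev, zero_add]
    rw [← ZMod.natCast_eq_zero_iff_even]
    constructor
    · rintro ⟨g, hgK, hg⟩
      rw [key g hg, ← hK.2 (e g), ← hmem]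
      exact hgK
    · intro h0
      refine ⟨k, ?_, hk⟩
      rw [hmem, hK.2, ← key k hk]
      exact h0

end Orth

end Cfsg.Agent.Forms
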