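import Cfsg.Agent.Forms.InvolTwoOrthClass

/-!
# Centralisers of the involutions of `O⁺_{2m}(q)`, `q` even
-/

set_option autoImplicit false
set_option linter.unusedSectionVars false

namespace Cfsg.Agent.Forms

open Module

variable {F V : Type*} [Field F] [CharP F 2] [AddCommGroup V] [Module F V] [FiniteDimensional F V]
  {Q : QuadraticForm F V}

/-- In a hyperbolic space the complement of a configuration's pairs is hyperbolic. -/
theorem IsCfg.exists_half_singular (hQ : (QuadraticMap.polarBilin Q).Nondegenerate)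
    {W : Submodule F V} (hW : ∀ w ∈ W, Q w = 0) (hd : 2 * finrank F W = finrank F V) {k r : ℕ}
    {f : CfgIdx k r → V} (hf : IsCfg (QuadraticMap.polarBilin Q) Q 1 f) :
    ∃ C : Submodule F V, (∀ w ∈ C, Q w = 0) ∧
      C ≤ perp (QuadraticMap.polarBilin Q) (cfgSpan F f) ∧
      2 * finrank F C = finrank F (perp (QuadraticMap.polarBilin Q) (cfgSpan F f)) := by
  set B := QuadraticMap.polarBilin Q with hB
  have hP : IsQuadPair B Q 1 := isQuadPair_quad Q hQ
  have hI : IsForm (RingHom.id F) B Q := hP.form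
  let A := Submodule.span F (Set.range fun x => f (Sum.inl (Sum.inl x)))
  have hliA : LinearIndependent F fun x => f (Sum.inl (Sum.inl x)) :=
    hf.li.comp _ (Sum.inl_injective.comp Sum.inl_injective)
  have hdA : finrank F A = 2 * k := by
    rw [finrank_span_eq_card hliA]; simp; omega
  have hA : ∀ w ∈ A, Q w = 0 := by
    intro w hw
    obtain ⟨c, rfl⟩ := (Submodule.mem_span_range_iff_exists_fun F).1 hw
    rw [norm_sum_orth hP _ hf.ww]
    exact Finset.sum_eq_zero fun i _ => by rw [hf.normP, mul_zero]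
  have hD := hf.finrank_perp_add hP
  obtain ⟨g, hg⟩ := exists_isom_map_singular hQ hA hW (by omega)
  set W' := W.map ((g⁻¹ : orthGroup Q) : V ≃ₗ[F] V).toLinearMap with hW'
  have hW'0 : ∀ w ∈ W', Q w = 0 := by
    rintro _ ⟨w, hw, rfl⟩
    exact (g⁻¹ : orthGroup Q).2.2 w |>.trans (hW w hw)
  have hAW : A ≤ W' := fun w hw => ⟨(g : V ≃ₗ[F] V) w, hg ⟨w, hw, rfl⟩, by simp⟩
  set Y := perp B (cfgSpan F f) with hY
  refine ⟨W' ⊓ Y, fun w hw => hW'0 w hw.1, inf_le_right, ?_⟩
  have hwX : ∀ x, f (Sum.inl (Sum.inl x)) ∈ cfgSpan F f := fun x =>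
    Submodule.subset_span ⟨Sum.inl x, rfl⟩
  have hAX : A ≤ cfgSpan F f := Submodule.span_le.2 (by rintro _ ⟨x, rfl⟩; exact hwX x)
  have hdec : W' = A ⊔ (W' ⊓ Y) := by
    refine le_antisymm (fun v hv => ?_) (sup_le hAW inf_le_left)
    obtain ⟨x, hx, y, hy, rfl⟩ := Submodule.mem_sup.1
      (show v ∈ cfgSpan F f ⊔ Y by
        rw [hY, (hI.isCompl_perp (hf.pairs_nondeg hP)).sup_eq_top]; trivial)
    obtain ⟨c, hc⟩ := (Submodule.mem_span_range_iff_exists_fun F).1 hx
    have hcm : ∀ z, c (Sum.inr z) = 0 := by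
      intro z
      have h1 : B (f (Sum.inl (Sum.inl (pairSwap z)))) (x + y) = 0 :=
        polar_zero_of_singular hW'0 (hAW (Submodule.subset_span ⟨_, rfl⟩)) hv
      have h2 : ∀ t, B (f (Sum.inl (Sum.inl (pairSwap z)))) (f (Sum.inl (Sum.inr t))) =
          if z = t then 1 else 0 := fun t => by
        rw [← pairSwap_pairSwap t, hf.wm]
        simp only [pairSwap_pairSwap]
        congr 1
        exact propext ⟨fun h => by simpa [pairSwap_pairSwap] using congrArg pairSwap h,
          fun h => by rw [h]⟩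
      rw [map_add, show B (f (Sum.inl (Sum.inl (pairSwap z)))) y = 0 from hy _ (hwX _), add_zero,
        ← hc] at h1
      simp [Fintype.sum_sum_type (α₁ := Fin k ⊕ Fin k), map_sum, hf.ww, h2] at h1
      rcases z with z | z <;> simpa using h1
    have hxA : x ∈ A := by
      rw [← hc, Fintype.sum_sum_type]
      simp only [hcm, zero_smul, Finset.sum_const_zero, add_zero]
      exact Submodule.sum_mem _ fun i _ => Submodule.smul_mem _ _ (Submodule.subset_span ⟨i, rfl⟩)
    exact Submodule.add_mem_sup hxA ⟨by simpa using Submodule.sub_mem _ hv (hAW hxA), hy⟩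
  have hdisj : A ⊓ (W' ⊓ Y) = ⊥ := by
    rw [Submodule.eq_bot_iff]
    intro x hx
    exact Submodule.disjoint_def.1 (hI.isCompl_perp (hf.pairs_nondeg hP)).disjoint x (hAX hx.1)
      hx.2.2
  have h1 := Submodule.finrank_sup_add_finrank_inf_eq A (W' ⊓ Y)
  rw [← hdec, hdisj, finrank_bot, add_zero] at h1
  have h2 : finrank F W' = finrank F W := LinearEquiv.finrank_map_eq _ _
  omega

variable [Fintype F] {q : ℕ} (hF : Fintype.card F = q)
include hF

/-- The vectors of norm one. -/
theorem card_norm_one_mul : (q - 1) * Nat.card {x : V // Q x = 1} + zeroCount Q =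
    q ^ finrank F V := by
  classical
  have : Finite V := Module.finite_of_finite F
  have := Fintype.ofFinite V
  choose s hs using fun a : F => exists_sq_of_two_eq_zero (two_eq_zero_of_charTwo (F := F)) a
  have hs0 : ∀ a, a ≠ 0 → s a ≠ 0 := fun a ha h => ha (by rw [← hs a, h]; simp)
  have e : {a : F // a ≠ 0} × {x : V // Q x = 1} ≃ {x : V // ¬ Q x = 0} :=
    { toFun := fun p => ⟨s p.1 • (p.2 : V), by
        rw [QuadraticMap.map_smul, p.2.2, smul_eq_mul, mul_one, ← sq, hs]; exact p.1.2⟩
      invFun := fun x => (⟨Q x, x.2⟩, ⟨(s (Q x))⁻¹ • (x : V), by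
        rw [QuadraticMap.map_smul, smul_eq_mul, ← mul_inv, ← sq, hs, inv_mul_cancel₀ x.2]⟩)
      left_inv := fun p => by
        have h1 : Q (s p.1 • (p.2 : V)) = p.1 := by
          rw [QuadraticMap.map_smul, p.2.2, smul_eq_mul, mul_one, ← sq, hs]
        refine Prod.ext (Subtype.ext h1) (Subtype.ext ?_)
        change (s (Q (s p.1 • (p.2 : V))))⁻¹ • s p.1 • (p.2 : V) = _
        rw [h1, smul_smul, inv_mul_cancel₀ (hs0 _ p.1.2), one_smul]
      right_inv := fun x => Subtype.ext (by
        change s (Q x) • (s (Q x))⁻¹ • (x : V) = _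
        rw [smul_smul, mul_inv_cancel₀ (hs0 _ x.2), one_smul]) }
  have h1 : Nat.card {a : F // a ≠ 0} = q - 1 := by
    rw [Nat.card_eq_fintype_card, Fintype.card_subtype_compl, Fintype.card_subtype_eq, hF]
  rw [← h1, ← Nat.card_prod, Nat.card_congr e, zeroCount, ← Nat.card_sum,
    ← natCard_eq_pow (V := V) hF]
  exact Nat.card_congr ((Equiv.sumComm _ _).trans (Equiv.sumCompl fun x : V => Q x = 0))

theorem card_ufam_one_quad :
    Nat.card {u : Fin 1 → V // IsUFam (QuadraticMap.polarBilin Q) Q 1 u} =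
      Nat.card {x : V // Q x = 1} :=
  Nat.card_congr
    { toFun := fun u => ⟨u.1 0, u.2.2.2 0⟩
      invFun := fun x => ⟨fun _ => x.1,
        linearIndependent_unique_iff.2 fun h => by
          have := x.2
          rw [show (x.1 : V) = 0 from h, map_zero] at this
          exact zero_ne_one this,
        fun _ _ => by
          rw [QuadraticMap.polarBilin_apply_apply, QuadraticMap.polar_self, two_nsmul,
            CharTwo.add_self_eq_zero],
        fun _ => x.2⟩
      left_inv := fun u => Subtype.ext (funext fun i => by fin_cases i; rfl)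
      right_inv := fun x => rfl }

theorem card_ufam_two_quad (hQ : (QuadraticMap.polarBilin Q).Nondegenerate) :
    Nat.card {u : Fin 2 → V // IsUFam (QuadraticMap.polarBilin Q) Q 1 u} =
      Nat.card {x : V // Q x = 1} * (q ^ (finrank F V - 2) - 1) := by
  classical
  have : Finite V := Module.finite_of_finite F
  have := Fintype.ofFinite V
  set B := QuadraticMap.polarBilin Q with hB
  have hP : IsQuadPair B Q 1 := isQuadPair_quad Q hQ
  let S := fun x : {x : V // Q x = 1} => {y : V // (B x.1 y = 0 ∧ Q y = 1) ∧ y ≠ x.1}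
  have hne : ∀ x : {x : V // Q x = 1}, x.1 ≠ 0 := fun x h => by
    have := x.2
    rw [h, map_zero] at this
    exact zero_ne_one this
  have heq : {u : Fin 2 → V // IsUFam B Q 1 u} ≃ Σ x : {x : V // Q x = 1}, S x :=
    { toFun := fun u => ⟨⟨u.1 0, u.2.2.2 0⟩, u.1 1, ⟨u.2.2.1 0 1, u.2.2.2 1⟩, fun h => by
        have := u.2.1.injective h
        simp at this⟩
      invFun := fun p => ⟨![p.1.1, p.2.1], (LinearIndependent.pair_iff' (hne p.1)).2 fun a ha => by
          have h1 := congrArg Q ha
          rw [QuadraticMap.map_smul, p.1.2, p.2.2.1.2, smul_eq_mul, mul_one, ← sq] at h1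
          have h2 : a = 1 := sq_injective_two (by rw [h1, one_pow])
          rw [h2, one_smul] at ha
          exact p.2.2.2 ha.symm,
        fun i j => by
          fin_cases i <;> fin_cases j
          · exact hP.alt _
          · exact p.2.2.1.1
          · exact (hP.symm _ _).trans p.2.2.1.1
          · exact hP.alt _,
        fun i => by fin_cases i <;> [exact p.1.2; exact p.2.2.1.2]⟩
      left_inv := fun u => Subtype.ext (funext fun i => by fin_cases i <;> rfl)
      right_inv := fun p => rfl }
  have hS : ∀ x, Nat.card (S x) = q ^ (finrank F V - 2) - 1 := by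
    intro x
    have hker : finrank F (LinearMap.ker (B x.1)) + 1 = finrank F V := by
      obtain ⟨d, hd⟩ := hP.form.exists_pairing (hne x) 1
      have h1 := LinearMap.finrank_range_add_finrank_ker (B x.1)
      rw [LinearMap.range_eq_top.2 fun a => ⟨a • d, by simp [hd]⟩, finrank_top, finrank_self] at h1
      omega
    let T := {y : V // B x.1 y = 0 ∧ Q y = 1}
    have hT : LinearMap.ker (B x.1) ≃ T × F :=
      { toFun := fun y => (⟨(y : V) + (1 + (exists_sq_of_two_eq_zero two_eq_zero_of_charTwo
            (Q (y : V))).choose) • x.1, by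
          have hy : B x.1 (y : V) = 0 := LinearMap.mem_ker.1 y.2
          refine ⟨by rw [map_add, map_smul, hP.alt, smul_zero, add_zero, hy], ?_⟩
          rw [hP.add, hP.smul, x.2, map_smul, hP.symm, hy, smul_zero, mul_zero, CharTwo.add_sq,
            (exists_sq_of_two_eq_zero two_eq_zero_of_charTwo (Q (y : V))).choose_spec, one_pow]
          linear_combination (Q (y : V)) * two_eq_zero_of_charTwo (F := F)⟩,
          1 + (exists_sq_of_two_eq_zero two_eq_zero_of_charTwo (Q (y : V))).choose)
        invFun := fun p => ⟨(p.1 : V) + p.2 • x.1, by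
          rw [LinearMap.mem_ker, map_add, p.1.2.1, map_smul, hP.alt, smul_zero, add_zero]⟩
        left_inv := fun y => Subtype.ext (by
          simp only [add_assoc, ← add_smul, CharTwo.add_self_eq_zero, zero_smul, add_zero])
        right_inv := fun p => by
          have h2 : ((exists_sq_of_two_eq_zero (two_eq_zero_of_charTwo (F := F))
              (Q ((p.1 : V) + p.2 • x.1)))).choose = 1 + p.2 := by
            refine sq_injective_two ?_
            rw [(exists_sq_of_two_eq_zero (two_eq_zero_of_charTwo (F := F))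
              (Q ((p.1 : V) + p.2 • x.1))).choose_spec, hP.add, hP.smul, x.2, p.1.2.2,
              map_smul, hP.symm (p.1 : V), p.1.2.1, smul_zero, mul_zero, CharTwo.add_sq]
            simp
          simp only [h2, ← add_assoc, CharTwo.add_self_eq_zero, zero_add]
          refine Prod.ext (Subtype.ext ?_) rfl
          simp only [add_assoc, ← add_smul, CharTwo.add_self_eq_zero, zero_smul, add_zero] }
    have h1 := Nat.card_congr hT
    rw [natCard_eq_pow hF, Nat.card_prod, Nat.card_eq_fintype_card (α := F), hF] at h1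
    have h2 : Nat.card T = 1 + Nat.card (S x) := by
      have e : T ≃ Option (S x) :=
        { toFun := fun y => if h : (y : V) = x.1 then none else some ⟨y, y.2, h⟩
          invFun := fun y => y.elim ⟨x.1, hP.alt _, x.2⟩ fun y => ⟨y.1, y.2.1⟩
          left_inv := fun y => by
            by_cases h : (y : V) = x.1
            · simp only [h, ↓reduceDIte, Option.elim_none]
              exact Subtype.ext h.symm
            · simp [h]
          right_inv := fun y => by
            cases y with
            | none => simp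
            | some y => simp [y.2.2] }
      rw [Nat.card_congr e, Finite.card_option, add_comm]
    have hq : 2 ≤ q := hF ▸ Fintype.one_lt_card
    have hk0 : 1 ≤ finrank F (LinearMap.ker (B x.1)) :=
      Nat.pos_of_ne_zero fun h => by
        have hx : x.1 ∈ LinearMap.ker (B x.1) := LinearMap.mem_ker.2 (hP.alt _)
        rw [Submodule.finrank_eq_zero.1 h, Submodule.mem_bot] at hx
        exact hne x hx
    rw [show finrank F (LinearMap.ker (B x.1)) = finrank F V - 2 + 1 by omega, pow_succ] at h1
    have h3 := mul_right_cancel₀ (by omega) h1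
    omega
  rw [Nat.card_congr heq, Nat.card_sigma, Finset.sum_congr rfl fun x _ => hS x, Finset.sum_const,
    Finset.card_univ, ← Nat.card_eq_fintype_card, smul_eq_mul]

/-- Counts in a hyperbolic space. -/
theorem hyperbolic_counts (hQ : (QuadraticMap.polarBilin Q).Nondegenerate) {W : Submodule F V}
    (hW : ∀ w ∈ W, Q w = 0) {l : ℕ} (hl : finrank F W = l) (hd : finrank F V = 2 * l) :
    Nat.card (orthGroup Q) * (q ^ l + 1) =
        2 * (q ^ (l * (l - 1)) * ∏ i ∈ Finset.range l, (q ^ (2 * (i + 1)) - 1)) ∧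
      (1 ≤ l → Nat.card {x : V // Q x = 1} = q ^ (l - 1) * (q ^ l - 1)) := by
  have h := quadType_of_core hF hQ (isSingularCore_of_half hQ hW (by omega))
  rw [hl, hd, Nat.sub_self] at h
  rcases h with h | h | h
  · refine ⟨h.2.2, fun hl1 => ?_⟩
    have hN := card_norm_one_mul (Q := Q) hF
    rw [hd] at hN
    obtain ⟨j, rfl⟩ : ∃ j, l = j + 1 := ⟨l - 1, by omega⟩
    rw [Nat.add_sub_cancel]
    obtain ⟨a, rfl⟩ : ∃ a, q = a + 1 :=
      ⟨q - 1, by have := Fintype.card_pos (α := F); omega⟩
    have hZ := h.2.1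
    obtain ⟨b, hb⟩ : ∃ b, (a + 1) ^ (j + 1) = b + 1 :=
      ⟨(a + 1) ^ (j + 1) - 1, by have := Nat.one_le_pow (j + 1) (a + 1) (by omega); omega⟩
    rw [hb, Nat.add_sub_cancel]
    rw [Nat.add_sub_cancel] at hN
    have ha : a ≠ 0 := fun h0 => by
      have := Fintype.one_lt_card (α := F)
      omega
    -- multiply by `a (a + 1)`
    refine mul_left_cancel₀ (mul_ne_zero ha (by omega : a + 1 ≠ 0)) ?_
    have h2 : (a + 1) ^ (2 * (j + 1)) = (b + 1) * (b + 1) := by rw [two_mul, pow_add, hb]
    have h3 : (a + 1) ^ (j + 1 + 1) = (b + 1) * (a + 1) := by rw [pow_succ, hb]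
    have h4 : (a + 1) ^ j * (a + 1) = b + 1 := by rw [← pow_succ, hb]
    rw [hb, h2, h3] at hZ
    rw [h2] at hN
    zify at hZ hN h4 ⊢
    linear_combination ((a : ℤ) + 1) * hN - hZ - (a : ℤ) * b * h4
  · exact absurd h.1 (by omega)
  · exact absurd h.1 (by omega)

/-- The centraliser of an involution of a hyperbolic orthogonal group, of type `(k, r)`. -/
theorem card_involCent_plus (hQ : (QuadraticMap.polarBilin Q).Nondegenerate) {W : Submodule F V}
    (hW : ∀ w ∈ W, Q w = 0) {m : ℕ} (hm : finrank F W = m) (hV : finrank F V = 2 * m)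
    {n : V →ₗ[F] V} (hn : IsInvolTwo (QuadraticMap.polarBilin Q) Q 1 n) {k r : ℕ} (hr : r ≤ 2)
    (hdim : finrank F (LinearMap.range n) = 2 * k + r) {f : CfgIdx k r → V}
    (hf : IsAdapted (QuadraticMap.polarBilin Q) Q 1 n f) :
    ∃ L S U O : ℕ, L + 2 * k = m ∧ 2 * k + r ≤ m ∧
      2 * S + (2 * k) * (2 * k) = 2 * (2 * k * (2 * m - (2 * k + r) - 1)) + 2 * k ∧
      Nat.card (involCent (QuadraticMap.polarBilin Q) Q n) * U =
        (if r = 2 then q ^ (2 * k + 1) else 1) * sympOrd q k * q ^ S * O ∧
      O * (q ^ L + 1) = 2 * (q ^ (L * (L - 1)) * ∏ i ∈ Finset.range L, (q ^ (2 * (i + 1)) - 1)) ∧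
      (r = 0 → U = 1) ∧ (r = 1 → U = q ^ (L - 1) * (q ^ L - 1)) ∧
      (r = 2 → U = q ^ (L - 1) * (q ^ L - 1) * (q ^ (2 * L - 2) - 1)) := by
  have hP : IsQuadPair (QuadraticMap.polarBilin Q) Q (1 : F) := isQuadPair_quad Q hQ
  have hle := hn.two_mul_rank_le
  have hker := hn.finrank_ker
  rw [hV] at hle hker
  obtain ⟨C, hC0, hCY, hCd⟩ := hf.toIsCfg.exists_half_singular hQ hW (by omega)
  have hD := hf.toIsCfg.finrank_perp_add hP
  rw [hV] at hD
  set Y := perp (QuadraticMap.polarBilin Q) (cfgSpan F f) with hY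
  have hI := hP.form.restrict (hP.form.perp_nondeg (hf.toIsCfg.pairs_nondeg hP))
  let QY : QuadraticForm F Y := Q.comp Y.subtype
  have hQY : (QuadraticMap.polarBilin QY).Nondegenerate :=
    ⟨fun x h => hI.nondeg x fun y => h y, fun x h => hI.nondeg_right x fun y => h y⟩
  have hdC : finrank F (C.comap Y.subtype) = finrank F C := by
    rw [← Submodule.finrank_map_subtype_eq Y, Submodule.map_comap_subtype, inf_of_le_right hCY]
  obtain ⟨hO, hM⟩ := hyperbolic_counts hF hQY (W := C.comap Y.subtype)
    (fun w hw => hC0 (w : V) hw) (l := finrank F C) hdC (by omega)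
  refine ⟨finrank F C, ∑ i ∈ Finset.range (k + k), (finrank F (LinearMap.ker n) - i - 1), _, _,
    by omega, by omega, ?_, (card_involCent' hF hP hn (Or.inl ⟨rfl, rfl⟩) hr hdim hf),
    hO, fun h => ?_, fun h => ?_, fun h => ?_⟩
  · have h1 := two_mul_sum_sub (finrank F (LinearMap.ker n)) 1 (k + k) (by omega)
    rw [← two_mul] at h1
    rw [← two_mul, h1, show finrank F (LinearMap.ker n) = 2 * m - (2 * k + r) by omega]
  · subst h; exact card_ufam_zero _ _ _
  · subst h
    refine (card_ufam_one_quad (Q := QY) hF).trans (hM (by omega))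
  · subst h
    refine (card_ufam_two_quad (Q := QY) hF hQY).trans ?_
    rw [hM (by omega), show finrank F Y - 2 = 2 * finrank F C - 2 by omega]

end Cfsg.Agent.Forms
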