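import Cfsg.Agent.Forms.InvolTwoOrth

/-!
# Classes of involutions of `O^±_{2m}(q)` and of `Ω^±_{2m}(q)`, `q` even
-/

set_option autoImplicit false
set_option linter.unusedSectionVars false

namespace Cfsg.Agent.Forms

open Module

section Groups

/-- Isomorphic groups have equally many classes of involutions. -/
theorem card_involution_classes_congr {G H : Type*} [Group G] [Group H] (e : G ≃* H) :
    Nat.card {C : ConjClasses G // ∃ g : G, ConjClasses.mk g = C ∧ orderOf g = 2} =
      Nat.card {C : ConjClasses H // ∃ g : H, ConjClasses.mk g = C ∧ orderOf g = 2} := by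
  refine Nat.card_congr (Equiv.ofBijective (fun C => ⟨ConjClasses.map e.toMonoidHom C.1, ?_⟩)
    ⟨fun C D h => ?_, ?_⟩)
  · obtain ⟨g, hg, hg2⟩ := C.2
    exact ⟨e g, by rw [← hg]; rfl, by rw [MulEquiv.orderOf_eq, hg2]⟩
  · obtain ⟨g, hg, -⟩ := C.2
    obtain ⟨g', hg', -⟩ := D.2
    have h1 := congrArg Subtype.val h
    simp only [← hg, ← hg'] at h1
    have h2 := e.symm.toMonoidHom.map_isConj (ConjClasses.mk_eq_mk_iff_isConj.1 h1)
    change IsConj (e.symm (e g)) (e.symm (e g')) at h2
    rw [e.symm_apply_apply, e.symm_apply_apply] at h2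
    exact Subtype.ext (hg.symm.trans ((ConjClasses.mk_eq_mk_iff_isConj.2 h2).trans hg'))
  · rintro ⟨C, g, rfl, hg⟩
    refine ⟨⟨ConjClasses.mk (e.symm g), e.symm g, rfl, by rw [MulEquiv.orderOf_eq, hg]⟩,
      Subtype.ext ?_⟩
    change ConjClasses.mk (e (e.symm g)) = _
    rw [e.apply_symm_apply]

/-- Classes of involutions in a subgroup of index two. -/
theorem card_inner_classes {G : Type*} [Group G] [Finite G] {K : Subgroup G} (hK : K.index = 2)
    {I : Type*} [Finite I] (r : I → G) (hrK : ∀ i, r i ∈ K) (hr2 : ∀ i, orderOf (r i) = 2)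
    (hinj : ∀ i j, IsConj (r i) (r j) → i = j)
    (hcov : ∀ g ∈ K, orderOf g = 2 → ∃ i, IsConj (r i) g) :
    Nat.card {C : ConjClasses K // ∃ g : K, ConjClasses.mk g = C ∧ orderOf g = 2} =
      Nat.card I + Nat.card {i : I // ∀ g : G, g * r i = r i * g → g ∈ K} := by
  obtain ⟨h, hh⟩ : ∃ h, h ∉ K := by
    by_contra hc
    push Not at hc
    rw [(Subgroup.eq_top_iff' K).2 hc, Subgroup.index_top] at hK
    omega
  have hnormal : K.Normal := Subgroup.normal_of_index_eq_two hK
  let rep : I ⊕ {i : I // ∀ g : G, g * r i = r i * g → g ∈ K} → K :=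
    Sum.elim (fun i => ⟨r i, hrK i⟩) fun i => ⟨h * r i.1 * h⁻¹, hnormal.conj_mem _ (hrK i.1) h⟩
  have hrep2 : ∀ x, orderOf (rep x) = 2 := by
    rintro (i | i) <;> rw [← Subgroup.orderOf_coe]
    · exact hr2 i
    · exact ((MulAut.conj h).orderOf_eq (r i.1)).trans (hr2 i.1)
  have hG : ∀ {a b : K}, IsConj a b → IsConj (a : G) b := fun hab => K.subtype.map_isConj hab
  rw [← Nat.card_sum]
  refine (Nat.card_congr (Equiv.ofBijective
    (fun x => (⟨ConjClasses.mk (rep x), rep x, rfl, hrep2 x⟩ :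
      {C : ConjClasses K // ∃ g : K, ConjClasses.mk g = C ∧ orderOf g = 2})) ⟨?_, ?_⟩)).symm
  · have hout : ∀ (i : I) (j : {i : I // ∀ g : G, g * r i = r i * g → g ∈ K}),
        ¬ IsConj (rep (Sum.inl i)) (rep (Sum.inr j)) := by
      intro i j hij
      have h1 : IsConj (r i) (h * r j.1 * h⁻¹) := hG hij
      obtain rfl := hinj i j.1 (h1.trans (isConj_iff.2 ⟨h⁻¹, by group⟩))
      obtain ⟨k, hk⟩ := isConj_iff.1 hij
      have h2 : (k : G) * r j.1 * (k : G)⁻¹ = h * r j.1 * h⁻¹ := congrArg Subtype.val hk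
      have h3 : (h⁻¹ * (k : G)) * r j.1 = r j.1 * (h⁻¹ * (k : G)) := by
        calc h⁻¹ * (k : G) * r j.1 = h⁻¹ * ((k : G) * r j.1 * (k : G)⁻¹) * (k : G) := by group
          _ = h⁻¹ * (h * r j.1 * h⁻¹) * (k : G) := by rw [h2]
          _ = r j.1 * (h⁻¹ * (k : G)) := by group
      have h4 := (K.mul_mem_cancel_right k.2).1 (j.2 _ h3)
      exact hh (inv_inv h ▸ K.inv_mem h4)
    rintro (i | i) (j | j) hij <;>
      have h1 := ConjClasses.mk_eq_mk_iff_isConj.1 (congrArg Subtype.val hij)
    · exact congrArg Sum.inl (hinj i j (hG h1))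
    · exact absurd h1 (hout i j)
    · exact absurd h1.symm (hout j i)
    · have h2 : IsConj (h * r i.1 * h⁻¹) (h * r j.1 * h⁻¹) := hG h1
      exact congrArg Sum.inr (Subtype.ext (hinj _ _ ((isConj_iff.2 ⟨h, rfl⟩ : IsConj (r i.1)
        (h * r i.1 * h⁻¹)).trans (h2.trans (isConj_iff.2 ⟨h⁻¹, by group⟩)))))
  · rintro ⟨C, g, rfl, hg⟩
    obtain ⟨i, hi⟩ := hcov g g.2 (by rw [Subgroup.orderOf_coe]; exact hg)
    obtain ⟨k, hk⟩ := isConj_iff.1 hi
    suffices ∃ x, IsConj (rep x) g by
      obtain ⟨x, hx⟩ := this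
      exact ⟨x, Subtype.ext (ConjClasses.mk_eq_mk_iff_isConj.2 hx)⟩
    by_cases hkK : k ∈ K
    · exact ⟨Sum.inl i, isConj_iff.2 ⟨⟨k, hkK⟩, Subtype.ext hk⟩⟩
    by_cases hC : ∀ x : G, x * r i = r i * x → x ∈ K
    · refine ⟨Sum.inr ⟨i, hC⟩, isConj_iff.2 ⟨⟨k * h⁻¹,
        (Subgroup.mul_mem_iff_of_index_two hK).2 (by simp [hh, hkK])⟩, Subtype.ext ?_⟩⟩
      change k * h⁻¹ * (h * r i * h⁻¹) * (k * h⁻¹)⁻¹ = (g : G)
      rw [← hk]; group
    · push Not at hC
      obtain ⟨x, hx, hxK⟩ := hC
      refine ⟨Sum.inl i, isConj_iff.2 ⟨⟨k * x,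
        (Subgroup.mul_mem_iff_of_index_two hK).2 (by simp [hxK, hkK])⟩, Subtype.ext ?_⟩⟩
      change k * x * r i * (k * x)⁻¹ = (g : G)
      rw [← hk, show k * x * r i = k * r i * x by rw [mul_assoc k x, hx, mul_assoc]]
      group

end Groups

variable {F V : Type*} [Field F] [CharP F 2] [AddCommGroup V] [Module F V] [FiniteDimensional F V]
  {Q : QuadraticForm F V}

theorem commute_iff_involCent_orth (g k : orthGroup Q) :
    k * g = g * k ↔ k ∈ involCent (QuadraticMap.polarBilin Q) Q (isomNil g) := by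
  refine ⟨fun h => intertwine_of_conj h, fun h => orth_ext fun v => ?_⟩
  have h1 := h v
  rw [isomNil_apply, isomNil_apply, map_sub] at h1
  exact sub_left_injective h1

/-- The types of even rank: `(2(j+1), ·)`. -/
def typeIdxEven (a b : ℕ) : Fin a ⊕ Fin b → ℕ × Bool :=
  Sum.elim (fun j => (2 * ((j : ℕ) + 1), false)) fun j => (2 * ((j : ℕ) + 1), true)

/-- The even type among all types. -/
def evenEmb {a' a b : ℕ} (h : 2 * a' ≤ a) : Fin a' ⊕ Fin b → Fin a ⊕ Fin b :=
  Sum.map (fun j => ⟨2 * (j : ℕ) + 1, by omega⟩) id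

theorem typeIdx_evenEmb {a' a b : ℕ} (h : 2 * a' ≤ a) (i : Fin a' ⊕ Fin b) :
    typeIdx a b (evenEmb h i) = typeIdxEven a' b i := by
  rcases i with j | j <;> simp [evenEmb, typeIdx, typeIdxEven] <;> omega

theorem typeIdxEven_injective (a b : ℕ) : Function.Injective (typeIdxEven a b) := by
  rintro (i | i) (j | j) h <;>
    simp only [typeIdxEven, Sum.elim_inl, Sum.elim_inr, Prod.mk.injEq] at h
  · exact congrArg Sum.inl (Fin.ext (by omega))
  · exact absurd h.2 (by simp)
  · exact absurd h.2 (by simp)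
  · exact congrArg Sum.inr (Fin.ext (by omega))

/-- The families needed to realise all types. -/
def HasFamilies (Q : QuadraticForm F V) (a b : ℕ) : Prop :=
  (∃ u : Fin a → V, LinearIndependent F u ∧ (∀ i j, QuadraticMap.polar Q (u i) (u j) = 0) ∧
      ∀ i, Q (u i) = 1) ∧
    ∃ z : Fin (2 * b) → V, LinearIndependent F z ∧ ∀ x ∈ Submodule.span F (Set.range z), Q x = 0

variable [Finite F]

theorem exists_orth_type (hQ : (QuadraticMap.polarBilin Q).Nondegenerate) {a b : ℕ}
    (h : HasFamilies Q a b) (i : Fin a ⊕ Fin b) :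
    ∃ g : orthGroup Q, orderOf g = 2 ∧ IsTypeTwo g (typeIdx a b i) := by
  obtain ⟨⟨u, hu, huu, huN⟩, z, hz, hz0⟩ := h
  have hzm : ∀ j, z j ∈ Submodule.span F (Set.range z) := fun j => Submodule.subset_span ⟨j, rfl⟩
  exact exists_invol_typeIdx (isQuadPair_quad Q hQ) hu huu huN hz
    (fun j l => polar_zero_of_singular hz0 (hzm j) (hzm l)) (fun j => hz0 _ (hzm j)) i

/-- Classes of involutions of an orthogonal group. -/
theorem card_classes_orth (hQ : (QuadraticMap.polarBilin Q).Nondegenerate) {a b : ℕ}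
    (h : HasFamilies Q a b) (ha : finrank F V ≤ 2 * a + 1)
    (hb : ∀ U : Submodule F V, (∀ w ∈ U, Q w = 0) → finrank F U ≤ 2 * b + 1) :
    Nat.card {C : ConjClasses (orthGroup Q) //
      ∃ g : orthGroup Q, ConjClasses.mk g = C ∧ orderOf g = 2} = a + b := by
  have hP := isQuadPair_quad Q hQ
  rw [card_involution_classes hP (MulEquiv.refl _) (typeIdx a b) (typeIdx_injective a b)
    (exists_orth_type hQ h) ?_]
  · simp
  · intro g hg
    have hn := isomNil_isInvol hP (g := g) (by rw [← hg]; exact pow_orderOf_eq_one g)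
    have h1 := hn.two_mul_rank_le
    exact exists_typeIdx hP hg (by omega) fun halt =>
      hb _ (by rintro _ ⟨v, rfl⟩; exact (alt_iff_norm hn).1 halt v)

/-- Classes of involutions of the commutator subgroup of an orthogonal group. -/
theorem card_classes_omega (hQ : (QuadraticMap.polarBilin Q).Nondegenerate)
    (hgen : Subgroup.closure (reflectionSet Q) = ⊤) (hn1 : 1 ≤ finrank F V) {a a' b : ℕ}
    (h : HasFamilies Q a b) (ha' : 2 * a' ≤ a) (ha : finrank F V ≤ 4 * a' + 3)
    (hb : ∀ U : Submodule F V, (∀ w ∈ U, Q w = 0) → finrank F U ≤ 2 * b + 1) :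
    Nat.card {C : ConjClasses (commutator (orthGroup Q)) //
      ∃ g : commutator (orthGroup Q), ConjClasses.mk g = C ∧ orderOf g = 2} =
      a' + b + Nat.card {j : Fin b // 4 * ((j : ℕ) + 1) = finrank F V} := by
  have : Finite V := Module.finite_of_finite F
  have hP := isQuadPair_quad Q hQ
  have hK := (commutator_index_two_of_gen two_eq_zero_of_charTwo hQ hgen hn1).1
  have hmem := mem_commutator_iff_even hQ hgen hn1
  choose r hr2 hrT using fun i : Fin a' ⊕ Fin b => exists_orth_type hQ h (evenEmb ha' i)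
  simp only [typeIdx_evenEmb] at hrT
  have hsq : ∀ i, r i ^ 2 = 1 := fun i => by rw [← hr2 i]; exact pow_orderOf_eq_one _
  rw [card_inner_classes hK r ?_ hr2 ?_ ?_]
  · have hspec : ∀ i : Fin a' ⊕ Fin b,
        (∀ g : orthGroup Q, g * r i = r i * g → g ∈ commutator (orthGroup Q)) ↔
          ∃ j : Fin b, i = Sum.inr j ∧ 4 * ((j : ℕ) + 1) = finrank F V := by
      intro i
      have hn := isomNil_isInvol hP (hsq i)
      obtain ⟨h1, h2⟩ := hrT i
      constructor
      · intro hC
        rcases i with j | j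
        · exfalso
          obtain ⟨g, hg, hgK⟩ := exists_notMem_commutator hQ hgen hn1 hn
            (Or.inl fun halt => by simpa [typeIdxEven] using h2.1 halt)
          exact hgK (hC g ((commute_iff_involCent_orth _ _).2 hg))
        · refine ⟨j, rfl, ?_⟩
          by_contra hne
          have h3 := hn.two_mul_rank_le
          simp only [typeIdxEven, Sum.elim_inr] at h1
          obtain ⟨g, hg, hgK⟩ := exists_notMem_commutator hQ hgen hn1 hn (Or.inr (by omega))
          exact hgK (hC g ((commute_iff_involCent_orth _ _).2 hg))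
      · rintro ⟨j, rfl, hj⟩ g hg
        simp only [typeIdxEven, Sum.elim_inr] at h1 h2
        exact involCent_le_commutator hQ hgen hn1 hn (h2.2 trivial) (by omega)
          ((commute_iff_involCent_orth _ _).1 hg)
    rw [Nat.card_sum, Nat.card_fin, Nat.card_fin]
    congr 1
    refine (Nat.card_congr (Equiv.ofBijective
      (fun j : {j : Fin b // 4 * ((j : ℕ) + 1) = finrank F V} =>
        (⟨Sum.inr j.1, (hspec _).2 ⟨j.1, rfl, j.2⟩⟩ :
          {i // ∀ g : orthGroup Q, g * r i = r i * g → g ∈ commutator (orthGroup Q)}))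
      ⟨fun x y e => ?_, ?_⟩)).symm
    · exact Subtype.ext (Sum.inr_injective (congrArg Subtype.val e))
    · rintro ⟨i, hi⟩
      obtain ⟨j, rfl, hj⟩ := (hspec i).1 hi
      exact ⟨⟨j, hj⟩, rfl⟩
  · intro i
    rw [hmem, (hrT i).1]
    rcases i with j | j <;> simp [typeIdxEven]
  · intro i j hij
    obtain ⟨h3, h4⟩ := isConj_invariants hij
    refine typeIdxEven_injective _ _ (Prod.ext ?_ (Bool.eq_iff_iff.2 ?_))
    · rw [← (hrT i).1, h3, (hrT j).1]
    · rw [← (hrT i).2, h4, (hrT j).2]
  · intro g hgK hg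
    have hg2 : g ^ 2 = 1 := by rw [← hg]; exact pow_orderOf_eq_one g
    have hn := isomNil_isInvol hP hg2
    have h1 := hn.two_mul_rank_le
    have h2 := isomNil_rank_pos (g := g) fun e => by rw [e, orderOf_one] at hg; omega
    have h3 := (hmem g).1 hgK
    rw [Nat.even_iff] at h3
    set s := finrank F (LinearMap.range (isomNil g)) with hs
    obtain ⟨i, hi⟩ : ∃ i, IsTypeTwo g (typeIdxEven a' b i) := by
      by_cases halt : IsAltInvol (QuadraticMap.polarBilin Q) (isomNil g)
      · have h4 := hb (LinearMap.range (isomNil g))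
          (by rintro _ ⟨v, rfl⟩; exact (alt_iff_norm hn).1 halt v)
        exact ⟨Sum.inr ⟨s / 2 - 1, by omega⟩, by simp only [typeIdxEven, Sum.elim_inr]; omega,
          by simp [typeIdxEven, halt]⟩
      · exact ⟨Sum.inl ⟨s / 2 - 1, by omega⟩, by simp only [typeIdxEven, Sum.elim_inl]; omega,
          by simp [typeIdxEven, halt]⟩
    exact ⟨i, isConj_of_invariants hP (hsq i) hg2 (by rw [(hrT i).1, hi.1]) (by rw [(hrT i).2, hi.2])⟩

/-! ### The two models -/

section Models

variable {F : Type*} [Field F] [CharP F 2]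

theorem polar_qPlus_charTwo (m : ℕ) (u v : Fin m ⊕ Fin m → F) : QuadraticMap.polar (qPlus m F) u v =
    ∑ i, (u (Sum.inl i) * v (Sum.inr i) + v (Sum.inl i) * u (Sum.inr i)) := by
  simp [QuadraticMap.polar, Cfsg.quadFormPlus, mul_add, add_mul, Finset.sum_add_distrib]
  ring

/-- The families for `O⁺`. -/
theorem hasFamilies_plus (m : ℕ) : HasFamilies (qPlus m F) m (m / 2) := by
  constructor
  · refine ⟨fun i => Pi.single (Sum.inl i) 1 + Pi.single (Sum.inr i) 1, ?_, fun i j => ?_,
      fun i => ?_⟩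
    · rw [Fintype.linearIndependent_iff]
      intro c hc i
      simpa [Pi.single_apply, Finset.sum_ite_eq] using congrFun hc (Sum.inl i)
    · rw [polar_qPlus_charTwo]
      rcases eq_or_ne i j with rfl | h
      · simp [Pi.single_apply, CharTwo.add_self_eq_zero]
      · refine Finset.sum_eq_zero fun l _ => ?_
        rcases eq_or_ne l i with rfl | h1
        · simp [h]
        · simp [h1]
    · simp [Cfsg.quadFormPlus, Pi.single_apply]
  · refine ⟨fun i => Pi.single (Sum.inl (Fin.castLE (Nat.mul_div_le m 2) i)) 1, ?_, ?_⟩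
    · have := ((Pi.basisFun F (Fin m ⊕ Fin m)).linearIndependent.comp _ Sum.inl_injective).comp _
        (Fin.castLE_injective (Nat.mul_div_le m 2))
      simpa [Function.comp_def] using this
    · intro x hx
      obtain ⟨c, rfl⟩ := (Submodule.mem_span_range_iff_exists_fun F).1 hx
      simp [Cfsg.quadFormPlus]

theorem polar_qMinus_charTwo (m : ℕ) (a b : F) (u v : (Fin m ⊕ Fin m) ⊕ Fin 2 → F) :
    QuadraticMap.polar (qMinus m F a b) u v =
    ∑ i, (u (Sum.inl (Sum.inl i)) * v (Sum.inl (Sum.inr i)) +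
        v (Sum.inl (Sum.inl i)) * u (Sum.inl (Sum.inr i))) +
      a * (u (Sum.inr 0) * v (Sum.inr 1) + v (Sum.inr 0) * u (Sum.inr 1)) := by
  simp [QuadraticMap.polar, Cfsg.quadFormMinus, mul_add, add_mul, Finset.sum_add_distrib]
  linear_combination (u (Sum.inr 0) * v (Sum.inr 0) + b * (u (Sum.inr 1) * v (Sum.inr 1))) *
    two_eq_zero_of_charTwo (F := F)

/-- The families for `O⁻`. -/
theorem hasFamilies_minus (m : ℕ) (a b : F) :
    HasFamilies (qMinus m F a b) (m + 1) (m / 2) := by
  constructor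
  · refine ⟨Fin.lastCases (Pi.single (Sum.inr 0) 1)
      (fun i => Pi.single (Sum.inl (Sum.inl i)) 1 + Pi.single (Sum.inl (Sum.inr i)) 1), ?_,
      fun i j => ?_, fun i => ?_⟩
    · rw [Fintype.linearIndependent_iff]
      intro c hc i
      induction i using Fin.lastCases with
      | last => simpa [Fin.sum_univ_castSucc, Pi.single_apply] using congrFun hc (Sum.inr 0)
      | cast i =>
        simpa [Fin.sum_univ_castSucc, Pi.single_apply] using congrFun hc (Sum.inl (Sum.inl i))
    · rw [polar_qMinus_charTwo]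
      induction i using Fin.lastCases with
      | last =>
        induction j using Fin.lastCases with
        | last => simp
        | cast j => simp
      | cast i =>
        induction j using Fin.lastCases with
        | last => simp
        | cast j =>
          rcases eq_or_ne i j with rfl | h
          · simp [Pi.single_apply, CharTwo.add_self_eq_zero]
          · simp only [Fin.lastCases_castSucc, Pi.add_apply, Pi.single_apply]
            rw [Finset.sum_eq_zero fun l _ => ?_]
            · simp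
            · rcases eq_or_ne l i with rfl | h1
              · simp [h]
              · simp [h1]
    · induction i using Fin.lastCases with
      | last => simp [Cfsg.quadFormMinus]
      | cast i => simp [Cfsg.quadFormMinus, Pi.single_apply]
  · refine ⟨fun i => Pi.single (Sum.inl (Sum.inl (Fin.castLE (Nat.mul_div_le m 2) i))) 1, ?_, ?_⟩
    · have := ((Pi.basisFun F ((Fin m ⊕ Fin m) ⊕ Fin 2)).linearIndependent.comp _
        (Sum.inl_injective.comp Sum.inl_injective)).comp _
        (Fin.castLE_injective (Nat.mul_div_le m 2))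
      simpa [Function.comp_def] using this
    · intro x hx
      obtain ⟨c, rfl⟩ := (Submodule.mem_span_range_iff_exists_fun F).1 hx
      simp [Cfsg.quadFormMinus]

theorem finrank_singular_plus {m : ℕ} {U : Submodule F (Fin m ⊕ Fin m → F)}
    (hU : ∀ w ∈ U, qPlus m F w = 0) : finrank F U ≤ m := by
  have h1 := (isForm_quadratic (qPlus m F) qPlus_nondegenerate).finrank_le_of_le_perp
    (singular_le_perp hU)
  simp at h1
  omega

theorem finrank_singular_minus [Finite F] {m : ℕ} {a b : F}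
    (hab : ∀ z₁ z₂ : F, z₁ ^ 2 + a * z₁ * z₂ + b * z₂ ^ 2 = 0 → z₁ = 0 ∧ z₂ = 0)
    {U : Submodule F ((Fin m ⊕ Fin m) ⊕ Fin 2 → F)} (hU : ∀ w ∈ U, qMinus m F a b w = 0) :
    finrank F U ≤ m := by
  have h1 := finrank_le_core (qMinus_nondegenerate a b (disc_ne_zero hab)) hU (qMinus_core m a b hab)
  rwa [coreSub, finrank_comap_equiv _ (Sum.inl_injective.comp Sum.inl_injective),
    Fintype.card_fin] at h1

variable {ι : Type} [Fintype ι] [DecidableEq ι] [Finite F]

/-- The commutator subgroups correspond. -/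
noncomputable def omegaEquivTwo (Q : QuadraticForm F (ι → F)) :
    Cfsg.Omega F ⇑Q ≃* commutator (orthGroup Q) :=
  subgroupEquivOfIff (isometryEquiv Q) _ _ (mem_omega_iff Q)

theorem card_classes_isometryGroup {Q : QuadraticForm F (ι → F)} {Q' : (ι → F) → F}
    (hQQ : ⇑Q = Q') (hQ : (QuadraticMap.polarBilin Q).Nondegenerate) {a b : ℕ}
    (h : HasFamilies Q a b) (ha : finrank F (ι → F) ≤ 2 * a + 1)
    (hb : ∀ U : Submodule F (ι → F), (∀ w ∈ U, Q w = 0) → finrank F U ≤ 2 * b + 1) :
    Nat.card {C : ConjClasses ↥(Cfsg.isometryGroup F Q') //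
      ∃ g : ↥(Cfsg.isometryGroup F Q'), ConjClasses.mk g = C ∧ orderOf g = 2} = a + b := by
  subst hQQ
  rw [card_involution_classes_congr (isometryEquiv Q)]
  exact card_classes_orth hQ h ha hb

theorem card_classes_Omega {Q : QuadraticForm F (ι → F)} {Q' : (ι → F) → F}
    (hQQ : ⇑Q = Q') (hQ : (QuadraticMap.polarBilin Q).Nondegenerate)
    (hgen : Subgroup.closure (reflectionSet Q) = ⊤) (hn1 : 1 ≤ finrank F (ι → F)) {a a' b : ℕ}
    (h : HasFamilies Q a b) (ha' : 2 * a' ≤ a) (ha : finrank F (ι → F) ≤ 4 * a' + 3)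
    (hb : ∀ U : Submodule F (ι → F), (∀ w ∈ U, Q w = 0) → finrank F U ≤ 2 * b + 1) :
    Nat.card {C : ConjClasses ↥(Cfsg.Omega F Q') //
      ∃ g : ↥(Cfsg.Omega F Q'), ConjClasses.mk g = C ∧ orderOf g = 2} =
      a' + b + Nat.card {j : Fin b // 4 * ((j : ℕ) + 1) = finrank F (ι → F)} := by
  subst hQQ
  rw [card_involution_classes_congr (omegaEquivTwo Q)]
  exact card_classes_omega hQ hgen hn1 h ha' ha hb

end Models

end Cfsg.Agent.Forms
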