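import Cfsg.Agent.Forms.Models
import Mathlib.GroupTheory.Perm.Basic

/-!
# The deleted permutation module over the field with two elements
-/

set_option autoImplicit false
set_option linter.unusedSectionVars false

namespace Cfsg.Agent.Forms

open Module

/-- A section of the even-weight vectors modulo the constant ones. -/
structure PermSection (ι : Type) (n : ℕ) where
  emb : (ι → ZMod 2) →ₗ[ZMod 2] (Fin n → ZMod 2)
  proj : (Fin n → ZMod 2) →ₗ[ZMod 2] (ι → ZMod 2)
  proj_emb : ∀ a, proj (emb a) = a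
  emb_even : ∀ a, ∑ i, emb a i = 0
  proj_one : proj 1 = 0
  proj_ker : ∀ v, ∑ i, v i = 0 → proj v = 0 → ∃ c : ZMod 2, v = c • 1

namespace PermSection

variable {ι : Type} {n : ℕ} (S : PermSection ι n)

/-- Permutation of coordinates. -/
def permAct (σ : Equiv.Perm (Fin n)) : (Fin n → ZMod 2) →ₗ[ZMod 2] (Fin n → ZMod 2) :=
  LinearMap.funLeft (ZMod 2) (ZMod 2) σ.symm

theorem sum_permAct (σ : Equiv.Perm (Fin n)) (v : Fin n → ZMod 2) :
    ∑ i, permAct σ v i = ∑ i, v i := Equiv.sum_comp σ.symm v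

theorem permAct_one_vec (σ : Equiv.Perm (Fin n)) : permAct σ (1 : Fin n → ZMod 2) = 1 := rfl

theorem eq_emb_proj_add {v : Fin n → ZMod 2} (hv : ∑ i, v i = 0) :
    ∃ c : ZMod 2, v = S.emb (S.proj v) + c • 1 := by
  obtain ⟨c, hc⟩ := S.proj_ker (v - S.emb (S.proj v))
    (by simp [Finset.sum_sub_distrib, S.emb_even, hv]) (by rw [map_sub, S.proj_emb, sub_self])
  exact ⟨c, by rw [← hc]; abel⟩

/-- The linear map of a permutation. -/
def rep (σ : Equiv.Perm (Fin n)) : (ι → ZMod 2) →ₗ[ZMod 2] (ι → ZMod 2) :=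
  S.proj ∘ₗ permAct σ ∘ₗ S.emb

theorem rep_mul (σ τ : Equiv.Perm (Fin n)) (a : ι → ZMod 2) :
    S.rep (σ * τ) a = S.rep σ (S.rep τ a) := by
  obtain ⟨c, hc⟩ := S.eq_emb_proj_add (v := permAct τ (S.emb a))
    (by rw [sum_permAct, S.emb_even])
  change S.proj (permAct σ (permAct τ (S.emb a))) = S.proj (permAct σ (S.emb _))
  conv_lhs => rw [hc, map_add, map_add, map_smul, map_smul, permAct_one_vec, S.proj_one, smul_zero,
    add_zero]
  rfl

theorem rep_one (a : ι → ZMod 2) : S.rep 1 a = a := S.proj_emb a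

/-- The representation. -/
def repHom : Equiv.Perm (Fin n) →* ((ι → ZMod 2) ≃ₗ[ZMod 2] (ι → ZMod 2)) where
  toFun σ := LinearEquiv.ofLinearMap (S.rep σ) (S.rep σ⁻¹)
    (LinearMap.ext fun a => by rw [LinearMap.comp_apply, ← rep_mul, mul_inv_cancel, rep_one]; rfl)
    (LinearMap.ext fun a => by rw [LinearMap.comp_apply, ← rep_mul, inv_mul_cancel, rep_one]; rfl)
  map_one' := LinearEquiv.ext fun a => S.rep_one a
  map_mul' σ τ := LinearEquiv.ext fun a => S.rep_mul σ τ a

theorem repHom_injective (hn : 5 ≤ n) : Function.Injective S.repHom := by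
  rw [← MonoidHom.ker_eq_bot_iff, Subgroup.eq_bot_iff_forall]
  intro σ hσ
  rw [MonoidHom.mem_ker] at hσ
  have key : ∀ a b : Fin n, a ≠ b → σ a = a ∨ σ a = b := by
    intro a b hab
    set v : Fin n → ZMod 2 := Pi.single a 1 + Pi.single b 1 with hv
    have hv0 : ∑ i, v i = 0 := by
      simp [hv, Finset.sum_add_distrib]
      decide
    obtain ⟨c₁, hc₁⟩ := S.eq_emb_proj_add hv0
    have h := congrArg (fun e : (ι → ZMod 2) ≃ₗ[ZMod 2] _ => e (S.proj v)) hσ
    change S.proj (permAct σ (S.emb (S.proj v))) = S.proj v at h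
    have h' : S.proj (permAct σ v) = S.proj v := by
      conv_lhs => rw [hc₁]
      rw [map_add, map_add, map_smul, map_smul, permAct_one_vec, S.proj_one, smul_zero, add_zero, h]
    obtain ⟨c, hc⟩ := S.proj_ker (permAct σ v - v)
      (by simp [Finset.sum_sub_distrib, sum_permAct, hv0]) (by rw [map_sub, h', sub_self])
    obtain ⟨d, hd⟩ : ∃ d, d ∉ ({a, b, σ a, σ b} : Finset (Fin n)) := by
      by_contra hcon
      push Not at hcon
      have h1 := Finset.card_le_card (s := Finset.univ) (fun x _ => hcon x)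
      rw [Finset.card_univ, Fintype.card_fin] at h1
      have h2 := (Finset.card_le_four (a := a) (b := b) (c := σ a) (d := σ b))
      omega
    simp only [Finset.mem_insert, Finset.mem_singleton, not_or] at hd
    have hd' : ∀ x, d ≠ σ x → σ.symm d ≠ x := fun x hx e => hx (by rw [← e, Equiv.apply_symm_apply])
    have hc0 : c = 0 := by
      have := congrFun hc d
      simp [permAct, LinearMap.funLeft_apply, hv, hd.1, hd.2.1, hd' a hd.2.2.1, hd' b hd.2.2.2]
        at this
      exact this.symm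
    have h3 := congrFun hc (σ a)
    rw [hc0, zero_smul, Pi.zero_apply, Pi.sub_apply, sub_eq_zero] at h3
    change v (σ.symm (σ a)) = v (σ a) at h3
    rw [Equiv.symm_apply_apply] at h3
    by_contra hcon
    push Not at hcon
    simp [hv, hab, hcon.1, hcon.2] at h3
  refine Equiv.ext fun a => ?_
  obtain ⟨b, hb⟩ : ∃ b, b ≠ a := Fintype.exists_ne_of_one_lt_card (by simp; omega) a
  obtain ⟨c, hc⟩ : ∃ c, c ∉ ({a, b} : Finset (Fin n)) := by
    by_contra hcon
    push Not at hcon
    have h1 := Finset.card_le_card (s := Finset.univ) (fun x _ => hcon x)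
    rw [Finset.card_univ, Fintype.card_fin] at h1
    have h2 := Finset.card_le_two (a := a) (b := b)
    omega
  simp only [Finset.mem_insert, Finset.mem_singleton, not_or] at hc
  rcases key a b hb.symm with h | h
  · exact h
  rcases key a c (Ne.symm hc.1) with h' | h'
  · exact h'
  exact absurd (h.symm.trans h') (Ne.symm hc.2)

/-- The number of pairs inside the support, modulo two, of an even vector. -/
def halfWeight (v : Fin n → ZMod 2) : ZMod 2 := (((∑ i, (v i).val) / 2 : ℕ) : ZMod 2)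

theorem halfWeight_permAct (σ : Equiv.Perm (Fin n)) (v : Fin n → ZMod 2) :
    halfWeight (permAct σ v) = halfWeight v := by
  unfold halfWeight
  congr 2
  exact Equiv.sum_comp σ.symm fun i => (v i).val

theorem repHom_preserves_quad (Q : (ι → ZMod 2) → ZMod 2)
    (hQ : ∀ v, ∑ i, v i = 0 → Q (S.proj v) = halfWeight v) (σ : Equiv.Perm (Fin n))
    (a : ι → ZMod 2) : Q (S.repHom σ a) = Q a := by
  change Q (S.proj (permAct σ (S.emb a))) = Q a
  rw [hQ _ (by rw [sum_permAct, S.emb_even]), halfWeight_permAct, ← hQ _ (S.emb_even a),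
    S.proj_emb]

theorem repHom_preserves_bilin (hn : (n : ZMod 2) = 0) (B : (ι → ZMod 2) → (ι → ZMod 2) → ZMod 2)
    (hB : ∀ a b, B a b = S.emb a ⬝ᵥ S.emb b) (σ : Equiv.Perm (Fin n)) (a b : ι → ZMod 2) :
    B (S.repHom σ a) (S.repHom σ b) = B a b := by
  have key : ∀ u v, ∑ i, u i = 0 → ∑ i, v i = 0 → B (S.proj u) (S.proj v) = u ⬝ᵥ v := by
    intro u v hu hv
    obtain ⟨c, hc⟩ := S.eq_emb_proj_add hu
    obtain ⟨d, hd⟩ := S.eq_emb_proj_add hv
    conv_rhs => rw [hc, hd]
    rw [hB]
    simp [add_dotProduct, dotProduct_add, smul_dotProduct, dotProduct_smul, one_dotProduct,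
      dotProduct_one, S.emb_even, Finset.sum_add_distrib, hn]
  change B (S.proj (permAct σ (S.emb a))) (S.proj (permAct σ (S.emb b))) = _
  rw [key _ _ (by rw [sum_permAct, S.emb_even]) (by rw [sum_permAct, S.emb_even]), hB]
  exact Equiv.sum_comp σ.symm fun i => S.emb a i * S.emb b i

end PermSection

end Cfsg.Agent.Forms
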