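import Cfsg.Agent.Forms.PermModule
import Cfsg.Agent.Forms.QuadOrder
import Mathlib.Algebra.Field.ZMod

/-!
# `O⁻₄(2)` and `O⁺₆(2)` as symmetric groups
-/

set_option autoImplicit false
set_option linter.unusedSectionVars false

namespace Cfsg.Agent.Forms

open Module Matrix

/-- Transport of an isometry group along a field isomorphism. -/
def isometryGroupMapEquiv {ι : Type} [Fintype ι] [DecidableEq ι] {K F : Type*} [Field K] [Field F]
    (e : K ≃+* F) (Q : (ι → K) → K) (Q' : (ι → F) → F) (h : ∀ v, Q' (e ∘ v) = e (Q v)) :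
    Cfsg.isometryGroup K Q ≃* Cfsg.isometryGroup F Q' :=
  subgroupEquivOfIff (Units.mapEquiv e.mapMatrix.toMulEquiv) _ _ fun g => by
    rw [mem_isometryGroup_iff, mem_isometryGroup_iff]
    have key : ∀ v, (e.mapMatrix (g : Matrix ι ι K)) *ᵥ (e ∘ v) = e ∘ ((g : Matrix ι ι K) *ᵥ v) := by
      intro v
      funext i
      simp [RingEquiv.mapMatrix_apply, Matrix.mulVec, dotProduct, map_sum]
    change _ ↔ ∀ v, Q' ((e.mapMatrix (g : Matrix ι ι K)) *ᵥ v) = Q' v
    constructor
    · intro hg v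
      obtain ⟨w, rfl⟩ : ∃ w, v = e ∘ w := ⟨e.symm ∘ v, by funext i; simp⟩
      rw [key, h, h, hg]
    · intro hg v
      have := hg (e ∘ v)
      rw [key, h, h] at this
      exact e.injective this

/-- The section for `S₅`. -/
def minusSection : PermSection ((Fin 1 ⊕ Fin 1) ⊕ Fin 2) 5 where
  emb :=
    { toFun := fun a => a (.inl (.inl 0)) • ![1, 1, 1, 1, 0] + a (.inl (.inr 0)) • ![1, 1, 1, 0, 1] +
        a (.inr 0) • ![1, 1, 0, 0, 0] + a (.inr 1) • ![0, 1, 1, 0, 0]
      map_add' := fun a b => by simp only [Pi.add_apply, add_smul]; abel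
      map_smul' := fun c a => by
        simp only [Pi.smul_apply, smul_eq_mul, mul_smul, RingHom.id_apply, smul_add] }
  proj :=
    { toFun := fun v => Sum.elim (Sum.elim (fun _ => ![1, 1, 1, 0, 1] ⬝ᵥ v)
          (fun _ => ![1, 1, 1, 1, 0] ⬝ᵥ v))
        ![![0, 1, 1, 0, 0] ⬝ᵥ v, ![1, 1, 0, 0, 0] ⬝ᵥ v]
      map_add' := fun v w => by
        funext j; rcases j with (k | k) | k <;> first | (fin_cases k <;> simp [dotProduct_add]) | simp
      map_smul' := fun c v => by
        funext j; rcases j with (k | k) | k <;> first | (fin_cases k <;> simp [dotProduct_smul]) | simp }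
  proj_emb := by decide +kernel
  emb_even := by decide +kernel
  proj_one := by decide +kernel
  proj_ker := by decide +kernel

/-- The section for `S₈`. -/
def plusSection : PermSection (Fin 3 ⊕ Fin 3) 8 where
  emb :=
    { toFun := fun a => a (.inl 0) • ![1, 1, 1, 1, 0, 0, 0, 0] +
        a (.inl 1) • ![1, 1, 0, 0, 1, 1, 0, 0] + a (.inl 2) • ![1, 0, 1, 0, 1, 0, 1, 0] +
        a (.inr 0) • ![1, 1, 1, 0, 0, 0, 0, 1] + a (.inr 1) • ![1, 1, 0, 0, 0, 1, 1, 0] +
        a (.inr 2) • ![1, 0, 0, 1, 0, 1, 0, 1]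
      map_add' := fun a b => by simp only [Pi.add_apply, add_smul]; abel
      map_smul' := fun c a => by
        simp only [Pi.smul_apply, smul_eq_mul, mul_smul, RingHom.id_apply, smul_add] }
  proj :=
    { toFun := fun v => Sum.elim
        ![![1, 1, 1, 0, 0, 0, 0, 1] ⬝ᵥ v, ![1, 1, 0, 0, 0, 1, 1, 0] ⬝ᵥ v,
          ![1, 0, 0, 1, 0, 1, 0, 1] ⬝ᵥ v]
        ![![1, 1, 1, 1, 0, 0, 0, 0] ⬝ᵥ v, ![1, 1, 0, 0, 1, 1, 0, 0] ⬝ᵥ v,
          ![1, 0, 1, 0, 1, 0, 1, 0] ⬝ᵥ v]
      map_add' := fun v w => by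
        funext j; rcases j with k | k <;> fin_cases k <;> simp [dotProduct_add]
      map_smul' := fun c v => by
        funext j; rcases j with k | k <;> fin_cases k <;> simp [dotProduct_smul] }
  proj_emb := by decide +kernel
  emb_even := by decide +kernel
  proj_one := by decide +kernel
  proj_ker := by decide +kernel

theorem minusSection_quad : ∀ v : Fin 5 → ZMod 2, ∑ i, v i = 0 →
    Cfsg.quadFormMinus 1 (ZMod 2) 1 1 (minusSection.proj v) = PermSection.halfWeight v := by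
  unfold Cfsg.quadFormMinus
  decide +kernel

theorem plusSection_quad : ∀ v : Fin 8 → ZMod 2, ∑ i, v i = 0 →
    Cfsg.quadFormPlus 3 (ZMod 2) (plusSection.proj v) = PermSection.halfWeight v := by
  unfold Cfsg.quadFormPlus
  decide +kernel

theorem nonempty_perm_equiv {ι : Type} [Fintype ι] [DecidableEq ι] {n : ℕ} (hn : 5 ≤ n)
    (S : PermSection ι n) (Q : QuadraticForm (ZMod 2) (ι → ZMod 2))
    (hQ : ∀ v, ∑ i, v i = 0 → Q (S.proj v) = PermSection.halfWeight v)
    (hcard : Nat.card (Cfsg.isometryGroup (ZMod 2) ⇑Q) = n.factorial) :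
    Nonempty (Cfsg.isometryGroup (ZMod 2) ⇑Q ≃* Equiv.Perm (Fin n)) := by
  let f := S.repHom.codRestrict (isomGroup (QuadraticMap.polarBilin Q) Q) fun σ =>
    (mem_isomGroup_quad_iff _ _).2 (S.repHom_preserves_quad Q hQ σ)
  let g := (isometryEquiv Q).symm.toMonoidHom.comp f
  have hg : Function.Injective g := fun σ τ h =>
    S.repHom_injective hn (congrArg Subtype.val ((isometryEquiv Q).symm.injective h))
  have hbij : Function.Bijective g := (Nat.bijective_iff_injective_and_card g).2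
    ⟨hg, by rw [hcard, Nat.card_perm, Nat.card_fin]⟩
  exact ⟨(MulEquiv.ofBijective g hbij).symm⟩

variable {F : Type*} [Field F] [Fintype F] (hF : Fintype.card F = 2)
include hF

/-- `O⁻₄(2) ≅ S₅`. -/
theorem o_minus_four_two :
    Nonempty (Cfsg.isometryGroup F (Cfsg.quadFormMinus 1 F 1 1) ≃* Equiv.Perm (Fin 5)) := by
  obtain ⟨e⟩ : Nonempty (ZMod 2 ≃+* F) := ⟨ZMod.ringEquivOfPrime F Nat.prime_two hF⟩
  have hcard := card_isometryGroup_minus 1 (ZMod.card 2) (1 : ZMod 2) 1 (by decide)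
  obtain ⟨E⟩ := nonempty_perm_equiv le_rfl minusSection (qMinus 1 (ZMod 2) 1 1)
    (fun v hv => by rw [coe_qMinus]; exact minusSection_quad v hv)
    (by rw [coe_qMinus, hcard]; decide +kernel)
  refine ⟨(isometryGroupMapEquiv e _ _ ?_).symm.trans E⟩
  intro v
  rw [coe_qMinus]
  simp only [Cfsg.quadFormMinus, map_add, map_sum, map_mul, map_pow, map_one, one_mul,
    Function.comp_apply]

/-- `O⁺₆(2) ≅ S₈`. -/
theorem o_plus_six_two :
    Nonempty (Cfsg.isometryGroup F (Cfsg.quadFormPlus 3 F) ≃* Equiv.Perm (Fin 8)) := by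
  obtain ⟨e⟩ : Nonempty (ZMod 2 ≃+* F) := ⟨ZMod.ringEquivOfPrime F Nat.prime_two hF⟩
  have hcard := card_isometryGroup_plus (F := ZMod 2) 3 (ZMod.card 2) (by norm_num)
  obtain ⟨E⟩ := nonempty_perm_equiv (by norm_num) plusSection (qPlus 3 (ZMod 2))
    (fun v hv => by rw [coe_qPlus]; exact plusSection_quad v hv)
    (by rw [coe_qPlus, hcard]; decide +kernel)
  refine ⟨(isometryGroupMapEquiv e _ _ ?_).symm.trans E⟩
  intro v
  simp [Cfsg.quadFormPlus, map_sum]

end Cfsg.Agent.Forms
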