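import Cfsg.Agent.KnownA.UnitaryGen

/-!
# Generation of `SU_n(q)` by regular unipotent elements

`u` fixes the isotropic point `a` and sends `b` to `a + b`, `v` sends `a` to a multiple of `b`, and the group
contains one root element `root a (l • b) 0`.  A product of these scales `a` by a scalar whose norm generates
the fixed field, so all transvections at `a` are there, and the whole group follows.
-/

set_option autoImplicit false
set_option linter.unusedSimpArgs false

namespace Cfsg.Agent.Forms.SUOdd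

open Matrix Cfsg.Agent.KnownA
open Cfsg.Agent.Forms (frobQ)

variable {F : Type*} [Field F] [Fintype F] {n q : ℕ} (hF : Fintype.card F = q ^ 2)
include hF

local notation "B" => ub hF
local notation "σ" => frobQ hF

theorem trace_cond {m : F} (hm : m + σ m = 0) : m + σ m = -B (0 : Fin n → F) 0 := by
  rw [ub_zero_left, neg_zero, hm]

theorem act_tv {e : Fin n → F} (he : B e e = 0) {m : F} (hm : m + σ m = 0) (x : Fin n → F) :
    act (root hF e 0 m) x = x + (m * B e x) • e := by
  rw [act_root hF he (ub_zero_right hF e) (trace_cond hF hm), ub_zero_left, smul_zero, add_zero, sub_zero]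

omit hF in
theorem act_inv_cancel (g : Cfsg.SU n F q) (x : Fin n → F) : act g (act g⁻¹ x) = x := by
  rw [← act_mul_apply, mul_inv_cancel, act_one]; rfl

omit hF in
theorem act_injective (g : Cfsg.SU n F q) {x y : Fin n → F} (h : act g x = act g y) : x = y := by
  have h' := congrArg (act g⁻¹) h
  rwa [← act_mul_apply, ← act_mul_apply, inv_mul_cancel, act_one] at h'

/-- Conjugating a root element. -/
theorem root_conj (g : Cfsg.SU n F q) {e e' w : Fin n → F} {t c : F}
    (he : B e e = 0) (he' : B e' e' = 0) (hw : B e w = 0) (hc : c + σ c = -B w w)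
    (hge : act g e = t • e') :
    g * root hF e w c * g⁻¹ = root hF e' (σ t • act g w) (c * (t * σ t)) := by
  have ht : σ t * B e' (act g w) = 0 := by rw [ub_act_left hF g hge, hw]
  have hw' : B e' (σ t • act g w) = 0 := by rw [ub_smul_right hF]; exact ht
  have hc' : c * (t * σ t) + σ (c * (t * σ t)) = -B (σ t • act g w) (σ t • act g w) := by
    rw [ub_smul_left hF, ub_smul_right hF, act_ub hF]
    simp only [map_mul, sig_sig hF]
    linear_combination (t * σ t) * hc
  refine su_ext fun x => ?_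
  obtain ⟨y, rfl⟩ : ∃ y, x = act g y := ⟨act g⁻¹ x, (act_inv_cancel g x).symm⟩
  rw [← act_mul_apply, inv_mul_cancel_right, act_mul_apply,
    act_root hF he hw hc, act_root hF he' hw' hc', map_add, map_add, map_smul, map_smul, hge,
    ub_smul_left hF (σ t), act_ub hF, sig_sig hF, ← ub_act_left hF g hge y, smul_smul, smul_smul]
  match_scalars <;> ring

/-- Shifting `w` along `e`. -/
theorem root_shift {e w : Fin n → F} (μ k : F) (he : B e e = 0) (hw : B e w = 0) (hk : k + σ k = -B w w) :
    root hF e (w + μ • e) (k - μ + σ μ) = root hF e w k := by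
  have hwe := ub_eq_zero_symm hF hw
  have hw2 : B e (w + μ • e) = 0 := by rw [ub_add_right hF, hw, ub_smul_right hF, he, mul_zero, add_zero]
  have hk2 : k - μ + σ μ + σ (k - μ + σ μ) = -B (w + μ • e) (w + μ • e) := by
    simp only [map_add, map_sub, sig_sig hF, ub_add_left hF, ub_add_right hF, ub_smul_left hF,
      ub_smul_right hF, he, hw, hwe]
    linear_combination hk
  refine su_ext fun x => ?_
  rw [act_root hF he hw2 hk2, act_root hF he hw hk, ub_add_left hF, ub_smul_left hF]
  match_scalars <;> ring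

/-- All transvections at `x` are in `H`. -/
def Full (H : Subgroup (Cfsg.SU n F q)) (x : Fin n → F) : Prop := ∀ m, m + σ m = 0 → root hF x 0 m ∈ H

theorem Full.conj {H : Subgroup (Cfsg.SU n F q)} {x : Fin n → F} (h : Full hF H x) (hx : B x x = 0)
    {g : Cfsg.SU n F q} (hg : g ∈ H) : Full hF H (act g x) := by
  intro m hm
  have h1 := H.mul_mem (H.mul_mem hg (h m hm)) (H.inv_mem hg)
  rwa [root_conj hF g hx (by rw [act_ub hF, hx]) (ub_zero_right hF x) (trace_cond hF hm)
    (one_smul F (act g x)).symm, map_zero, smul_zero, map_one, mul_one, mul_one] at h1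

theorem Full.smul {H : Subgroup (Cfsg.SU n F q)} {x : Fin n → F} (h : Full hF H x) (hx : B x x = 0)
    (s : F) : Full hF H (s • x) := by
  intro m hm
  have hm' : m * (s * σ s) + σ (m * (s * σ s)) = 0 := by
    simp only [map_mul, sig_sig hF]
    linear_combination (s * σ s) * hm
  have e : root hF (s • x) 0 m = root hF x 0 (m * (s * σ s)) := by
    refine su_ext fun y => ?_
    rw [act_tv hF (by rw [ub_smul_left hF, ub_smul_right hF, hx, mul_zero, mul_zero]) hm,
      act_tv hF hx hm', ub_smul_left hF, smul_smul]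
    match_scalars <;> ring
  rw [e]
  exact h _ hm'

variable {H : Subgroup (Cfsg.SU n F q)} {a b : Fin n → F}

/-- An element scaling `a` by a scalar with generating norm fills the transvection group at `a`. -/
theorem full_of_closed (ha : B a a = 0) {m₀ : F} (hm₀ : m₀ ≠ 0) (hm₀T : m₀ + σ m₀ = 0)
    (hmem : root hF a 0 m₀ ∈ H) {h : Cfsg.SU n F q} (hh : h ∈ H) {ρ : F} (hρ : act h a = ρ • a)
    (hgen : ∀ S : Subring F, ρ * σ ρ ∈ S → ∀ r, σ r = r → r ∈ S) : Full hF H a := by
  let L : AddSubgroup F :=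
    { carrier := {m | m + σ m = 0 ∧ root hF a 0 m ∈ H}
      add_mem' := fun {x y} hx hy => by
        refine ⟨by rw [map_add]; linear_combination hx.1 + hy.1, ?_⟩
        have := H.mul_mem hx.2 hy.2
        rwa [root_mul hF ha (ub_zero_right hF a) (ub_zero_right hF a) (trace_cond hF hx.1) (trace_cond hF hy.1),
          add_zero, ub_zero_left, sub_zero] at this
      zero_mem' := by
        refine ⟨by rw [map_zero, add_zero], ?_⟩
        rw [show root hF a 0 (0 : F) = 1 from su_ext fun x => by
          rw [act_tv hF ha (by rw [map_zero, add_zero]), act_one, zero_mul, zero_smul, add_zero]; rfl]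
        exact H.one_mem
      neg_mem' := fun {x} hx => by
        refine ⟨by rw [map_neg]; linear_combination -hx.1, ?_⟩
        have hx' : -x + σ (-x) = 0 := by rw [map_neg]; linear_combination -hx.1
        rw [show root hF a 0 (-x) = (root hF a 0 x)⁻¹ from eq_inv_of_mul_eq_one_left <| su_ext fun y => by
          rw [act_mul_apply, act_tv hF ha hx.1, act_tv hF ha hx', ub_add_right hF, ub_smul_right hF, ha,
            act_one, Module.End.one_apply]
          match_scalars <;> ring]
        exact H.inv_mem hx.2 }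
  let R : Subring F :=
    { carrier := {s | ∀ m ∈ L, s * m ∈ L}
      mul_mem' := fun {x y} hx hy m hm => by rw [mul_assoc]; exact hx _ (hy m hm)
      one_mem' := fun m hm => by rwa [one_mul]
      add_mem' := fun {x y} hx hy m hm => by rw [add_mul]; exact L.add_mem (hx m hm) (hy m hm)
      zero_mem' := fun m _ => by rw [zero_mul]; exact L.zero_mem
      neg_mem' := fun {x} hx m hm => by rw [neg_mul]; exact L.neg_mem (hx m hm) }
  have hR : ρ * σ ρ ∈ R := by
    intro m hm
    refine ⟨by simp only [map_mul, sig_sig hF]; linear_combination (ρ * σ ρ) * hm.1, ?_⟩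
    have h1 := H.mul_mem (H.mul_mem hh hm.2) (H.inv_mem hh)
    rw [root_conj hF h ha ha (ub_zero_right hF a) (trace_cond hF hm.1) hρ, map_zero, smul_zero] at h1
    rwa [mul_comm (ρ * σ ρ) m]
  intro m hm
  have hσm : σ m = -m := by linear_combination hm
  have hσm₀ : σ m₀ = -m₀ := by linear_combination hm₀T
  have h1 : m / m₀ * m₀ ∈ L := hgen R hR (m / m₀)
    (by rw [map_div₀, hσm, hσm₀, neg_div_neg_eq]) m₀ ⟨hm₀T, hmem⟩
  rw [div_mul_cancel₀ _ hm₀] at h1
  exact h1.2

/-- The scaling element. -/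
theorem exists_scaling {u v : Cfsg.SU n F q} {γ d l : F} (ha : B a a = 0) (hb : B b b = 0) (hab : B a b = 0)
    (hub : act u b = a + b) (hva : act v a = γ • b) (hd : B a (act v (act v a)) = d)
    (hγ : γ ≠ 0) (hγd : γ ^ 2 = d * σ l) (hkap : kap hF l ^ 2 * (σ d * d) = -1)
    (hu : u ∈ H) (hv : v ∈ H) (hX : root hF a (l • b) 0 ∈ H) (hm₀ : root hF a 0 (kap hF l) ∈ H) :
    ∃ h ∈ H, ∃ ρ : F, act h a = ρ • a ∧ ρ * σ ρ = γ * σ γ := by
  set m := kap hF l with hm
  have hmT : m + σ m = 0 := kap_trace hF l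
  set P := act v (act v a) with hP
  have hPP : B P P = 0 := by rw [hP, act_ub hF, act_ub hF, ha]
  have hPb : P = γ • act v b := by rw [hP, hva, map_smul]
  have hba := ub_eq_zero_symm hF hab
  have hbP : B b P = 0 := by
    have h1 : B (act v a) P = 0 := by rw [hP, act_ub hF, hva, ub_smul_right hF, hab, mul_zero]
    rw [hva, ub_smul_left hF, mul_eq_zero] at h1
    exact h1.resolve_left fun h => hγ ((map_eq_zero _).mp h)
  have hPb0 := ub_eq_zero_symm hF hbP
  have hPa : B P a = σ d := by rw [← hd, ub_symm hF]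
  have hmP : root hF P 0 m ∈ H := by
    have h1 := H.mul_mem (H.mul_mem (H.mul_mem hv hv) hm₀) (H.inv_mem (H.mul_mem hv hv))
    rwa [root_conj hF (v * v) ha hPP (ub_zero_right hF a) (trace_cond hF hmT) (e' := P) (t := 1)
      (by rw [one_smul, act_mul_apply]), map_zero, smul_zero, map_one, mul_one, mul_one] at h1
  set t := m * σ d with ht
  set W := root hF a 0 m * root hF P 0 m * root hF a 0 m with hW
  have hWmem : W ∈ H := H.mul_mem (H.mul_mem hm₀ hmP) hm₀
  have hWa : act W a = t • P := by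
    rw [hW, act_mul_apply, act_mul_apply, act_tv hF ha hmT a, ha, act_tv hF hPP hmT, act_tv hF ha hmT,
      mul_zero, zero_smul, add_zero, hPa, ub_add_right hF, ub_smul_right hF, ha, hd, ← ht]
    match_scalars
    · linear_combination hkap
    · ring
  have hWb : act W b = b := by
    rw [hW, act_mul_apply, act_mul_apply, act_tv hF ha hmT b, hab, mul_zero, zero_smul, add_zero,
      act_tv hF hPP hmT, hPb0, mul_zero, zero_smul, add_zero, act_tv hF ha hmT b, hab, mul_zero, zero_smul,
      add_zero]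
  have hlb : B a (l • b) = 0 := by rw [ub_smul_right hF, hab, mul_zero]
  have hlc : (0 : F) + σ 0 = -B (l • b) (l • b) := zero_cond hF (by
    rw [ub_smul_left hF, ub_smul_right hF, hb, mul_zero, mul_zero])
  have hXP : act (root hF a (l • b) 0) P = P + (d * l) • b := by
    rw [act_root hF ha hlb hlc, hd, ub_smul_left hF, hbP, mul_zero, zero_mul, sub_zero, zero_smul, add_zero,
      smul_smul]
  have hXb : act (root hF a (l • b) 0) b = b := by
    simp [act_root hF ha hlb hlc, hab, ub_smul_left hF, hb]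
  set X := root hF a (l • b) 0 with hXdef
  have key : act (X * W * u * v) a = (γ * t) • act (v * u * v) a := by
    have e1 : act (v * u * v) a = γ ^ 2 • b + P := by
      rw [act_mul_apply, act_mul_apply, hva, map_smul, hub, smul_add, map_add, map_smul, map_smul, hva,
        smul_smul, hPb, pow_two]
    have e2 : act (X * W * u * v) a = γ • (t • (P + (d * l) • b) + b) := by
      rw [act_mul_apply, act_mul_apply, act_mul_apply, hva, map_smul, hub, map_smul, map_smul, map_add,
        map_add, hWa, hWb, map_smul, hXP, hXb]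
    rw [e1, e2]
    have hl : σ l = l - m := by rw [hm, kap]; ring
    match_scalars
    · ring
    · linear_combination (-(γ * t)) * hγd - (γ * t * d) * hl + γ * hkap
  refine ⟨(v * u * v)⁻¹ * (X * W * u * v), H.mul_mem (H.inv_mem (H.mul_mem (H.mul_mem hv hu) hv))
    (H.mul_mem (H.mul_mem (H.mul_mem hX hWmem) hu) hv), γ * t, ?_, ?_⟩
  · rw [act_mul_apply, key, map_smul, ← act_mul_apply, inv_mul_cancel, act_one]; rfl
  · have hsm : σ m = -m := by linear_combination hmT
    rw [ht, map_mul, map_mul, sig_sig hF, hsm]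
    linear_combination (-(γ * σ γ)) * hkap

omit hF in
/-- The iteration used to find a vector in the span of `a` and `b`. -/
theorem exists_last {u : Cfsg.SU n F q} {Q : (Fin n → F) → Prop} {a : Fin n → F}
    (hstep : ∀ x, Q x → Q (act u x - x)) (hnil : ∃ N, ∀ x, (fun y => act u y - y)^[N] x = 0)
    {x : Fin n → F} (hx : Q x) (hne : ∀ k : F, x ≠ k • a) :
    ∃ y, Q y ∧ (∀ k : F, y ≠ k • a) ∧ ∃ k : F, act u y - y = k • a := by
  classical
  obtain ⟨N, hN⟩ := hnil
  set f := fun y : Fin n → F => act u y - y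
  have hiter : ∀ i, Q (f^[i] x) := fun i => by
    induction i with
    | zero => exact hx
    | succ i ih => rw [Function.iterate_succ_apply']; exact hstep _ ih
  have hex : ∃ i, ∃ k : F, f^[i] x = k • a := ⟨N, 0, by rw [hN, zero_smul]⟩
  obtain ⟨i, hi⟩ : ∃ i, Nat.find hex = i + 1 := by
    refine Nat.exists_eq_succ_of_ne_zero fun h => ?_
    obtain ⟨k, hk⟩ := Nat.find_spec hex
    rw [h] at hk
    exact hne k hk
  have hspec := Nat.find_spec hex
  rw [hi, Function.iterate_succ_apply'] at hspec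
  exact ⟨f^[i] x, hiter i, fun k hk => Nat.find_min hex (m := i) (by omega) ⟨k, hk⟩, hspec⟩

/-- Full root groups at two non-orthogonal points give full root groups at the points off the first one. -/
theorem roots_step {e p₀ : Fin n → F} (he : B e e = 0) (hp₀ : B p₀ p₀ = 0) (hep₀ : B e p₀ ≠ 0)
    (hfe : ∀ w k, B e w = 0 → k + σ k = -B w w → root hF e w k ∈ H)
    (hfp : ∀ w k, B p₀ w = 0 → k + σ k = -B w w → root hF p₀ w k ∈ H)
    {p : Fin n → F} (hp : B p p = 0) (hep : B e p ≠ 0) :
    ∀ w k, B p w = 0 → k + σ k = -B w w → root hF p w k ∈ H := by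
  set ε := B e p₀
  set p1 := (ε / B e p) • p with hp1
  have hep1 : B e p1 = ε := by rw [hp1, ub_smul_right hF, div_mul_cancel₀ _ hep]
  set w₁ := ε⁻¹ • (p1 - p₀) with hw
  have hew : B e w₁ = 0 := by rw [hw, ub_smul_right hF, ub_sub_right hF, hep1, sub_self, mul_zero]
  set k₁ := B w₁ p₀ / ε with hk
  have hp11 : B p1 p1 = 0 := by rw [hp1, ub_smul_left hF, ub_smul_right hF, hp, mul_zero, mul_zero]
  have hε0 : σ ε ≠ 0 := fun h => hep₀ ((map_eq_zero _).mp h)
  have e1 : p1 = p₀ + ε • w₁ := by rw [hw, smul_inv_smul₀ hep₀, add_sub_cancel]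
  have hkw : k₁ + σ k₁ = -B w₁ w₁ := by
    rw [e1] at hp11
    simp only [ub_add_left hF, ub_add_right hF, ub_smul_left hF, ub_smul_right hF, hp₀] at hp11
    rw [hk, map_div₀, ub_symm hF]
    field_simp
    linear_combination hp11
  have hact : act (root hF e w₁ k₁) p₀ = p1 := by
    rw [act_root hF he hew hkw, e1, hk, div_mul_cancel₀ _ hep₀, sub_self, zero_smul, add_zero]
  set g := root hF e w₁ k₁ with hg
  have hgH : g ∈ H := hfe _ _ hew hkw
  set t := ε / B e p with htdef
  have ht : t ≠ 0 := div_ne_zero hep₀ hep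
  have hst : σ t ≠ 0 := fun h => ht ((map_eq_zero _).mp h)
  have hgp : act g p₀ = t • p := by rw [hact, hp1]
  clear_value t
  intro w k hw' hk'
  set w0 := (σ t)⁻¹ • act g⁻¹ w with hw0
  have hgw : act g w0 = (σ t)⁻¹ • w := by rw [hw0, map_smul, act_inv_cancel]
  have hw0p : B p₀ w0 = 0 := by
    rw [← ub_act_left hF g hgp, hgw, ub_smul_right hF, hw', mul_zero, mul_zero]
  have hk0 : k / (t * σ t) + σ (k / (t * σ t)) = -B w0 w0 := by
    rw [← act_ub hF g w0 w0, hgw, ub_smul_left hF, ub_smul_right hF, map_div₀, map_mul, map_inv₀, sig_sig hF]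
    field_simp
    linear_combination hk'
  have h1 := H.mul_mem (H.mul_mem hgH (hfp w0 _ hw0p hk0)) (H.inv_mem hgH)
  rwa [root_conj hF g hp₀ hp hw0p hk0 hgp, hgw, smul_smul, mul_inv_cancel₀ hst, one_smul,
    div_mul_cancel₀ _ (mul_ne_zero ht hst)] at h1

/-- The whole group. -/
theorem eq_top_of_full {u v : Cfsg.SU n F q} {γ d l : F} (ha : B a a = 0) (hb : B b b = 0) (hab : B a b = 0)
    (hua : act u a = a) (hub : act u b = a + b)
    (hker : ∀ x, (∃ k : F, act u x - x = k • a) → ∃ r s : F, x = r • a + s • b)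
    (hnil : ∃ N, ∀ x, (fun y => act u y - y)^[N] x = 0)
    (hva : act v a = γ • b) (hd : B a (act v (act v a)) = d) (hd0 : d ≠ 0) (hγ : γ ≠ 0)
    (hlT : l + σ l ≠ 0) (hlK : kap hF l ≠ 0)
    (hu : u ∈ H) (hv : v ∈ H) (hX : root hF a (l • b) 0 ∈ H) (hfa : Full hF H a) : H = ⊤ := by
  classical
  have hba := ub_eq_zero_symm hF hab
  set m₁ := kap hF l with hm₁
  have hm₁T : m₁ + σ m₁ = 0 := kap_trace hF l
  have hm₁s : σ m₁ = -m₁ := by linear_combination hm₁T
  set P := act v (act v a) with hP
  have hPP : B P P = 0 := by rw [hP, act_ub hF, act_ub hF, ha]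
  have hfP : Full hF H P := Full.conj hF (Full.conj hF hfa ha hv) (by rw [act_ub hF, ha]) hv
  have hfb : Full hF H b := by
    have h1 := Full.smul hF (Full.conj hF hfa ha hv) (by rw [act_ub hF, ha]) γ⁻¹
    rwa [hva, inv_smul_smul₀ hγ] at h1
  have hfab : Full hF H (a + b) := hub ▸ Full.conj hF hfb hb hu
  -- the parameter of a root element at `a` does not matter
  have hanyc : ∀ w c c', B a w = 0 → c + σ c = -B w w → c' + σ c' = -B w w →
      root hF a w c ∈ H → root hF a w c' ∈ H := by
    intro w c c' hw hc hc' hmem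
    have hd' : c' - c + σ (c' - c) = 0 := by rw [map_sub]; linear_combination hc' - hc
    have := H.mul_mem (hfa _ hd') hmem
    rwa [root_mul hF ha (ub_zero_right hF a) hw (trace_cond hF hd') hc, zero_add, ub_zero_left,
      show c' - c + c - 0 = c' by ring] at this
  have hzero : ∀ c, c + σ c = -B (0 : Fin n → F) 0 → root hF a 0 c ∈ H := fun c hc =>
    hfa c (by rw [hc, ub_zero_left, neg_zero])
  -- a pair of full points
  have hpair : ∀ (p : Fin n → F) (κ m : F), B p p = 0 → B a p = 0 → Full hF H p → Full hF H (a + κ • p) →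
      m + σ m = 0 → ∃ c, c + σ c = -B ((m * κ) • p) ((m * κ) • p) ∧ root hF a ((m * κ) • p) c ∈ H := by
    intro p κ m hp hap hfp hfap hm
    have hpa := ub_eq_zero_symm hF hap
    have hw : B a ((m * κ) • p) = 0 := by rw [ub_smul_right hF, hap, mul_zero]
    have hc : m + σ m = -B ((m * κ) • p) ((m * κ) • p) := by
      rw [hm, ub_smul_left hF, ub_smul_right hF, hp, mul_zero, mul_zero, neg_zero]
    have hq : B (a + κ • p) (a + κ • p) = 0 := by
      simp [ub_add_left hF, ub_add_right hF, ub_smul_left hF, ub_smul_right hF, ha, hp, hap, hpa]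
    have hm' : -(m * (κ * σ κ)) + σ (-(m * (κ * σ κ))) = 0 := by
      simp only [map_neg, map_mul, sig_sig hF]
      linear_combination -(κ * σ κ) * hm
    have hms : σ m = -m := by linear_combination hm
    refine ⟨m, hc, ?_⟩
    rw [show root hF a ((m * κ) • p) m = root hF (a + κ • p) 0 m * root hF p 0 (-(m * (κ * σ κ))) from
      su_ext fun x => by
        rw [act_mul_apply, act_root hF ha hw hc, act_tv hF hq hm, act_tv hF hp hm', ub_smul_left hF,
          ub_add_left hF, ub_add_right hF a, ub_smul_left hF κ, ub_add_right hF p, ub_smul_right hF,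
          ub_smul_right hF, hap, hp, map_mul, hms]
        match_scalars <;> ring]
    exact H.mul_mem (hfap m hm) (hfp _ hm')
  -- a point orthogonal to `a` and not to `b`
  set z₀ := act v P with hz₀
  have hbz₀ : B b z₀ ≠ 0 := by
    intro h
    refine hd0 ?_
    rw [← hd, ← act_ub hF v, hva, ub_smul_left hF, h, mul_zero]
  have hPz₀ : B P z₀ = 0 := by
    rw [hz₀, hP, act_ub hF, act_ub hF, hva, ub_smul_right hF, hab, mul_zero]
  set e₃ := B a z₀ with he₃
  set m₂ := -1 / (m₁ * (σ d * d)) with hm₂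
  have hNd : σ d * d ≠ 0 := mul_ne_zero (fun h => hd0 ((map_eq_zero _).mp h)) hd0
  have hm₂T : m₂ + σ m₂ = 0 := by
    rw [hm₂, map_div₀, map_neg, map_one, map_mul, map_mul, sig_sig hF, hm₁s]
    field_simp
    ring
  have hfz₀ : Full hF H z₀ := Full.conj hF hfP hPP hv
  have hPa : B P a = σ d := by rw [← hd, ub_symm hF]
  have hbP : B b P = 0 := by
    have h1 : B (act v a) P = 0 := by rw [hP, act_ub hF, hva, ub_smul_right hF, hab, mul_zero]
    rw [hva, ub_smul_left hF, mul_eq_zero] at h1
    exact h1.resolve_left fun h => hγ ((map_eq_zero _).mp h)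
  set z := act (root hF P 0 m₂ * root hF a 0 m₁) z₀ with hz
  have hzval : z = z₀ + (m₁ * e₃) • a + (m₂ * (m₁ * e₃ * σ d)) • P := by
    rw [hz, act_mul_apply, act_tv hF ha hm₁T, act_tv hF hPP hm₂T, ub_add_right hF, ub_smul_right hF, hPa,
      hPz₀, zero_add, he₃]
  have hzz : B z z = 0 := by rw [hz, act_ub hF, hz₀, act_ub hF, hPP]
  have hfz : Full hF H z := Full.conj hF hfz₀ (by rw [hz₀, act_ub hF, hPP])
    (H.mul_mem (hfP _ hm₂T) (hfa _ hm₁T))
  have haz : B a z = 0 := by
    rw [hzval, ub_add_right hF, ub_add_right hF, ub_smul_right hF, ub_smul_right hF, ha, hd, ← he₃, hm₂]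
    field_simp
    ring
  have hbz : B b z ≠ 0 := by
    rw [hzval, ub_add_right hF, ub_add_right hF, ub_smul_right hF, ub_smul_right hF, hba, hbP, mul_zero,
      mul_zero, add_zero, add_zero]
    exact hbz₀
  -- from `(a, b)` to `z`, from `(a, z)` to `b`
  have htrans : ∀ (p p' : Fin n → F) (μ : F), μ ≠ 0 → B p p = 0 → B p' p' = 0 → B a p = 0 → B a p' = 0 →
      Full hF H p' → B p p' ≠ 0 → (∃ c, c + σ c = -B (μ • p) (μ • p) ∧ root hF a (μ • p) c ∈ H) →
      ∀ m, m + σ m = 0 → ∃ c, c + σ c = -B ((m * (-(σ μ * B p p')⁻¹)) • p') ((m * (-(σ μ * B p p')⁻¹)) • p') ∧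
        root hF a ((m * (-(σ μ * B p p')⁻¹)) • p') c ∈ H := by
    intro p p' μ hμ hp hp' hap hap' hfp' hpp' hR m hm
    obtain ⟨c, hc, hcH⟩ := hR
    refine hpair p' _ m hp' hap' hfp' ?_ hm
    have hw : B a (μ • p) = 0 := by rw [ub_smul_right hF, hap, mul_zero]
    have h0 : σ μ * B p p' ≠ 0 := mul_ne_zero (fun h => hμ ((map_eq_zero _).mp h)) hpp'
    have h1 := Full.smul hF (Full.conj hF hfp' hp' hcH) (by rw [act_ub hF, hp']) (-(σ μ * B p p')⁻¹)
    have e1 : (-(σ μ * B p p')⁻¹) • act (root hF a (μ • p) c) p' = a + (-(σ μ * B p p')⁻¹) • p' := by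
      rw [act_root hF ha hw hc, hap', ub_smul_left hF]
      match_scalars <;> first
        | (rw [mul_zero, zero_sub, mul_one, neg_mul_neg, inv_mul_cancel₀ h0]; done)
        | ring
    rwa [e1] at h1
  have hbR : ∀ μ : F, μ = m₁ ∨ μ = l → ∃ c, c + σ c = -B (μ • b) (μ • b) ∧ root hF a (μ • b) c ∈ H := by
    rintro μ (rfl | rfl)
    · obtain ⟨c, hc, hcH⟩ := hpair b 1 m₁ hb hab hfb (by rwa [one_smul]) hm₁T
      rw [mul_one] at hc hcH
      exact ⟨c, hc, hcH⟩
    · exact ⟨0, zero_cond hF (by rw [ub_smul_left hF, ub_smul_right hF, hb, mul_zero, mul_zero]), hX⟩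
  have hadd : ∀ w w' : Fin n → F, B a w = 0 → B a w' = 0 → (∃ c, c + σ c = -B w w ∧ root hF a w c ∈ H) →
      (∃ c, c + σ c = -B w' w' ∧ root hF a w' c ∈ H) →
      ∃ c, c + σ c = -B (w + w') (w + w') ∧ root hF a (w + w') c ∈ H := by
    rintro w w' hw hw' ⟨c, hc, hcH⟩ ⟨c', hc', hcH'⟩
    refine ⟨c + c' - B w w', ?_, ?_⟩
    · simp only [map_sub, map_add, ub_symm hF, ub_add_left hF, ub_add_right hF]
      linear_combination hc + hc'
    · rw [← root_mul hF ha hw hw' hc hc']; exact H.mul_mem hcH hcH'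
  have hl0 : σ l ≠ 0 := fun h => hlT (by
    rw [h, add_zero]
    exact (map_eq_zero _).mp h)
  set τ := -m₁ / σ l with hτ
  have hτK : σ τ ≠ τ := by
    intro h
    have hl1 : l ≠ 0 := fun h => hl0 (by rw [h, map_zero])
    rw [hτ, map_div₀, map_neg, hm₁s, sig_sig hF, neg_neg, div_eq_div_iff hl1 hl0] at h
    exact hlT (mul_left_cancel₀ hlK (by linear_combination h))
  have hzA : ∀ ν : F, ∃ c, c + σ c = -B (ν • z) (ν • z) ∧ root hF a (ν • z) c ∈ H := by
    intro ν
    set x := ν * B b z with hx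
    set k₂ := (x - σ x) / (τ - σ τ) with hk₂
    have hk₂f : σ k₂ = k₂ := by
      rw [hk₂, map_div₀, map_sub, map_sub, sig_sig hF, sig_sig hF, ← neg_sub x, ← neg_sub τ, neg_div_neg_eq]
    set k₁ := x - k₂ * τ with hk₁
    clear_value x k₂ k₁
    have hk₁f : σ k₁ = k₁ := by
      have e : k₂ * (τ - σ τ) = x - σ x := by
        rw [hk₂, div_mul_cancel₀ _ (sub_ne_zero.mpr (Ne.symm hτK))]
      rw [hk₁, map_sub, map_mul, hk₂f]
      linear_combination e
    have h1 := htrans b z m₁ hlK hb hzz hab haz hfz hbz (hbR _ (Or.inl rfl)) (k₁ * m₁)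
      (by rw [map_mul, hk₁f]; linear_combination k₁ * hm₁T)
    have h2 := htrans b z l (fun h => hl0 (by rw [h, map_zero])) hb hzz hab haz hfz hbz (hbR _ (Or.inr rfl))
      (k₂ * m₁) (by rw [map_mul, hk₂f]; linear_combination k₂ * hm₁T)
    have h3 := hadd _ _ (by rw [ub_smul_right hF, haz, mul_zero]) (by rw [ub_smul_right hF, haz, mul_zero]) h1 h2
    rwa [← add_smul, show k₁ * m₁ * -(σ m₁ * B b z)⁻¹ + k₂ * m₁ * -(σ l * B b z)⁻¹ = ν by
      rw [hm₁s, hk₁, hτ, hx]; field_simp; ring] at h3
  have hbA : ∀ ν : F, ∃ c, c + σ c = -B (ν • b) (ν • b) ∧ root hF a (ν • b) c ∈ H := by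
    intro ν
    rcases eq_or_ne ν 0 with rfl | hν
    · rw [zero_smul]
      exact ⟨0, trace_cond hF (by rw [map_zero, add_zero]), hzero 0 (trace_cond hF (by rw [map_zero, add_zero]))⟩
    have hzb : B z b ≠ 0 := fun h => hbz (ub_eq_zero_symm hF h)
    have hμ : σ (-m₁ / (ν * B z b)) ≠ 0 := fun h => by
      rw [map_eq_zero, div_eq_zero_iff, neg_eq_zero] at h
      exact h.elim hlK (mul_ne_zero hν hzb)
    have h1 := htrans z b _ hμ hzz hb haz hab hfb hzb (hzA _) m₁ hm₁T
    rwa [show m₁ * -(σ (σ (-m₁ / (ν * B z b))) * B z b)⁻¹ = ν by rw [sig_sig hF]; field_simp] at h1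
  let A : Submodule F (Fin n → F) :=
    { carrier := {w | B a w = 0 ∧ ∀ μ : F, ∃ c, c + σ c = -B (μ • w) (μ • w) ∧ root hF a (μ • w) c ∈ H}
      zero_mem' := ⟨ub_zero_right hF a, fun μ => by
        rw [smul_zero]
        exact ⟨0, trace_cond hF (by rw [map_zero, add_zero]),
          hzero 0 (trace_cond hF (by rw [map_zero, add_zero]))⟩⟩
      add_mem' := fun {w w'} hw hw' => ⟨by rw [ub_add_right hF, hw.1, hw'.1, add_zero], fun μ => by
        rw [smul_add]
        exact hadd _ _ (by rw [ub_smul_right hF, hw.1, mul_zero]) (by rw [ub_smul_right hF, hw'.1, mul_zero])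
          (hw.2 μ) (hw'.2 μ)⟩
      smul_mem' := fun s w hw => ⟨by rw [ub_smul_right hF, hw.1, mul_zero], fun μ => by
        rw [smul_smul]; exact hw.2 _⟩ }
  have hAu : ∀ w ∈ A, act u w ∈ A := by
    intro w hw
    refine ⟨by conv_lhs => rw [← hua]
               rw [act_ub hF]; exact hw.1, fun μ => ?_⟩
    obtain ⟨c, hc, hcH⟩ := hw.2 μ
    refine ⟨c, by rw [← map_smul, act_ub hF]; exact hc, ?_⟩
    have h1 := H.mul_mem (H.mul_mem hu hcH) (H.inv_mem hu)
    rwa [root_conj hF u ha ha (by rw [ub_smul_right hF, hw.1, mul_zero]) hc (t := 1) (by rw [one_smul, hua]),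
      map_one, one_smul, map_smul, mul_one, mul_one] at h1
  have hperp : ∀ x, (∀ w ∈ A, B w x = 0) → ∃ k : F, x = k • a := by
    intro x hx
    by_contra hne
    push Not at hne
    obtain ⟨y, hy, hyne, hyk⟩ := exists_last (u := u) (Q := fun x => ∀ w ∈ A, B w x = 0) (a := a)
      (fun x hx w hw => by
        obtain ⟨⟨w0, hw0⟩, e'⟩ := Finite.surjective_of_injective
          (f := fun w : A => (⟨act u w.1, hAu _ w.2⟩ : A))
          (fun p q h => Subtype.ext (act_injective u (congrArg Subtype.val h))) ⟨w, hw⟩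
        have e : act u w0 = w := congrArg Subtype.val e'
        rw [← e, ub_sub_right hF, act_ub hF, hx _ hw0, hx _ (hAu _ hw0), sub_zero]) hnil hx hne
    obtain ⟨r, s, rfl⟩ := hker y hyk
    have h := hy z ⟨haz, hzA⟩
    rw [ub_add_right hF, ub_smul_right hF, ub_smul_right hF, ub_eq_zero_symm hF haz, mul_zero, zero_add,
      mul_eq_zero] at h
    refine hyne r ?_
    rw [h.resolve_right fun e => hbz (ub_eq_zero_symm hF e), zero_smul, add_zero]
  have hA : ∀ w, B a w = 0 → w ∈ A := by
    intro w hw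
    by_contra hwA
    obtain ⟨φ, hφw, hφA⟩ := Submodule.exists_dual_map_eq_bot_of_notMem hwA inferInstance
    set x : Fin n → F := fun i => σ (φ (Pi.single i 1)) with hxdef
    have hxy : ∀ y, B x y = φ y := by
      intro y
      conv_rhs => rw [← Finset.univ_sum_single y, map_sum]
      show Forms.hermB n hF x y = _
      rw [Forms.hermB_apply, Cfsg.hermForm]
      refine Finset.sum_congr rfl fun i _ => ?_
      rw [hxdef, ← Forms.frobQ_apply hF, sig_sig hF,
        show (Pi.single i (y i) : Fin n → F) = y i • Pi.single i 1 by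
          rw [← Pi.single_smul, smul_eq_mul, mul_one], map_smul, smul_eq_mul]
    obtain ⟨k, hk⟩ := hperp x fun t ht => by
      have : φ t = 0 := by
        have h := Submodule.mem_map_of_mem (f := φ) ht
        rwa [hφA, Submodule.mem_bot] at h
      exact ub_eq_zero_symm hF (by rw [hxy, this])
    refine hφw ?_
    rw [← hxy, hk, ub_smul_left hF, hw, mul_zero]
  have hfull : ∀ w k, B a w = 0 → k + σ k = -B w w → root hF a w k ∈ H := by
    intro w k hw hk
    obtain ⟨c, hc, hcH⟩ := (hA w hw).2 1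
    rw [one_smul] at hc hcH
    exact hanyc w c k hw hc hk hcH
  have hPfull : ∀ w k, B P w = 0 → k + σ k = -B w w → root hF P w k ∈ H := by
    intro w k hw hk
    set g := v * v with hg
    have hga : act g a = (1 : F) • P := by rw [one_smul, hg, act_mul_apply]
    set w0 := act g⁻¹ w with hw0
    have hgw : act g w0 = w := act_inv_cancel g w
    have h0 : B a w0 = 0 := by
      rw [← ub_act_left hF g hga, hgw, hw, mul_zero]
    have hk0 : k + σ k = -B w0 w0 := by rw [← act_ub hF g w0 w0, hgw]; exact hk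
    have h1 := H.mul_mem (H.mul_mem (H.mul_mem hv hv) (hfull w0 k h0 hk0)) (H.inv_mem (H.mul_mem hv hv))
    rwa [root_conj hF g ha hPP h0 hk0 hga, hgw, map_one, one_smul, mul_one, mul_one] at h1
  have haP : B a P ≠ 0 := by rw [hd]; exact hd0
  have ha0 : a ≠ 0 := fun h => haP (by rw [h, ub_zero_left])
  have hoff : ∀ p, B p p = 0 → B a p ≠ 0 → ∀ w k, B p w = 0 → k + σ k = -B w w → root hF p w k ∈ H :=
    fun p hp hap => roots_step hF ha hPP haP hfull hPfull hp hap
  have hR : HasRoots hF H (⊤ : Submodule F (Fin n → F)) := by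
    intro p w k _ _ hp hw hk
    by_cases hp0 : p = 0
    · rw [show root hF p w k = 1 from su_ext fun x => by
        rw [act_root hF hp hw hk, act_one, hp0, ub_zero_left]; simp]
      exact H.one_mem
    by_cases hap : B a p = 0
    swap
    · exact hoff p hp hap w k hw hk
    have hnd : ∀ x ∈ (⊤ : Submodule F (Fin n → F)), (∀ y ∈ (⊤ : Submodule F (Fin n → F)), B x y = 0) → x = 0 :=
      fun x _ h => (Forms.hermB_nondegenerate hF).1 x fun y => h y trivial
    obtain ⟨f, -, hff, haf⟩ := exists_partner hF _ hnd (Submodule.mem_top (x := a)) ha0 ha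
    obtain ⟨q', hq, haq, hqp⟩ : ∃ q', B q' q' = 0 ∧ B a q' ≠ 0 ∧ B q' p ≠ 0 := by
      by_cases hfp : B f p = 0
      · have hp' : IsPair hF ⊤ a f := ⟨trivial, trivial, ha, hff, haf⟩
        obtain ⟨p', hpW, hp'', hpp⟩ := exists_partner hF _ (perpPair_nondeg hF hnd hp')
          ((mem_perpPair hF).mpr ⟨trivial, hap, hfp⟩) hp0 hp
        obtain ⟨-, h1, h2⟩ := (mem_perpPair hF).mp hpW
        refine ⟨f + p', ?_, ?_, ?_⟩
        · simp [ub_add_left hF, ub_add_right hF, hff, h2, ub_eq_zero_symm hF h2, hp'']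
        · rw [ub_add_right hF, haf, h1, add_zero]; exact one_ne_zero
        · rw [ub_add_left hF, hfp, zero_add, ← ub_symm hF p p', hpp, map_one]; exact one_ne_zero
      · exact ⟨f, hff, by rw [haf]; exact one_ne_zero, hfp⟩
    exact roots_step hF hq ha (fun h => haq (ub_eq_zero_symm hF h)) (hoff q' hq haq) hfull hp hqp w k hw hk
  rw [eq_top_iff]
  intro g _
  exact mem_of_fixOut hF _ ⊤ rfl (fun x _ hx => (Forms.hermB_nondegenerate hF).1 x fun y => hx y trivial) hR g
    ⟨fun x _ => trivial, fun x hx => by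
      rw [(Forms.hermB_nondegenerate hF).2 x fun y => hx y trivial, map_zero]⟩

end Cfsg.Agent.Forms.SUOdd
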