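import Cfsg.Agent.Forms.UnitaryElements
import Cfsg.Agent.Linear.HermRoot
import Cfsg.Agent.KnownA.UnitaryGen

/-!
# A regular unipotent element of `SU_{2j+5}(q)` with a prescribed invariant

The space is the algebra `F[N]`, `N ^ (2j+5) = 0`, with the involution `N ↦ (1 + N)⁻¹ - 1` and the form
`(y, z) ↦ ℓ (z · ȳ)`; `u` is the multiplication by `1 + N`.
-/

set_option autoImplicit false
set_option linter.unusedSimpArgs false

namespace Cfsg.Agent.Forms.SUOdd

open Matrix Polynomial Cfsg.Agent.KnownA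
open Cfsg.Agent.Forms (frobQ)

variable {F : Type*} [Field F] [Fintype F] {q : ℕ} (hF : Fintype.card F = q ^ 2)
include hF

local notation "B" => ub hF
local notation "σ" => frobQ hF

set_option maxHeartbeats 1000000 in
theorem exists_model {j n : ℕ} (hn : n = 2 * j + 5) {d : F} (hd : d + σ d ≠ 0) :
    ∃ (u : Cfsg.SU n F q) (a b w p : Fin n → F),
      (IsNilpotent (((u : Matrix.SpecialLinearGroup (Fin n) F) : Matrix (Fin n) (Fin n) F) - 1) ∧
        (((u : Matrix.SpecialLinearGroup (Fin n) F) : Matrix (Fin n) (Fin n) F) - 1) ^ (n - 1) ≠ 0) ∧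
      B a a = 0 ∧ B b b = 0 ∧ B a b = 0 ∧ a ≠ 0 ∧ (∀ k : F, b ≠ k • a) ∧ act u a = a ∧ act u b = a + b ∧
      (∀ x, (∃ k : F, act u x - x = k • a) → ∃ r s : F, x = r • a + s • b) ∧
      (∃ N, ∀ x, (fun y => act u y - y)^[N] x = 0) ∧
      B a w = 0 ∧ B b w = 0 ∧ act u w = w + b ∧
      B p p = 0 ∧ B p (act u p) = 0 ∧ B p (act u (act u p)) = d ∧
      ∀ s t : F, s • p + t • act u p = 0 → s = 0 ∧ t = 0 := by
  classical
  subst hn
  have hσ2 := Forms.frobQ_frobQ hF
  set P : F[X] := (X - Polynomial.C 1) ^ (2 * j + 5) with hP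
  have hPm : P.Monic := (monic_X_sub_C 1).pow _
  let A := AdjoinRoot P
  haveI : Module.Finite F A := (AdjoinRoot.powerBasis' hPm).finite
  have hdim : Module.finrank F A = 2 * j + 5 := by
    rw [(AdjoinRoot.powerBasis' hPm).finrank, AdjoinRoot.powerBasis'_dim, hP, natDegree_pow,
      natDegree_X_sub_C, mul_one]
  set x : A := AdjoinRoot.root P with hx
  set N : A := x - 1 with hN
  have hNP : N ^ (2 * j + 5) = 0 := by
    have h : AdjoinRoot.mk P ((X - Polynomial.C 1) ^ (2 * j + 5)) = 0 := AdjoinRoot.mk_self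
    simpa [hN, hx] using h
  have hNge : ∀ i, 2 * j + 5 ≤ i → N ^ i = 0 := fun i hi => by
    rw [← Nat.sub_add_cancel hi, pow_add, hNP, mul_zero]
  obtain ⟨w₀, hw⟩ : IsUnit x := by
    have := IsNilpotent.isUnit_one_add ⟨2 * j + 5, hNP⟩
    simpa [hN] using this
  set xi : A := ((w₀⁻¹ : Aˣ) : A) with hxi
  have hxxi : x * xi = 1 := by rw [hxi, ← hw, Units.mul_inv]
  have hxiN : xi - 1 = -xi * N := by rw [hN]; linear_combination hxxi
  have hroot : eval₂ ((algebraMap F A).comp (frobQ hF)) xi P = 0 := by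
    change eval₂ ((algebraMap F A).comp (frobQ hF)) xi ((X - Polynomial.C 1) ^ (2 * j + 5)) = 0
    rw [eval₂_pow, eval₂_sub, eval₂_X, eval₂_C, map_one, hxiN, mul_pow, hNP, mul_zero]
  let s : A →+* A := AdjoinRoot.lift ((algebraMap F A).comp (frobQ hF)) xi hroot
  have hsx : s x = xi := AdjoinRoot.lift_root hroot
  have hsF : ∀ (c : F) z, s (c • z) = σ c • s z := by
    intro c z
    rw [Algebra.smul_def, Algebra.smul_def, map_mul]
    congr 1
    exact AdjoinRoot.lift_of hroot
  have hsxi : s xi = x := by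
    have h := congrArg s hxxi
    rw [map_mul, hsx, map_one] at h
    calc s xi = (x * xi) * s xi := by rw [hxxi, one_mul]
      _ = x := by rw [mul_assoc, h, mul_one]
  have hss : ∀ z, s (s z) = z := by
    intro z
    obtain ⟨g, rfl⟩ := AdjoinRoot.mk_surjective z
    induction g using Polynomial.induction_on' with
    | add p q hp hq => rw [map_add, map_add, map_add, hp, hq]
    | monomial i c =>
      rw [← C_mul_X_pow_eq_monomial, ← Polynomial.smul_eq_C_mul, ← AdjoinRoot.smul_mk, map_pow,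
        AdjoinRoot.mk_X, ← hx, hsF, hsF, hσ2, map_pow, map_pow, hsx, hsxi]
  have hsN : ∀ i, s (N ^ i) = (-xi) ^ i * N ^ i := fun i => by
    rw [← mul_pow, map_pow]
    congr 1
    rw [hN, map_sub, hsx, map_one, hxiN]
  -- products with many factors `N` vanish
  have hzero : ∀ i i', 2 * j + 5 ≤ i + i' → N ^ i * s (N ^ i') = 0 := fun i i' h => by
    rw [hsN, mul_left_comm, ← pow_add, hNge _ h, mul_zero]
  have hcancel : ∀ g : F[X], ∀ i, i ≤ 2 * j + 5 → N ^ i * AdjoinRoot.mk P g = 0 →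
      (X - Polynomial.C 1) ^ (2 * j + 5 - i) ∣ g := by
    intro g i hi h
    have h1 : P ∣ (X - Polynomial.C 1) ^ i * g := by
      rw [← AdjoinRoot.mk_eq_zero, map_mul, map_pow, map_sub, map_one, map_one, AdjoinRoot.mk_X, ← hx, ← hN]
      exact h
    rw [hP, ← Nat.sub_add_cancel hi, pow_add, mul_comm] at h1
    exact (mul_dvd_mul_iff_left (pow_ne_zero _ (X_sub_C_ne_zero (1 : F)))).1 h1
  set S : A := N ^ (2 * j + 4) with hS
  have hS0 : S ≠ 0 := by
    intro h
    have h1 := hcancel 1 (2 * j + 4) (by omega) (by rw [map_one, mul_one, ← hS, h])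
    rw [show 2 * j + 5 - (2 * j + 4) = 1 by omega, pow_one] at h1
    exact Polynomial.not_isUnit_X_sub_C (1 : F) (isUnit_of_dvd_one h1)
  have hNS : N * S = 0 := by rw [hS, ← pow_succ', hNP]
  have hxiS : xi * S = S := by
    have hxS : x * S = S := by linear_combination hNS - S * hN
    calc xi * S = xi * (x * S) := by rw [hxS]
      _ = S := by rw [← mul_assoc, mul_comm xi x, hxxi, one_mul]
  have hxiSp : ∀ i, xi ^ i * S = S := by
    intro i
    induction i with
    | zero => simp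
    | succ i ih => rw [pow_succ, mul_assoc, hxiS, ih]
  -- the five products
  set Z : A := N ^ j * s (N ^ j) with hZ
  have hsZ : s Z = Z := by rw [hZ, map_mul, hss, mul_comm]
  set Wv : Fin 5 → A := fun i => x ^ (i : ℕ) * (xi ^ 2 * Z) with hWv
  have hli : LinearIndependent F Wv := by
    rw [Fintype.linearIndependent_iff]
    intro c hc
    set g : F[X] := ∑ i : Fin 5, Polynomial.C (c i) * X ^ (i : ℕ) with hg
    have h1 : N ^ (2 * j) * AdjoinRoot.mk P g = 0 := by
      have hunit : IsUnit ((-1 : A) ^ j * xi ^ (j + 2)) :=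
        ((isUnit_one.neg).pow _).mul ((Units.isUnit (w₀⁻¹)).pow _)
      refine hunit.mul_right_eq_zero.mp ?_
      have e1 : (-1 : A) ^ j * xi ^ (j + 2) * N ^ (2 * j) = xi ^ 2 * Z := by
        rw [hZ, hsN, neg_pow xi]; ring
      rw [← mul_assoc, e1, ← hc, hg, map_sum, Finset.mul_sum]
      refine Finset.sum_congr rfl fun i _ => ?_
      rw [map_mul, map_pow, AdjoinRoot.mk_X, AdjoinRoot.mk_C, ← hx, hWv, Algebra.smul_def]
      rw [show AdjoinRoot.of P (c i) = algebraMap F A (c i) from rfl]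
      ring
    have h2 := hcancel g (2 * j) (by omega) h1
    rw [show 2 * j + 5 - 2 * j = 5 by omega] at h2
    have hg0 : g = 0 := by
      refine Polynomial.eq_zero_of_dvd_of_natDegree_lt h2 ?_
      rw [natDegree_pow, natDegree_X_sub_C]
      refine Nat.lt_of_le_of_lt (natDegree_sum_le_of_forall_le _ _ fun i _ => ?_) (show 4 < 5 * 1 by norm_num)
      exact (natDegree_C_mul_X_pow_le _ _).trans (by have := i.isLt; omega)
    intro i
    have h3 := congrArg (fun t : F[X] => t.coeff (i : ℕ)) hg0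
    simp only [hg, finsetSum_coeff, coeff_C_mul_X_pow, coeff_zero] at h3
    rw [Finset.sum_eq_single i (fun b _ hb => if_neg fun e => hb (Fin.ext e.symm)) (by simp), if_pos rfl] at h3
    exact h3
  let vals : Fin 5 → F := fun i => if i = 4 then d else 0
  obtain ⟨ψ, hψ⟩ : ∃ ψ : A →ₗ[F] F, ∀ i, ψ (Wv i) = vals i := by
    obtain ⟨ψ, hψ⟩ := LinearMap.exists_extend (p := Submodule.span F (Set.range Wv))
      ((Module.Basis.span hli).constr F vals)
    refine ⟨ψ, fun i => ?_⟩
    have h := LinearMap.congr_fun hψ ⟨Wv i, Submodule.subset_span ⟨i, rfl⟩⟩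
    rw [LinearMap.comp_apply, Submodule.subtype_apply] at h
    rw [h, show (⟨Wv i, Submodule.subset_span ⟨i, rfl⟩⟩ : Submodule.span F (Set.range Wv)) =
      Module.Basis.span hli i from (Module.Basis.span_apply hli i).symm, Module.Basis.constr_basis]
  have hxi1 : xi * x = 1 := by rw [mul_comm, hxxi]
  have hψ0 : ψ (xi ^ 2 * Z) = 0 := by
    have := hψ 0
    simpa [hWv, vals] using this
  have hψ1 : ψ (xi * Z) = 0 := by
    have := hψ 1
    rw [hWv] at this
    simp only [Fin.val_one, pow_one, vals] at this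
    rw [show x * (xi ^ 2 * Z) = xi * Z by linear_combination (xi * Z) * hxxi] at this
    simpa using this
  have hψ2 : ψ Z = 0 := by
    have := hψ 2
    rw [hWv] at this
    simp only [Fin.val_two, vals] at this
    rw [show x ^ 2 * (xi ^ 2 * Z) = Z by linear_combination ((x * xi + 1) * Z) * hxxi] at this
    simpa using this
  have hψ3 : ψ (x * Z) = 0 := by
    have := hψ 3
    rw [hWv] at this
    simp only [show ((3 : Fin 5) : ℕ) = 3 from rfl, vals] at this
    rw [show x ^ 3 * (xi ^ 2 * Z) = x * Z by linear_combination (x * (x * xi + 1) * Z) * hxxi] at this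
    simpa using this
  have hψ4 : ψ (x ^ 2 * Z) = d := by
    have := hψ 4
    rw [hWv] at this
    simp only [show ((4 : Fin 5) : ℕ) = 4 from rfl, vals] at this
    rw [show x ^ 4 * (xi ^ 2 * Z) = x ^ 2 * Z by linear_combination (x ^ 2 * (x * xi + 1) * Z) * hxxi] at this
    simpa using this
  let ℓ : A →ₗ[F] F :=
    { toFun := fun z => ψ z + σ (ψ (s z))
      map_add' := fun z z' => by simp only [map_add]; ring
      map_smul' := fun r z => by
        simp only [hsF, map_smul, smul_eq_mul, RingHom.id_apply, map_mul (frobQ hF)]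
        rw [hσ2]
        ring }
  have hℓd : ∀ z, ℓ z = ψ z + σ (ψ (s z)) := fun z => rfl
  have hℓs : ∀ z, σ (ℓ z) = ℓ (s z) := fun z => by
    rw [hℓd, hℓd, map_add, hσ2, hss, add_comm]
  have hℓ0 : ℓ Z = 0 := by rw [hℓd, hsZ, hψ2, map_zero, add_zero]
  have hℓ1 : ℓ (x * Z) = 0 := by rw [hℓd, map_mul s, hsx, hsZ, hψ3, hψ1, map_zero, add_zero]
  have hℓ2 : ℓ (x ^ 2 * Z) = d := by rw [hℓd, map_mul s, map_pow s, hsx, hsZ, hψ4, hψ0, map_zero, add_zero]
  have hℓ1' : ℓ (xi * Z) = 0 := by rw [hℓd, map_mul s, hsxi, hsZ, hψ1, hψ3, map_zero, add_zero]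
  have hℓ2' : ℓ (xi ^ 2 * Z) = σ d := by rw [hℓd, map_mul s, map_pow s, hsxi, hsZ, hψ0, hψ4, zero_add]
  have hℓS : ℓ S ≠ 0 := by
    intro h
    refine hd ?_
    have e1 : x ^ 2 * Z - (4 : F) • (x * Z) + (6 : F) • Z - (4 : F) • (xi * Z) + xi ^ 2 * Z =
        (-1 : F) ^ j • S := by
      have e2 : N ^ 4 * (xi ^ 2 * Z) = (-1 : F) ^ j • S := by
        rw [hZ, hsN, neg_pow xi, Algebra.smul_def, map_pow, map_neg, map_one]
        calc N ^ 4 * (xi ^ 2 * (N ^ j * ((-1) ^ j * xi ^ j * N ^ j))) =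
            (-1) ^ j * (xi ^ (j + 2) * N ^ (2 * j + 4)) := by ring
          _ = (-1) ^ j * S := by rw [← hS, hxiSp]
      rw [← e2, Algebra.smul_def, Algebra.smul_def, Algebra.smul_def, map_ofNat, map_ofNat, hN]
      linear_combination ((-x ^ 2 * (x * xi + 1)) + 4 * x * (x * xi + 1) - 6 * (x * xi + 1) + 4 * xi) * Z * hxxi
    have h1 := congrArg ℓ e1
    simp only [map_add, map_sub, map_smul, hℓ0, hℓ1, hℓ2, hℓ1', hℓ2', h, smul_zero, sub_zero, add_zero] at h1
    exact h1
  let β : A →ₗ[F] A →ₛₗ[frobQ hF] F :=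
    LinearMap.mk₂'ₛₗ (RingHom.id F) (frobQ hF) (fun y z => ℓ (y * s z))
      (fun y y' z => by rw [add_mul, map_add])
      (fun r y z => by rw [smul_mul_assoc, map_smul, RingHom.id_apply])
      (fun y z z' => by rw [map_add, mul_add, map_add])
      (fun r y z => by rw [hsF, mul_smul_comm, map_smul])
  have hsoc : ∀ z : A, N * z = 0 → ∃ c : F, z = c • S := by
    intro z hz
    obtain ⟨g, rfl⟩ := AdjoinRoot.mk_surjective z
    obtain ⟨g', rfl⟩ := hcancel g 1 (by omega) (by rwa [pow_one])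
    refine ⟨g'.eval 1, ?_⟩
    obtain ⟨g'', hg''⟩ := X_sub_C_dvd_sub_C_eval (a := (1 : F)) (p := g')
    rw [show 2 * j + 5 - 1 = 2 * j + 4 by omega,
      show g' = Polynomial.C (g'.eval 1) + (X - Polynomial.C 1) * g'' by rw [← hg'']; ring, mul_add, map_add,
      mul_comm _ (Polynomial.C (g'.eval 1)), ← Polynomial.smul_eq_C_mul, ← AdjoinRoot.smul_mk, ← mul_assoc,
      ← pow_succ, ← hP, map_mul, AdjoinRoot.mk_self, zero_mul, add_zero, map_pow, map_sub, map_one,
      map_one, AdjoinRoot.mk_X, ← hx, ← hN, ← hS, eval_add, eval_C]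
    simp
  have hβ : NondegHerm (frobQ hF) β := by
    refine ⟨fun y z => ?_, fun y hy => ?_⟩
    · change σ (ℓ (y * s z)) = ℓ (z * s y)
      rw [hℓs, map_mul, hss, mul_comm]
    · by_contra hy0
      have hex : ∃ i, N ^ i * y = 0 := ⟨2 * j + 5, by rw [hNP, zero_mul]⟩
      have hj := Nat.find_spec hex
      obtain ⟨i, hi⟩ : ∃ i, Nat.find hex = i + 1 := by
        refine Nat.exists_eq_succ_of_ne_zero fun h => hy0 ?_
        rwa [h, pow_zero, one_mul] at hj
      rw [hi, pow_succ', mul_assoc] at hj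
      have hne : N ^ i * y ≠ 0 := Nat.find_min hex (by omega)
      obtain ⟨r, hr⟩ := hsoc _ hj
      have h := hy (s (N ^ i))
      change ℓ (y * s (s (N ^ i))) = 0 at h
      rw [hss, mul_comm, hr, map_smul, smul_eq_mul, mul_eq_zero] at h
      rcases h with h | h
      · exact hne (by rw [hr, h, zero_smul])
      · exact hℓS h
  let T : (Fin (2 * j + 5) → F) →ₗ[F] (Fin (2 * j + 5) → F) →ₛₗ[frobQ hF] F :=
    LinearMap.mk₂'ₛₗ (RingHom.id F) (frobQ hF) (fun y z => Forms.hermB (2 * j + 5) hF z y)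
      (fun y y' z => map_add _ _ _) (fun c y z => map_smul _ _ _)
      (fun y z z' => LinearMap.map_add₂ _ _ _ _) (fun c y z => by rw [LinearMap.map_smulₛₗ₂])
  have hT : NondegHerm (frobQ hF) T := by
    refine ⟨fun y z => (Forms.hermB_isSymm hF).eq z y, fun y hy => ?_⟩
    funext i
    have h3 := hy (Pi.single i 1)
    simp only [T, LinearMap.mk₂'ₛₗ_apply, Forms.hermB_apply, Cfsg.hermForm] at h3
    rw [Finset.sum_eq_single i (fun k _ hk => by
      rw [Pi.single_eq_of_ne hk, zero_pow (by have := Forms.two_le_q hF; omega), mul_zero]) (by simp)] at h3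
    simpa using h3
  obtain ⟨e, he⟩ := Forms.exists_herm_isometryEquiv hσ2 (Forms.frobQ_ne_id hF) hdim β hβ T hT
  have heB : ∀ y z, B (e z) (e y) = ℓ (y * s z) := fun y z => he y z
  set L : (Fin (2 * j + 5) → F) →ₗ[F] (Fin (2 * j + 5) → F) :=
    (e.toLinearMap.comp (LinearMap.mulLeft F x)).comp e.symm.toLinearMap with hL
  have hLe : ∀ y, L (e y) = e (x * y) := fun y => by simp [hL]
  have hpres : ∀ y z, B (L y) (L z) = B y z := by
    intro y z
    obtain ⟨y, rfl⟩ := e.surjective y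
    obtain ⟨z, rfl⟩ := e.surjective z
    rw [hLe, hLe, heB, heB, map_mul s, mul_mul_mul_comm, hsx, hxxi, one_mul]
  have hpow : ∀ i y, ((L - 1) ^ i : Module.End F (Fin (2 * j + 5) → F)) (e y) = e (N ^ i * y) := by
    intro i
    induction i with
    | zero => simp
    | succ i ih =>
      intro y
      rw [pow_succ', Module.End.mul_apply, ih, LinearMap.sub_apply, Module.End.one_apply, hLe, ← map_sub,
        pow_succ', mul_assoc, hN, sub_mul, one_mul]
  have hnilL : IsNilpotent (L - 1 : Module.End F (Fin (2 * j + 5) → F)) := ⟨2 * j + 5, LinearMap.ext fun y => by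
    obtain ⟨y, rfl⟩ := e.surjective y
    rw [hpow, hNP, zero_mul, map_zero, LinearMap.zero_apply]⟩
  have hnilM : IsNilpotent (LinearMap.toMatrix' L - 1) := by
    obtain ⟨i, hi⟩ := hnilL
    refine ⟨i, ?_⟩
    have h1 := congrArg (LinearMap.toMatrixAlgEquiv' (R := F) (n := Fin (2 * j + 5))) hi
    rw [map_pow, map_sub, map_one, map_zero] at h1
    exact h1
  have hdet : LinearMap.det L = 1 := by
    rw [← LinearMap.det_toMatrix', ← add_sub_cancel 1 (LinearMap.toMatrix' L)]
    exact Linear.HermRoot.det_one_add hnilM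
  obtain ⟨u, hu⟩ := exists_su_of_linearMap hF L hpres hdet
  have hue : ∀ y, act u (e y) = e (x * y) := fun y => by rw [hu, hLe]
  have hM : ((u : Matrix.SpecialLinearGroup (Fin (2 * j + 5)) F) :
      Matrix (Fin (2 * j + 5)) (Fin (2 * j + 5)) F) = LinearMap.toMatrix' L := by
    refine Matrix.toLin'.injective (LinearMap.ext fun y => ?_)
    rw [Matrix.toLin'_toMatrix']
    exact hu y
  have hB0 : ∀ i i', 2 * j + 5 ≤ i + i' → B (e (N ^ i)) (e (N ^ i')) = 0 := fun i i' h => by
    rw [heB, hzero i' i (by omega), map_zero]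
  refine ⟨u, e S, e (N ^ (2 * j + 3)), e (N ^ (2 * j + 2)), e (N ^ j), ⟨?_, ?_⟩, hB0 _ _ (by omega),
    hB0 _ _ (by omega), hB0 _ _ (by omega), fun h => hS0 (e.map_eq_zero_iff.1 h), ?_, ?_, ?_, ?_, ?_,
    hB0 _ _ (by omega), hB0 _ _ (by omega), ?_, ?_, ?_, ?_, ?_⟩
  · rw [hM]; exact hnilM
  · rw [hM, show 2 * j + 5 - 1 = 2 * j + 4 by omega]
    intro h
    refine hS0 (e.map_eq_zero_iff.1 ?_)
    have h1 := congrArg (Matrix.toLinAlgEquiv' (R := F) (n := Fin (2 * j + 5))) h
    rw [map_pow, map_sub, map_one, map_zero] at h1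
    have h2 : Matrix.toLinAlgEquiv' (LinearMap.toMatrix' L) = L := Matrix.toLin'_toMatrix' L
    rw [h2] at h1
    have h3 := LinearMap.congr_fun h1 (e 1)
    rwa [hpow, mul_one, LinearMap.zero_apply] at h3
  · intro k h
    have h1 := congrArg (fun y => N * y) (e.injective (h.trans (map_smul e k S).symm))
    simp only [mul_smul_comm, hNS, smul_zero, ← pow_succ'] at h1
    exact hS0 h1
  · rw [hue]
    congr 1
    linear_combination hNS - S * hN
  · rw [hue, ← map_add]
    congr 1
    rw [hS, hN]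
    ring
  · rintro y ⟨k, hk⟩
    obtain ⟨y, rfl⟩ := e.surjective y
    rw [hue, ← map_sub, ← map_smul] at hk
    have h1 : N * y = k • S := by
      rw [← e.injective hk, hN]
      ring
    obtain ⟨r, hr⟩ := hsoc (y - k • N ^ (2 * j + 3)) (by rw [mul_sub, h1, mul_smul_comm, ← pow_succ', sub_self])
    exact ⟨r, k, by rw [← map_smul, ← map_smul, ← map_add, ← hr, sub_add_cancel]⟩
  · refine ⟨2 * j + 5, fun y => ?_⟩
    obtain ⟨y, rfl⟩ := e.surjective y
    have : ∀ i y, (fun z => act u z - z)^[i] (e y) = e (N ^ i * y) := by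
      intro i
      induction i with
      | zero => simp
      | succ i ih =>
        intro y
        rw [Function.iterate_succ_apply', ih, hue, ← map_sub, pow_succ', mul_assoc, hN, sub_mul, one_mul]
    rw [this, hNP, zero_mul, map_zero]
  · rw [hue, ← map_add]
    congr 1
    rw [hN]
    ring
  · rw [heB, ← hZ, hℓ0]
  · rw [hue, heB, mul_assoc, ← hZ, hℓ1]
  · rw [hue, hue, heB, show x * (x * N ^ j) * s (N ^ j) = x ^ 2 * Z by rw [hZ]; ring, hℓ2]
  · intro r t h
    rw [hue, ← map_smul, ← map_smul, ← map_add, e.map_eq_zero_iff] at h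
    have h1 : (r + t) • N ^ j + t • N ^ (j + 1) = 0 := by
      rw [add_smul, add_assoc, ← smul_add]
      have : N ^ j + N ^ (j + 1) = x * N ^ j := by rw [hN]; ring
      rwa [this]
    have h2 := congrArg (fun y => N ^ (j + 4) * y) h1
    simp only [mul_add, mul_smul_comm, ← pow_add, mul_zero] at h2
    rw [show j + 4 + j = 2 * j + 4 by omega, hNge (j + 4 + (j + 1)) (by omega), smul_zero, add_zero, ← hS,
      smul_eq_zero, or_iff_left hS0] at h2
    rw [h2, zero_smul, zero_add] at h1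
    have h3 := congrArg (fun y => N ^ (j + 3) * y) h1
    simp only [mul_smul_comm, ← pow_add, mul_zero] at h3
    rw [show j + 3 + (j + 1) = 2 * j + 4 by omega, ← hS, smul_eq_zero, or_iff_left hS0] at h3
    exact ⟨by linear_combination h2 - h3, h3⟩

end Cfsg.Agent.Forms.SUOdd
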