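import Cfsg.Agent.KnownA.UnitaryGen
import Cfsg.Agent.Linear.SU2

/-!
# Parameters for the generation of `SU_n(q)` by regular unipotent elements
-/

set_option autoImplicit false

namespace Cfsg.Agent.Forms.SUOdd

open Cfsg.Agent.KnownA
open Cfsg.Agent.Forms (frobQ)

variable {F : Type*} [Field F] [Fintype F] {q : ℕ} (hF : Fintype.card F = q ^ 2)
include hF

local notation "σ" => frobQ hF

theorem exists_sqrt {x : F} (hx : σ x = x) : ∃ w : F, w ^ 2 = x ∧ (σ w = w ∨ σ w = -w) := by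
  obtain ⟨w, hw⟩ : IsSquare x := by
    by_cases hc : ringChar F = 2
    · exact FiniteField.isSquare_of_char_two hc x
    rcases eq_or_ne x 0 with rfl | hx0
    · exact IsSquare.zero
    refine (FiniteField.isSquare_iff hc hx0).mpr ?_
    have hq : q % 2 = 1 := by
      have h := FiniteField.odd_card_of_char_ne_two hc
      rw [hF, Nat.pow_mod] at h
      rcases Nat.mod_two_eq_zero_or_one q with h' | h' <;> simp [h'] at h ⊢
    obtain ⟨k, rfl⟩ : ∃ k, q = 2 * k + 1 := ⟨q / 2, by omega⟩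
    have h1 : x ^ (2 * k) = 1 := by
      apply mul_right_cancel₀ hx0
      rw [← pow_succ, one_mul, ← Forms.frobQ_apply hF, hx]
    rw [hF, show (2 * k + 1) ^ 2 / 2 = 2 * k * (k + 1) by
      rw [show (2 * k + 1) ^ 2 = 1 + 2 * (2 * k * (k + 1)) by ring, Nat.add_mul_div_left _ _ two_pos]
      simp, pow_mul, h1, one_pow]
  refine ⟨w, by rw [pow_two, ← hw], ?_⟩
  have h : σ w * σ w = w * w := by rw [← map_mul, ← hw, hx]
  exact mul_self_eq_mul_self_iff.mp h

/-- A norm-one element of large order for which `(1 - r)(1 - σ r)` is a square in the fixed field. -/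
theorem exists_unit (hq3 : q ≠ 3) :
    ∃ r y : F, r * σ r = 1 ∧ r ^ 2 ≠ 1 ∧ σ y = y ∧ y ^ 2 = 2 - r - σ r ∧ ∀ M, r ^ M = 1 → q + 1 ∣ 2 * M := by
  have hq2 := Forms.two_le_q hF
  obtain ⟨g₀, hg₀⟩ := IsCyclic.exists_ofOrder_eq_natCard (α := Fˣ)
  have hcard : Nat.card Fˣ = (q - 1) * (q + 1) := by
    rw [Nat.card_units, Nat.card_eq_fintype_card, hF]
    obtain ⟨m, rfl⟩ : ∃ m, q = m + 1 := ⟨q - 1, by omega⟩
    simp only [add_tsub_cancel_right]
    have : (m + 1) ^ 2 = m * (m + 1 + 1) + 1 := by ring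
    omega
  set lu := g₀ ^ (q - 1)
  have hord : orderOf lu = q + 1 := by
    rw [orderOf_pow_of_dvd (by omega) (by rw [hg₀, hcard]; exact Dvd.intro _ rfl), hg₀, hcard]
    exact Nat.mul_div_cancel_left _ (by omega)
  set r₀ : F := (lu : F) with hr₀
  have hpow : ∀ m : ℕ, r₀ ^ m = 1 → q + 1 ∣ m := fun m hm => by
    rw [← hord]
    exact orderOf_dvd_of_pow_eq_one (Units.ext (by rw [Units.val_pow_eq_pow_val]; exact hm))
  have hrq : r₀ * σ r₀ = 1 := by
    rw [Forms.frobQ_apply hF, ← pow_succ', hr₀, ← Units.val_pow_eq_pow_val, ← hord, pow_orderOf_eq_one,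
      Units.val_one]
  set s₀ := σ r₀
  have hs₀ : σ s₀ = r₀ := sig_sig hF r₀
  have main : ∀ r : F, r * σ r = 1 → (r = r₀ ∨ r = -r₀ ∨ r = r₀ ^ 2) →
      r ^ 2 ≠ 1 ∧ ∀ M, r ^ M = 1 → q + 1 ∣ 2 * M := by
    intro r _ hr
    have key : ∀ M, r ^ M = 1 → r₀ ^ (2 * M) = 1 := by
      intro M hM
      rcases hr with rfl | rfl | rfl
      · rw [mul_comm, pow_mul, hM, one_pow]
      · rw [pow_mul, ← neg_sq, ← pow_mul, mul_comm, pow_mul, hM, one_pow]
      · rw [pow_mul]; exact hM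
    refine ⟨fun h => hq3 ?_, fun M hM => hpow _ (key M hM)⟩
    have h4 := Nat.le_of_dvd (by norm_num) (hpow _ (key 2 h))
    rcases (by omega : q = 2 ∨ q = 3) with hq | hq
    · have h3 := hpow _ (key 2 h)
      rw [hq] at h3
      norm_num at h3
    · exact hq
  obtain ⟨w₁, hw₁, hσ₁ | hσ₁⟩ := exists_sqrt hF (x := 2 - r₀ - s₀)
    (by rw [map_sub, map_sub, map_ofNat, hs₀]; ring)
  · obtain ⟨h1, h2⟩ := main r₀ hrq (Or.inl rfl)
    exact ⟨r₀, w₁, hrq, h1, hσ₁, hw₁, h2⟩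
  obtain ⟨w₂, hw₂, hσ₂ | hσ₂⟩ := exists_sqrt hF (x := 2 + r₀ + s₀)
    (by rw [map_add, map_add, map_ofNat, hs₀]; ring)
  · have hn : -r₀ * σ (-r₀) = 1 := by rw [map_neg]; linear_combination hrq
    obtain ⟨h1, h2⟩ := main (-r₀) hn (Or.inr (Or.inl rfl))
    exact ⟨-r₀, w₂, hn, h1, hσ₂, by rw [hw₂, map_neg]; ring, h2⟩
  · have hn : r₀ ^ 2 * σ (r₀ ^ 2) = 1 := by rw [map_pow]; linear_combination (r₀ * s₀ + 1) * hrq
    obtain ⟨h1, h2⟩ := main (r₀ ^ 2) hn (Or.inr (Or.inr rfl))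
    refine ⟨r₀ ^ 2, w₁ * w₂, hn, h1, by rw [map_mul, hσ₁, hσ₂]; ring, ?_, h2⟩
    rw [mul_pow, hw₁, hw₂, map_pow]
    linear_combination -2 * hrq

/-- A subring with the inverse of `y` contains the fixed field. -/
theorem fixed_mem {r y : F} (hr : r * σ r = 1) (hy : σ y = y) (hyy : y ^ 2 = 2 - r - σ r)
    (hrM : ∀ M, r ^ M = 1 → q + 1 ∣ 2 * M) (S : Subring F) (hS : y⁻¹ ∈ S) :
    ∀ x, σ x = x → x ∈ S := by
  classical
  let K : Subfield F :=
    { carrier := {x | x ∈ S ∧ σ x = x}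
      mul_mem' := fun {a b} ha hb => ⟨S.mul_mem ha.1 hb.1, by rw [map_mul, ha.2, hb.2]⟩
      one_mem' := ⟨S.one_mem, map_one _⟩
      add_mem' := fun {a b} ha hb => ⟨S.add_mem ha.1 hb.1, by rw [map_add, ha.2, hb.2]⟩
      zero_mem' := ⟨S.zero_mem, map_zero _⟩
      neg_mem' := fun {a} ha => ⟨S.neg_mem ha.1, by rw [map_neg, ha.2]⟩
      inv_mem' := fun x hx => by
        refine ⟨?_, by rw [map_inv₀, hx.2]⟩
        rcases eq_or_ne x 0 with rfl | h0
        · rw [_root_.inv_zero]; exact S.zero_mem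
        · have e : x * x ^ (Fintype.card F - 2) = 1 := by
            rw [← pow_succ', show Fintype.card F - 2 + 1 = Fintype.card F - 1 by
              have := Fintype.one_lt_card (α := F); omega, FiniteField.pow_card_sub_one_eq_one x h0]
          rw [inv_eq_of_mul_eq_one_right e]
          exact S.pow_mem hx.1 _ }
  have hyK : y ∈ K := by
    have := K.inv_mem (x := y⁻¹) ⟨hS, by rw [map_inv₀, hy]⟩
    rwa [inv_inv] at this
  have hsK : r + σ r ∈ K := by
    have e : r + σ r = 1 + 1 - y * y := by linear_combination hyy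
    rw [e]
    exact K.sub_mem (K.add_mem K.one_mem K.one_mem) (K.mul_mem hyK hyK)
  set N := Fintype.card K with hN
  have hN2 : 2 ≤ N := Fintype.one_lt_card
  have hcard := Module.card_eq_pow_finrank (K := K) (V := F)
  rw [hF, ← hN] at hcard
  set m := Module.finrank K F
  have hle : K ≤ Linear.fixedQ hF := fun x hx => hx.2
  have hNq : N ≤ q := by
    rw [hN, ← Nat.card_eq_fintype_card, ← Linear.card_fixedQ hF]
    exact Nat.card_le_card_of_injective (fun x : K => (⟨x.1, hle x.2⟩ : Linear.fixedQ hF))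
      fun a b h => Subtype.ext (congrArg Subtype.val h :)
  have hall : N = q → ∀ x, σ x = x → x ∈ S := fun h x hx => by
    have hbij := (Fintype.bijective_iff_injective_and_card
      (fun x : K => (⟨x.1, hle x.2⟩ : Linear.fixedQ hF))).2
      ⟨fun a b h => Subtype.ext (congrArg Subtype.val h :), by
        rw [← hN, h, ← Nat.card_eq_fintype_card (α := Linear.fixedQ hF), Linear.card_fixedQ hF]⟩
    obtain ⟨⟨z, hz⟩, e⟩ := hbij.2 ⟨x, hx⟩
    rw [show x = z from (congrArg Subtype.val e).symm]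
    exact hz.1
  have hm2 : 2 ≤ m := by
    by_contra h
    have hq := Forms.two_le_q hF
    rcases (by omega : m = 0 ∨ m = 1) with h' | h' <;> rw [h'] at hcard <;> nlinarith
  rcases (by omega : m = 2 ∨ m = 3 ∨ 4 ≤ m) with hm | hm | hm
  · rw [hm] at hcard
    exact hall (Nat.pow_left_injective (by norm_num : (2 : ℕ) ≠ 0) hcard).symm
  all_goals
    exfalso
    have hr0 : r ≠ 0 := fun h => by rw [h, zero_mul] at hr; exact zero_ne_one hr
    have hsr : σ r = r⁻¹ := eq_inv_of_mul_eq_one_right hr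
    have h1 : (r + σ r) ^ N = r + σ r := congrArg Subtype.val (FiniteField.pow_card (⟨_, hsK⟩ : K))
    have h2 : r ^ N + (σ r) ^ N = r + σ r := by
      refine Eq.trans ?_ h1
      have h3 := map_add (FiniteField.frobeniusAlgHom K F) r (σ r)
      simp only [FiniteField.coe_frobeniusAlgHom, ← hN] at h3
      exact h3.symm
    have h4 : (r ^ N - r) * (r ^ (N + 1) - 1) = 0 := by
      rw [hsr, inv_pow] at h2
      have h5 := congrArg (fun t => t * (r ^ N * r)) h2
      simp only [add_mul] at h5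
      field_simp at h5
      linear_combination h5
    have h6 : r ^ (N ^ 2 - 1) = 1 := by
      obtain ⟨c, hc⟩ : ∃ c, N = c + 1 := ⟨N - 1, by omega⟩
      rw [hc, show (c + 1) ^ 2 - 1 = c * (c + 2) by
        rw [show (c + 1) ^ 2 = c * (c + 2) + 1 by ring, Nat.add_sub_cancel]]
      rw [hc] at h4
      rcases mul_eq_zero.mp h4 with h | h
      · rw [sub_eq_zero, pow_succ, mul_eq_right₀ hr0] at h
        rw [pow_mul, h, one_pow]
      · rw [sub_eq_zero] at h
        rw [mul_comm, pow_mul, h, one_pow]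
    have h7 := hrM _ h6
    have hN1 : 1 < N ^ 2 := Nat.one_lt_pow two_ne_zero (by omega)
    have h8 := Nat.le_of_dvd (by omega) h7
  · rw [hm] at hcard
    have hNd : N ∣ q := (Nat.pow_dvd_pow_iff two_ne_zero).mp ⟨N, by rw [hcard]; ring⟩
    obtain ⟨t, htq⟩ := hNd
    have ht : t ^ 2 = N := by
      have : N ^ 2 * t ^ 2 = N ^ 2 * N := by rw [← mul_pow, ← htq, hcard]; ring
      exact Nat.eq_of_mul_eq_mul_left (by omega) this
    rw [htq, ← ht] at h7 h8
    rw [← ht] at hN2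
    obtain ⟨k, hk⟩ := h7
    have h9 : t ^ 2 * t + 1 ∣ 2 * t + 2 := by
      refine (Nat.dvd_add_right (a := t ^ 2 * t + 1) (b := 2 * ((t ^ 2) ^ 2 - 1))
        ⟨k, hk⟩).mp ⟨2 * t, ?_⟩
      obtain ⟨w, hw⟩ : ∃ w, (t ^ 2) ^ 2 = w + 1 := ⟨(t ^ 2) ^ 2 - 1, by omega⟩
      rw [hw, Nat.add_sub_cancel]
      zify at hw ⊢
      linear_combination -2 * hw
    have := Nat.le_of_dvd (by omega) h9
    have ht2 : 2 ≤ t := by
      by_contra h
      interval_cases t <;> simp at hN2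
    nlinarith
  · have h4 : N ^ 4 ≤ q ^ 2 := hcard ▸ Nat.pow_le_pow_right (by omega) hm
    have hNq2 : N ^ 2 ≤ q := by
      rw [show N ^ 4 = (N ^ 2) ^ 2 by ring] at h4
      exact (Nat.pow_le_pow_iff_left two_ne_zero).mp h4
    have he : q + 3 = 2 * N ^ 2 := by
      obtain ⟨k, hk⟩ := h7
      have hk2 : k < 2 := by
        by_contra hlt
        have : (q + 1) * 2 ≤ (q + 1) * k := Nat.mul_le_mul_left _ (by omega)
        omega
      interval_cases k <;> omega
    have hdq : N ∣ q ^ 2 := hcard ▸ dvd_pow_self N (by omega)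
    have hd9 : N ∣ 9 := by
      have h5 : N ∣ q ^ 2 + 6 * (2 * N ^ 2) := dvd_add hdq (Dvd.dvd.mul_left (Dvd.dvd.mul_left
        (dvd_pow_self N two_ne_zero) _) _)
      have h6 : q ^ 2 + 6 * (2 * N ^ 2) = (2 * N ^ 2) ^ 2 + 9 := by rw [← he]; ring
      rw [h6] at h5
      exact (Nat.dvd_add_right (dvd_pow (Dvd.dvd.mul_left (dvd_pow_self N two_ne_zero) _) two_ne_zero)).mp h5
    obtain ⟨i, hi2, hi⟩ := (Nat.dvd_prime_pow Nat.prime_three).mp (show N ∣ 3 ^ 2 by norm_num; exact hd9)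
    rcases (by omega : i = 0 ∨ i = 1 ∨ i = 2) with h | h | h <;> rw [h] at hi <;> norm_num at hi
    · omega
    · rw [hi] at hcard he
      rw [show q = 15 by omega] at hcard
      have : 5 ∣ 3 ^ m := hcard ▸ ⟨45, by norm_num⟩
      have := (Nat.Prime.dvd_of_dvd_pow (by norm_num) this)
      norm_num at this
    · rw [hi] at hcard he
      rw [show q = 159 by omega] at hcard
      have : 53 ∣ 9 ^ m := hcard ▸ ⟨477, by norm_num⟩
      have := (Nat.Prime.dvd_of_dvd_pow (by norm_num) this)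
      norm_num at this

/-- The parameters. -/
theorem exists_params :
    ∃ γ d l : F, γ ≠ 0 ∧ d + σ d ≠ 0 ∧ l + σ l ≠ 0 ∧ kap hF l ≠ 0 ∧
      (((γ ^ 2 = d * σ l ∧ kap hF l ^ 2 * (σ d * d) = -1) ∧
        ∀ S : Subring F, γ * σ γ ∈ S → ∀ x, σ x = x → x ∈ S) ∨ q = 3) := by
  by_cases hq : q = 3
  · subst hq
    obtain ⟨g₀, hg₀⟩ := IsCyclic.exists_ofOrder_eq_natCard (α := Fˣ)
    have hcard : Nat.card Fˣ = 8 := by rw [Nat.card_units, Nat.card_eq_fintype_card, hF]; norm_num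
    rw [hcard] at hg₀
    obtain ⟨t, ht⟩ := exists_trace_one hF
    have h8 : ∀ c : F, c ^ 2 = 1 → (g₀ : F) ^ 2 = c → False := fun c hc h => by
      have h4 : g₀ ^ 4 = 1 := Units.ext (by
        rw [Units.val_pow_eq_pow_val, Units.val_one]; linear_combination hc + ((g₀ : F) ^ 2 + c) * h)
      have := Nat.le_of_dvd (by norm_num) (orderOf_dvd_of_pow_eq_one h4)
      omega
    have hg0 : (g₀ : F) ≠ 0 := g₀.ne_zero
    refine ⟨1, t, g₀, one_ne_zero, by rw [ht]; exact one_ne_zero, ?_, ?_, Or.inr rfl⟩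
    · rw [Forms.frobQ_apply hF]
      intro h
      exact h8 (-1) (by ring) (mul_left_cancel₀ hg0 (by linear_combination h))
    · rw [kap, Forms.frobQ_apply hF]
      intro h
      exact h8 1 (by ring) (mul_left_cancel₀ hg0 (by linear_combination -h))
  obtain ⟨r, y, hr, hr2, hy, hyy, hrM⟩ := exists_unit hF hq
  have hr0 : r ≠ 0 := fun h => by rw [h, zero_mul] at hr; exact zero_ne_one hr
  have hy0 : y ≠ 0 := fun h => hr2 (by
    rw [h] at hyy
    have h1 : (r - 1) * (r - 1) = 0 := by linear_combination r * hyy - hr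
    rw [sub_eq_zero.mp (mul_self_eq_zero.mp h1), one_pow])
  obtain ⟨γ, hγ⟩ := exists_norm hF y⁻¹ (by rw [map_inv₀, hy])
  have hγ0 : γ ≠ 0 := fun h => inv_ne_zero hy0 (by rw [← hγ, h, zero_mul])
  have hsγ : σ γ ≠ 0 := fun h => hγ0 ((map_eq_zero _).mp h)
  -- `r` or its inverse
  obtain ⟨r', hr', hyy', hrM', hr2', hρ⟩ : ∃ r' : F, r' * σ r' = 1 ∧ y ^ 2 = 2 - r' - σ r' ∧
      (∀ M, r' ^ M = 1 → q + 1 ∣ 2 * M) ∧ r' ^ 2 ≠ 1 ∧ r' * σ γ ^ 2 / γ ^ 2 ≠ -1 := by
    by_cases hρ : r * σ γ ^ 2 / γ ^ 2 = -1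
    · refine ⟨σ r, by rw [sig_sig hF, mul_comm, hr], by rw [sig_sig hF, hyy]; ring, fun M hM => hrM M ?_,
        fun h => hr2 ?_, fun h => hr2 ?_⟩
      · have h1 := congrArg σ hM
        rwa [map_pow, sig_sig hF, map_one] at h1
      · have h1 := congrArg σ h
        rwa [map_pow, sig_sig hF, map_one] at h1
      · rw [div_eq_iff (pow_ne_zero _ hγ0)] at h hρ
        have h1 : r = σ r := mul_right_cancel₀ (pow_ne_zero 2 hsγ) (by rw [h, hρ])
        conv_rhs => rw [← hr, ← h1, ← pow_two]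
    · exact ⟨r, hr, hyy, hrM, hr2, hρ⟩
  set ρ := r' * σ γ ^ 2 / γ ^ 2 with hρdef
  have hsρ : ρ * σ ρ = 1 := by
    rw [hρdef, map_div₀, map_mul, map_pow, map_pow, sig_sig hF]
    field_simp
    linear_combination hr'
  set d := 1 + σ ρ with hd
  have hsd : σ d = ρ * d := by
    rw [hd, map_add, map_one, sig_sig hF]; linear_combination -hsρ
  have hd0 : d ≠ 0 := fun h => hρ (by
    have h1 : σ d = 0 := by rw [h, map_zero]
    rw [hd, map_add, map_one, sig_sig hF] at h1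
    linear_combination h1)
  have hr'0 : r' ≠ 0 := fun h => by rw [h, zero_mul] at hr'; exact zero_ne_one hr'
  have hsd' : σ d * γ ^ 2 = r' * σ γ ^ 2 * d := by rw [hsd, hρdef]; field_simp
  have hsd0 : σ d ≠ 0 := fun h => hd0 ((map_eq_zero _).mp h)
  set l := σ (γ ^ 2 / d) with hl
  have hl' : l = γ ^ 2 / d / r' := by
    rw [hl, map_div₀, map_pow]
    field_simp
    linear_combination -hsd'
  have hsr : σ r' = r'⁻¹ := eq_inv_of_mul_eq_one_right hr'
  have hkap : kap hF l ^ 2 * (σ d * d) = -1 := by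
    have h1 : kap hF l = γ ^ 2 / d * (1 / r' - 1) := by
      rw [kap]
      conv_lhs => arg 2; rw [hl, sig_sig hF]
      rw [hl']
      ring
    have h2 : (γ * σ γ) ^ 2 * y ^ 2 = 1 := by rw [hγ, inv_pow, inv_mul_cancel₀ (pow_ne_zero _ hy0)]
    rw [h1, hsd, hρdef]
    rw [hyy', hsr] at h2
    field_simp at h2 ⊢
    linear_combination -h2
  refine ⟨γ, d, l, hγ0, ?_, ?_, fun h => ?_,
    Or.inl ⟨⟨?_, hkap⟩, fun S hS => fixed_mem hF hr' hy hyy' hrM' S ?_⟩⟩
  · intro h
    rw [hsd] at h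
    exact hρ (mul_right_cancel₀ hd0 (by linear_combination h))
  · conv_lhs => arg 2; rw [hl, sig_sig hF]
    rw [hl']
    intro h
    have h1 : (1 + r') * γ ^ 2 = 0 := by field_simp at h; linear_combination h
    have h2 := (mul_eq_zero.mp h1).resolve_right (pow_ne_zero _ hγ0)
    exact hr2' (by linear_combination (r' - 1) * h2)
  · rw [h, zero_pow two_ne_zero, zero_mul, eq_comm, neg_eq_zero] at hkap
    exact one_ne_zero hkap
  · rw [hl, sig_sig hF, mul_div_cancel₀ _ hd0]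
  · rwa [← hγ]

end Cfsg.Agent.Forms.SUOdd
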