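import Cfsg.Agent.Forms.SUOddRegGen
import Cfsg.Agent.Forms.SUOddRegParams
import Cfsg.Agent.Forms.SUOddRegModel

/-!
# Three conjugate regular unipotent elements generating `SU_n(q)`, `n ≥ 5` odd
-/

set_option autoImplicit false

namespace Cfsg.Agent.Forms.SUOdd

open Matrix Cfsg.Agent.KnownA
open Cfsg.Agent.Forms (frobQ)

variable {F : Type*} [Field F] [Fintype F] {n q : ℕ} (hF : Fintype.card F = q ^ 2)
include hF

local notation "B" => ub hF
local notation "σ" => frobQ hF

/-- Totally isotropic pairs can be moved to each other. -/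
theorem exists_move_pair (hn : 5 ≤ n) {a c p r : Fin n → F} (ha : B a a = 0) (hc : B c c = 0) (hac : B a c = 0)
    (ha0 : a ≠ 0) (hca : ∀ k : F, c ≠ k • a) (hp : B p p = 0) (hr : B r r = 0) (hpr : B p r = 0)
    (hp0 : p ≠ 0) (hrp : ∀ k : F, r ≠ k • p) :
    ∃ g : Cfsg.SU n F q, act g p = a ∧ act g r = c := by
  have hnd : ∀ x ∈ (⊤ : Submodule F (Fin n → F)), (∀ y ∈ (⊤ : Submodule F (Fin n → F)), B x y = 0) → x = 0 :=
    fun x _ h => (Forms.hermB_nondegenerate hF).1 x fun y => h y trivial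
  have hR : ∀ W : Submodule F (Fin n → F), HasRoots hF (⊤ : Subgroup (Cfsg.SU n F q)) W :=
    fun W e w c _ _ _ _ _ => Subgroup.mem_top _
  obtain ⟨g₁, -, -, hg₁⟩ := exists_move_isotropic hF hnd
    (by rw [finrank_top, Module.finrank_fin_fun]; omega) (hR ⊤) (Submodule.mem_top (x := p))
    (Submodule.mem_top (x := a)) hp0 ha0 hp ha
  set r₁ := act g₁ r with hr₁
  have har₁ : B a r₁ = 0 := by rw [← hg₁, hr₁, act_ub hF, hpr]
  have hr₁0 : B r₁ r₁ = 0 := by rw [hr₁, act_ub hF, hr]
  obtain ⟨f, -, hff, haf⟩ := KnownA.exists_partner hF _ hnd (Submodule.mem_top (x := a)) ha0 ha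
  have hP : IsPair hF ⊤ a f := ⟨trivial, trivial, ha, hff, haf⟩
  have hfa : B f a = 1 := hP.fe
  set W := perpPair hF ⊤ a f
  have hWd := perpPair_nondeg hF hnd hP
  have hW3 := finrank_perpPair hF hP
  rw [finrank_top, Module.finrank_fin_fun] at hW3
  have hdec : ∀ y, B a y = 0 → B y y = 0 → (∀ k : F, y ≠ k • a) →
      y - B f y • a ∈ W ∧ y - B f y • a ≠ 0 ∧ B (y - B f y • a) (y - B f y • a) = 0 := by
    intro y hay hyy hya
    refine ⟨(mem_perpPair hF).mpr ⟨trivial, ?_, ?_⟩, fun h => hya _ (sub_eq_zero.mp h), ?_⟩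
    · rw [ub_sub_right hF, hay, ub_smul_right hF, ha, mul_zero, sub_zero]
    · rw [ub_sub_right hF, ub_smul_right hF, hfa, mul_one, sub_self]
    · simp [ub_sub_left hF, ub_sub_right hF, ub_smul_left hF, ub_smul_right hF, ha, hay, hyy,
        ub_eq_zero_symm hF hay]
  have hr₁a : ∀ k : F, r₁ ≠ k • a := fun k h => hrp k (act_injective g₁ (by rw [map_smul, hg₁, ← h, hr₁]))
  obtain ⟨hr', hr'0, hr''⟩ := hdec r₁ har₁ hr₁0 hr₁a
  obtain ⟨hc', hc'0, hc''⟩ := hdec c hac hc hca
  obtain ⟨g₂, -, hg₂W, hg₂⟩ := exists_move_isotropic hF hWd (by omega) (hR W) hr' hc' hr'0 hc'0 hr'' hc''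
  have hg₂a : act g₂ a = a := hg₂W.2 a fun y hy => ub_eq_zero_symm hF ((mem_perpPair hF).mp hy).2.1
  set c' := c - B f c • a with hc'def
  obtain ⟨p', hp', hpp', hcp'⟩ := KnownA.exists_partner hF W hWd hc' hc'0 hc''
  obtain ⟨-, hap', -⟩ := (mem_perpPair hF).mp hp'
  obtain ⟨-, hac', -⟩ := (mem_perpPair hF).mp hc'
  set δ := B f r₁ - B f c with hδ
  set w := σ δ • p' with hw
  have haw : B a w = 0 := by rw [hw, ub_smul_right hF, hap', mul_zero]
  have hwc : (0 : F) + σ 0 = -B w w :=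
    zero_cond hF (by rw [hw, ub_smul_left hF, ub_smul_right hF, hpp', mul_zero, mul_zero])
  have hwa : B w a = 0 := ub_eq_zero_symm hF haw
  have hwc' : B w c' = δ := by
    rw [hw, ub_smul_left hF, sig_sig hF, ← ub_symm hF c' p', hcp', map_one, mul_one]
  refine ⟨root hF a w 0 * g₂ * g₁, ?_, ?_⟩
  · rw [act_mul_apply, act_mul_apply, hg₁, hg₂a, act_root hF ha haw hwc, ha, hwa]
    simp
  · have e : r₁ = (r₁ - B f r₁ • a) + B f r₁ • a := by rw [sub_add_cancel]
    rw [act_mul_apply, act_mul_apply, ← hr₁]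
    conv_lhs => rw [e]
    rw [map_add, map_smul, hg₂, hg₂a, act_root hF ha haw hwc, ub_add_right hF, ub_add_right hF,
      ub_smul_right hF, ub_smul_right hF, hac', ha, hwa, hwc', hδ, hc'def]
    match_scalars <;> ring

theorem exists_generators {j : ℕ} (hn : n = 2 * j + 5) :
    ∃ u g h : ↥(Cfsg.SU n F q), (IsNilpotent (((u : Matrix.SpecialLinearGroup (Fin n) F) : Matrix (Fin n) (Fin n) F) - 1) ∧
        (((u : Matrix.SpecialLinearGroup (Fin n) F) : Matrix (Fin n) (Fin n) F) - 1) ^ (n - 1) ≠ 0) ∧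
      Subgroup.closure ({u, g * u * g⁻¹, h * u * h⁻¹} : Set ↥(Cfsg.SU n F q)) = ⊤ := by
  obtain ⟨γ, d, l, hγ, hd, hlT, hlK, hcase⟩ := exists_params hF
  obtain ⟨u, a, b, w₀, p, hreg, ha, hb, hab, ha0, hba', hua, hub, hker, hnil, haw, hbw, huw, hp, hp1, hp2,
    hind⟩ := exists_model hF hn hd
  have hd0 : d ≠ 0 := fun h => hd (by rw [h, map_zero, add_zero])
  have hp0 : p ≠ 0 := fun h => one_ne_zero ((hind 1 0 (by rw [h, smul_zero, zero_smul, add_zero])).1)
  obtain ⟨g, hgp, hgu⟩ := exists_move_pair hF (by omega) ha (c := γ • b)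
    (by rw [ub_smul_left hF, ub_smul_right hF, hb, mul_zero, mul_zero])
    (by rw [ub_smul_right hF, hab, mul_zero]) ha0
    (fun k h => hba' (γ⁻¹ * k) (by rw [← smul_smul, ← h, inv_smul_smul₀ hγ]))
    hp (r := act u p) (by rw [act_ub hF, hp]) hp1 hp0
    (fun k h => one_ne_zero ((hind (-k) 1 (by rw [one_smul, h, neg_smul, neg_add_cancel])).2))
  set v := g * u * g⁻¹ with hvdef
  have hgv : ∀ x, act v (act g x) = act g (act u x) := fun x => by
    rw [← act_mul_apply, hvdef, inv_mul_cancel_right, act_mul_apply]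
  have hva : act v a = γ • b := by rw [← hgp, hgv, hgu]
  have hvd : B a (act v (act v a)) = d := by rw [← hgp, hgv, hgv, act_ub hF, hp2]
  set W := (-l) • w₀ with hW
  have haW : B a W = 0 := by rw [hW, ub_smul_right hF, haw, mul_zero]
  obtain ⟨t, ht⟩ := exists_trace_one hF
  set c₀ := -(t * B W W) with hc₀
  have hcW : c₀ + σ c₀ = -B W W := by
    rw [hc₀, map_neg, map_mul, ub_self_fixed hF]
    linear_combination -(B W W) * ht
  set y := root hF a W c₀ with hy
  set H := Subgroup.closure ({u, g * u * g⁻¹, y * u * y⁻¹} : Set ↥(Cfsg.SU n F q)) with hH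
  have hu : u ∈ H := Subgroup.subset_closure (Set.mem_insert _ _)
  have hv : v ∈ H := Subgroup.subset_closure (Set.mem_insert_of_mem _ (Set.mem_insert _ _))
  have hyu : y * u * y⁻¹ ∈ H :=
    Subgroup.subset_closure (Set.mem_insert_of_mem _ (Set.mem_insert_of_mem _ rfl))
  have huy : u * y * u⁻¹ = root hF a (act u W) c₀ := by
    rw [hy, root_conj hF u ha ha haW hcW (t := 1) (by rw [one_smul, hua]), map_one, one_smul, mul_one, mul_one]
  have huW : act u W = W + (-l) • b := by rw [hW, map_smul, huw, smul_add]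
  have haUW : B a (act u W) = 0 := by rw [huW, ub_add_right hF, haW, ub_smul_right hF, hab, mul_zero, add_zero]
  have hlb : B a (l • b) = 0 := by rw [ub_smul_right hF, hab, mul_zero]
  have hlc : (0 : F) + σ 0 = -B (l • b) (l • b) :=
    zero_cond hF (by rw [ub_smul_left hF, ub_smul_right hF, hb, mul_zero, mul_zero])
  have hX : root hF a (l • b) 0 ∈ H := by
    have e : root hF a (l • b) 0 * (u * y * u⁻¹) = y := by
      rw [huy, root_mul hF ha hlb haUW hlc (by rw [act_ub hF]; exact hcW), hy, huW]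
      congr 1
      · match_scalars <;> ring
      · simp only [hW, ub_add_right hF, ub_smul_left hF, ub_smul_right hF, hb, hbw]
        ring
    rw [eq_mul_inv_of_mul_eq e, show y * (u * y * u⁻¹)⁻¹ = y * u * y⁻¹ * u⁻¹ by group]
    exact H.mul_mem hyu (H.inv_mem hu)
  have hm₀ : root hF a 0 (kap hF l) ∈ H := by
    have hab' : B a (l • (a + b)) = 0 := by
      rw [ub_smul_right hF, ub_add_right hF, ha, hab, add_zero, mul_zero]
    have hk : kap hF l + σ (kap hF l) = -B (l • b) (l • b) := by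
      rw [kap_trace hF, ub_smul_left hF, ub_smul_right hF, hb, mul_zero, mul_zero, neg_zero]
    have e1 : u * root hF a (l • b) 0 * u⁻¹ = root hF a 0 (kap hF l) * root hF a (l • b) 0 := by
      rw [root_conj hF u ha ha hlb hlc (t := 1) (by rw [one_smul, hua]), map_one, one_smul, map_smul, hub,
        root_mul hF ha (ub_zero_right hF a) hlb (trace_cond hF (kap_trace hF l)) hlc, zero_add, ub_zero_left,
        ← root_shift hF l _ ha hlb (by rw [add_zero, sub_zero]; exact hk)]
      congr 1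
      · rw [smul_add, add_comm]
      · rw [kap]; ring
    rw [eq_mul_inv_of_mul_eq e1.symm]
    exact H.mul_mem (H.mul_mem (H.mul_mem hu hX) (H.inv_mem hu)) (H.inv_mem hX)
  have hfull : Full hF H a := by
    rcases hcase with ⟨⟨h1, h2⟩, h3⟩ | h3
    · obtain ⟨k, hk, ρ, hρ, hρN⟩ := exists_scaling hF ha hb hab hub hva hvd hγ h1 h2 hu hv hX hm₀
      exact full_of_closed hF ha hlK (kap_trace hF l) hm₀ hk hρ fun S hS => h3 S (by
        rw [← hρN]; exact hS)
    · refine full_of_closed hF ha hlK (kap_trace hF l) hm₀ H.one_mem (ρ := 1)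
        (by rw [act_one, one_smul]; rfl) fun S _ x hx => ?_
      rw [Forms.frobQ_apply hF, h3] at hx
      have h : x * (x - 1) * (x + 1) = 0 := by linear_combination hx
      rcases mul_eq_zero.mp h with h | h
      · rcases mul_eq_zero.mp h with h | h
        · rw [h]; exact S.zero_mem
        · rw [sub_eq_zero.mp h]; exact S.one_mem
      · rw [eq_neg_of_add_eq_zero_left h]; exact S.neg_mem S.one_mem
  exact ⟨u, g, y, hreg, eq_top_of_full hF ha hb hab hua hub hker hnil hva hvd hd0 hγ hlT hlK hu hv hX hfull⟩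

end Cfsg.Agent.Forms.SUOdd
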