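import Cfsg.Agent.Forms.SUThreeRegGen

/-!
# A regular unipotent element of `SU₃(q)` and a conjugate of it generating the group
-/

set_option autoImplicit false
set_option linter.unusedSimpArgs false

namespace Cfsg.Agent.Forms.SUThree

open Matrix Cfsg.Agent.KnownA
open Cfsg.Agent.Forms (frobQ)

variable {F : Type*} [Field F] [Fintype F] {q : ℕ} (hF : Fintype.card F = q ^ 2)
include hF

local notation "B" => ub hF
local notation "σ" => frobQ hF

omit [Fintype F] hF in
/-- The vector with coordinates `a, b, k` in a frame. -/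
def vec (e f z : Fin 3 → F) (a b k : F) : Fin 3 → F := a • e + b • z + k • f

variable {e f z : Fin 3 → F} (hfr : Frame hF e f z)
include hfr

theorem Frame.fe : B f e = 1 := by rw [← ub_symm hF, hfr.ef, map_one]

theorem ub_vec (a b k a' b' k' : F) :
    B (vec e f z a b k) (vec e f z a' b' k') = σ a * k' + σ b * b' + σ k * a' := by
  simp only [vec, ub_add_left hF, ub_add_right hF, ub_smul_left hF, ub_smul_right hF, hfr.ee, hfr.ff,
    hfr.ef, hfr.fe hF, hfr.ez, hfr.fz, hfr.zz, ub_eq_zero_symm hF hfr.ez, ub_eq_zero_symm hF hfr.fz]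
  ring

theorem coord (a b k : F) :
    B f (vec e f z a b k) = a ∧ B z (vec e f z a b k) = b ∧ B e (vec e f z a b k) = k := by
  refine ⟨?_, ?_, ?_⟩ <;>
    simp [vec, ub_add_right hF, ub_smul_right hF, hfr.ee, hfr.ff, hfr.ef, hfr.fe hF, hfr.ez, hfr.fz,
      hfr.zz, ub_eq_zero_symm hF hfr.ez, ub_eq_zero_symm hF hfr.fz]

theorem act_u {β c : F} (hc : c + σ c = -B (β • z) (β • z)) (a b k : F) :
    act (root hF e (β • z) c) (vec e f z a b k) = vec e f z (a + c * k - σ β * b) (b + β * k) k := by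
  obtain ⟨-, h2, h3⟩ := coord hF hfr a b k
  rw [act_root hF hfr.ee (by rw [ub_smul_right hF, hfr.ez, mul_zero]) hc, ub_smul_left hF, h2, h3]
  simp only [vec]
  match_scalars <;> ring

theorem act_v {γ d : F} (hd : d + σ d = -B (γ • z) (γ • z)) (a b k : F) :
    act (root hF f (γ • z) d) (vec e f z a b k) = vec e f z a (b + γ * a) (k + d * a - σ γ * b) := by
  obtain ⟨h1, h2, -⟩ := coord hF hfr a b k
  rw [act_root hF hfr.ff (by rw [ub_smul_right hF, hfr.fz, mul_zero]) hd, ub_smul_left hF, h2, h1]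
  simp only [vec]
  match_scalars <;> ring

/-- The element `e ↦ s f`, `f ↦ e / s̄`, `z ↦ -(s̄ / s) z`. -/
theorem exists_flip {s : F} (hs : s ≠ 0) :
    ∃ g : Cfsg.SU 3 F q, ∀ x, act g x = vec e f z (B e x / σ s) (-(σ s / s) * B z x) (s * B f x) := by
  have hs' : σ s ≠ 0 := fun h => hs ((map_eq_zero _).mp h)
  have hze := ub_eq_zero_symm hF hfr.ez
  have hzf := ub_eq_zero_symm hF hfr.fz
  let L : (Fin 3 → F) →ₗ[F] (Fin 3 → F) :=
    (LinearMap.id + ((σ s)⁻¹ • ubL hF e - ubL hF f).smulRight e + (s • ubL hF f - ubL hF e).smulRight f).comp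
      (LinearMap.id + ((-(σ s / s) - 1) • ubL hF z).smulRight z)
  have hL : ∀ x, L x = vec e f z (B e x / σ s) (-(σ s / s) * B z x) (s * B f x) := by
    intro x
    simp only [L, LinearMap.comp_apply, LinearMap.add_apply, LinearMap.id_apply, LinearMap.smulRight_apply,
      LinearMap.sub_apply, LinearMap.smul_apply, ubL_apply, smul_eq_mul, ub_add_right hF, ub_smul_right hF,
      hfr.ez, hfr.fz, mul_zero, add_zero, vec]
    linear_combination (norm := module) hfr.span x
  have hp : ∀ x y, B (L x) (L y) = B x y := by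
    intro x y
    have hxy : B x y = B (vec e f z (B f x) (B z x) (B e x)) (vec e f z (B f y) (B z y) (B e y)) :=
      congrArg₂ (ub hF) (hfr.span x) (hfr.span y)
    rw [hxy, hL, hL, ub_vec hF hfr, ub_vec hF hfr]
    simp only [map_mul, map_neg, map_div₀, sig_sig hF]
    field_simp
    ring
  have hd : LinearMap.det L = 1 := by
    simp only [L, LinearMap.det_comp, det_one_add_two, det_one_add_one, LinearMap.sub_apply,
      LinearMap.smul_apply, ubL_apply, smul_eq_mul, hfr.ee, hfr.ff, hfr.ef, hfr.fe hF, hfr.zz]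
    field_simp
    ring
  obtain ⟨g, hg⟩ := exists_su_of_linearMap hF L hp hd
  exact ⟨g, fun x => by rw [hg, hL]⟩

theorem exists_conj {β c γ d s : F} (hβ : β ≠ 0) (hs : s ≠ 0) (hγ : γ = -(σ s * σ s / s) * β)
    (hc : c + σ c = -B (β • z) (β • z)) (hd : d + σ d = -B (γ • z) (γ • z)) :
    ∃ g : Cfsg.SU 3 F q, g * root hF e (β • z) c * g⁻¹ = root hF f (γ • z) d := by
  have hs' : σ s ≠ 0 := fun h => hs ((map_eq_zero _).mp h)
  have hβ' : σ β ≠ 0 := fun h => hβ ((map_eq_zero _).mp h)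
  have hez : ∀ r : F, B e (r • z) = 0 := fun r => by rw [ub_smul_right hF, hfr.ez, mul_zero]
  set c' := d / (s * σ s) with hc'
  have hγs : σ γ = -(s * s / σ s) * σ β := by
    rw [hγ]; simp only [map_mul, map_neg, map_div₀, sig_sig hF]
  have htr : c' - c + σ (c' - c) = 0 := by
    simp only [ub_smul_left hF, ub_smul_right hF, hfr.zz] at hc hd
    rw [map_sub, hc', map_div₀, map_mul, sig_sig hF]
    have e1 : σ γ * γ = s * σ s * (σ β * β) := by rw [hγs, hγ]; field_simp
    field_simp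
    linear_combination hd - (s * σ s) * hc - e1
  obtain ⟨x, hx⟩ := trace_zero_eq_kap hF _ htr
  set δ := x / σ β with hδ
  obtain ⟨t, ht⟩ := exists_trace_one hF
  set k := -(t * (σ δ * δ)) with hkdef
  have hk : k + σ k = -B (δ • z) (δ • z) := by
    rw [hkdef, ub_smul_left hF, ub_smul_right hF, hfr.zz, map_neg, map_mul, map_mul, sig_sig hF]
    linear_combination -(σ δ * δ) * ht
  have hc2 : c' + σ c' = -B (β • z) (β • z) := by
    rw [map_sub] at htr
    linear_combination htr + hc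
  set r0 := root hF e (δ • z) k with hr0
  have e1 : r0 * root hF e (β • z) c = root hF e (β • z) c' * r0 := by
    rw [hr0, root_mul hF hfr.ee (hez δ) (hez β) hk hc, root_mul hF hfr.ee (hez β) (hez δ) hc2 hk]
    congr 1
    · abel
    · have e2 : kap hF (σ β * δ) = c' - c := by
        rw [hδ, mul_div_cancel₀ _ hβ']; exact hx
      simp only [kap, map_mul, sig_sig hF] at e2
      simp only [ub_smul_left hF, ub_smul_right hF, hfr.zz]
      linear_combination e2
  obtain ⟨g, hg⟩ := exists_flip hF hfr hs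
  have hge : act g e = s • f := by
    rw [hg, hfr.ee, ub_eq_zero_symm hF hfr.ez, hfr.fe hF, vec]; simp
  have hgz : σ s • act g (β • z) = γ • z := by
    rw [hg, hez, ub_smul_right hF, ub_smul_right hF, hfr.zz, hfr.fz, vec, hγ]
    match_scalars <;> first | ring | (field_simp; done) | (field_simp; ring)
  refine ⟨g * r0, ?_⟩
  rw [_root_.mul_inv_rev, mul_assoc g r0, e1,
    show g * (root hF e (β • z) c' * r0) * (r0⁻¹ * g⁻¹) = g * root hF e (β • z) c' * g⁻¹ by group,
    root_conj hF g hfr.ee hfr.ff (hez β) hc2 hge, hgz, hc', div_mul_cancel₀ _ (mul_ne_zero hs hs')]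

omit hfr in
/-- The conclusion for given parameters and a word. -/
theorem two_gen (hfr : Frame hF e f z) {β c γ d s : F} (hβ : β ≠ 0) (hs : s ≠ 0)
    (hγ : γ = -(σ s * σ s / s) * β)
    (hc : c + σ c = -B (β • z) (β • z)) (hd : d + σ d = -B (γ • z) (γ • z))
    (hw : ∀ H : Subgroup (Cfsg.SU 3 F q), root hF e (β • z) c ∈ H → root hF f (γ • z) d ∈ H →
      ∃ h ∈ H, ∃ r : F, act h e = r • e ∧ Generates (σ r * B z (act h z))) :
    ∃ u g : ↥(Cfsg.SU 3 F q),
      (IsNilpotent (((u : Matrix.SpecialLinearGroup (Fin 3) F) : Matrix (Fin 3) (Fin 3) F) - 1) ∧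
        (((u : Matrix.SpecialLinearGroup (Fin 3) F) : Matrix (Fin 3) (Fin 3) F) - 1) ^ (3 - 1) ≠ 0) ∧
      Subgroup.closure ({u, g * u * g⁻¹} : Set ↥(Cfsg.SU 3 F q)) = ⊤ := by
  obtain ⟨g, hg⟩ := exists_conj hF hfr hβ hs hγ hc hd
  set u := root hF e (β • z) c with hu
  refine ⟨u, g, ?_, ?_⟩
  · set D := ((u : Matrix.SpecialLinearGroup (Fin 3) F) : Matrix (Fin 3) (Fin 3) F) - 1 with hD
    have hDv : ∀ a b k, D *ᵥ vec e f z a b k = vec e f z (c * k - σ β * b) (β * k) 0 := by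
      intro a b k
      have h1 := act_u hF hfr hc a b k
      rw [← hu, act, Matrix.toLin'_apply] at h1
      rw [hD, Matrix.sub_mulVec, Matrix.one_mulVec, h1]
      simp only [vec]
      match_scalars <;> ring
    have h3 : D ^ 3 = 0 := Matrix.toLin'.injective <| LinearMap.ext fun x => by
      rw [map_zero, LinearMap.zero_apply, Matrix.toLin'_apply,
        show x = vec e f z (B f x) (B z x) (B e x) from hfr.span x, pow_three, ← Matrix.mulVec_mulVec,
        ← Matrix.mulVec_mulVec, hDv, hDv, hDv]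
      simp [vec]
    refine ⟨⟨3, h3⟩, fun h => ?_⟩
    have h1 : D *ᵥ (D *ᵥ vec e f z 0 0 1) = vec e f z (-(σ β * β)) 0 0 := by
      rw [hDv, hDv]; simp
    rw [Matrix.mulVec_mulVec, ← pow_two, show (D ^ 2 : Matrix (Fin 3) (Fin 3) F) = 0 from h,
      Matrix.zero_mulVec] at h1
    have h2 := congrArg (ub hF f) h1
    rw [(coord hF hfr _ _ _).1, ub_zero_right hF, eq_comm, neg_eq_zero, mul_eq_zero] at h2
    rcases h2 with h2 | h2
    · exact hβ ((map_eq_zero _).mp h2)
    · exact hβ h2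
  · rw [hg]
    set H := Subgroup.closure ({u, root hF f (γ • z) d} : Set ↥(Cfsg.SU 3 F q))
    have hu1 : u ∈ H := Subgroup.subset_closure (Set.mem_insert _ _)
    have hv1 : root hF f (γ • z) d ∈ H := Subgroup.subset_closure (Set.mem_insert_of_mem _ rfl)
    obtain ⟨h, hh, r, hr, hgen⟩ := hw H hu1 hv1
    have hγ0 : γ ≠ 0 := by
      have hs' : σ s ≠ 0 := fun h => hs ((map_eq_zero _).mp h)
      rw [hγ]
      exact mul_ne_zero (neg_ne_zero.mpr (div_ne_zero (mul_ne_zero hs' hs') hs)) hβ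
    exact eq_top_of_word hF hfr hβ hc hd hγ0 hu1 hv1 hh hr hgen

omit [Fintype F] hF hfr in
theorem vec_e : vec e f z 1 0 0 = e := by simp [vec]

omit [Fintype F] hF hfr in
theorem vec_z : vec e f z 0 1 0 = z := by simp [vec]

/-- One step of a word in `u`. -/
theorem step_u {β βb c : F} (hb : σ β = βb) (hc : c + σ c = -B (β • z) (β • z)) (a b k a' b' k' : F)
    (h1 : a + c * k - βb * b = a') (h2 : b + β * k = b') (h3 : k = k') :
    act (root hF e (β • z) c) (vec e f z a b k) = vec e f z a' b' k' := by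
  rw [act_u hF hfr hc, hb, h1, h2, h3]

/-- One step of a word in `v`. -/
theorem step_v {d : F} (hd : d + σ d = -B ((1 : F) • z) ((1 : F) • z)) (a b k a' b' k' : F)
    (h1 : a = a') (h2 : b + a = b') (h3 : k + d * a - b = k') :
    act (root hF f ((1 : F) • z) d) (vec e f z a b k) = vec e f z a' b' k' := by
  rw [act_v hF hfr hd, map_one, one_mul, one_mul, h2, h3, h1]

/-- All fields but two. -/
theorem gen_generic (hq : 3 ≤ q) (h5 : q ≠ 5) (h8 : q ≠ 8) :
    ∃ u g : ↥(Cfsg.SU 3 F q),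
      (IsNilpotent (((u : Matrix.SpecialLinearGroup (Fin 3) F) : Matrix (Fin 3) (Fin 3) F) - 1) ∧
        (((u : Matrix.SpecialLinearGroup (Fin 3) F) : Matrix (Fin 3) (Fin 3) F) - 1) ^ (3 - 1) ≠ 0) ∧
      Subgroup.closure ({u, g * u * g⁻¹} : Set ↥(Cfsg.SU 3 F q)) = ⊤ := by
  obtain ⟨g₀, hg₀⟩ := IsCyclic.exists_ofOrder_eq_natCard (α := Fˣ)
  have hcard : Nat.card Fˣ = (q - 1) * (q + 1) := by
    rw [Nat.card_units, Nat.card_eq_fintype_card, hF]
    obtain ⟨m, rfl⟩ : ∃ m, q = m + 1 := ⟨q - 1, by omega⟩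
    simp only [add_tsub_cancel_right]
    have : (m + 1) ^ 2 = m * (m + 1 + 1) + 1 := by ring
    omega
  set lu := g₀ ^ (q - 1)
  have hord : orderOf lu = q + 1 := by
    rw [orderOf_pow_of_dvd (by omega) (by rw [hg₀, hcard]; exact Dvd.intro _ rfl), hg₀, hcard]
    exact Nat.mul_div_cancel_left _ (by omega)
  set l : F := (lu : F) with hl
  have hl0 : l ≠ 0 := lu.ne_zero
  have hpow : ∀ m : ℕ, l ^ m = 1 → q + 1 ∣ m := fun m hm => by
    rw [← hord]
    exact orderOf_dvd_of_pow_eq_one (Units.ext (by rw [Units.val_pow_eq_pow_val]; exact hm))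
  have hlq : l ^ (q + 1) = 1 := by
    rw [hl, ← Units.val_pow_eq_pow_val, ← hord, pow_orderOf_eq_one, Units.val_one]
  have hsl : σ l = l⁻¹ := by
    rw [Forms.frobQ_apply hF]
    exact eq_inv_of_mul_eq_one_left (by rw [← pow_succ, hlq])
  have hl1 : 1 + l ≠ 0 := fun h => by
    have h2 : l ^ 2 = 1 := by linear_combination (l - 1) * h
    have := Nat.le_of_dvd (by norm_num) (hpow 2 h2)
    omega
  set β := (1 + l) ^ 2 / l with hβdef
  have hβ : β ≠ 0 := div_ne_zero (pow_ne_zero _ hl1) hl0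
  have hsβ : σ β = β := by
    rw [hβdef, map_div₀, map_pow, map_add, map_one, hsl]; field_simp; ring
  set d := -l / (1 + l) with hddef
  set c := -(1 + l) * (l - 1 + β) / l with hcdef
  have hd : d + σ d = -B ((1 : F) • z) ((1 : F) • z) := by
    rw [one_smul, hfr.zz, hddef, map_div₀, map_neg, map_add, map_one, hsl,
      show 1 + l⁻¹ = (1 + l) / l by field_simp; ring]
    field_simp
    ring
  have hc : c + σ c = -B (β • z) (β • z) := by
    rw [ub_smul_left hF, ub_smul_right hF, hfr.zz, hsβ, hcdef, map_div₀, map_mul, map_neg, map_add, map_add,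
      map_sub, map_one, hsβ, hsl, hβdef]
    field_simp
    ring
  refine two_gen hF hfr (s := -β⁻¹) hβ (neg_ne_zero.mpr (inv_ne_zero hβ))
    (by rw [map_neg, map_inv₀, hsβ]; field_simp) hc hd fun H hu hv => ?_
  set u := root hF e (β • z) c
  set v := root hF f ((1 : F) • z) d
  refine ⟨v * u * v, H.mul_mem (H.mul_mem hv hu) hv, l, ?_, ?_⟩
  · rw [← vec_e (e := e) (f := f) (z := z), act_mul_apply, act_mul_apply,
      step_v hF hfr hd 1 0 0 1 1 d rfl (by ring) (by ring),
      step_u hF hfr hsβ hc 1 1 d l (-l) d (by rw [hcdef, hddef]; field_simp; ring)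
        (by rw [hβdef, hddef]; field_simp; ring) rfl,
      step_v hF hfr hd l (-l) d l 0 0 rfl (by ring) (by rw [hddef]; field_simp; ring)]
    simp [vec]
  · have hμ : B z (act (v * u * v) z) = (l ^ 2)⁻¹ := by
      conv_lhs => arg 3; rw [← vec_z (e := e) (f := f) (z := z)]
      rw [act_mul_apply, act_mul_apply, act_v hF hfr hd, act_u hF hfr hc, act_v hF hfr hd,
        (coord hF hfr _ _ _).2.1, map_one, hsβ, hcdef, hβdef]
      field_simp
      ring
    rw [hμ, hsl, ← mul_inv, ← pow_succ']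
    have key : ∀ N : ℕ, 1 ≤ N → ((l ^ 3)⁻¹) ^ N = (l ^ 3)⁻¹ → q + 1 ∣ 3 * (N - 1) := by
      intro N hN h
      refine hpow _ ?_
      rw [inv_pow, _root_.inv_inj, ← Nat.sub_add_cancel hN, pow_succ, mul_eq_right₀ (pow_ne_zero _ hl0),
        ← pow_mul] at h
      exact h
    refine generates_of_pow hF (fun h => ?_) fun N hN hN3 _ h => ?_
    · obtain ⟨k, hk⟩ := key q (by omega) h
      have h3 : k < 3 := by
        by_contra hlt
        have : (q + 1) * 3 ≤ (q + 1) * k := Nat.mul_le_mul_left _ (by omega)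
        omega
      interval_cases k <;> omega
    · have hdvd := key N (by omega) h
      have hle := Nat.le_of_dvd (by omega) hdvd
      have hN8 : N ≤ 8 := by
        by_contra hlt
        have h2 : q ^ 2 < (3 * N) ^ 2 := Nat.pow_lt_pow_left (by omega) two_ne_zero
        nlinarith
      have hq20 : q ≤ 20 := by omega
      interval_cases N <;> interval_cases q <;> first | omega | (norm_num at hN3 hdvd)

omit hfr in
theorem char_eq_zero {p m : ℕ} (hpm : Fintype.card F = p ^ m) : (p : F) = 0 := by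
  have := FiniteField.cast_card_eq_zero F
  rw [hpm, Nat.cast_pow] at this
  exact eq_zero_of_pow_eq_zero this

/-- The field with `25` elements. -/
theorem gen_five (h5 : q = 5) :
    ∃ u g : ↥(Cfsg.SU 3 F q),
      (IsNilpotent (((u : Matrix.SpecialLinearGroup (Fin 3) F) : Matrix (Fin 3) (Fin 3) F) - 1) ∧
        (((u : Matrix.SpecialLinearGroup (Fin 3) F) : Matrix (Fin 3) (Fin 3) F) - 1) ^ (3 - 1) ≠ 0) ∧
      Subgroup.closure ({u, g * u * g⁻¹} : Set ↥(Cfsg.SU 3 F q)) = ⊤ := by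
  classical
  have hp : (5 : F) = 0 := by exact_mod_cast char_eq_zero hF (p := 5) (m := 2) (by rw [hF, h5])
  have h2 : (2 : F) ≠ 0 := fun h => one_ne_zero (by linear_combination hp - 2 * h : (1 : F) = 0)
  have h3 : (3 : F) ≠ 0 := fun h => one_ne_zero (by linear_combination 2 * h - hp : (1 : F) = 0)
  obtain ⟨θ, hθ'⟩ : IsSquare (2 : F) := by
    refine (FiniteField.isSquare_iff ?_ h2).mpr ?_
    · exact fun h => h2 (by
        haveI : CharP F 2 := h ▸ ringChar.charP F
        exact_mod_cast CharP.cast_eq_zero F 2)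
    · rw [hF, h5]; norm_num
      linear_combination 819 * hp
  have hθ : θ ^ 2 = 2 := by rw [pow_two, ← hθ']
  have hθ0 : θ ≠ 0 := fun h => h2 (by rw [← hθ, h]; ring)
  have hsθ : σ θ = 4 * θ := by
    rw [Forms.frobQ_apply hF, h5]
    linear_combination (θ ^ 3 + 2 * θ) * hθ
  have hsb : σ (3 * θ) = -3 * θ := by
    rw [map_mul, map_ofNat, hsθ]; linear_combination (3 * θ) * hp
  have hd : (2 + 2 * θ) + σ (2 + 2 * θ) = -B ((1 : F) • z) ((1 : F) • z) := by
    rw [one_smul, hfr.zz, map_add, map_mul, map_ofNat, hsθ]; linear_combination (1 + 2 * θ) * hp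
  have hc : (4 + 3 * θ) + σ (4 + 3 * θ) = -B ((3 * θ) • z) ((3 * θ) • z) := by
    rw [ub_smul_left hF, ub_smul_right hF, hfr.zz, hsb, map_add, map_mul, map_ofNat, map_ofNat, hsθ]
    linear_combination (-9) * hθ + (-2 + 3 * θ) * hp
  have h4 : (4 : F) * θ ≠ 0 := mul_ne_zero (fun h => one_ne_zero (by linear_combination hp - h : (1 : F) = 0)) hθ0
  refine two_gen hF hfr (β := 3 * θ) (c := 4 + 3 * θ) (γ := 1) (d := 2 + 2 * θ) (s := 4 * θ)
    (mul_ne_zero h3 hθ0) h4 ?_ hc hd fun H hu hv => ?_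
  · rw [map_mul, map_ofNat, hsθ, ← neg_div, div_mul_eq_mul_div, eq_div_iff h4]
    linear_combination (768 * θ) * hθ + (308 * θ) * hp
  set u := root hF e ((3 * θ) • z) (4 + 3 * θ)
  set v := root hF f ((1 : F) • z) (2 + 2 * θ)
  have step_u := step_u hF hfr hsb hc
  have step_v := step_v hF hfr hd
  have e1 := step_v (1) (0) (0) (1) (1) (2 + 2 * θ) (by ring)
    (by ring) (by ring)
  have e2 := step_u (1) (1) (2 + 2 * θ) (1 + 2 * θ) (3 + θ) (2 + 2 * θ) (by linear_combination (6) * hθ + (4 + 3 * θ) * hp)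
    (by linear_combination (6) * hθ + (2 + θ) * hp) (by ring)
  have e3 := step_v (1 + 2 * θ) (3 + θ) (2 + 2 * θ) (1 + 2 * θ) (4 + 3 * θ) (4 + 2 * θ) (by ring)
    (by ring) (by linear_combination (4) * hθ + (1 + θ) * hp)
  have e4 := step_v (1 + 2 * θ) (4 + 3 * θ) (4 + 2 * θ) (1 + 2 * θ) (0) (0) (by ring)
    (by linear_combination (1 + θ) * hp) (by linear_combination (4) * hθ + (2 + θ) * hp)
  have z1 := step_v (0) (1) (0) (0) (1) (4) (by ring)
    (by ring) (by linear_combination ((-1)) * hp)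
  have z2 := step_u (0) (1) (4) (1) (1 + 2 * θ) (4) (by linear_combination (3 + 3 * θ) * hp)
    (by linear_combination (2 * θ) * hp) (by ring)
  have z3 := step_v (1) (1 + 2 * θ) (4) (1) (2 + 2 * θ) (0) (by ring)
    (by ring) (by linear_combination (1) * hp)
  have z4 := step_v (1) (2 + 2 * θ) (0) (1) (3 + 2 * θ) (0) (by ring)
    (by ring) (by ring)
  refine ⟨v * v * u * v, H.mul_mem (H.mul_mem (H.mul_mem hv hv) hu) hv, 1 + 2 * θ, ?_, ?_⟩
  · conv_lhs => rw [← vec_e (e := e) (f := f) (z := z)]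
    simp only [act_mul_apply]
    rw [e1, e2, e3, e4]
    simp [vec]
  · have hμ : B z (act (v * v * u * v) z) = 3 + 2 * θ := by
      conv_lhs => arg 3; rw [← vec_z (e := e) (f := f) (z := z)]
      simp only [act_mul_apply]
      rw [z1, z2, z3, z4]
      exact (coord hF hfr _ _ _).2.1
    have hρ : σ (1 + 2 * θ) * B z (act (v * v * u * v) z) = θ := by
      rw [hμ, map_add, map_mul, map_one, map_ofNat, hsθ]
      linear_combination 16 * hθ + (7 + 5 * θ) * hp
    rw [hρ]
    refine generates_of_pow hF (fun h => ?_) fun N hN hN3 _ h => ?_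
    · rw [← Forms.frobQ_apply hF, hsθ] at h
      exact mul_ne_zero h3 hθ0 (by linear_combination h)
    · have : N ≤ 2 := by
        by_contra hlt
        rw [h5] at hN3
        have : 3 ^ 3 ≤ N ^ 3 := Nat.pow_le_pow_left (by omega) 3
        omega
      obtain rfl : N = 2 := by omega
      rw [hθ] at h
      exact h2 (by rw [← h] at hθ; linear_combination hθ)

/-- The field with `64` elements. -/
theorem gen_eight (h8 : q = 8) :
    ∃ u g : ↥(Cfsg.SU 3 F q),
      (IsNilpotent (((u : Matrix.SpecialLinearGroup (Fin 3) F) : Matrix (Fin 3) (Fin 3) F) - 1) ∧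
        (((u : Matrix.SpecialLinearGroup (Fin 3) F) : Matrix (Fin 3) (Fin 3) F) - 1) ^ (3 - 1) ≠ 0) ∧
      Subgroup.closure ({u, g * u * g⁻¹} : Set ↥(Cfsg.SU 3 F q)) = ⊤ := by
  have hp : (2 : F) = 0 := by exact_mod_cast char_eq_zero hF (p := 2) (m := 6) (by rw [hF, h8]; norm_num)
  obtain ⟨g₀, hg₀⟩ := IsCyclic.exists_ofOrder_eq_natCard (α := Fˣ)
  have hcard : Nat.card Fˣ = 63 := by rw [Nat.card_units, Nat.card_eq_fintype_card, hF, h8]; norm_num
  rw [hcard] at hg₀
  have hroot : ∀ m k : ℕ, m * k = 63 → 1 < k → ∃ x : F, x ^ k = 1 ∧ x ≠ 1 := by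
    intro m k hmk hk
    refine ⟨((g₀ ^ m : Fˣ) : F), ?_, fun h => ?_⟩
    · rw [← Units.val_pow_eq_pow_val, ← pow_mul, hmk, ← hg₀, pow_orderOf_eq_one, Units.val_one]
    · have h1 : g₀ ^ m = 1 := Units.ext h
      have h2 := Nat.le_of_dvd (Nat.pos_of_ne_zero fun h0 => by simp [h0] at hmk)
        (orderOf_dvd_of_pow_eq_one h1)
      rw [hg₀] at h2
      nlinarith
  obtain ⟨x, hx7, hx1⟩ := hroot 9 7 (by norm_num) (by norm_num)
  obtain ⟨ω, hω3, hω1⟩ := hroot 21 3 (by norm_num) (by norm_num)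
  obtain ⟨η, hη7, hη1, hη⟩ : ∃ η : F, η ^ 7 = 1 ∧ η ≠ 1 ∧ η ^ 3 + η + 1 = 0 := by
    have h : (x - 1) * ((x ^ 3 + x + 1) * (x ^ 3 + x ^ 2 + 1)) = 0 := by
      linear_combination hx7 + (x ^ 4 - x ^ 3) * hp
    rcases mul_eq_zero.mp ((mul_eq_zero.mp h).resolve_left (sub_ne_zero.mpr hx1)) with h1 | h1
    · exact ⟨x, hx7, hx1, h1⟩
    · refine ⟨x ^ 6, by rw [← pow_mul, mul_comm, pow_mul, hx7, one_pow], fun h6 => hx1 ?_, ?_⟩
      · linear_combination hx7 - x * h6
      · linear_combination x ^ 4 * h1 + (x ^ 11 + x ^ 4 - 1) * hx7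
  have hω : ω ^ 2 + ω + 1 = 0 := by
    have h : (ω - 1) * (ω ^ 2 + ω + 1) = 0 := by linear_combination hω3
    exact (mul_eq_zero.mp h).resolve_left (sub_ne_zero.mpr hω1)
  have hη0 : η ≠ 0 := fun h => by rw [h] at hη7; norm_num at hη7
  have hω0 : ω ≠ 0 := fun h => by rw [h] at hω3; norm_num at hω3
  have hsη : σ η = η := by rw [Forms.frobQ_apply hF, h8]; linear_combination η * hη7
  have hsω : σ ω = ω + 1 := by
    rw [Forms.frobQ_apply hF, h8]
    linear_combination (ω ^ 5 + ω ^ 2) * hω3 + hω - (ω + 1) * hp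
  have hsb : σ (η * ω) = η * ω + η := by rw [map_mul, hsη, hsω]; ring
  have hd : (η ^ 2 + ω) + σ (η ^ 2 + ω) = -B ((1 : F) • z) ((1 : F) • z) := by
    rw [one_smul, hfr.zz, map_add, map_pow, hsη, hsω]; linear_combination (1 + ω + η ^ 2) * hp
  have hc : (1 + η ^ 2 + η ^ 2 * ω) + σ (1 + η ^ 2 + η ^ 2 * ω) =
      -B ((η * ω) • z) ((η * ω) • z) := by
    rw [ub_smul_left hF, ub_smul_right hF, hfr.zz, hsb, map_add, map_add, map_mul, map_one, map_pow, hsη, hsω]
    linear_combination (η ^ 2) * hω + (1 + η ^ 2 + η ^ 2 * ω) * hp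
  have hs0 : η + ω ≠ 0 := fun h => by
    have e1 : η = ω := by linear_combination h - ω * hp
    rw [e1] at hη7
    exact hω1 (by linear_combination hη7 - (ω ^ 4 + ω) * hω3)
  refine two_gen hF hfr (β := η * ω) (c := 1 + η ^ 2 + η ^ 2 * ω) (γ := 1) (d := η ^ 2 + ω) (s := η + ω)
    (mul_ne_zero hη0 hω0) hs0 ?_ hc hd fun H hu hv => ?_
  · rw [map_add, hsη, hsω]
    field_simp
    linear_combination (ω) * hη + (η + η * ω + 2 * η ^ 2) * hω + ((-1) * η * ω + (-1) * η ^ 2) * hp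
  set u := root hF e ((η * ω) • z) (1 + η ^ 2 + η ^ 2 * ω)
  set v := root hF f ((1 : F) • z) (η ^ 2 + ω)
  have step_u := step_u hF hfr hsb hc
  have step_v := step_v hF hfr hd
  have e1 := step_v (1) (0) (0) (1) (1) (ω + η ^ 2) (by ring)
    (by ring) (by ring)
  have e2 := step_u (1) (1) (ω + η ^ 2) (1 + ω + η ^ 2 + η ^ 2 * ω) (1 + ω + η) (ω + η ^ 2) (by linear_combination (η + η * ω) * hη + (η ^ 2) * hω + ((-1) * η + (-1) * η * ω + (-1) * η ^ 2 + (-1) * η ^ 2 * ω) * hp)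
    (by linear_combination (ω) * hη + (η) * hω + ((-1) * ω + (-1) * η + (-1) * η * ω) * hp) (by ring)
  have e3 := step_u (1 + ω + η ^ 2 + η ^ 2 * ω) (1 + ω + η) (ω + η ^ 2) (1 + η + η ^ 2 + η ^ 2 * ω) (1) (ω + η ^ 2) (by linear_combination (η + η * ω) * hη + ((-1) * η + η ^ 2) * hω + (ω + (-1) * η + (-1) * η * ω + (-1) * η ^ 2 + (-1) * η ^ 2 * ω) * hp)
    (by linear_combination (ω) * hη + (η) * hω + ((-1) * η * ω) * hp) (by ring)
  have e4 := step_v (1 + η + η ^ 2 + η ^ 2 * ω) (1) (ω + η ^ 2) (1 + η + η ^ 2 + η ^ 2 * ω) (η + η ^ 2 + η ^ 2 * ω) (η ^ 2 * ω) (by ring)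
    (by linear_combination (1) * hp) (by linear_combination (1 + η + η * ω) * hη + (η ^ 2) * hω + ((-1) + ω + (-1) * η + (-1) * η ^ 2 * ω) * hp)
  have e5 := step_u (1 + η + η ^ 2 + η ^ 2 * ω) (η + η ^ 2 + η ^ 2 * ω) (η ^ 2 * ω) (1 + ω + η * ω + η ^ 2 + η ^ 2 * ω) (1 + ω + η * ω + η ^ 2 + η ^ 2 * ω) (η ^ 2 * ω) (by linear_combination ((-1) + (-2) * ω + (-1) * ω ^ 2 + η * ω + η * ω ^ 2) * hη + (1 + (-1) * η ^ 2) * hω + (η) * hp)
    (by linear_combination (ω ^ 2) * hη + ((-1) + (-1) * η) * hω + (η) * hp) (by ring)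
  have e6 := step_v (1 + ω + η * ω + η ^ 2 + η ^ 2 * ω) (1 + ω + η * ω + η ^ 2 + η ^ 2 * ω) (η ^ 2 * ω) (1 + ω + η * ω + η ^ 2 + η ^ 2 * ω) (0) (0) (by ring)
    (by linear_combination (1 + ω + η * ω + η ^ 2 + η ^ 2 * ω) * hp) (by linear_combination (ω + η + η * ω) * hη + (1 + η + η ^ 2) * hω + ((-1) + (-1) * ω + (-1) * η + (-2) * η * ω + (-1) * η ^ 2) * hp)
  have z1 := step_v (0) (1) (0) (0) (1) (1) (by ring)
    (by ring) (by linear_combination ((-1)) * hp)
  have z2 := step_u (0) (1) (1) (1 + η + η * ω + η ^ 2 + η ^ 2 * ω) (1 + η * ω) (1) (by linear_combination ((-1) * η + (-1) * η * ω) * hp)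
    (by ring) (by ring)
  have z3 := step_u (1 + η + η * ω + η ^ 2 + η ^ 2 * ω) (1 + η * ω) (1) (η ^ 2) (1) (1) (by linear_combination ((-1) * η ^ 2) * hω + (1 + η ^ 2 + η ^ 2 * ω) * hp)
    (by linear_combination (η * ω) * hp) (by ring)
  have z4 := step_v (η ^ 2) (1) (1) (η ^ 2) (1 + η ^ 2) (η + η ^ 2 + η ^ 2 * ω) (by ring)
    (by ring) (by linear_combination (η) * hη + ((-1) * η + (-1) * η ^ 2) * hp)
  have z5 := step_u (η ^ 2) (1 + η ^ 2) (η + η ^ 2 + η ^ 2 * ω) (0) (η + η ^ 2 + η ^ 2 * ω) (η + η ^ 2 + η ^ 2 * ω) (by linear_combination (η + 2 * η * ω + η * ω ^ 2) * hη + ((-1) * η + (-1) * η ^ 2) * hω + ((-1) * η * ω + η ^ 2) * hp)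
    (by linear_combination (ω + ω ^ 2) * hη + ((-1) + (-1) * η) * hω + (1) * hp) (by ring)
  have z6 := step_v (0) (η + η ^ 2 + η ^ 2 * ω) (η + η ^ 2 + η ^ 2 * ω) (0) (η + η ^ 2 + η ^ 2 * ω) (0) (by ring)
    (by ring) (by ring)
  refine ⟨v * u * v * u * u * v,
    H.mul_mem (H.mul_mem (H.mul_mem (H.mul_mem (H.mul_mem hv hu) hv) hu) hu) hv,
    1 + ω + η * ω + η ^ 2 + η ^ 2 * ω, ?_, ?_⟩
  · conv_lhs => rw [← vec_e (e := e) (f := f) (z := z)]
    simp only [act_mul_apply]
    rw [e1, e2, e3, e4, e5, e6]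
    simp [vec]
  · have hμ : B z (act (v * u * v * u * u * v) z) = η + η ^ 2 + η ^ 2 * ω := by
      conv_lhs => arg 3; rw [← vec_z (e := e) (f := f) (z := z)]
      simp only [act_mul_apply]
      rw [z1, z2, z3, z4, z5, z6]
      exact (coord hF hfr _ _ _).2.1
    have hρ : σ (1 + ω + η * ω + η ^ 2 + η ^ 2 * ω) * B z (act (v * u * v * u * u * v) z) =
        (η + η ^ 2) * (1 + ω) := by
      rw [hμ, map_add, map_add, map_add, map_add, map_mul, map_mul, map_one, map_pow, hsη, hsω]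
      linear_combination (3 + 3 * ω + ω ^ 2 + 2 * η + 3 * η * ω + η * ω ^ 2) * hη + ((-1) + (-2) * η) * hω +
        ((-1) + (-1) * ω + (-1) * η + (-2) * η * ω) * hp
    rw [hρ]
    set ρ := (η + η ^ 2) * (1 + ω) with hρdef
    have hsq : ρ ^ 2 = η * ω := by
      rw [hρdef]
      linear_combination (2 + 4 * ω + 2 * ω ^ 2 + η + 2 * η * ω + η * ω ^ 2) * hη + ((-2) + (-3) * η) * hω +
        ((-1) * ω + (-2) * η * ω) * hp
    have hρ0 : ρ ≠ 0 := fun h => mul_ne_zero hη0 hω0 (by rw [← hsq, h]; ring)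
    have key : ∀ N : ℕ, 1 ≤ N → ρ ^ N = ρ → η ^ (N - 1) * ω ^ (N - 1) = 1 := by
      intro N hN h
      rw [← Nat.sub_add_cancel hN, pow_succ, mul_eq_right₀ hρ0] at h
      rw [← mul_pow, ← hsq, ← pow_mul, mul_comm, pow_mul, h, one_pow]
    refine generates_of_pow hF (fun h => ?_) fun N hN hN3 _ h => ?_
    · rw [h8] at h
      have := key 8 (by norm_num) h
      norm_num [hη7] at this
      exact hω1 (by linear_combination this - (ω ^ 4 + ω) * hω3)
    · have := key N (by omega) h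
      have hN4 : N ≤ 4 := by
        by_contra hlt
        rw [h8] at hN3
        have : 5 ^ 3 ≤ N ^ 3 := Nat.pow_le_pow_left (by omega) 3
        omega
      have h3 : η ^ (3 * (N - 1)) = 1 := by
        have := congrArg (· ^ 3) this
        simp only [mul_pow, one_pow, ← pow_mul] at this
        rw [mul_comm (N - 1) 3, pow_mul ω, hω3, one_pow, mul_one] at this
        exact this
      interval_cases N <;> norm_num at h3
      · exact hη1 (by linear_combination hη7 - η * (η ^ 3 + 1) * h3)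
      · exact hη1 (by linear_combination hη7 - η * h3)
      · exact hη1 (by linear_combination hη7 - (η ^ 5 + η ^ 3 + η) * (h3 - η ^ 2 * hη7))

end Cfsg.Agent.Forms.SUThree
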