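import Cfsg.Agent.KnownA.UnitaryGen

/-!
# `SU₃(q)` from two conjugate regular unipotent elements

If some word in the two elements fixes the isotropic point of the first and induces on its root group a
multiplier generating the field, then they generate.  The word `v u v` does this for all but two fields.
-/

set_option autoImplicit false

namespace Cfsg.Agent.Forms.SUThree

open Matrix Cfsg.Agent.KnownA
open Cfsg.Agent.Forms (frobQ)

variable {F : Type*} [Field F] [Fintype F] {q : ℕ} (hF : Fintype.card F = q ^ 2)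
include hF

local notation "B" => ub hF
local notation "σ" => frobQ hF

theorem trace_zero_eq_kap (c : F) (hc : c + σ c = 0) : ∃ t : F, kap hF t = c := by
  obtain ⟨t, ht⟩ := exists_trace_one hF
  refine ⟨t * c, ?_⟩
  rw [kap, map_mul]
  linear_combination c * ht - σ t * hc

/-- An orthogonal frame: a hyperbolic pair and a unit vector. -/
structure Frame (e f z : Fin 3 → F) : Prop where
  ee : ub hF e e = 0
  ff : ub hF f f = 0
  ef : ub hF e f = 1
  ez : ub hF e z = 0
  fz : ub hF f z = 0
  zz : ub hF z z = 1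
  span : ∀ x, x = ub hF f x • e + ub hF z x • z + ub hF e x • f

theorem exists_frame : ∃ e f z : Fin 3 → F, Frame hF e f z := by
  classical
  have hnd : ∀ x ∈ (⊤ : Submodule F (Fin 3 → F)), (∀ y ∈ (⊤ : Submodule F (Fin 3 → F)), B x y = 0) → x = 0 :=
    fun x _ h => (Forms.hermB_nondegenerate hF).1 x fun y => h y trivial
  obtain ⟨e, -, he0, hee⟩ := exists_isotropic hF (⊤ : Submodule F (Fin 3 → F))
    (by rw [finrank_top, Module.finrank_fin_fun]; omega)
  obtain ⟨f, -, hff, hef⟩ := exists_partner hF _ hnd (Submodule.mem_top (x := e)) he0 hee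
  have hp : IsPair hF ⊤ e f := ⟨trivial, trivial, hee, hff, hef⟩
  have hd := perpPair_nondeg hF hnd hp
  have hdim := finrank_perpPair hF hp
  rw [finrank_top, Module.finrank_fin_fun] at hdim
  set W := perpPair hF ⊤ e f
  obtain ⟨z₀, hz₀, hz0⟩ := Submodule.exists_mem_ne_zero_of_ne_bot
    (show W ≠ ⊥ from fun h => by rw [h, finrank_bot] at hdim; omega)
  have hline : ∀ x ∈ W, ∃ a : F, x = a • z₀ := by
    intro x hx
    obtain ⟨a, ha⟩ := exists_smul_eq_of_finrank_eq_one (K := F) (show Module.finrank F W = 1 by omega)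
      (x := ⟨z₀, hz₀⟩) (fun h => hz0 (congrArg Subtype.val h)) ⟨x, hx⟩
    exact ⟨a, (congrArg Subtype.val ha).symm⟩
  have hzz : B z₀ z₀ ≠ 0 := fun h => hz0 (hd z₀ hz₀ fun y hy => by
    obtain ⟨a, rfl⟩ := hline y hy
    rw [ub_smul_right hF, h, mul_zero])
  obtain ⟨r, hr⟩ := exists_norm hF (B z₀ z₀)⁻¹ (by rw [map_inv₀, ub_self_fixed hF])
  set z := r • z₀
  have hz : z ∈ W := W.smul_mem _ hz₀
  have hzz1 : B z z = 1 := by
    rw [ub_smul_left hF, ub_smul_right hF, ← mul_assoc, mul_comm (σ r), hr, inv_mul_cancel₀ hzz]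
  obtain ⟨-, hez, hfz⟩ := (mem_perpPair hF).mp hz
  have hze := ub_eq_zero_symm hF hez
  have hzf := ub_eq_zero_symm hF hfz
  refine ⟨e, f, z, ⟨hee, hff, hef, hez, hfz, hzz1, fun x => ?_⟩⟩
  have hy : x - B f x • e - B e x • f ∈ W := by
    refine (mem_perpPair hF).mpr ⟨trivial, ?_, ?_⟩ <;>
      simp [ub_sub_right hF, ub_smul_right hF, hee, hff, hef, hp.fe]
  obtain ⟨a, ha⟩ := hline _ hy
  have hr0 : r ≠ 0 := fun h => by
    have : z = 0 := by simp [z, h]
    rw [this, ub_zero_left] at hzz1
    exact zero_ne_one hzz1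
  have ha' : x - B f x • e - B e x • f = (a / r) • z := by
    rw [ha, smul_smul, div_mul_cancel₀ _ hr0]
  have h := congrArg (B z) ha'
  rw [ub_sub_right hF, ub_sub_right hF, ub_smul_right hF, ub_smul_right hF, ub_smul_right hF, hze, hzf,
    hzz1, mul_zero, mul_zero, sub_zero, sub_zero, mul_one] at h
  rw [← h] at ha'
  linear_combination (norm := module) ha'

omit hF in
theorem act_inj (g : Cfsg.SU 3 F q) {x y : Fin 3 → F} (h : act g x = act g y) : x = y := by
  have h' := congrArg (act g⁻¹) h
  rwa [← act_mul_apply, ← act_mul_apply, inv_mul_cancel, act_one] at h'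

/-- Conjugating a root element. -/
theorem root_conj (g : Cfsg.SU 3 F q) {e e' w : Fin 3 → F} {t c : F}
    (he : B e e = 0) (he' : B e' e' = 0) (hw : B e w = 0) (hc : c + σ c = -B w w)
    (hge : act g e = t • e') :
    g * root hF e w c * g⁻¹ = root hF e' (σ t • act g w) (c * (t * σ t)) := by
  have ht : σ t * B e' (act g w) = 0 := by rw [ub_act_left hF g hge, hw]
  have hw' : B e' (σ t • act g w) = 0 := by rw [ub_smul_right hF]; exact ht
  have hc' : c * (t * σ t) + σ (c * (t * σ t)) = -B (σ t • act g w) (σ t • act g w) := by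
    rw [ub_smul_left hF, ub_smul_right hF, act_ub hF]
    simp only [map_mul, sig_sig hF]
    linear_combination (t * σ t) * hc
  refine su_ext fun x => ?_
  obtain ⟨y, rfl⟩ : ∃ y, x = act g y := ⟨act g⁻¹ x, by rw [← act_mul_apply, mul_inv_cancel, act_one]; rfl⟩
  rw [← act_mul_apply, inv_mul_cancel_right, act_mul_apply,
    act_root hF he hw hc, act_root hF he' hw' hc', map_add, map_add, map_smul, map_smul, hge,
    ub_smul_left hF (σ t), act_ub hF, sig_sig hF, ← ub_act_left hF g hge y, smul_smul, smul_smul]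
  match_scalars <;> ring

omit hF in
/-- A subring containing a generator, with the generator in no proper subfield. -/
def Generates (ρ : F) : Prop := ∀ S : Subring F, ρ ∈ S → ∀ x, x ∈ S

theorem generates_of_pow {ρ : F} (h1 : ρ ^ q ≠ ρ)
    (h2 : ∀ N : ℕ, 2 ≤ N → N ^ 3 ≤ q ^ 2 → N ^ 2 ≠ q ^ 2 → ρ ^ N ≠ ρ) : Generates ρ := by
  classical
  intro S hS
  let K : Subfield F :=
    { S with
      inv_mem' := fun x hx => by
        rcases eq_or_ne x 0 with rfl | h0
        · rw [_root_.inv_zero]; exact S.zero_mem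
        · have e : x * x ^ (Fintype.card F - 2) = 1 := by
            rw [← pow_succ', show Fintype.card F - 2 + 1 = Fintype.card F - 1 by
              have := Fintype.one_lt_card (α := F); omega, FiniteField.pow_card_sub_one_eq_one x h0]
          rw [inv_eq_of_mul_eq_one_right e]
          exact S.pow_mem hx _ }
  have hcard := Module.card_eq_pow_finrank (K := K) (V := F)
  have hρ : ρ ^ Fintype.card K = ρ := by
    have := FiniteField.pow_card (⟨ρ, hS⟩ : K)
    exact congrArg Subtype.val this
  have hK : 2 ≤ Fintype.card K := Fintype.one_lt_card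
  set N := Fintype.card K
  set d := Module.finrank K F
  have hd0 : 0 < d := Module.finrank_pos
  rcases (by omega : d = 1 ∨ d = 2 ∨ 3 ≤ d) with hd | hd | hd
  · intro x
    rw [hd, pow_one] at hcard
    have : Function.Surjective (Subtype.val : K → F) :=
      ((Fintype.bijective_iff_injective_and_card _).2 ⟨Subtype.val_injective, hcard.symm⟩).2
    obtain ⟨⟨y, hy⟩, rfl⟩ := this x
    exact hy
  · rw [hd, hF] at hcard
    exact absurd hρ (by rw [← Nat.pow_left_injective (by norm_num : (2 : ℕ) ≠ 0) hcard]; exact h1)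
  · refine absurd hρ (h2 N hK ?_ ?_)
    · rw [← hF, hcard]; exact Nat.pow_le_pow_right (by omega) hd
    · intro h
      rw [← hF, hcard] at h
      have := Nat.pow_right_injective hK h
      omega

/-- Two root elements and a word with a generating multiplier generate everything. -/
theorem eq_top_of_word {e f z : Fin 3 → F} (hfr : Frame hF e f z) {β c γ d : F} (hβ : β ≠ 0)
    (hc : c + σ c = -B (β • z) (β • z)) (hd : d + σ d = -B (γ • z) (γ • z)) (hγ : γ ≠ 0)
    {H : Subgroup (Cfsg.SU 3 F q)} (hu : root hF e (β • z) c ∈ H) (hv : root hF f (γ • z) d ∈ H)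
    {h : Cfsg.SU 3 F q} (hh : h ∈ H) {r : F} (hr : act h e = r • e)
    (hgen : Generates (σ r * B z (act h z))) : H = ⊤ := by
  obtain ⟨hee, hff, hef, hez, hfz, hzz, hspan⟩ := hfr
  have hfe : B f e = 1 := by rw [← ub_symm hF, hef, map_one]
  have hze := ub_eq_zero_symm hF hez
  have hez' : ∀ x : F, B e (x • z) = 0 := fun x => by rw [ub_smul_right hF, hez, mul_zero]
  have hperp : ∀ w, B e w = 0 → w = B z w • z + B f w • e := fun w hw => by
    conv_lhs => rw [hspan w, hw, zero_smul, add_zero, add_comm]
  -- shifting `w` along `e`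
  have hshift : ∀ (w : Fin 3 → F) (μ k : F), B e w = 0 → k + σ k = -B w w →
      root hF e (w + μ • e) (k - μ + σ μ) = root hF e w k := by
    intro w μ k hw hk
    have hwe := ub_eq_zero_symm hF hw
    have hw2 : B e (w + μ • e) = 0 := by rw [ub_add_right hF, hw, ub_smul_right hF, hee, mul_zero, add_zero]
    have hk2 : k - μ + σ μ + σ (k - μ + σ μ) = -B (w + μ • e) (w + μ • e) := by
      simp only [map_add, map_sub, sig_sig hF, ub_add_left hF, ub_add_right hF, ub_smul_left hF,
        ub_smul_right hF, hee, hw, hwe]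
      linear_combination hk
    refine su_ext fun x => ?_
    rw [act_root hF hee hw2 hk2, act_root hF hee hw hk, ub_add_left hF, ub_smul_left hF]
    match_scalars <;> ring
  set S : Set F := {x | ∃ k, k + σ k = -B (x • z) (x • z) ∧ root hF e (x • z) k ∈ H}
  have hadd : ∀ x y, x ∈ S → y ∈ S → x + y ∈ S := by
    rintro x y ⟨k, hk, hkH⟩ ⟨l, hl, hlH⟩
    refine ⟨k + l - B (x • z) (y • z), ?_, ?_⟩
    · rw [add_smul]
      simp only [map_sub, map_add, ub_symm hF, ub_add_left hF, ub_add_right hF]
      linear_combination hk + hl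
    · rw [add_smul, ← root_mul hF hee (hez' x) (hez' y) hk hl]
      exact H.mul_mem hkH hlH
  have h0 : (0 : F) ∈ S := by
    have h00 : (0 : F) + σ 0 = -B ((0 : F) • z) ((0 : F) • z) := by
      rw [map_zero, add_zero, zero_smul, ub_zero_left, neg_zero]
    refine ⟨0, h00, ?_⟩
    rw [show root hF e ((0 : F) • z) 0 = 1 from su_ext fun x => by
      rw [act_root hF hee (hez' 0) h00, act_one, zero_smul, ub_zero_left]; simp]
    exact H.one_mem
  set ρ := σ r * B z (act h z) with hρ
  have hmul : ∀ x ∈ S, ρ * x ∈ S := by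
    rintro x ⟨k, hk, hkH⟩
    set w := σ r • act h (x • z) with hw
    have hew : B e w = 0 := by rw [hw, ub_smul_right hF, ub_act_left hF h hr, hez']
    have hwz : B z w = ρ * x := by
      rw [hw, map_smul, ub_smul_right hF, ub_smul_right hF, hρ]; ring
    have hkw : k * (r * σ r) + σ (k * (r * σ r)) = -B w w := by
      rw [hw, ub_smul_left hF, ub_smul_right hF, act_ub hF]
      simp only [map_mul, sig_sig hF]
      linear_combination (r * σ r) * hk
    set μ := B f w with hμ
    have hwd := hperp w hew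
    rw [hwz, ← hμ] at hwd
    have hk2 : k * (r * σ r) + μ - σ μ + σ (k * (r * σ r) + μ - σ μ) = -B ((ρ * x) • z) ((ρ * x) • z) := by
      have e1 : B w w = B ((ρ * x) • z) ((ρ * x) • z) := by
        conv_lhs => rw [hwd]
        simp only [ub_add_left hF, ub_add_right hF, ub_smul_left hF, ub_smul_right hF, hee, hez, hze]
        ring
      rw [← e1]
      simp only [map_add, map_sub, sig_sig hF]
      linear_combination hkw
    refine ⟨_, hk2, ?_⟩
    have e2 := hshift ((ρ * x) • z) μ _ (hez' _) hk2
    rw [← hwd, show k * (r * σ r) + μ - σ μ - μ + σ μ = k * (r * σ r) by ring] at e2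
    rw [← e2, hw, ← root_conj hF h hee hee (hez' x) hk hr]
    exact H.mul_mem (H.mul_mem hh hkH) (H.inv_mem hh)
  have hneg : ∀ x ∈ S, -x ∈ S := by
    intro x hx
    obtain ⟨p, hp⟩ := CharP.exists F
    haveI := hp
    have hpp : 0 < p := (CharP.char_is_prime F p).pos
    have : ∀ m : ℕ, (m : F) * x ∈ S := by
      intro m
      induction m with
      | zero => simpa using h0
      | succ m ih => rw [Nat.cast_succ, add_mul, one_mul]; exact hadd _ _ ih hx
    have h1 := this (p - 1)
    rwa [Nat.cast_sub hpp, CharP.cast_eq_zero, Nat.cast_one, zero_sub, neg_one_mul] at h1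
  have hall : ∀ x : F, x ∈ S := by
    let A : AddSubgroup F := ⟨⟨⟨S, fun {x y} => hadd x y⟩, h0⟩, fun {x} => hneg x⟩
    let R : Subring F :=
      { carrier := {s | ∀ x ∈ A, s * x ∈ A}
        mul_mem' := fun {a b} ha hb x hx => by rw [mul_assoc]; exact ha _ (hb x hx)
        one_mem' := fun x hx => by rwa [one_mul]
        add_mem' := fun {a b} ha hb x hx => by rw [add_mul]; exact A.add_mem (ha x hx) (hb x hx)
        zero_mem' := fun x _ => by rw [zero_mul]; exact A.zero_mem
        neg_mem' := fun {a} ha x hx => by rw [neg_mul]; exact A.neg_mem (ha x hx) }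
    intro x
    have hx := hgen R (show ρ ∈ R from hmul) (x / β) β ⟨c, hc, hu⟩
    rwa [div_mul_cancel₀ _ hβ] at hx
  have hT : ∀ k, k + σ k = -B (0 : Fin 3 → F) 0 → root hF e 0 k ∈ H := by
    intro k hk
    rw [ub_zero_left, neg_zero] at hk
    obtain ⟨x, hx⟩ := trace_zero_eq_kap hF k hk
    -- the commutator of `(1, ·)` and `(x, ·)`
    obtain ⟨k1, hk1, hk1H⟩ := hall 1
    obtain ⟨k2, hk2, hk2H⟩ := hall x
    have hcond : k + σ k = -B (0 : Fin 3 → F) 0 := by rw [ub_zero_left, neg_zero, hk]
    have hsum : B e ((1 : F) • z + x • z) = 0 := by rw [ub_add_right hF, hez', hez', add_zero]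
    have hba : k2 + k1 - B (x • z) ((1 : F) • z) + σ (k2 + k1 - B (x • z) ((1 : F) • z)) =
        -B ((1 : F) • z + x • z) ((1 : F) • z + x • z) := by
      simp only [map_sub, map_add, ub_symm hF, ub_add_left hF, ub_add_right hF]
      linear_combination hk1 + hk2
    have e1 : root hF e 0 k * (root hF e ((1 : F) • z) k1 * root hF e (x • z) k2) =
        root hF e (x • z) k2 * root hF e ((1 : F) • z) k1 := by
      rw [root_mul hF hee (hez' 1) (hez' x) hk1 hk2, root_mul hF hee (hez' x) (hez' 1) hk2 hk1,
        root_mul hF hee (ub_zero_right hF e) hsum hcond (by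
          simp only [map_sub, map_add, ub_symm hF, ub_add_left hF, ub_add_right hF]
          linear_combination hk1 + hk2)]
      congr 1
      · abel
      · simp only [ub_zero_left, ub_smul_left hF, ub_smul_right hF, hzz, map_one]
        rw [← hx, kap]; ring
    rw [eq_mul_inv_of_mul_eq e1]
    exact H.mul_mem (H.mul_mem hk2H hk1H) (H.inv_mem (H.mul_mem hk1H hk2H))
  have hfullz : ∀ x k : F, k + σ k = -B (x • z) (x • z) → root hF e (x • z) k ∈ H := by
    intro x k hk
    obtain ⟨l, hl, hlH⟩ := hall x
    have hd' : k - l + σ (k - l) = -B (0 : Fin 3 → F) 0 := by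
      rw [ub_zero_left, neg_zero, map_sub]; linear_combination hk - hl
    have := H.mul_mem (hT _ hd') hlH
    rwa [root_mul hF hee (ub_zero_right hF e) (hez' x) hd' hl, zero_add, ub_zero_left,
      show k - l + l - 0 = k by ring] at this
  have hfull : ∀ w k, B e w = 0 → k + σ k = -B w w → root hF e w k ∈ H := by
    intro w k hw hk
    have hwd := hperp w hw
    set μ := B f w
    have hk' : k + μ - σ μ + σ (k + μ - σ μ) = -B (B z w • z) (B z w • z) := by
      have e1 : B w w = B (B z w • z) (B z w • z) := by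
        conv_lhs => rw [hwd]
        simp only [ub_add_left hF, ub_add_right hF, ub_smul_left hF, ub_smul_right hF, hee, hez, hze]
        ring
      rw [← e1]
      simp only [map_add, map_sub, sig_sig hF]
      linear_combination hk
    have e2 := hshift (B z w • z) μ _ (hez' _) hk'
    rw [← hwd, show k + μ - σ μ - μ + σ μ = k by ring] at e2
    rw [e2]
    exact hfullz _ _ hk'
  -- other points
  have hmove : ∀ {g : Cfsg.SU 3 F q} {a a' : Fin 3 → F} {t : F}, g ∈ H → t ≠ 0 → B a a = 0 → B a' a' = 0 →
      act g a = t • a' → (∀ w k, B a w = 0 → k + σ k = -B w w → root hF a w k ∈ H) →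
      ∀ w k, B a' w = 0 → k + σ k = -B w w → root hF a' w k ∈ H := by
    intro g a a' t hg ht ha ha' hga hA w k hw hk
    have hst : σ t ≠ 0 := fun h => ht ((map_eq_zero _).mp h)
    set w0 := (σ t)⁻¹ • act g⁻¹ w with hw0
    have hgw : act g w0 = (σ t)⁻¹ • w := by
      rw [hw0, map_smul, ← act_mul_apply, mul_inv_cancel, act_one]; rfl
    have hw0p : B a w0 = 0 := by
      rw [← ub_act_left hF g hga, hgw, ub_smul_right hF, hw, mul_zero, mul_zero]
    have hk0 : k / (t * σ t) + σ (k / (t * σ t)) = -B w0 w0 := by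
      rw [← act_ub hF g w0 w0, hgw, ub_smul_left hF, ub_smul_right hF, map_div₀, map_mul, map_inv₀, sig_sig hF]
      field_simp
      linear_combination hk
    have h1 := H.mul_mem (H.mul_mem hg (hA w0 _ hw0p hk0)) (H.inv_mem hg)
    rwa [root_conj hF g ha ha' hw0p hk0 hga, hgw, smul_smul, mul_inv_cancel₀ hst, one_smul,
      div_mul_cancel₀ _ (mul_ne_zero ht hst)] at h1
  set vv := root hF f (γ • z) d with hvv
  set p0 := act vv e with hp0
  have hp00 : B p0 p0 = 0 := by rw [hp0, act_ub hF, hee]
  have hfull0 := hmove hv one_ne_zero hee hp00 (by rw [one_smul, ← hp0]) hfull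
  have hd0 : d ≠ 0 := fun h0' => by
    rw [h0', map_zero, add_zero, ub_smul_left hF, ub_smul_right hF, hzz, mul_one, eq_comm, neg_eq_zero,
      mul_eq_zero] at hd
    rcases hd with h | h
    · exact hγ ((map_eq_zero _).mp h)
    · exact hγ h
  have hep0 : B e p0 ≠ 0 := by
    rw [hp0, act_root hF hff (by rw [ub_smul_right hF, hfz, mul_zero]) hd, ub_add_right hF, ub_add_right hF,
      ub_smul_right hF, ub_smul_right hF, ub_smul_right hF, hfe, hee, hez, hef, ub_smul_left hF, hze]
    simpa using hd0
  have hpts : ∀ p, B p p = 0 → B e p ≠ 0 → ∀ w k, B p w = 0 → k + σ k = -B w w → root hF p w k ∈ H := by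
    intro p hp hep
    set ε := B e p0
    set p1 := (ε / B e p) • p with hp1
    have hep1 : B e p1 = ε := by rw [hp1, ub_smul_right hF, div_mul_cancel₀ _ hep]
    set w := ε⁻¹ • (p1 - p0) with hw
    have hew : B e w = 0 := by rw [hw, ub_smul_right hF, ub_sub_right hF, hep1, sub_self, mul_zero]
    set k := B w p0 / ε with hk
    have hp11 : B p1 p1 = 0 := by rw [hp1, ub_smul_left hF, ub_smul_right hF, hp, mul_zero, mul_zero]
    have hε0 : σ ε ≠ 0 := fun h => hep0 ((map_eq_zero _).mp h)
    have e1 : p1 = p0 + ε • w := by rw [hw, smul_inv_smul₀ hep0, add_sub_cancel]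
    have hkw : k + σ k = -B w w := by
      rw [e1] at hp11
      simp only [ub_add_left hF, ub_add_right hF, ub_smul_left hF, ub_smul_right hF, hp00] at hp11
      rw [hk, map_div₀, ub_symm hF]
      field_simp
      linear_combination hp11
    have hact : act (root hF e w k) p0 = p1 := by
      rw [act_root hF hee hew hkw, e1, hk, div_mul_cancel₀ _ hep0, sub_self, zero_smul, add_zero]
    refine hmove (hfull w k hew hkw) (div_ne_zero hep0 hep) hp00 hp (by rw [hact, hp1]) hfull0
  have hiso : ∀ p, p ≠ 0 → B p p = 0 → B e p = 0 → ∃ t : F, t ≠ 0 ∧ t • e = p := by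
    intro p hp0' hp hep
    have e1 := hperp p hep
    have h' : σ (B z p) * B z p = 0 := by
      have h2 := hp
      rw [e1] at h2
      simp only [ub_add_left hF, ub_add_right hF, ub_smul_left hF, ub_smul_right hF, hee, hez, hze, hzz] at h2
      linear_combination h2
    have hz0 : B z p = 0 := by
      rcases mul_eq_zero.mp h' with h2 | h2
      · exact (map_eq_zero _).mp h2
      · exact h2
    rw [hz0, zero_smul, zero_add] at e1
    exact ⟨B f p, fun h => hp0' (by rw [e1, h, zero_smul]), e1.symm⟩
  have hR : HasRoots hF H (⊤ : Submodule F (Fin 3 → F)) := by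
    intro a w k _ _ ha hw hk
    by_cases ha0 : a = 0
    · rw [show root hF a w k = 1 from su_ext fun x => by
        rw [act_root hF ha hw hk, act_one, ha0, ub_zero_left]; simp]
      exact H.one_mem
    by_cases hea : B e a = 0
    · obtain ⟨t, ht, rfl⟩ := hiso a ha0 ha hea
      refine hmove H.one_mem (t := t⁻¹) (inv_ne_zero ht) hee ha ?_ hfull w k hw hk
      rw [act_one, inv_smul_smul₀ ht]; rfl
    · exact hpts a ha hea w k hw hk
  rw [eq_top_iff]
  intro g _
  exact mem_of_fixOut hF _ ⊤ rfl (fun x _ hx => (Forms.hermB_nondegenerate hF).1 x fun y => hx y trivial) hR g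
    ⟨fun x _ => trivial, fun x hx => by
      rw [(Forms.hermB_nondegenerate hF).2 x fun y => hx y trivial, map_zero]⟩

end Cfsg.Agent.Forms.SUThree
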