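import Cfsg.Agent.Forms.Models
import Cfsg.Agent.Forms.SubspaceStab
import Cfsg.Agent.Forms.GLParabolic

/-!
# The Siegel parabolic of the symplectic group
-/

set_option autoImplicit false
set_option linter.unusedSectionVars false

namespace Cfsg.Agent.Forms

open Module Matrix

variable {F : Type*} [Field F] {m : ℕ}

/-- The vectors with vanishing second half. -/
def lagrange (m : ℕ) (F : Type*) [Field F] : Submodule F (Fin m ⊕ Fin m → F) where
  carrier := {v | ∀ i : Fin m, v (Sum.inr i) = 0}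
  zero_mem' := fun _ => rfl
  add_mem' := fun hu hv i => by rw [Pi.add_apply, hu i, hv i, add_zero]
  smul_mem' := fun c v hv i => by rw [Pi.smul_apply, hv i, smul_zero]

/-- Criterion for block triangular symplectic matrices. -/
theorem fromBlocks_mem_symplectic {a b d : Matrix (Fin m) (Fin m) F} :
    fromBlocks a b 0 d ∈ Matrix.symplecticGroup (Fin m) F ↔
      aᵀ * d = 1 ∧ (dᵀ * b).IsSymm := by
  rw [SymplecticGroup.mem_iff', Matrix.J, fromBlocks_transpose, fromBlocks_multiply,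
    fromBlocks_multiply, fromBlocks_inj]
  simp only [transpose_zero, Matrix.mul_zero, Matrix.zero_mul, zero_add, add_zero, Matrix.mul_neg,
    Matrix.mul_one, Matrix.neg_mul, neg_zero]
  constructor
  · rintro ⟨-, h1, -, h2⟩
    refine ⟨neg_inj.1 h1, ?_⟩
    rw [Matrix.IsSymm, transpose_mul, transpose_transpose]
    rw [← sub_eq_zero]
    linear_combination (norm := abel) -h2
  · rintro ⟨h1, h2⟩
    refine ⟨trivial, by rw [h1], ?_, ?_⟩
    · rw [← transpose_inj, transpose_mul, transpose_transpose, h1, transpose_one]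
    · rw [Matrix.IsSymm, transpose_mul, transpose_transpose] at h2
      rw [h2]; abel

/-- The element `diag(a, a⁻ᵀ) (1, S; 0, 1)`. -/
noncomputable def siegelElt (p : GL (Fin m) F × {S : Matrix (Fin m) (Fin m) F // S.IsSymm}) :
    Matrix.symplecticGroup (Fin m) F :=
  ⟨fromBlocks p.1 ((p.1 : Matrix (Fin m) (Fin m) F) * p.2.1) 0
      ((↑(p.1⁻¹) : Matrix (Fin m) (Fin m) F))ᵀ,
    fromBlocks_mem_symplectic.2 ⟨by rw [← transpose_mul, Units.inv_mul, transpose_one],
      by rw [transpose_transpose, ← Matrix.mul_assoc, Units.inv_mul, Matrix.one_mul]; exact p.2.2⟩⟩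

theorem siegelElt_injective : Function.Injective (siegelElt (F := F) (m := m)) := by
  intro p p' h
  have h1 := congrArg Subtype.val h
  simp only [siegelElt, fromBlocks_inj] at h1
  obtain ⟨ha, hb, -, -⟩ := h1
  have ha' : p.1 = p'.1 := Units.ext ha
  refine Prod.ext ha' (Subtype.ext ?_)
  rw [← ha'] at hb
  have := congrArg (fun X => (↑(p.1⁻¹) : Matrix (Fin m) (Fin m) F) * X) hb
  simpa [← Matrix.mul_assoc] using this

theorem exists_siegelElt {g : Matrix.symplecticGroup (Fin m) F}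
    (h : (g : Matrix (Fin m ⊕ Fin m) (Fin m ⊕ Fin m) F).toBlocks₂₁ = 0) :
    ∃ p, siegelElt p = g := by
  set M := (g : Matrix (Fin m ⊕ Fin m) (Fin m ⊕ Fin m) F)
  have hg : fromBlocks M.toBlocks₁₁ M.toBlocks₁₂ 0 M.toBlocks₂₂ = M := by
    rw [← h, fromBlocks_toBlocks]
  have hmem : fromBlocks M.toBlocks₁₁ M.toBlocks₁₂ 0 M.toBlocks₂₂ ∈
      Matrix.symplecticGroup (Fin m) F := by rw [hg]; exact g.2
  obtain ⟨h1, h2⟩ := fromBlocks_mem_symplectic.1 hmem
  set a : GL (Fin m) F := ⟨M.toBlocks₁₁, M.toBlocks₂₂ᵀ,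
    by rw [← transpose_inj, transpose_mul, transpose_transpose, transpose_one]
       exact mul_eq_one_comm.1 h1,
    by rw [← transpose_inj, transpose_mul, transpose_transpose, h1, transpose_one]⟩
  refine ⟨(a, ⟨M.toBlocks₂₂ᵀ * M.toBlocks₁₂, h2⟩), Subtype.ext ?_⟩
  change fromBlocks M.toBlocks₁₁ (M.toBlocks₁₁ * (M.toBlocks₂₂ᵀ * M.toBlocks₁₂)) 0
    M.toBlocks₂₂ᵀᵀ = M
  conv_rhs => rw [← hg]
  rw [transpose_transpose, ← Matrix.mul_assoc,
    show M.toBlocks₁₁ * M.toBlocks₂₂ᵀ = 1 from a.mul_inv, Matrix.one_mul]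

theorem mulVec_inr_eq {g : Matrix.symplecticGroup (Fin m) F} {v : Fin m ⊕ Fin m → F}
    (hv : v ∈ lagrange m F) (i : Fin m) :
    ((g : Matrix (Fin m ⊕ Fin m) (Fin m ⊕ Fin m) F) *ᵥ v) (Sum.inr i) =
      ∑ j, (g : Matrix (Fin m ⊕ Fin m) (Fin m ⊕ Fin m) F).toBlocks₂₁ i j * v (Sum.inl j) := by
  simp [Matrix.mulVec, dotProduct, Fintype.sum_sum_type, show ∀ i, v (Sum.inr i) = 0 from hv,
    Matrix.toBlocks₂₁]

theorem mem_stab_lagrange {g : Matrix.symplecticGroup (Fin m) F} :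
    g ∈ Cfsg.stabilizing (Cfsg.spToMat m F) {v : Fin m ⊕ Fin m → F | ∀ i, v (Sum.inr i) = 0} ↔
      (g : Matrix (Fin m ⊕ Fin m) (Fin m ⊕ Fin m) F).toBlocks₂₁ = 0 := by
  change (∀ v, v ∈ lagrange m F ↔ (spEquiv m F g : (Fin m ⊕ Fin m → F) ≃ₗ[F] _) v ∈ lagrange m F) ↔ _
  rw [stable_iff_mapsTo]
  constructor
  · intro h
    refine Matrix.ext fun i j => ?_
    have hm : (Pi.single (Sum.inl j) 1 : Fin m ⊕ Fin m → F) ∈ lagrange m F := fun k => by simp
    have := h _ hm i
    rw [spEquiv_apply, mulVec_inr_eq hm] at this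
    simpa [Pi.single_apply] using this
  · intro h x hx i
    rw [spEquiv_apply, mulVec_inr_eq hx, h]
    simp

/-- The vectors of the `k`-th flag member. -/
def flagSub (m : ℕ) (F : Type*) [Field F] (k : Fin m) : Submodule F (Fin m ⊕ Fin m → F) where
  carrier := {v | (∀ i : Fin m, (k : ℕ) < (i : ℕ) → v (Sum.inl i) = 0) ∧ ∀ i : Fin m, v (Sum.inr i) = 0}
  zero_mem' := ⟨fun _ _ => rfl, fun _ => rfl⟩
  add_mem' := fun hu hv => ⟨fun i hi => by rw [Pi.add_apply, hu.1 i hi, hv.1 i hi, add_zero],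
    fun i => by rw [Pi.add_apply, hu.2 i, hv.2 i, add_zero]⟩
  smul_mem' := fun c v hv => ⟨fun i hi => by rw [Pi.smul_apply, hv.1 i hi, smul_zero],
    fun i => by rw [Pi.smul_apply, hv.2 i, smul_zero]⟩

theorem mem_stab_flag {g : Matrix.symplecticGroup (Fin m) F} :
    g ∈ (⨅ k : Fin m, Cfsg.stabilizing (Cfsg.spToMat m F)
      {v : Fin m ⊕ Fin m → F | (∀ i : Fin m, (k : ℕ) < (i : ℕ) → v (Sum.inl i) = 0) ∧
        ∀ i : Fin m, v (Sum.inr i) = 0}) ↔
      (g : Matrix (Fin m ⊕ Fin m) (Fin m ⊕ Fin m) F).toBlocks₂₁ = 0 ∧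
        ∀ i j : Fin m, j < i → (g : Matrix (Fin m ⊕ Fin m) (Fin m ⊕ Fin m) F).toBlocks₁₁ i j = 0 := by
  rw [Subgroup.mem_iInf]
  change (∀ k, ∀ v, v ∈ flagSub m F k ↔
    (spEquiv m F g : (Fin m ⊕ Fin m → F) ≃ₗ[F] _) v ∈ flagSub m F k) ↔ _
  simp only [stable_iff_mapsTo]
  constructor
  · intro h
    have key : ∀ j : Fin m, (∀ i : Fin m, (j : ℕ) < (i : ℕ) →
        (g : Matrix (Fin m ⊕ Fin m) (Fin m ⊕ Fin m) F) (Sum.inl i) (Sum.inl j) = 0) ∧
        ∀ i : Fin m, (g : Matrix (Fin m ⊕ Fin m) (Fin m ⊕ Fin m) F) (Sum.inr i) (Sum.inl j) = 0 := by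
      intro j
      have hm : (Pi.single (Sum.inl j) 1 : Fin m ⊕ Fin m → F) ∈ flagSub m F j :=
        ⟨fun i hi => by simp [Fin.ext_iff, (Nat.ne_of_lt hi).symm], fun i => by simp⟩
      have := h j _ hm
      simpa [flagSub, spEquiv_apply] using this
    exact ⟨Matrix.ext fun i j => (key j).2 i, fun i j hij => (key j).1 i hij⟩
  · rintro ⟨h1, h2⟩ k x hx
    refine ⟨fun i hi => ?_, fun i => ?_⟩
    · rw [spEquiv_apply, Matrix.mulVec, dotProduct, Fintype.sum_sum_type]
      simp only [hx.2, mul_zero, Finset.sum_const_zero, add_zero]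
      refine Finset.sum_eq_zero fun j _ => ?_
      rcases lt_or_ge (k : ℕ) (j : ℕ) with hj | hj
      · rw [hx.1 j hj, mul_zero]
      · rw [show (g : Matrix (Fin m ⊕ Fin m) (Fin m ⊕ Fin m) F) (Sum.inl i) (Sum.inl j) = 0 from
          h2 i j (Fin.lt_def.2 (by omega)), zero_mul]
    · rw [spEquiv_apply, mulVec_inr_eq (show x ∈ lagrange m F from hx.2), h1]
      simp

/-- The Levi subgroup. -/
theorem levi_equiv :
    Nonempty (↥(Cfsg.stabilizing (Cfsg.spToMat m F) {v : Fin m ⊕ Fin m → F | ∀ i : Fin m, v (Sum.inr i) = 0} ⊓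
      Cfsg.stabilizing (Cfsg.spToMat m F) {v : Fin m ⊕ Fin m → F | ∀ i : Fin m, v (Sum.inl i) = 0}) ≃*
        GL (Fin m) F) := by
  set W := {v : Fin m ⊕ Fin m → F | ∀ i : Fin m, v (Sum.inr i) = 0}
  set U : Submodule F (Fin m ⊕ Fin m → F) :=
    { carrier := {v | ∀ i : Fin m, v (Sum.inl i) = 0}
      zero_mem' := fun _ => rfl
      add_mem' := fun hu hv i => by rw [Pi.add_apply, hu i, hv i, add_zero]
      smul_mem' := fun c v hv i => by rw [Pi.smul_apply, hv i, smul_zero] }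
  have hU : ∀ g : Matrix.symplecticGroup (Fin m) F,
      g ∈ Cfsg.stabilizing (Cfsg.spToMat m F) {v : Fin m ⊕ Fin m → F | ∀ i : Fin m, v (Sum.inl i) = 0} ↔
        (g : Matrix (Fin m ⊕ Fin m) (Fin m ⊕ Fin m) F).toBlocks₁₂ = 0 := by
    intro g
    change (∀ v, v ∈ U ↔ (spEquiv m F g : (Fin m ⊕ Fin m → F) ≃ₗ[F] _) v ∈ U) ↔ _
    rw [stable_iff_mapsTo]
    have key : ∀ v ∈ U, ∀ i, ((g : Matrix (Fin m ⊕ Fin m) (Fin m ⊕ Fin m) F) *ᵥ v) (Sum.inl i) =
        ∑ j, (g : Matrix (Fin m ⊕ Fin m) (Fin m ⊕ Fin m) F).toBlocks₁₂ i j * v (Sum.inr j) := by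
      intro v hv i
      simp [Matrix.mulVec, dotProduct, Fintype.sum_sum_type, show ∀ i, v (Sum.inl i) = 0 from hv,
        Matrix.toBlocks₁₂]
    constructor
    · intro h
      refine Matrix.ext fun i j => ?_
      have hm : (Pi.single (Sum.inr j) 1 : Fin m ⊕ Fin m → F) ∈ U := fun k => by simp
      have := h _ hm i
      rw [spEquiv_apply, key _ hm] at this
      simpa [Pi.single_apply] using this
    · intro h x hx i
      rw [spEquiv_apply, key x hx, h]
      simp
  let f : GL (Fin m) F →* Matrix.symplecticGroup (Fin m) F :=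
    { toFun := fun a => siegelElt (a, ⟨0, Matrix.isSymm_zero⟩)
      map_one' := Subtype.ext (by simp [siegelElt, fromBlocks_one])
      map_mul' := fun a b => Subtype.ext (by
        simp [siegelElt, fromBlocks_multiply, transpose_mul]) }
  have hf : Function.Injective f := fun a b h => (Prod.ext_iff.1 (siegelElt_injective h)).1
  have hrange : f.range = Cfsg.stabilizing (Cfsg.spToMat m F) W ⊓
      Cfsg.stabilizing (Cfsg.spToMat m F) {v : Fin m ⊕ Fin m → F | ∀ i : Fin m, v (Sum.inl i) = 0} := by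
    ext g
    rw [Subgroup.mem_inf, mem_stab_lagrange, hU]
    constructor
    · rintro ⟨a, rfl⟩
      simp [f, siegelElt]
    · rintro ⟨h21, h12⟩
      obtain ⟨p, rfl⟩ := exists_siegelElt h21
      simp only [siegelElt, toBlocks_fromBlocks₁₂] at h12
      have hS : p.2.1 = 0 := by
        have := congrArg (fun X => (↑(p.1⁻¹) : Matrix (Fin m) (Fin m) F) * X) h12
        simpa [← Matrix.mul_assoc] using this
      exact ⟨p.1, congrArg siegelElt (Prod.ext rfl (Subtype.ext hS.symm))⟩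
  exact ⟨((MonoidHom.ofInjective hf).trans (MulEquiv.subgroupCongr hrange)).symm⟩

/-- The number of symmetric matrices. -/
theorem card_isSymm [Fintype F] {q : ℕ} (hF : Fintype.card F = q) (m : ℕ) :
    Nat.card {S : Matrix (Fin m) (Fin m) F // S.IsSymm} = q ^ (m * (m + 1) / 2) := by
  let e : {S : Matrix (Fin m) (Fin m) F // S.IsSymm} ≃ ((Σ i : Fin m, Fin ((i : ℕ) + 1)) → F) :=
    { toFun := fun S p => S.1 p.1 ⟨p.2, lt_of_lt_of_le p.2.2 p.1.2⟩
      invFun := fun f => ⟨Matrix.of fun i j => if h : (j : ℕ) ≤ i then f ⟨i, ⟨j, by omega⟩⟩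
          else f ⟨j, ⟨i, by omega⟩⟩,
        Matrix.IsSymm.ext fun i j => by
          simp only [Matrix.of_apply]
          rcases lt_trichotomy (i : ℕ) (j : ℕ) with h | h | h
          · rw [dif_pos h.le, dif_neg (by omega)]
          · obtain rfl := Fin.ext h; rfl
          · rw [dif_pos h.le, dif_neg (by omega)]⟩
      left_inv := fun S => Subtype.ext (Matrix.ext fun i j => by
        simp only [Matrix.of_apply]
        split_ifs with h
        · rfl
        · exact S.2.apply i j)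
      right_inv := fun f => funext fun p => by
        simp only [Matrix.of_apply]
        rw [dif_pos (Nat.le_of_lt_succ p.2.2)] }
  rw [Nat.card_congr e, Nat.card_fun, Nat.card_sigma]
  simp only [Nat.card_fin, Nat.card_eq_fintype_card (α := F), hF]
  congr 1
  rw [Fin.sum_univ_eq_sum_range (fun i => i + 1) m]
  have h : (∑ i ∈ Finset.range m, (i + 1)) * 2 = m * (m + 1) := by
    induction m with
    | zero => simp
    | succ k ih => rw [Finset.sum_range_succ, add_mul, ih]; ring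
  omega

/-- The order of the Borel subgroup. -/
theorem card_borel_symp [Fintype F] {q : ℕ} (hF : Fintype.card F = q) (m : ℕ) :
    Nat.card ↥(⨅ k : Fin m, Cfsg.stabilizing (Cfsg.spToMat m F)
      {v : Fin m ⊕ Fin m → F | (∀ i : Fin m, (k : ℕ) < (i : ℕ) → v (Sum.inl i) = 0) ∧
        ∀ i : Fin m, v (Sum.inr i) = 0}) = q ^ (m ^ 2) * (q - 1) ^ m := by
  let T := {a : GL (Fin m) F // ∀ i j : Fin m, j < i → (a : Matrix (Fin m) (Fin m) F) i j = 0}
  let e : T × {S : Matrix (Fin m) (Fin m) F // S.IsSymm} ≃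
      {g : Matrix.symplecticGroup (Fin m) F //
        (g : Matrix (Fin m ⊕ Fin m) (Fin m ⊕ Fin m) F).toBlocks₂₁ = 0 ∧
        ∀ i j : Fin m, j < i → (g : Matrix (Fin m ⊕ Fin m) (Fin m ⊕ Fin m) F).toBlocks₁₁ i j = 0} :=
    Equiv.ofBijective (fun p => ⟨siegelElt (p.1.1, p.2), by simp [siegelElt],
      by simpa [siegelElt] using p.1.2⟩)
      ⟨fun p p' h => by
        have := siegelElt_injective (congrArg Subtype.val h)
        exact Prod.ext (Subtype.ext (Prod.ext_iff.1 this).1) (Prod.ext_iff.1 this).2,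
      fun g => by
        obtain ⟨p, hp⟩ := exists_siegelElt g.2.1
        refine ⟨(⟨p.1, ?_⟩, p.2), Subtype.ext hp⟩
        have := g.2.2
        rw [← hp] at this
        simpa [siegelElt] using this⟩
  let r : GL (Fin m) F → GL (Fin m) F := fun a =>
    ⟨(a : Matrix (Fin m) (Fin m) F)ᵀ, (↑(a⁻¹) : Matrix (Fin m) (Fin m) F)ᵀ,
      by rw [← transpose_mul, Units.inv_mul, transpose_one],
      by rw [← transpose_mul, Units.mul_inv, transpose_one]⟩
  have hT : Nat.card T = q ^ (m * (m - 1) / 2) * (q - 1) ^ m := by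
    rw [← card_lowerTriangular hF m]
    exact Nat.card_congr
      { toFun := fun a => ⟨r a.1, fun i j hij => a.2 j i hij⟩
        invFun := fun a => ⟨r a.1, fun i j hij => a.2 j i hij⟩
        left_inv := fun a => Subtype.ext (Units.ext (transpose_transpose _))
        right_inv := fun a => Subtype.ext (Units.ext (transpose_transpose _)) }
  rw [Nat.card_congr (Equiv.subtypeEquivRight fun g => mem_stab_flag (g := g)), ← Nat.card_congr e,
    Nat.card_prod, hT, card_isSymm hF, mul_right_comm, ← pow_add]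
  congr 2
  rcases Nat.eq_zero_or_pos m with rfl | hm
  · rfl
  obtain ⟨k, rfl⟩ : ∃ k, m = k + 1 := ⟨m - 1, by omega⟩
  rw [Nat.add_sub_cancel]
  obtain ⟨a, ha⟩ := (Nat.even_mul_succ_self k).two_dvd
  rw [show (k + 1) * k = k * (k + 1) by ring, ha, show (k + 1) * (k + 1 + 1) = 2 * (a + k + 1) by
    linear_combination ha, Nat.mul_div_cancel_left _ (by norm_num), Nat.mul_div_cancel_left _ (by norm_num)]
  linear_combination -ha

end Cfsg.Agent.Forms
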