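import Cfsg.Agent.Forms.SpFourAut
import Cfsg.Agent.Suzuki.SzAut

/-!
The order of `Aut PSp_{2m}(q)` and the outer automorphism group of `PSp₄(2^f)`.
-/

set_option autoImplicit false

namespace Cfsg.Agent.Forms

open Matrix
open KnownB.Proj KnownB.Proj.Symp

universe u

variable {m : ℕ} {F : Type u} [Field F]

local notation "Vm" => (Fin m ⊕ Fin m → F)
local notation "Mm" => Matrix (Fin m ⊕ Fin m) (Fin m ⊕ Fin m) F

/-- A field automorphism equal to a similarity on `PSp` is trivial. -/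
theorem fd_eq_A_imp (hm : 2 ≤ m) {σ : F ≃+* F} {g : Cfsg.GSp m F} (h : Fd m F σ = A m F g) :
    σ = 1 := by
  let i₀ : Fin m ⊕ Fin m := Sum.inl ⟨0, by omega⟩
  let i₁ : Fin m ⊕ Fin m := Sum.inl ⟨1, by omega⟩
  have h01 : i₀ ≠ i₁ := by simp [i₀, i₁]
  have key : ∀ v : Vm, v ≠ 0 → ∃ k : F, ⇑σ ∘ v = k • (g.1 : Mm) *ᵥ v := by
    intro v hv
    obtain ⟨hσv, d, hd, e⟩ := (isTvOf_mk hv).map_Fd σ
    rw [h] at e
    obtain ⟨hgv, d', hd', e'⟩ := (isTvOf_mk hv).map_A g
    rw [← e'] at e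
    obtain ⟨k, -, hk⟩ := T_par_of_mk_eq hm hσv hd e
    exact ⟨k, hk⟩
  have hcol : ∀ i, ∃ k : F, (g.1 : Mm) *ᵥ Pi.single i 1 = k • Pi.single i 1 ∧ k ≠ 0 := by
    intro i
    obtain ⟨k, hk⟩ := key (Pi.single i 1) (fun h0 => by simpa using congrFun h0 i)
    have hs : ⇑σ ∘ (Pi.single i (1 : F)) = Pi.single i 1 := by
      funext j
      rcases eq_or_ne j i with rfl | hj <;> simp [*]
    rw [hs] at hk
    have hk0 : k ≠ 0 := by
      rintro rfl
      simpa using congrFun hk i
    exact ⟨k⁻¹, by conv_rhs => rw [hk, inv_smul_smul₀ hk0], inv_ne_zero hk0⟩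
  obtain ⟨a, ha, ha0⟩ := hcol i₀
  obtain ⟨b, hb, -⟩ := hcol i₁
  have hmain : ∀ c : F, σ c * a = b * c := by
    intro c
    have hv : (Pi.single i₀ 1 + c • Pi.single i₁ 1 : Vm) ≠ 0 := fun h0 => by
      simpa [h01] using congrFun h0 i₀
    obtain ⟨k, hk⟩ := key _ hv
    rw [Matrix.mulVec_add, Matrix.mulVec_smul, ha, hb] at hk
    have e0 := congrFun hk i₀
    have e1 := congrFun hk i₁
    simp [h01, h01.symm] at e0 e1
    calc σ c * a = k * (c * b) * a := by rw [e1]
      _ = (k * a) * (b * c) := by ring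
      _ = b * c := by rw [← e0, one_mul]
  have hab : a = b := by simpa using hmain 1
  refine RingEquiv.ext fun c => ?_
  rw [show ((1 : F ≃+* F)) c = c from rfl]
  exact mul_right_cancel₀ ha0 (by rw [hmain c, hab]; ring)

variable [Fintype F]

/-- The similarities act as a group of order `|Sp|`. -/
theorem card_range_A_psp (hm : 2 ≤ m) :
    Nat.card (A m F).range = Nat.card (Matrix.symplecticGroup (Fin m) F) := by
  have hm1 : 1 ≤ m := by omega
  have hk : (A m F).ker = (sc m F).range := by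
    ext g
    rw [MonoidHom.mem_ker, A_eq_one_iff hm]
  have hmult : Function.Surjective (mult (F := F) hm1) := fun c => ⟨dEl c, mult_dEl hm1 c⟩
  have hker : Nat.card (mult (F := F) hm1).ker = Nat.card (Matrix.symplecticGroup (Fin m) F) := by
    refine (Nat.card_congr (Equiv.ofBijective (fun s : Matrix.symplecticGroup (Fin m) F =>
      (⟨spInc s, mult_eq hm1 _ fun u v => (sp_B s u v).trans (one_mul _).symm⟩ :
        (mult (F := F) hm1).ker)) ⟨fun s t h => ?_, fun g => ?_⟩)).symm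
    · exact Subtype.ext (congrArg (fun g : (mult (F := F) hm1).ker =>
        (((g : Cfsg.GSp m F).1 : GL (Fin m ⊕ Fin m) F) : Mm)) h)
    · have h := hasMult_mult hm1 g.1
      rw [MonoidHom.mem_ker.mp g.2] at h
      exact ⟨⟨(g.1.1 : Mm), mem_symplectic_iff.mpr fun u v => (h u v).trans (one_mul _)⟩,
        Subtype.ext (gsp_ext fun x => rfl)⟩
  have e1 := Subgroup.card_eq_card_quotient_mul_card_subgroup (A m F).ker
  rw [Nat.card_congr (QuotientGroup.quotientKerEquivRange (A m F)).toEquiv, hk,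
    ← Nat.card_congr (MonoidHom.ofInjective (sc_inj (F := F) hm1)).toEquiv] at e1
  have e2 := Subgroup.card_eq_card_quotient_mul_card_subgroup (mult (F := F) hm1).ker
  rw [Nat.card_congr (QuotientGroup.quotientKerEquivOfSurjective _ hmult).toEquiv, hker] at e2
  have hpos : 0 < Nat.card Fˣ := Nat.card_pos
  exact Nat.eq_of_mul_eq_mul_right hpos (by rw [← e1, e2, mul_comm])

/-- The automorphisms induced by semilinear similarities. -/
theorem card_semilinear (hm : 2 ≤ m) {P : MulAut (Cfsg.PSp m F) → Prop}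
    (hP : ∀ β, P β ↔ ∃ (g : Cfsg.GSp m F) (σ : F ≃+* F), β = A m F g * Fd m F σ) {p f : ℕ}
    [Fact p.Prime] (hF : Fintype.card F = p ^ f) :
    Nat.card {β // P β} = f * Nat.card (Matrix.symplecticGroup (Fin m) F) := by
  have hf : Nat.card (F ≃+* F) = f :=
    Suzuki.card_ringEquiv (p := p) (by rw [Nat.card_eq_fintype_card, hF])
  rw [← card_range_A_psp hm, ← hf, mul_comm, ← Nat.card_prod]
  symm
  refine Nat.card_congr (Equiv.ofBijective (fun x : (A m F).range × (F ≃+* F) =>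
    (⟨x.1.1 * Fd m F x.2, (hP _).2 (by
      obtain ⟨g, hg⟩ := x.1.2
      exact ⟨g, x.2, by rw [hg]⟩)⟩ : {β // P β})) ⟨?_, ?_⟩)
  · rintro ⟨⟨_, g, rfl⟩, σ⟩ ⟨⟨_, h, rfl⟩, τ⟩ e
    have e' : A m F g * Fd m F σ = A m F h * Fd m F τ := congrArg Subtype.val e
    have e1 : Fd m F (σ * τ⁻¹) = A m F (g⁻¹ * h) := by
      rw [map_mul, map_inv, map_mul, map_inv]
      calc Fd m F σ * (Fd m F τ)⁻¹ = (A m F g)⁻¹ * (A m F g * Fd m F σ) * (Fd m F τ)⁻¹ := by group
        _ = _ := by rw [e']; group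
    have hst : σ = τ := mul_inv_eq_one.1 (fd_eq_A_imp hm e1)
    subst hst
    exact Prod.ext (Subtype.ext (mul_right_cancel e')) rfl
  · rintro ⟨β, hβ⟩
    obtain ⟨g, σ, rfl⟩ := (hP _).1 hβ
    exact ⟨(⟨_, g, rfl⟩, σ), rfl⟩

/-- In characteristic two all similarities act as inner automorphisms. -/
theorem inn_eq_range_A [CharP F 2] (hm : 2 ≤ m) : Cfsg.Inn (Cfsg.PSp m F) = (A m F).range := by
  have hm1 : 1 ≤ m := by omega
  refine le_antisymm (by rw [Inn_eq_map hm1]; exact Subgroup.map_le_range _ _) ?_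
  rintro _ ⟨g, rfl⟩
  obtain ⟨ν, hν⟩ := FiniteField.isSquare_of_char_two (ringChar.eq F 2) (mult hm1 g : F)
  have hν0 : ν ≠ 0 := fun h => (mult hm1 g).ne_zero (by rw [hν, h, mul_zero])
  rw [Inn_eq_map hm1]
  refine ⟨g * sc m F (Units.mk0 ν hν0)⁻¹, ?_, ?_⟩
  · show mult hm1 _ = 1
    rw [map_mul, mult_sc, inv_pow, mul_inv_eq_one]
    exact Units.ext (by rw [hν, Units.val_pow_eq_pow_val, Units.val_mk0, sq])
  · rw [map_mul, (A_eq_one_iff hm (sc m F _)).mpr ⟨_, rfl⟩, mul_one]

section Four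

variable [CharP F 2]

theorem mapsTv_iff (β : MulAut (Cfsg.PSp 2 F)) :
    MapsTv β ↔ ∃ (g : Cfsg.GSp 2 F) (σ : F ≃+* F), β = A 2 F g * Fd 2 F σ :=
  ⟨exists_decomp_of_mapsTv le_rfl β, fun ⟨g, σ, h⟩ => h ▸ (mapsTv_A g).mul (mapsTv_Fd σ)⟩

/-- The automorphisms are twice the semilinear ones. -/
theorem card_mulAut_four {f : ℕ} (hF : Fintype.card F = 2 ^ f) :
    Nat.card (MulAut (Cfsg.PSp 2 F)) = 2 * (f * Nat.card (Matrix.symplecticGroup (Fin 2) F)) := by
  classical
  haveI := Fact.mk Nat.prime_two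
  haveI : Finite (MulAut (Cfsg.PSp 2 F)) := Finite.of_injective _ DFunLike.coe_injective
  rw [← card_semilinear (m := 2) le_rfl mapsTv_iff hF, two_mul,
    ← Nat.card_congr (Equiv.sumCompl fun β : MulAut (Cfsg.PSp 2 F) => MapsTv β), Nat.card_sum]
  congr 1
  refine (Nat.card_congr (Equiv.ofBijective (fun β : {β : MulAut (Cfsg.PSp 2 F) // MapsTv β} =>
    (⟨graphAut * β.1, fun h => not_mapsTv_graphAut (by
      have := h.mul β.2.inv'
      rwa [mul_inv_cancel_right] at this)⟩ : {β : MulAut (Cfsg.PSp 2 F) // ¬ MapsTv β}))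
    ⟨fun β γ h => Subtype.ext (mul_left_cancel (congrArg Subtype.val h)), fun β => ?_⟩)).symm
  exact ⟨⟨_, (mapsTv_or β.1).resolve_left β.2⟩, Subtype.ext (mul_inv_cancel_left _ _)⟩

/-- The square of the exceptional automorphism is the Frobenius automorphism. -/
theorem graphAut_sq :
    graphAut * graphAut = Fd 2 F (frobeniusEquiv F 2) := by
  refine autPSp_ext fun s => ?_
  show graphAut (graphAut (QuotientGroup.mk s)) = QuotientGroup.mk (fieldSp (frobeniusEquiv F 2) s)
  rw [graphAut_mk, graphAut_mk]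
  exact congrArg QuotientGroup.mk (Subtype.ext (graphMat_graphMat s))

/-- The outer automorphism group is cyclic of order `2f`. -/
theorem out_psp_four {f : ℕ} (hF : Fintype.card F = 2 ^ f) :
    IsCyclic (Cfsg.Out (Cfsg.PSp 2 F)) ∧ Nat.card (Cfsg.Out (Cfsg.PSp 2 F)) = 2 * f := by
  classical
  haveI := Fact.mk Nat.prime_two
  haveI : Finite (MulAut (Cfsg.PSp 2 F)) := Finite.of_injective _ DFunLike.coe_injective
  have hcard : Nat.card (Cfsg.Out (Cfsg.PSp 2 F)) = 2 * f := by
    have h := Subgroup.card_eq_card_quotient_mul_card_subgroup (Cfsg.Inn (Cfsg.PSp 2 F))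
    rw [card_mulAut_four hF] at h
    rw [show Nat.card (Cfsg.Inn (Cfsg.PSp 2 F)) = Nat.card (Matrix.symplecticGroup (Fin 2) F) by
      rw [inn_eq_range_A le_rfl, card_range_A_psp le_rfl], ← mul_assoc] at h
    exact (Nat.eq_of_mul_eq_mul_right Nat.card_pos h).symm
  set x : Cfsg.Out (Cfsg.PSp 2 F) := QuotientGroup.mk graphAut with hx
  set φ := frobeniusEquiv F 2 with hφ
  have hord : orderOf φ = f := by
    have hpow : ∀ j c, (φ ^ j) c = c ^ 2 ^ j := by
      intro j
      induction j with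
      | zero => intro c; simp
      | succ j ih =>
        intro c
        rw [pow_succ', show (φ * φ ^ j) c = φ ((φ ^ j) c) from rfl, ih, hφ, frobeniusEquiv_def,
          ← pow_mul, ← pow_succ]
    have hf1 : φ ^ f = 1 := RingEquiv.ext fun c => by
      rw [hpow, ← hF, FiniteField.pow_card]; rfl
    haveI : Finite (F ≃+* F) := Finite.of_injective _ DFunLike.coe_injective
    refine le_antisymm (Nat.le_of_dvd ?_ (orderOf_dvd_of_pow_eq_one hf1)) ?_
    · rcases Nat.eq_zero_or_pos f with rfl | h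
      · have := Fintype.one_lt_card (α := F)
        rw [hF, pow_zero] at this
        omega
      · exact h
    · obtain ⟨g, hg⟩ := IsCyclic.exists_generator (α := Fˣ)
      have hgord : orderOf g = 2 ^ f - 1 := by
        rw [orderOf_eq_card_of_forall_mem_zpowers hg, Nat.card_units, Nat.card_eq_fintype_card, hF]
      have h1 := hpow (orderOf φ) (g : F)
      rw [pow_orderOf_eq_one] at h1
      have h2 : g ^ (2 ^ orderOf φ - 1) = 1 := by
        refine Units.ext (mul_right_cancel₀ g.ne_zero ?_)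
        rw [Units.val_pow_eq_pow_val, ← pow_succ, Nat.sub_add_cancel Nat.one_le_two_pow, ← h1,
          Units.val_one, one_mul]
        rfl
      have hpos : 0 < orderOf φ := orderOf_pos φ
      have h3 := Nat.le_of_dvd (by
        have := Nat.one_lt_two_pow hpos.ne'
        omega) (orderOf_dvd_of_pow_eq_one h2)
      rw [hgord] at h3
      have := Nat.one_le_two_pow (n := orderOf φ)
      have := Nat.one_le_two_pow (n := f)
      exact (Nat.pow_le_pow_iff_right (a := 2) (by omega)).1 (by omega)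
  have hsq : x ^ 2 = QuotientGroup.mk (Fd 2 F φ) := by
    rw [pow_two, hx, ← QuotientGroup.mk_mul, graphAut_sq]
  have hxord : 2 * f ∣ orderOf x := by
    have h1 := pow_orderOf_eq_one x
    set j := orderOf x
    have hmaps : ∀ k : ℕ, (QuotientGroup.mk (Fd 2 F (φ ^ k)) : Cfsg.Out (Cfsg.PSp 2 F)) = x ^ (2 * k) := by
      intro k
      rw [pow_mul, hsq, map_pow, QuotientGroup.mk_pow]
    obtain ⟨k, hk⟩ : Even j := by
      rcases Nat.even_or_odd j with h | ⟨k, hk⟩
      · exact h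
      exfalso
      rw [hk, pow_succ, ← hmaps, hx, ← QuotientGroup.mk_mul, QuotientGroup.eq_one_iff,
        inn_eq_range_A le_rfl] at h1
      obtain ⟨g, hg⟩ := h1
      refine not_mapsTv_graphAut (F := F) ?_
      have h2 := (mapsTv_Fd (m := 2) (φ ^ k)).inv'.mul (mapsTv_A g)
      rwa [hg, inv_mul_cancel_left] at h2
    rw [hk, ← two_mul] at h1 ⊢
    rw [← hmaps, QuotientGroup.eq_one_iff, inn_eq_range_A le_rfl] at h1
    obtain ⟨g, hg⟩ := h1
    exact mul_dvd_mul_left 2 (hord ▸ orderOf_dvd_of_pow_eq_one (fd_eq_A_imp le_rfl hg.symm))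
  refine ⟨isCyclic_of_orderOf_eq_card x (Nat.dvd_antisymm (orderOf_dvd_natCard x) (hcard ▸ hxord)),
    hcard⟩

end Four

end Cfsg.Agent.Forms
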