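import Cfsg.Agent.Forms.SpFourGraph
import Cfsg.Agent.KnownB.Proj.Symp.Lang

/-!
Automorphisms of `PSp₄(2^f)`: every one, after possibly composing with the exceptional
automorphism, is induced by a semilinear similarity.
-/

set_option autoImplicit false

namespace Cfsg.Agent.Forms

open Matrix
open KnownB.Proj KnownB.Proj.Symp

universe u

section General

variable {m : ℕ} {F : Type u} [Field F]

local notation "Vm" => (Fin m ⊕ Fin m → F)
local notation "Mm" => Matrix (Fin m ⊕ Fin m) (Fin m ⊕ Fin m) F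
local notation "GLm" => Matrix.GeneralLinearGroup (Fin m ⊕ Fin m) F
local notation "Spm" => Matrix.symplecticGroup (Fin m) F
local notation "B" => Cfsg.sympForm m F

/-- An automorphism mapping transvections to transvections. -/
def MapsTv (β : MulAut (Cfsg.PSp m F)) : Prop :=
  ∀ ⦃v : Fin m ⊕ Fin m → F⦄ ⦃x : Cfsg.PSp m F⦄, IsTvOf v x → ∃ w, IsTvOf w (β x)

theorem MapsTv.mul {β γ : MulAut (Cfsg.PSp m F)} (hβ : MapsTv β) (hγ : MapsTv γ) :
    MapsTv (β * γ) := fun _ _ h => by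
  obtain ⟨w, hw⟩ := hγ h
  exact hβ hw

theorem mapsTv_one : MapsTv (1 : MulAut (Cfsg.PSp m F)) := fun _ _ h => ⟨_, h⟩

theorem mapsTv_A (g : Cfsg.GSp m F) : MapsTv (A m F g) := fun _ _ h => ⟨_, h.map_A g⟩

theorem mapsTv_Fd (σ : F ≃+* F) : MapsTv (Fd m F σ) := fun _ _ h => ⟨_, h.map_Fd σ⟩

variable [Fintype F]

theorem MapsTv.inv' {β : MulAut (Cfsg.PSp m F)} (hβ : MapsTv β) : MapsTv β⁻¹ := by
  haveI : Finite (MulAut (Cfsg.PSp m F)) := Finite.of_injective _ DFunLike.coe_injective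
  have hpow : ∀ k : ℕ, MapsTv (β ^ k) := by
    intro k
    induction k with
    | zero => rw [pow_zero]; exact mapsTv_one
    | succ k ih => rw [pow_succ]; exact ih.mul hβ
  have : β⁻¹ = β ^ (orderOf β - 1) := by
    rw [inv_eq_iff_mul_eq_one, ← pow_succ', Nat.sub_add_cancel (orderOf_pos β), pow_orderOf_eq_one]
  rw [this]
  exact hpow _

theorem MapsTv.inv {β : MulAut (Cfsg.PSp m F)} (hβ : MapsTv β) {v : Fin m ⊕ Fin m → F}
    {x : Cfsg.PSp m F} (h : IsTvOf v x) : ∃ w, IsTvOf w (β⁻¹ x) := hβ.inv' h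

/-- Every automorphism is induced by a semilinear similarity, given the facts on transvections. -/
theorem exists_decomp_of_mapsTv [CharP F 2] (hm : 2 ≤ m) (β : MulAut (Cfsg.PSp m F)) (hβ : MapsTv β) :
    ∃ (g : Cfsg.GSp m F) (σ : F ≃+* F), β = A m F g * Fd m F σ := by
  classical
  have hm1 : 1 ≤ m := by omega
  have hex : ∀ v : Vm, ∃ w : Vm, v ≠ 0 → IsTvOf w (β (QuotientGroup.mk (T v 1))) := by
    intro v
    by_cases hv : v = 0
    · exact ⟨0, fun h => absurd hv h⟩
    · obtain ⟨w, hw⟩ := hβ (isTvOf_mk hv)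
      exact ⟨w, fun _ => hw⟩
  choose g hg using hex
  have hperp : ∀ u z, u ≠ 0 → z ≠ 0 → (B u z = 0 ↔ B (g u) (g z) = 0) := by
    intro u z hu hz
    rw [← commute_iff_two (isTvOf_mk hu) (isTvOf_mk hz),
      ← commute_iff_two (hg u hu) (hg z hz), commute_map_iff β.injective]
  have hB : (Forms.sympB m F).Nondegenerate := Forms.sympB_nondegenerate
  have hsurj : ∀ y, y ≠ 0 → ∃ x, x ≠ 0 ∧ ∃ c : F, c ≠ 0 ∧ g x = c • y := by
    intro y hy
    obtain ⟨x, hx⟩ := hβ.inv (isTvOf_mk hy)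
    refine ⟨x, hx.1, ?_⟩
    have hgx := (hg x hx.1).1
    have key : ∀ w, B y w = 0 ↔ B (g x) w = 0 := by
      intro w
      by_cases hw : w = 0
      · simp [hw, B_zero_right]
      obtain ⟨w', hw'⟩ := hβ.inv (isTvOf_mk hw)
      rw [← commute_iff_two (isTvOf_mk hy) (isTvOf_mk hw),
        ← commute_iff_two (hg x hx.1) (isTvOf_mk hw),
        ← commute_map_iff β⁻¹.injective, commute_iff_two hx hw',
        ← commute_iff_two (isTvOf_mk hx.1) hw', ← commute_map_iff β.injective,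
        MulAut.apply_inv_self]
    obtain ⟨a, b, hab⟩ := (mem_pair_iff_perp (Forms.sympB m F) hB y y (g x)).mpr fun z h1 _ => by
      rw [sB] at h1 ⊢
      exact (key z).mp h1
    refine ⟨a + b, fun h0 => hgx (by rw [← hab, ← add_smul, h0, zero_smul]), ?_⟩
    rw [← hab, add_smul]
  have hcol : Collin g := collin_of_perp (Forms.sympB m F) hB g (fun v hv => (hg v hv).1)
    (fun u z hu hz => by rw [sB, sB]; exact hperp u z hu hz) hsurj
  obtain ⟨σ, G, hG⟩ := hcol.exists_semilinear (by simp; omega)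
  have hmem : G ∈ Cfsg.GSp m F := by
    refine hasMult_of_perp hm1 G fun a b hab => ?_
    by_cases ha : a = 0
    · simp [ha, B_zero_left]
    by_cases hb : b = 0
    · simp [hb, B_zero_right]
    obtain ⟨u, rfl⟩ : ∃ u, ⇑σ ∘ u = a := ⟨_, comp_symm σ a⟩
    obtain ⟨z, rfl⟩ : ∃ z, ⇑σ ∘ z = b := ⟨_, comp_symm σ b⟩
    have hu : u ≠ 0 := fun h => ha (funext fun i => by simp [h])
    have hz : z ≠ 0 := fun h => hb (funext fun i => by simp [h])
    obtain ⟨c, hc, ec⟩ := hG u hu
    obtain ⟨d, hd, ed⟩ := hG z hz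
    rw [sympForm_map, map_eq_zero] at hab
    have h1 := (hperp u z hu hz).mp hab
    rw [ec, ed, B_smul_left, B_smul_right, mul_eq_zero, or_iff_right hc, mul_eq_zero,
      or_iff_right hd] at h1
    exact h1
  refine ⟨⟨G, hmem⟩, σ, ?_⟩
  set γ := (A m F ⟨G, hmem⟩ * Fd m F σ)⁻¹ * β with hγ
  suffices hone : γ = 1 by
    rw [hγ, inv_mul_eq_one] at hone
    exact hone.symm
  have hγt : MapsTv γ := ((mapsTv_A _).mul (mapsTv_Fd σ)).inv'.mul hβ
  have hpt : ∀ v, v ≠ 0 → IsTvOf v (γ (QuotientGroup.mk (T v 1))) := by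
    intro v hv
    obtain ⟨w, hw⟩ := hγt (isTvOf_mk hv)
    have h1 := (hw.map_Fd σ).map_A ⟨G, hmem⟩
    change IsTvOf _ ((A m F ⟨G, hmem⟩ * Fd m F σ * γ) (QuotientGroup.mk (T v 1))) at h1
    rw [show A m F ⟨G, hmem⟩ * Fd m F σ * γ = β by rw [hγ, mul_inv_cancel_left]] at h1
    obtain ⟨k, hk, hkw⟩ := par_two h1 (hg v hv)
    obtain ⟨c, hc, ec⟩ := hG v hv
    rw [ec, smul_smul] at hkw
    have h2 : (G : Mm) *ᵥ (⇑σ ∘ w) = (G : Mm) *ᵥ ((k * c) • ⇑σ ∘ v) := by
      rw [Matrix.mulVec_smul]; exact hkw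
    have h3 := congrArg (fun y => ((G⁻¹ : GLm) : Mm) *ᵥ y) h2
    simp only [Matrix.mulVec_mulVec, Units.inv_mul, Matrix.one_mulVec] at h3
    have h4 : w = σ.symm (k * c) • v := funext fun i => σ.injective (by
      have := congrFun h3 i
      simp only [Function.comp_apply, Pi.smul_apply, smul_eq_mul] at this
      simp [this])
    obtain ⟨hw0, e, he, hwe⟩ := hw
    refine ⟨hv, e * σ.symm (k * c) ^ 2, mul_ne_zero he (pow_ne_zero _ ?_), ?_⟩
    · exact (map_ne_zero σ.symm).mpr (mul_ne_zero hk hc)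
    · rw [← T_smul, ← h4]; exact hwe
  refine autPSp_ext fun s => ?_
  rw [MulAut.one_apply]
  obtain ⟨s', hs'⟩ := QuotientGroup.mk_surjective (γ (QuotientGroup.mk s))
  have hline : ∀ v, v ≠ 0 → ∃ k : F, k ≠ 0 ∧ s'.1 *ᵥ v = k • s.1 *ᵥ v := by
    intro v hv
    have h1 := (hpt v hv).conj s'
    rw [hs', ← map_inv, ← map_mul, ← map_mul, ← QuotientGroup.mk_inv, ← QuotientGroup.mk_mul,
      ← QuotientGroup.mk_mul, T_conj] at h1
    exact par_two h1 (hpt _ (sp_mulVec_ne s hv))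
  rw [← hs', pspMk_eq_iff]
  refine ⟨s'⁻¹ * s, ?_, by rw [mul_inv_cancel_left]⟩
  set z := s'⁻¹ * s
  have hz : ∀ v, v ≠ 0 → ∃ k : F, z.1 *ᵥ v = k • v := by
    intro v hv
    obtain ⟨k, hk, e⟩ := hline v hv
    refine ⟨k⁻¹, ?_⟩
    rw [sp_mul_mulVec, show s.1 *ᵥ v = k⁻¹ • s'.1 *ᵥ v by rw [e, inv_smul_smul₀ hk],
      Matrix.mulVec_smul, sp_inv_mulVec]
  choose! k hk using hz
  have hrec : ∀ u w, B u w ≠ 0 → k u * k w = 1 := by
    intro u w h
    have hu : u ≠ 0 := fun h0 => h (by simp [h0, B_zero_left])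
    have hw : w ≠ 0 := fun h0 => h (by simp [h0, B_zero_right])
    have h1 := sp_B z u w
    rw [hk u hu, hk w hw, B_smul_left, B_smul_right, ← mul_assoc] at h1
    exact mul_right_cancel₀ h (h1.trans (one_mul _).symm)
  have hconst : ∀ u v, u ≠ 0 → v ≠ 0 → k u = k v := by
    intro u v hu hv
    obtain ⟨w, h1, h2⟩ := exists_common hu hv
    have e := (hrec u w h1).trans (hrec v w h2).symm
    exact mul_right_cancel₀ (fun h0 => zero_ne_one (α := F) (by
      have := hrec u w h1; rwa [h0, mul_zero] at this)) e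
  obtain ⟨a₀, ha₀⟩ : ∃ a : Vm, a ≠ 0 :=
    ⟨Pi.single (Sum.inl ⟨0, hm1⟩) 1, fun h0 => by simpa using congrFun h0 (Sum.inl ⟨0, hm1⟩)⟩
  have hall : ∀ v, z.1 *ᵥ v = k a₀ • v := by
    intro v
    by_cases hv : v = 0
    · simp [hv]
    rw [hk v hv, hconst v a₀ hv ha₀]
  rw [Subgroup.mem_center_iff]
  intro t
  refine sp_ext fun x => ?_
  rw [sp_mul_mulVec t z, sp_mul_mulVec z t, hall, hall, Matrix.mulVec_smul]

/-- Transvections are central in a Sylow `2`-subgroup. -/
theorem tv_centralP [CharP F 2] (hm : 1 ≤ m) {v : Fin m ⊕ Fin m → F} {x : Cfsg.PSp m F}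
    (h : IsTvOf v x) : CentralP 2 x := by
  have := Fact.mk Nat.prime_two
  obtain ⟨hv, c, hc, hcx⟩ := h
  obtain ⟨Q₀⟩ : Nonempty (Sylow 2 Spm) := Sylow.nonempty
  obtain ⟨e, he, hfix, hrad⟩ := exists_fixed (p := 2) hm Q₀
  have hbase : CentralP 2 (QuotientGroup.mk (T e c) : Cfsg.PSp m F) := by
    refine ⟨fun h1 => T_ne_one he hc (mk_inj (h1.trans (QuotientGroup.mk_one _).symm)),
      Q₀.mapSurjective (QuotientGroup.mk'_surjective _), ⟨_, hrad (T_mem_radical e c), rfl⟩, ?_⟩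
    rintro _ ⟨w, hw, rfl⟩
    refine Commute.map ?_ (QuotientGroup.mk' (Subgroup.center Spm))
    refine (mul_inv_eq_iff_eq_mul.mp ?_).symm
    rw [T_conj, hfix w hw]
  obtain ⟨t, -, ht⟩ := Forms.exists_mem_transitive Forms.sympB_isAlt ⊤
    (fun z _ c _ => Subgroup.mem_top _) Forms.isForm_symp he hv
  set g := (Forms.spEquiv m F).symm t with hg
  have hgv : g.1 *ᵥ e = v := by rw [hg, Forms.spEquiv_symm_apply]; exact ht
  have := centralP_map (MulAut.conj (QuotientGroup.mk g : Cfsg.PSp m F)) hbase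
  rw [MulAut.conj_apply, ← QuotientGroup.mk_inv, ← QuotientGroup.mk_mul, ← QuotientGroup.mk_mul,
    T_conj, hgv, hcx] at this
  exact this

/-- All transvections are conjugate in characteristic two. -/
theorem exists_conj_tv [CharP F 2] {u v : Fin m ⊕ Fin m → F} {x y : Cfsg.PSp m F}
    (hx : IsTvOf u x) (hy : IsTvOf v y) : ∃ g : Cfsg.PSp m F, g * x * g⁻¹ = y := by
  obtain ⟨hu, a, ha, rfl⟩ := hx
  obtain ⟨hv, b, hb, rfl⟩ := hy
  obtain ⟨k, hk⟩ := FiniteField.isSquare_of_char_two (ringChar.eq F 2) (b / a)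
  have hk0 : k ≠ 0 := by
    rintro rfl
    rw [mul_zero] at hk
    exact (div_ne_zero hb ha) hk
  obtain ⟨t, -, ht⟩ := exists_mem_transitive sympB_isAlt ⊤
    (fun z _ c _ => Subgroup.mem_top _) isForm_symp hu (smul_ne_zero hk0 hv)
  set g := (spEquiv m F).symm t with hg
  have hgv : g.1 *ᵥ u = k • v := by rw [hg, spEquiv_symm_apply]; exact ht
  refine ⟨QuotientGroup.mk g, ?_⟩
  rw [← QuotientGroup.mk_inv, ← QuotientGroup.mk_mul, ← QuotientGroup.mk_mul, T_conj, hgv, T_smul,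
    pow_two, ← hk, mul_div_cancel₀ _ ha]

end General

section Four

variable {F : Type u} [Field F] [Fintype F] [CharP F 2]

local notation "Vm" => (Fin 2 ⊕ Fin 2 → F)
local notation "Spm" => Matrix.symplecticGroup (Fin 2) F
local notation "B" => Cfsg.sympForm 2 F

/-- The exceptional automorphism of `Sp₄`. -/
noncomputable def graphEquiv : MulAut (Matrix.symplecticGroup (Fin 2) F) :=
  MulEquiv.ofBijective graphSp (Finite.injective_iff_bijective.1 graphSp_injective)

theorem graphEquiv_val (s : Matrix.symplecticGroup (Fin 2) F) :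
    (graphEquiv s).1 = graphMat s.1 := rfl

/-- The exceptional automorphism of `PSp₄`. -/
noncomputable def graphAut : MulAut (Cfsg.PSp 2 F) := liftAut graphEquiv

theorem graphAut_mk (s : Matrix.symplecticGroup (Fin 2) F) :
    graphAut (QuotientGroup.mk s : Cfsg.PSp 2 F) = QuotientGroup.mk (graphEquiv s) := rfl

/-- The standard product of a short and a long root element. -/
def stdRootMat (c : F) : Matrix (Fin 2 ⊕ Fin 2) (Fin 2 ⊕ Fin 2) F :=
  Matrix.fromBlocks 1 !![c, 1; 1, 0] 0 1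

theorem graphMat_T_std :
    graphMat (T (Pi.single (Sum.inl 0) 1 : Fin 2 ⊕ Fin 2 → F) (1 : F)).1 = stdRootMat 0 := by
  ext p q
  rcases p with i | i <;> rcases q with j | j <;> fin_cases i <;> fin_cases j <;>
    simp [graphMat, graphPair, minorTwo, T_val_apply, stdRootMat, Matrix.one_apply, Pi.single_apply]

theorem stdRootMat_ne_T {v : Fin 2 ⊕ Fin 2 → F} {b : F} : stdRootMat (0 : F) ≠ (T v b).1 := by
  intro h
  have h11 := congrFun (congrFun h (Sum.inl 1)) (Sum.inr 0)
  have h12 := congrFun (congrFun h (Sum.inl 0)) (Sum.inr 1)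
  have h22 := congrFun (congrFun h (Sum.inl 0)) (Sum.inr 0)
  simp [stdRootMat, T_val_apply, Matrix.one_apply] at h11 h12 h22
  rcases h22 with h | h <;> simp [h] at h11

/-- The exceptional automorphism does not preserve transvections. -/
theorem not_mapsTv_graphAut : ¬ MapsTv (graphAut (F := F)) := by
  intro h
  obtain ⟨w, -, b, -, hb⟩ := h (isTvOf_mk (v := (Pi.single (Sum.inl 0) 1 : Fin 2 ⊕ Fin 2 → F))
    (fun h0 => by simpa using congrFun h0 (Sum.inl 0)))
  rw [graphAut_mk] at hb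
  have h1 := congrArg Subtype.val (mk_inj hb)
  rw [graphEquiv_val, graphMat_T_std] at h1
  first | exact stdRootMat_ne_T h1 | exact stdRootMat_ne_T h1.symm

/-- A monomial matrix cycling the standard basis. -/
def stdCycleMat : Matrix (Fin 2 ⊕ Fin 2) (Fin 2 ⊕ Fin 2) F :=
  Matrix.fromBlocks !![0, 0; 1, 0] !![0, 1; 0, 0] !![0, 1; 0, 0] !![0, 0; 1, 0]

/-- The conjugate of `stdRootMat` by `stdCycleMat`. -/
def stdRootConjMat (c : F) : Matrix (Fin 2 ⊕ Fin 2) (Fin 2 ⊕ Fin 2) F :=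
  Matrix.fromBlocks !![1, 0; 1, 1] !![0, 0; 0, c] 0 !![1, 1; 0, 1]

theorem stdCycleMat_mem : stdCycleMat (F := F) ∈ Matrix.symplecticGroup (Fin 2) F := by
  rw [SymplecticGroup.mem_iff]
  ext i j
  rcases i with i | i <;> rcases j with j | j <;> fin_cases i <;> fin_cases j <;>
    simp [stdCycleMat, Matrix.J, Matrix.mul_apply, Fintype.sum_sum_type, Matrix.one_apply,
      CharTwo.neg_eq]

theorem stdCycleMat_mul (c : F) :
    stdCycleMat * stdRootMat c = stdRootConjMat c * stdCycleMat := by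
  rw [stdCycleMat, stdRootMat, stdRootConjMat, Matrix.fromBlocks_multiply, Matrix.fromBlocks_multiply]
  congr 1 <;> ext i j <;> fin_cases i <;> fin_cases j <;> simp

theorem stdRootMat_pow_four (c : F) : (stdRootMat c * stdRootConjMat c) ^ 4 = 1 := by
  have h2 : (2 : F) = 0 := CharTwo.two_eq_zero
  have hD : stdRootMat c * stdRootConjMat c - 1 =
      Matrix.fromBlocks !![0, 0; 1, 0] !![c, c + 1; 1, 1 + c] 0 !![0, 1; 0, 0] := by
    rw [sub_eq_iff_eq_add, stdRootMat, stdRootConjMat, Matrix.fromBlocks_multiply,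
      ← Matrix.fromBlocks_one, Matrix.fromBlocks_add]
    congr 1 <;> ext i j <;> fin_cases i <;> fin_cases j <;> simp <;> grobner
  have hD2 : (stdRootMat c * stdRootConjMat c - 1) * (stdRootMat c * stdRootConjMat c - 1) =
      Matrix.fromBlocks 0 !![0, c; c, c] 0 0 := by
    rw [hD, Matrix.fromBlocks_multiply]
    congr 1 <;> ext i j <;> fin_cases i <;> fin_cases j <;> simp <;> grobner
  have h : (stdRootMat c * stdRootConjMat c - 1) ^ 4 = 0 := by
    rw [show (4 : ℕ) = 2 * 2 from rfl, pow_mul, pow_two, pow_two, hD2, Matrix.fromBlocks_multiply]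
    simp
  rw [show (4 : ℕ) = 2 ^ 2 from rfl, sub_pow_char_pow_of_commute _ _ (Commute.one_right _),
    one_pow, sub_eq_zero] at h
  exact h

theorem stdRootMat_comm {c : F}
    (h : stdRootMat c * stdRootConjMat c = stdRootConjMat c * stdRootMat c) : c = 0 := by
  rw [stdRootMat, stdRootConjMat, Matrix.fromBlocks_multiply, Matrix.fromBlocks_multiply] at h
  have h1 := congrFun (congrFun (Matrix.fromBlocks_inj.1 h).2.1 1) 0
  simp at h1
  grobner

set_option maxHeartbeats 1000000 in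
/-- An element central in a Sylow `2`-subgroup having the odd transposition property is a
transvection or the exceptional image of one. -/
theorem centralP_four {x : Cfsg.PSp 2 F} (h : CentralP 2 x) (hodd : IsOddTransp x) :
    (∃ v, IsTvOf v x) ∨ ∃ v, IsTvOf v (graphAut⁻¹ x) := by
  have := Fact.mk Nat.prime_two
  obtain ⟨hx, P, hxP, hP⟩ := h
  obtain ⟨Q, rfl⟩ := Sylow.mapSurjective_surjective
    (QuotientGroup.mk'_surjective (Subgroup.center Spm)) 2 P
  obtain ⟨u, hu, rfl⟩ := hxP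
  obtain ⟨e, he, hfix, hrad⟩ := exists_fixed (p := 2) one_le_two Q
  have hcomm : ∀ w ∈ (Q : Subgroup Spm), Commute u w := fun w hw =>
    commute_of_mk (hP _ ⟨w, hw, rfl⟩)
  have hue : u.1 *ᵥ e = e := hfix u hu
  obtain ⟨x₀, hx₀⟩ := exists_B_one he
  have hperp : ∀ a, B a e = 0 → ∃ k : F, u.1 *ᵥ a = a + k • e := by
    intro a ha
    set d := u.1 *ᵥ a - a with hd
    have key : ∀ z, B z e • d + B z d • e = 0 := by
      intro z
      obtain ⟨w, rfl⟩ : ∃ w, u.1 *ᵥ w = z := ⟨_, sp_mulVec_inv u z⟩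
      have h1 := congrArg (fun s : Spm => s.1 *ᵥ w) (hcomm _ (hrad (siegel_mem ha))).eq
      simp only [sp_mul_mulVec, siegel_mulVec, Matrix.mulVec_add, Matrix.mulVec_smul, hue] at h1
      have e1 : B (u.1 *ᵥ w) e = B w e := by
        conv_lhs => arg 4; rw [← hue]
        rw [sp_B]
      have hua : u.1 *ᵥ a = a + d := by rw [hd]; module
      have e2 : B w a = B (u.1 *ᵥ w) a + B (u.1 *ᵥ w) d := by
        rw [← B_add_right, ← hua, sp_B]
      rw [e2, hua, e1] at h1
      rw [e1]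
      linear_combination (norm := module) h1
    have h1 := key x₀
    rw [hx₀, one_smul] at h1
    refine ⟨-B x₀ d, ?_⟩
    rw [show u.1 *ᵥ a = a + d by rw [hd]; module, add_right_inj, neg_smul]
    exact eq_neg_of_add_eq_zero_left h1
  set f := x₀ with hf
  set a := u.1 *ᵥ f - f with hadef
  have hae : B a e = 0 := by
    rw [hadef, B_sub_left, sub_eq_zero]
    conv_lhs => arg 4; rw [← hue]
    rw [sp_B]
  -- `u` is determined by `a`
  have hef : B e f = 1 := by rw [B_swap, hx₀]; exact CharTwo.neg_eq 1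
  have hea : B e a = 0 := by rw [B_swap, hae, neg_zero]
  set c := B f a with hc
  have hu' : ∀ y, u.1 *ᵥ y = y + (B y a + c * B y e) • e + B y e • a := by
    intro y
    have hye : B (y - B y e • f) e = 0 := by rw [B_sub_left, B_smul_left, hx₀, mul_one, sub_self]
    obtain ⟨k, hk⟩ := hperp _ hye
    have h2 := sp_B u (y - B y e • f) f
    rw [hk, show u.1 *ᵥ f = f + a by rw [hadef]; abel] at h2
    simp only [B_add_right, B_add_left, B_sub_left, B_smul_left, hea, hef, ← hc] at h2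
    have h1 : k = B y a + c * B y e := by
      have h3 : k + (B y a - c * B y e) = 0 := by linear_combination h2
      rw [CharTwo.add_eq_zero.mp h3, CharTwo.sub_eq_add]
    rw [Matrix.mulVec_sub, Matrix.mulVec_smul, show u.1 *ᵥ f = f + a by rw [hadef]; abel,
      sub_eq_iff_eq_add] at hk
    rw [hk, h1]
    module
  by_cases hak : ∃ k : F, a = k • e
  · obtain ⟨k, hk⟩ := hak
    refine Or.inl ?_
    have hck : c = k := by rw [hc, hk, B_smul_right, hx₀, mul_one]
    refine ⟨e, he, k, ?_, ?_⟩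
    · intro h0
      refine hx ?_
      rw [show u = 1 from sp_ext fun y => by
        rw [hu', sp_one_mulVec, hck, hk, h0]
        simp [B_zero_right]]
      rfl
    · refine congrArg QuotientGroup.mk (sp_ext fun y => ?_)
      rw [T_mulVec, hu', hck, hk, B_smul_right]
      have : ((2 : ℕ) : F) = 0 := CharP.cast_eq_zero F 2
      push_cast at this
      match_scalars
      · rfl
      · linear_combination (-(k * B y e)) * this
  -- otherwise it is standard for an adapted basis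
  push Not at hak
  -- a hyperbolic basis of the relevant part
  let L : Submodule F Vm := Submodule.span F {e, a}
  obtain ⟨f₁, hf₁e, hf₁a, g₁, hg₁e, hg₁a, hg₁f⟩ : ∃ f₁ : Vm, B f₁ e = 1 ∧ B f₁ a = 0 ∧ ∃ g₁,
      B g₁ e = 0 ∧ B g₁ a = 1 ∧ B g₁ f₁ = 0 := by
    have hne' : a - c • e ∉ Submodule.span F ({0} : Set Vm) := by
      simp only [Submodule.span_zero_singleton, Submodule.mem_bot, sub_eq_zero]
      exact hak c
    obtain ⟨g₁, hg₁e, hg₁a⟩ : ∃ g, B g e = 0 ∧ B g a = 1 := by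
      by_contra hcon
      push Not at hcon
      have hall : ∀ y, B y e = 0 → B y a = 0 := fun y hy => by
        by_contra h
        exact hcon ((B y a)⁻¹ • y) (by rw [B_smul_left, hy, mul_zero])
          (by rw [B_smul_left, inv_mul_cancel₀ h])
      refine hak c (sub_eq_zero.mp ((sympB_nondegenerate (m := 2) (F := F)).1 _ fun y => ?_))
      rw [sB, B_sub_left, B_smul_left, B_swap a, B_swap e]
      have h1 := hall (y - B y e • f) (by rw [B_sub_left, B_smul_left, hx₀, mul_one, sub_self])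
      rw [B_sub_left, B_smul_left, ← hc] at h1
      linear_combination -h1
    refine ⟨f - c • g₁, by rw [B_sub_left, B_smul_left, hx₀, hg₁e]; ring,
      by rw [B_sub_left, B_smul_left, hg₁a, ← hc]; ring,
      g₁ - B g₁ f • e, by rw [B_sub_left, B_smul_left, hg₁e, B_self]; ring,
      by rw [B_sub_left, B_smul_left, hg₁a, hea]; ring, ?_⟩
    simp only [B_sub_left, B_sub_right, B_smul_left, B_smul_right, B_self, hef, hg₁e,
      B_swap e g₁]
    ring
  have hf₁e' : B e f₁ = 1 := by rw [B_swap, hf₁e]; exact CharTwo.neg_eq 1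
  have hg₁a' : B a g₁ = 1 := by rw [B_swap, hg₁a]; exact CharTwo.neg_eq 1
  have hfg : B f₁ g₁ = 0 := by rw [B_swap, hg₁f, neg_zero]
  -- the change of basis
  have hea' : B e a = 0 := hea
  let cols : Fin 2 ⊕ Fin 2 → Vm := Sum.elim ![e, a] ![f₁, g₁]
  let M : Matrix (Fin 2 ⊕ Fin 2) (Fin 2 ⊕ Fin 2) F := Matrix.of fun i j => cols j i
  have hM : ∀ j, M *ᵥ Pi.single j 1 = cols j := fun j => by
    rw [Matrix.mulVec_single_one]; rfl
  have hMs : M ∈ Matrix.symplecticGroup (Fin 2) F := by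
    rw [mem_symplectic_iff]
    refine B_mat_ext M (sympB 2 F) (fun i j => ?_) |> fun h u v => (h u v).trans (sympB_apply u v)
    rw [hM, hM, sympB_apply, sympForm_eq (Pi.single i 1), Fin.sum_univ_two]
    have n1 : B g₁ e = 0 := hg₁e
    have n2 : B e g₁ = 0 := by rw [B_swap, hg₁e, neg_zero]
    have n3 : B a f₁ = 0 := by rw [B_swap, hf₁a, neg_zero]
    rcases i with i | i <;> rcases j with j | j <;> fin_cases i <;> fin_cases j <;>
      simp [cols, Pi.single_apply, B_self, hea, hae, hf₁e, hf₁e', hf₁a, n3, hg₁a, hg₁a', n1, n2,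
        hfg, hg₁f, CharTwo.neg_eq]
  let s : Spm := ⟨M, hMs⟩
  let u₀ : Matrix (Fin 2 ⊕ Fin 2) (Fin 2 ⊕ Fin 2) F := stdRootMat c
  have hus : u.1 * M = M * u₀ := by
    refine Forms.matrix_ext_mulVec fun y => ?_
    suffices h : Matrix.mulVecLin (u.1 * M) = Matrix.mulVecLin (M * u₀) from LinearMap.congr_fun h y
    refine (Pi.basisFun F (Fin 2 ⊕ Fin 2)).ext fun j => ?_
    simp only [Pi.basisFun_apply, Matrix.mulVecLin_apply, ← Matrix.mulVec_mulVec, hM, hu']
    have hexp : ∀ z : Vm, M *ᵥ z =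
        z (Sum.inl 0) • e + z (Sum.inl 1) • a + z (Sum.inr 0) • f₁ + z (Sum.inr 1) • g₁ := fun z => by
      funext i
      simp [M, cols, Matrix.mulVec, dotProduct, Fintype.sum_sum_type]
      ring
    rw [hexp]
    rcases j with j | j <;> fin_cases j <;>
      simp [cols, u₀, stdRootMat, B_self, hea, hae, hf₁e, hf₁a, hg₁e, hg₁a] <;> module
  by_cases hc0 : c = 0
  · -- the exceptional image of a transvection
    right
    obtain ⟨s', hs'⟩ := (graphEquiv (F := F)).surjective s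
    have hse : (s'.1 *ᵥ Pi.single (Sum.inl 0) 1) ≠ 0 :=
      sp_mulVec_ne s' fun h0 => by simpa using congrFun h0 (Sum.inl 0)
    refine ⟨_, hse, 1, one_ne_zero, ?_⟩
    have h1 : u * s = s * graphEquiv (T (Pi.single (Sum.inl 0) 1) 1) := by
      refine Subtype.ext ?_
      show u.1 * M = M * (graphEquiv _).1
      rw [graphEquiv_val, graphMat_T_std, hus]
      simp [u₀, hc0]
    have h2 : u = graphEquiv (T (s'.1 *ᵥ Pi.single (Sum.inl 0) 1) 1) := by
      rw [← T_conj, map_mul, map_mul, map_inv, hs', ← h1, mul_inv_cancel_right]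
    show _ = graphAut⁻¹ (QuotientGroup.mk u)
    rw [h2, ← graphAut_mk, ← MulAut.mul_apply, inv_mul_cancel, MulAut.one_apply]
  -- a mixed element has a non-commuting conjugate with small product
  exfalso
  let w₀ : Matrix (Fin 2 ⊕ Fin 2) (Fin 2 ⊕ Fin 2) F := stdCycleMat
  have hw₀ : w₀ ∈ Matrix.symplecticGroup (Fin 2) F := stdCycleMat_mem
  let v₀ : Matrix (Fin 2 ⊕ Fin 2) (Fin 2 ⊕ Fin 2) F := stdRootConjMat c
  have hwv : w₀ * u₀ = v₀ * w₀ := stdCycleMat_mul c
  have h4 : (u₀ * v₀) ^ 4 = 1 := stdRootMat_pow_four c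
  let w : Spm := ⟨w₀, hw₀⟩
  let u' : Spm := s⁻¹ * u * s
  have hu0 : u'.1 = u₀ := by
    have h1 : (s⁻¹ : Spm).1 * M = 1 := congrArg Subtype.val (inv_mul_cancel s)
    show (s⁻¹ : Spm).1 * u.1 * M = u₀
    rw [Matrix.mul_assoc, hus, ← Matrix.mul_assoc, h1, Matrix.one_mul]
  let v' : Spm := w * u' * w⁻¹
  have hv0 : v'.1 = v₀ := by
    have h1 : w₀ * (w⁻¹ : Spm).1 = 1 := congrArg Subtype.val (mul_inv_cancel w)
    show w₀ * u'.1 * (w⁻¹ : Spm).1 = v₀
    rw [hu0, hwv, Matrix.mul_assoc, h1, Matrix.mul_one]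
  set g : Spm := s * w * s⁻¹ with hg
  have e1 : g * u * g⁻¹ = s * v' * s⁻¹ := by simp only [g, v', u']; group
  have e2 : u = s * u' * s⁻¹ := by simp only [u']; group
  have h5 : (u' * v') ^ 4 = 1 := Subtype.ext (by
    rw [SubmonoidClass.coe_pow]
    show (u'.1 * v'.1) ^ 4 = 1
    rw [hu0, hv0, h4])
  have hcom : Commute u (g * u * g⁻¹) := commute_of_mk (hodd (QuotientGroup.mk g) (by
    show ((QuotientGroup.mk u : Cfsg.PSp 2 F) * QuotientGroup.mk (g * u * g⁻¹)) ^ 4 = 1
    rw [← QuotientGroup.mk_mul, ← QuotientGroup.mk_pow, e1,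
      show u * (s * v' * s⁻¹) = s * (u' * v') * s⁻¹ by simp only [u']; group, conj_pow, h5, mul_one,
      mul_inv_cancel, QuotientGroup.mk_one]))
  rw [e1, e2, Commute.conj_iff] at hcom
  have h6 : u'.1 * v'.1 = v'.1 * u'.1 := congrArg Subtype.val hcom.eq
  rw [hu0, hv0] at h6
  exact hc0 (stdRootMat_comm h6)

/-- Every automorphism preserves transvections, possibly after the exceptional one. -/
theorem mapsTv_or (β : MulAut (Cfsg.PSp 2 F)) : MapsTv β ∨ MapsTv (graphAut⁻¹ * β) := by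
  have hx := isTvOf_mk (v := (Pi.single (Sum.inl 0) 1 : Fin 2 ⊕ Fin 2 → F))
    (fun h0 => by simpa using congrFun h0 (Sum.inl 0))
  have key : ∀ γ : MulAut (Cfsg.PSp 2 F), (∃ v, IsTvOf v (γ (QuotientGroup.mk (T
      (Pi.single (Sum.inl 0) 1 : Fin 2 ⊕ Fin 2 → F) 1)))) → MapsTv γ := by
    rintro γ ⟨v, hv⟩ v' y hy
    obtain ⟨g, rfl⟩ := exists_conj_tv hx hy
    obtain ⟨s, hs⟩ := QuotientGroup.mk_surjective (γ g)
    rw [map_mul, map_mul, map_inv, ← hs]
    exact ⟨_, hv.conj s⟩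
  rcases centralP_four (centralP_map β (tv_centralP one_le_two hx))
      (isOddTransp_map β (isTvOf_oddTransp hx)) with h | h
  · exact Or.inl (key β h)
  · exact Or.inr (key _ h)

end Four

end Cfsg.Agent.Forms
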