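import Cfsg.Agent.KnownB.Proj.Symp.Two
import Cfsg.Agent.Forms.SympMatrix

/-!
The exceptional endomorphism of `Sp₄(F)` in characteristic two: the action on `ω^⊥/⟨ω⟩` inside the
exterior square, written with two-by-two minors. Its square is the Frobenius endomorphism.
-/

set_option autoImplicit false

namespace Cfsg.Agent.Forms

open Matrix
open KnownB.Proj.Symp (T T_mulVec sp_ext)

section Ring

variable {R : Type*} [CommRing R]

/-- A two-by-two minor. -/
def minorTwo {ι : Type*} (A : Matrix ι ι R) (a b c d : ι) : R := A a c * A b d - A a d * A b c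

/-- The four pairs of basis vectors indexing `ω^⊥/⟨ω⟩`. -/
def graphPair : Fin 2 ⊕ Fin 2 → (Fin 2 ⊕ Fin 2) × (Fin 2 ⊕ Fin 2) :=
  Sum.elim ![(.inl 0, .inl 1), (.inl 0, .inr 1)] ![(.inr 0, .inr 1), (.inr 0, .inl 1)]

/-- The matrix of the exceptional endomorphism. -/
def graphMat (A : Matrix (Fin 2 ⊕ Fin 2) (Fin 2 ⊕ Fin 2) R) :
    Matrix (Fin 2 ⊕ Fin 2) (Fin 2 ⊕ Fin 2) R :=
  Matrix.of fun p q => minorTwo A (graphPair p).1 (graphPair p).2 (graphPair q).1 (graphPair q).2

theorem graphMat_apply (A : Matrix (Fin 2 ⊕ Fin 2) (Fin 2 ⊕ Fin 2) R) (p q : Fin 2 ⊕ Fin 2) :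
    graphMat A p q =
      minorTwo A (graphPair p).1 (graphPair p).2 (graphPair q).1 (graphPair q).2 := rfl

theorem graphMat_transpose (A : Matrix (Fin 2 ⊕ Fin 2) (Fin 2 ⊕ Fin 2) R) :
    graphMat A.transpose = (graphMat A).transpose := by
  ext p q
  simp [graphMat, minorTwo, mul_comm]

/-- Cauchy–Binet in the only case needed. -/
theorem minorTwo_mul (A B : Matrix (Fin 2 ⊕ Fin 2) (Fin 2 ⊕ Fin 2) R) (a b c d : Fin 2 ⊕ Fin 2) :
    minorTwo (A * B) a b c d =
      (minorTwo A a b (.inl 0) (.inl 1) * minorTwo B (.inl 0) (.inl 1) c d +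
      minorTwo A a b (.inl 0) (.inr 1) * minorTwo B (.inl 0) (.inr 1) c d +
      minorTwo A a b (.inr 0) (.inr 1) * minorTwo B (.inr 0) (.inr 1) c d +
      minorTwo A a b (.inr 0) (.inl 1) * minorTwo B (.inr 0) (.inl 1) c d) +
      (minorTwo A a b (.inl 0) (.inr 0) * minorTwo B (.inl 0) (.inr 0) c d +
      minorTwo A a b (.inl 1) (.inr 1) * minorTwo B (.inl 1) (.inr 1) c d) := by
  simp only [minorTwo, Matrix.mul_apply, Fintype.sum_sum_type, Fin.sum_univ_two]
  ring

/-- The row relation of a symplectic matrix, away from partner rows. -/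
theorem symp_minor_row {A : Matrix (Fin 2 ⊕ Fin 2) (Fin 2 ⊕ Fin 2) R}
    (hA : A ∈ Matrix.symplecticGroup (Fin 2) R) (p : Fin 2 ⊕ Fin 2) :
    minorTwo A (graphPair p).1 (graphPair p).2 (.inl 0) (.inr 0) +
      minorTwo A (graphPair p).1 (graphPair p).2 (.inl 1) (.inr 1) = 0 := by
  have h := congrFun (congrFun (SymplecticGroup.mem_iff.1 hA) (graphPair p).1) (graphPair p).2
  simp only [Matrix.mul_apply, Fintype.sum_sum_type, Fin.sum_univ_two, Matrix.transpose_apply,
    Matrix.J, Matrix.fromBlocks_apply₁₁, Matrix.fromBlocks_apply₁₂, Matrix.fromBlocks_apply₂₁,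
    Matrix.fromBlocks_apply₂₂] at h
  have hJ : Matrix.fromBlocks (0 : Matrix (Fin 2) (Fin 2) R) (-1) 1 0 (graphPair p).1
      (graphPair p).2 = 0 := by
    rcases p with i | i <;> fin_cases i <;> simp [graphPair]
  rw [hJ] at h
  simp [Matrix.one_apply] at h
  simp only [minorTwo]
  linear_combination -h

variable [CharP R 2]

theorem graphMat_mul {A B : Matrix (Fin 2 ⊕ Fin 2) (Fin 2 ⊕ Fin 2) R}
    (hA : A ∈ Matrix.symplecticGroup (Fin 2) R) (hB : B ∈ Matrix.symplecticGroup (Fin 2) R) :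
    graphMat (A * B) = graphMat A * graphMat B := by
  ext p q
  have h1 := symp_minor_row hA p
  have h2 := symp_minor_row (SymplecticGroup.transpose_mem hB) q
  simp only [minorTwo, Matrix.transpose_apply] at h2
  have h3 : (2 : R) = 0 := CharTwo.two_eq_zero
  rw [graphMat_apply, minorTwo_mul, Matrix.mul_apply, Fintype.sum_sum_type, Fin.sum_univ_two,
    Fin.sum_univ_two]
  simp only [graphMat_apply]
  simp only [show graphPair (Sum.inl 0) = (Sum.inl 0, Sum.inl 1) from rfl,
    show graphPair (Sum.inl 1) = (Sum.inl 0, Sum.inr 1) from rfl,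
    show graphPair (Sum.inr 0) = (Sum.inr 0, Sum.inr 1) from rfl,
    show graphPair (Sum.inr 1) = (Sum.inr 0, Sum.inl 1) from rfl]
  simp only [minorTwo] at h1 ⊢
  grobner

theorem graphMat_one : graphMat (1 : Matrix (Fin 2 ⊕ Fin 2) (Fin 2 ⊕ Fin 2) R) = 1 := by
  ext p q
  rcases p with i | i <;> rcases q with j | j <;> fin_cases i <;> fin_cases j <;>
    simp [graphMat, graphPair, minorTwo, Matrix.one_apply]

theorem graphMat_J : graphMat (Matrix.J (Fin 2) R) = Matrix.J (Fin 2) R := by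
  ext p q
  rcases p with i | i <;> rcases q with j | j <;> fin_cases i <;> fin_cases j <;>
    simp [graphMat, graphPair, minorTwo, Matrix.J, Matrix.one_apply, CharTwo.neg_eq]

theorem graphMat_mem {A : Matrix (Fin 2 ⊕ Fin 2) (Fin 2 ⊕ Fin 2) R}
    (hA : A ∈ Matrix.symplecticGroup (Fin 2) R) :
    graphMat A ∈ Matrix.symplecticGroup (Fin 2) R := by
  have hAJ := (Matrix.symplecticGroup (Fin 2) R).mul_mem hA (SymplecticGroup.J_mem (Fin 2) R)
  have h := congrArg graphMat (SymplecticGroup.mem_iff.1 hA)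
  rw [graphMat_mul hAJ (SymplecticGroup.transpose_mem hA), graphMat_mul hA (SymplecticGroup.J_mem (Fin 2) R),
    graphMat_transpose, graphMat_J] at h
  exact SymplecticGroup.mem_iff.2 h

end Ring

section Field

variable {F : Type*} [Field F] [CharP F 2]

/-- The exceptional endomorphism of `Sp₄`. -/
def graphSp : Matrix.symplecticGroup (Fin 2) F →* Matrix.symplecticGroup (Fin 2) F where
  toFun A := ⟨graphMat A.1, graphMat_mem A.2⟩
  map_one' := Subtype.ext graphMat_one
  map_mul' A B := Subtype.ext (graphMat_mul A.2 B.2)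

theorem T_val_apply (v : Fin 2 ⊕ Fin 2 → F) (c : F) (i j : Fin 2 ⊕ Fin 2) :
    (T v c).1 i j = (1 : Matrix (Fin 2 ⊕ Fin 2) (Fin 2 ⊕ Fin 2) F) i j +
      c * v i * v (Sum.swap j) := by
  have h := congrFun (T_mulVec v c (Pi.single j 1)) i
  rw [Matrix.mulVec_single_one, Matrix.col_apply, Pi.add_apply, Pi.smul_apply, smul_eq_mul,
    sympForm_eq, Fin.sum_univ_two] at h
  rw [h, Matrix.one_apply]
  rcases j with j | j <;> fin_cases j <;> simp [Pi.single_apply, CharTwo.neg_eq] <;> ring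

set_option maxHeartbeats 1600000 in
/-- On a transvection the square of the exceptional endomorphism is Frobenius. -/
theorem graphMat_graphMat_T (v : Fin 2 ⊕ Fin 2 → F) (c : F) :
    graphMat (graphMat (T v c).1) = (T v c).1.map (fun x => x ^ 2) := by
  have h2 : (2 : F) = 0 := CharTwo.two_eq_zero
  ext p q
  rcases p with i | i <;> rcases q with j | j <;> fin_cases i <;> fin_cases j <;>
    · simp [graphMat, graphPair, minorTwo, T_val_apply, Matrix.one_apply]
      grobner

theorem graphMat_graphMat (A : Matrix.symplecticGroup (Fin 2) F) :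
    graphMat (graphMat A.1) = A.1.map (fun x => x ^ 2) := by
  let φ : Matrix.symplecticGroup (Fin 2) F →* Matrix (Fin 2 ⊕ Fin 2) (Fin 2 ⊕ Fin 2) F :=
    (Submonoid.subtype _).comp (graphSp.comp graphSp)
  let ψ : Matrix.symplecticGroup (Fin 2) F →* Matrix (Fin 2 ⊕ Fin 2) (Fin 2 ⊕ Fin 2) F :=
    (((frobenius F 2).mapMatrix) : Matrix (Fin 2 ⊕ Fin 2) (Fin 2 ⊕ Fin 2) F →+*
      Matrix (Fin 2 ⊕ Fin 2) (Fin 2 ⊕ Fin 2) F).toMonoidHom.comp (Submonoid.subtype _)
  have h : φ = ψ := by
    refine MonoidHom.eq_of_eqOn_dense (s := {A : Matrix.symplecticGroup (Fin 2) F |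
      ∃ (w : Fin 2 ⊕ Fin 2 → F) (c : F), (A : Matrix (Fin 2 ⊕ Fin 2) (Fin 2 ⊕ Fin 2) F) =
        Cfsg.sympTransvection 2 w c}) symplectic_transvection_closure ?_
    rintro A ⟨w, c, hA⟩
    rw [show A = T w c from Subtype.ext hA]
    exact graphMat_graphMat_T w c
  exact DFunLike.congr_fun h A

theorem graphSp_injective : Function.Injective (graphSp (F := F)) := by
  intro A B h
  have h1 := congrArg (fun X => graphMat (Subtype.val X)) h
  simp only [graphSp, MonoidHom.coe_mk, OneHom.coe_mk, graphMat_graphMat] at h1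
  exact Subtype.ext (Matrix.map_injective (frobenius_inj F 2) h1)

end Field

end Cfsg.Agent.Forms
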