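import Cfsg.Agent.Forms.SylowTwoOrth

/-!
# Sylow two-subgroups of `Ω` in odd characteristic
-/

set_option autoImplicit false

namespace Cfsg.Agent.Forms

open Module

/-- The property passes along an isomorphism of the ambient groups. -/
theorem sylow_sqComm_transfer {G H : Type*} [Group G] [Group H] [Finite G] (e : G ≃* H)
    (h : ∀ Q : Sylow 2 H, SqComm ↥(Q : Subgroup H)) (P : Sylow 2 G) :
    SqComm ↥(P : Subgroup G) := by
  haveI := Fact.mk Nat.prime_two
  have h1 := h (P.mapSurjective (f := e.toMonoidHom) e.surjective)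
  exact sqComm_congr (e.subgroupMap (P : Subgroup G)).symm h1

variable {F : Type*} [Field F] [Fintype F] {q : ℕ}

/-- Any form of the dimension, discriminant and two-part of the order of a model. -/
theorem omega_sqComm_of_model (hF : Fintype.card F = q) (hq : Odd q) {ι : Type} [Fintype ι]
    [DecidableEq ι] (Q : QuadraticForm F (ι → F))
    (hQ : (QuadraticMap.polarBilin Q).Nondegenerate) {l k : ℕ} (hl : 2 ≤ l) (w : Fin k → F)
    (hw : ∀ j, w j ≠ 0) (hn : Fintype.card ι = 2 * l + k)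
    (hd : IsSquare ((LinearMap.BilinForm.toMatrix (Pi.basisFun F ι)
      (QuadraticMap.polarBilin Q)).det * ∏ p, 2 * blockWt l w p))
    (hc : padicValNat 2 (Nat.card (Cfsg.isometryGroup F ⇑Q)) =
      l * padicValNat 2 (q ^ 2 - 1) + k + padicValNat 2 l.factorial)
    (P : Sylow 2 (Cfsg.Omega F ⇑Q)) : SqComm ↥(P : Subgroup (Cfsg.Omega F ⇑Q)) := by
  have h2 := two_ne_zero_of_odd hF hq
  have hnd : (QuadraticMap.polarBilin (blockForm l w)).Nondegenerate :=
    diagForm_nondegenerate h2 _ (by rintro (p | j) <;> simp [hw])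
  obtain ⟨n, hn'⟩ : ∃ n, 2 * l + k = n + 1 := ⟨2 * l + k - 1, by omega⟩
  obtain ⟨e⟩ := nonempty_orth_equiv h2 Q hQ (blockForm l w) hnd (Pi.basisFun F ι)
    (Pi.basisFun F _) (n := n) (by simp [hn, hn']) (by simp; omega) (by rwa [gram_diagForm])
  have hmap : (commutator (orthGroup Q)).map e.toMonoidHom =
      commutator (orthGroup (blockForm l w)) := by
    rw [commutator_def, commutator_def, Subgroup.map_commutator,
      Subgroup.map_top_of_surjective _ e.surjective]
  have e₂ : Cfsg.Omega F ⇑Q ≃* ↥(commutator (orthGroup (blockForm l w))) :=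
    (omegaEquiv Q).trans ((e.subgroupMap _).trans (MulEquiv.subgroupCongr hmap))
  refine sylow_sqComm_transfer e₂ (block_sqComm hF hq hl w hw ?_) P
  rw [← Nat.card_congr ((isometryEquiv Q).trans e).toEquiv]
  exact hc

theorem val_two_mul_qpow (hq : Odd q) (e : ℕ) {x : ℕ} (hx : x ≠ 0) :
    padicValNat 2 (2 * q ^ e * x) = 1 + padicValNat 2 x := by
  haveI := Fact.mk Nat.prime_two
  have hq0 : q ≠ 0 := by rintro rfl; exact (Nat.not_odd_zero hq).elim
  rw [padicValNat.mul (by positivity) hx, padicValNat.mul two_ne_zero (pow_ne_zero _ hq0),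
    padicValNat.self one_lt_two, padicValNat.pow, padicValNat.eq_zero_of_not_dvd (by
      rw [Nat.odd_iff] at hq; omega), mul_zero, add_zero]

theorem pow_mod_four_of (hq : Odd q) {m : ℕ} :
    q ^ m % 4 = 1 ∧ Even (m * (q - 1) / 2) ∨ q ^ m % 4 = 3 ∧ ¬ Even (m * (q - 1) / 2) := by
  rw [Nat.pow_mod, Nat.even_iff]
  have h4 : q % 4 = 1 ∨ q % 4 = 3 := by rw [Nat.odd_iff] at hq; omega
  rw [show q - 1 = 2 * ((q - 1) / 2) by rw [Nat.odd_iff] at hq; omega, ← mul_assoc,
    mul_comm m 2, mul_assoc, Nat.mul_div_cancel_left _ two_pos, Nat.mul_mod]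
  rcases h4 with h | h
  · left
    rw [h, one_pow, show (q - 1) / 2 % 2 = 0 by omega]; simp
  · rw [h, show (q - 1) / 2 % 2 = 1 by omega]
    obtain ⟨j, rfl | rfl⟩ := Nat.even_or_odd' m
    · left
      rw [pow_mul]; simp [Nat.pow_mod]
    · right
      rw [pow_succ, pow_mul]; simp [Nat.mul_mod, Nat.pow_mod]

theorem omegaOdd_sqComm (hF : Fintype.card F = q) (hq : Odd q) (m : ℕ) (hm : 2 ≤ m)
    (P : Sylow 2 (Cfsg.Omega F (Cfsg.quadFormOdd m F))) :
    SqComm ↥(P : Subgroup (Cfsg.Omega F (Cfsg.quadFormOdd m F))) := by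
  haveI := Fact.mk Nat.prime_two
  have h2 := two_ne_zero_of_odd hF hq
  have hq1 : 1 < q := hF ▸ Fintype.one_lt_card
  have hQ := qOdd_nondegenerate (m := m) h2
  set d := (LinearMap.BilinForm.toMatrix (Pi.basisFun F _)
    (QuadraticMap.polarBilin (qOdd m F))).det with hd
  have hd0 : d ≠ 0 := (LinearMap.BilinForm.nondegenerate_iff_det_ne_zero _).1 hQ
  revert P
  rw [← coe_qOdd]
  intro P
  refine omega_sqComm_of_model hF hq (qOdd m F) hQ hm (fun _ : Fin 1 => 2 * d)
    (fun _ => mul_ne_zero h2 hd0) (by simp; omega) ?_ ?_ P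
  · rw [← hd]
    refine ⟨d * 2 ^ (m + 1), ?_⟩
    simp [Fintype.prod_sum_type]
    ring
  · have hne : ∏ i ∈ Finset.range m, (q ^ (2 * (i + 1)) - 1) ≠ 0 :=
      Finset.prod_ne_zero_iff.2 fun i _ => by
        have := Nat.one_lt_pow (show 2 * (i + 1) ≠ 0 by omega) hq1
        omega
    rw [coe_qOdd, card_isometryGroup_odd m hF h2, val_two_mul_qpow hq _ hne,
      val_prod_sq_pow_sub_one hq hq1]
    ring

theorem omegaPlus_sqComm (hF : Fintype.card F = q) (hq : Odd q) (m : ℕ) (hm : 1 ≤ m)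
    (hm' : Even m ∨ 4 ≤ m) (P : Sylow 2 (Cfsg.Omega F (Cfsg.quadFormPlus m F))) :
    SqComm ↥(P : Subgroup (Cfsg.Omega F (Cfsg.quadFormPlus m F))) := by
  haveI := Fact.mk Nat.prime_two
  have h2 := two_ne_zero_of_odd hF hq
  have hq1 : 1 < q := hF ▸ Fintype.one_lt_card
  set d := (LinearMap.BilinForm.toMatrix (Pi.basisFun F _)
    (QuadraticMap.polarBilin (qPlus m F))).det with hd
  have hds : IsSquare d ↔ Even (m * (q - 1) / 2) := by
    rw [hd, toMatrix_polarBilin, coe_qPlus]
    exact isSquare_gram_plus hF hq _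
  have hd0 : d ≠ 0 :=
    (LinearMap.BilinForm.nondegenerate_iff_det_ne_zero _).1 qPlus_nondegenerate
  have hne : ∀ n, ∏ i ∈ Finset.range n, (q ^ (2 * (i + 1)) - 1) ≠ 0 := fun n =>
    Finset.prod_ne_zero_iff.2 fun i _ => by
      have := Nat.one_lt_pow (show 2 * (i + 1) ≠ 0 by omega) hq1
      omega
  have hqm : 1 < q ^ m := Nat.one_lt_pow (by omega) hq1
  revert P
  rw [← coe_qPlus]
  intro P
  obtain ⟨k, rfl⟩ : ∃ k, m = k + 1 := ⟨m - 1, by omega⟩
  have hfac : padicValNat 2 (k + 1).factorial =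
      padicValNat 2 (k + 1) + padicValNat 2 k.factorial := by
    rw [Nat.factorial_succ, padicValNat.mul (Nat.succ_ne_zero k) (Nat.factorial_ne_zero k)]
  rcases pow_mod_four_of hq (m := k + 1) with ⟨h4, hev⟩ | ⟨h4, hev⟩
  · have hk : 2 ≤ k + 1 := by
      rcases hm' with ⟨a, ha⟩ | h <;> omega
    refine omega_sqComm_of_model hF hq (qPlus (k + 1) F) qPlus_nondegenerate hk
      (Fin.elim0 : Fin 0 → F) (fun j => j.elim0) (by simp; omega) ?_ ?_ P
    · rw [← hd]
      refine IsSquare.mul (hds.2 hev) ⟨2 ^ (k + 1), ?_⟩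
      simp [Fintype.prod_sum_type]
      ring
    · rw [coe_qPlus, card_isometryGroup_plus (k + 1) hF hm, Nat.add_sub_cancel, mul_assoc,
        val_two_mul_qpow hq _ (mul_ne_zero (by omega) (hne k)), padicValNat.mul (by omega) (hne k),
        val_prod_sq_pow_sub_one hq hq1, hfac]
      have := ((val_pow_pm_one hq hq1 (m := k + 1) (by omega)).1 h4).1
      rw [add_mul, one_mul]
      omega
  · have hk : 2 ≤ k := by
      rcases hm' with ⟨a, ha⟩ | h
      · refine absurd ?_ hev
        rw [Nat.odd_iff] at hq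
        refine ⟨a * ((q - 1) / 2), ?_⟩
        rw [ha, Nat.mul_div_assoc _ (by omega)]
        ring
      · omega
    refine omega_sqComm_of_model hF hq (qPlus (k + 1) F) qPlus_nondegenerate hk
      ![1, d] (fun j => by fin_cases j <;> simp [hd0]) (by simp; omega) ?_ ?_ P
    · rw [← hd]
      refine ⟨d * 2 ^ (k + 1), ?_⟩
      simp [Fintype.prod_sum_type, Fin.prod_univ_two]
      ring
    · rw [coe_qPlus, card_isometryGroup_plus (k + 1) hF hm, Nat.add_sub_cancel, mul_assoc,
        val_two_mul_qpow hq _ (mul_ne_zero (by omega) (hne k)), padicValNat.mul (by omega) (hne k),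
        val_prod_sq_pow_sub_one hq hq1,
        ((val_pow_pm_one hq hq1 (m := k + 1) (by omega)).2 h4).2]
      omega

theorem omegaMinus_sqComm (hF : Fintype.card F = q) (hq : Odd q) (n : ℕ) (hn : 2 ≤ n) (a b : F)
    (hab : ∀ z₁ z₂ : F, z₁ ^ 2 + a * z₁ * z₂ + b * z₂ ^ 2 = 0 → z₁ = 0 ∧ z₂ = 0)
    (P : Sylow 2 (Cfsg.Omega F (Cfsg.quadFormMinus n F a b))) :
    SqComm ↥(P : Subgroup (Cfsg.Omega F (Cfsg.quadFormMinus n F a b))) := by
  haveI := Fact.mk Nat.prime_two
  have h2 := two_ne_zero_of_odd hF hq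
  have hq1 : 1 < q := hF ▸ Fintype.one_lt_card
  have hQ := qMinus_nondegenerate (m := n) a b (disc_ne_zero hab)
  set d := (LinearMap.BilinForm.toMatrix (Pi.basisFun F _)
    (QuadraticMap.polarBilin (qMinus n F a b))).det with hd
  have hds : IsSquare d ↔ ¬ Even ((n + 1) * (q - 1) / 2) := by
    rw [hd, toMatrix_polarBilin, coe_qMinus]
    exact isSquare_gram_minus hF hq a b hab _
  have hd0 : d ≠ 0 := (LinearMap.BilinForm.nondegenerate_iff_det_ne_zero _).1 hQ
  have hne : ∀ n, ∏ i ∈ Finset.range n, (q ^ (2 * (i + 1)) - 1) ≠ 0 := fun n =>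
    Finset.prod_ne_zero_iff.2 fun i _ => by
      have := Nat.one_lt_pow (show 2 * (i + 1) ≠ 0 by omega) hq1
      omega
  have hfac : padicValNat 2 (n + 1).factorial =
      padicValNat 2 (n + 1) + padicValNat 2 n.factorial := by
    rw [Nat.factorial_succ, padicValNat.mul (Nat.succ_ne_zero n) (Nat.factorial_ne_zero n)]
  revert P
  rw [← coe_qMinus]
  intro P
  rcases pow_mod_four_of hq (m := n + 1) with ⟨h4, hev⟩ | ⟨h4, hev⟩
  · refine omega_sqComm_of_model hF hq (qMinus n F a b) hQ hn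
      ![1, d] (fun j => by fin_cases j <;> simp [hd0]) (by simp; omega) ?_ ?_ P
    · rw [← hd]
      refine ⟨d * 2 ^ (n + 1), ?_⟩
      simp [Fintype.prod_sum_type, Fin.prod_univ_two]
      ring
    · rw [coe_qMinus, card_isometryGroup_minus n hF a b hab, mul_assoc,
        val_two_mul_qpow hq _ (mul_ne_zero (by omega) (hne n)), padicValNat.mul (by omega) (hne n),
        val_prod_sq_pow_sub_one hq hq1,
        ((val_pow_pm_one hq hq1 (m := n + 1) (by omega)).1 h4).2]
      omega
  · refine omega_sqComm_of_model hF hq (qMinus n F a b) hQ (by omega : 2 ≤ n + 1)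
      (Fin.elim0 : Fin 0 → F) (fun j => j.elim0) (by simp; omega) ?_ ?_ P
    · rw [← hd]
      refine IsSquare.mul (hds.2 hev) ⟨2 ^ (n + 1), ?_⟩
      simp [Fintype.prod_sum_type]
      ring
    · rw [coe_qMinus, card_isometryGroup_minus n hF a b hab, mul_assoc,
        val_two_mul_qpow hq _ (mul_ne_zero (by omega) (hne n)), padicValNat.mul (by omega) (hne n),
        val_prod_sq_pow_sub_one hq hq1, hfac]
      have := ((val_pow_pm_one hq hq1 (m := n + 1) (by omega)).2 h4).1
      rw [add_mul, one_mul]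
      omega

end Cfsg.Agent.Forms
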