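import Cfsg.Agent.Forms.SylowTwoTools
import Cfsg.Agent.Forms.SylowTwoOmega
import Cfsg.Agent.Forms.SylowTwoSymp
import Cfsg.Agent.Linear.SylowSL2
import Mathlib.LinearAlgebra.Matrix.GeneralLinearGroup.Card
import Mathlib.LinearAlgebra.Matrix.Permutation
import Mathlib.GroupTheory.Torsion
import Mathlib.GroupTheory.Perm.Cycle.Concrete
import Mathlib.GroupTheory.Perm.Fin

/-!
# Sylow two-subgroups of the special linear groups in odd characteristic

A Sylow two-subgroup of `GL_(2m+k)` is a wreath product of one of `GL_2` times a power of the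
two-part of the scalars; its part of determinant one is generated by elements whose squares are
commutators.
-/

set_option autoImplicit false
set_option linter.style.haveILetI false
set_option linter.unusedSectionVars false

namespace Cfsg.Agent.Forms.LinTwo

open Matrix Equiv
open scoped commutatorElement

variable {F : Type*} [Field F] [Fintype F] [DecidableEq F]

/-- The index of a block model. -/
abbrev Idx (m k : ℕ) : Type := (Fin 2 × Fin m) ⊕ Fin k

variable {m k : ℕ}

/-- The permutation of the coordinates moving the blocks by `t`. -/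
def blockPerm (t : Perm (Fin m)) : Perm (Fin 2 × Fin m) := prodCongrRight fun _ => t

/-- Blocks turned and then permuted. -/
def blockMat (b : Fin m → Matrix (Fin 2) (Fin 2) F) (t : Perm (Fin m)) :
    Matrix (Fin 2 × Fin m) (Fin 2 × Fin m) F :=
  Matrix.of fun p r => if t r.2 = p.2 then b p.2 p.1 r.1 else 0

theorem blockMat_mul (b b' : Fin m → Matrix (Fin 2) (Fin 2) F) (t t' : Perm (Fin m)) :
    blockMat b t * blockMat b' t' = blockMat (fun i => b i * b' (t.symm i)) (t * t') := by
  ext ⟨a, i⟩ ⟨c, l⟩
  simp only [blockMat, Matrix.mul_apply, Matrix.of_apply, Fintype.sum_prod_type]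
  rw [Finset.sum_congr rfl fun x _ => Finset.sum_eq_single (t.symm i) (fun j _ hj => by
    rw [if_neg fun h => hj (by rw [← h, symm_apply_apply]), zero_mul]) (by simp)]
  simp only [apply_symm_apply, if_true, Perm.mul_apply]
  by_cases h : t (t' l) = i
  · have h' : t' l = t.symm i := by rw [← h, symm_apply_apply]
    simp [h, h']
  · have h' : t' l ≠ t.symm i := fun e => h (by rw [e, apply_symm_apply])
    simp [h, h']

theorem blockMat_one : blockMat (1 : Fin m → Matrix (Fin 2) (Fin 2) F) 1 = 1 := by
  ext ⟨a, i⟩ ⟨c, l⟩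
  simp only [blockMat, Matrix.of_apply, Perm.one_apply, Pi.one_apply, Matrix.one_apply,
    Prod.mk.injEq]
  by_cases h : a = c <;> by_cases h' : i = l <;> simp [h, h', eq_comm]

theorem det_blockMat_one (b : Fin m → Matrix (Fin 2) (Fin 2) F) :
    (blockMat b 1).det = ∏ i, (b i).det := by
  rw [← Matrix.det_blockDiagonal]
  congr 1
  ext ⟨a, i⟩ ⟨c, l⟩
  simp only [blockMat, Matrix.of_apply, Perm.one_apply, Matrix.blockDiagonal_apply]
  exact if_congr eq_comm rfl rfl

theorem det_blockMat_perm (t : Perm (Fin m)) :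
    (blockMat (1 : Fin m → Matrix (Fin 2) (Fin 2) F) t).det = 1 := by
  have h : blockMat (1 : Fin m → Matrix (Fin 2) (Fin 2) F) t = (blockPerm t⁻¹).permMatrix F := by
    ext ⟨a, i⟩ ⟨c, l⟩
    simp only [blockMat, Matrix.of_apply, Pi.one_apply, Matrix.one_apply, Equiv.Perm.permMatrix,
      PEquiv.toMatrix_apply, Equiv.toPEquiv_apply, blockPerm, prodCongrRight_apply,
      Option.mem_def, Option.some.injEq, Prod.mk.injEq]
    by_cases h : a = c
    · simp only [h, if_true, true_and]
      exact if_congr ⟨fun h => by rw [← h]; simp, fun h => by rw [← h]; simp⟩ rfl rfl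
    · simp [h]
  rw [h, Matrix.det_permutation, blockPerm, Perm.sign_prodCongrRight, Fin.prod_univ_two,
    Int.units_mul_self]
  simp

theorem det_blockMat (b : Fin m → Matrix (Fin 2) (Fin 2) F) (t : Perm (Fin m)) :
    (blockMat b t).det = ∏ i, (b i).det := by
  have h : blockMat b t = blockMat b 1 * blockMat 1 t := by
    rw [blockMat_mul]
    simp
  rw [h, Matrix.det_mul, det_blockMat_one, det_blockMat_perm, mul_one]

variable (F) in
/-- The two-part of the multiplicative group. -/
def twoPart : Subgroup Fˣ := CommGroup.primaryComponent Fˣ 2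

theorem isPGroup_twoPart : IsPGroup 2 (twoPart F) := fun x => by
  obtain ⟨j, hj⟩ := x.2
  exact ⟨j, Subtype.ext hj⟩

theorem mem_twoPart_of_isPGroup {G : Type*} [Group G] {P : Subgroup G} (hP : IsPGroup 2 P)
    (f : G →* Fˣ) {x : G} (hx : x ∈ P) : f x ∈ twoPart F := by
  obtain ⟨j, hj⟩ := hP ⟨x, hx⟩
  refine ⟨j, ?_⟩
  have h1 : x ^ 2 ^ j = 1 := congrArg Subtype.val hj
  rw [← map_pow, h1, map_one]

theorem card_twoPart : Nat.card (twoPart F) = 2 ^ padicValNat 2 (Fintype.card F - 1) := by
  haveI := Fact.mk Nat.prime_two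
  obtain ⟨S, hS⟩ := (isPGroup_twoPart (F := F)).exists_le_sylow
  have h : twoPart F = (S : Subgroup Fˣ) :=
    le_antisymm hS fun x hx => mem_twoPart_of_isPGroup S.isPGroup' (MonoidHom.id Fˣ) hx
  rw [h, S.card_eq_multiplicity, Nat.factorization_def _ Nat.prime_two, Nat.card_units,
    Nat.card_eq_fintype_card]

/-- The diagonal section of the determinant. -/
def diagHom : twoPart F →* GL (Fin 2) F :=
  MonoidHom.toHomUnits
    { toFun := fun c => Matrix.diagonal ![((c : Fˣ) : F), 1]
      map_one' := by
        rw [← Matrix.diagonal_one]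
        congr 1
        funext i
        fin_cases i <;> simp
      map_mul' := fun a b => by
        rw [Matrix.diagonal_mul_diagonal]
        congr 1
        funext i
        fin_cases i <;> simp }

theorem det_diagHom (c : twoPart F) : Matrix.GeneralLinearGroup.det (diagHom c) = (c : Fˣ) := by
  refine Units.ext ?_
  rw [Matrix.GeneralLinearGroup.val_det_apply]
  simp [diagHom, Matrix.det_diagonal]

variable (D : Sylow 2 (GL (Fin 2) F)) (T : Subgroup (Perm (Fin m)))

/-- The model of a Sylow two-subgroup. -/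
abbrev Model (k : ℕ) : Type _ :=
  ((Fin m → ↥(D : Subgroup (GL (Fin 2) F))) ⋊[powAct ↥(D : Subgroup (GL (Fin 2) F)) T] T) ×
    (Fin k → twoPart F)

/-- The model inside the matrices. -/
noncomputable def modelMat (k : ℕ) : Model D T k →* Matrix (Idx m k) (Idx m k) F where
  toFun x := Matrix.fromBlocks
    (blockMat (fun i => ((x.1.left i : GL (Fin 2) F) : Matrix (Fin 2) (Fin 2) F))
      (x.1.right : Perm (Fin m))) 0 0 (Matrix.diagonal fun i => ((x.2 i : Fˣ) : F))
  map_one' := by
    rw [← Matrix.fromBlocks_one]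
    congr 1
    exact blockMat_one
  map_mul' x y := by
    rw [Matrix.fromBlocks_multiply]
    simp only [Matrix.mul_zero, Matrix.zero_mul, add_zero, zero_add, Matrix.diagonal_mul_diagonal,
      blockMat_mul]
    rfl

theorem modelMat_injective (k : ℕ) : Function.Injective (modelMat D T k) := by
  rw [injective_iff_map_eq_one]
  intro x hx
  rw [← Matrix.fromBlocks_one] at hx
  obtain ⟨h1, -, -, h2⟩ := Matrix.fromBlocks_inj.1 hx
  have hr : x.1.right = 1 := by
    refine Subtype.ext (Equiv.ext fun i => ?_)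
    by_contra hne
    have hdet : ((x.1.left ((x.1.right : Perm (Fin m)) i) : GL (Fin 2) F) :
        Matrix (Fin 2) (Fin 2) F) = 0 := by
      ext a c
      have := congrFun (congrFun h1 (a, (x.1.right : Perm (Fin m)) i)) (c, i)
      rw [Matrix.one_apply_ne fun e => hne (congrArg Prod.snd e)] at this
      simpa [blockMat] using this
    exact Units.ne_zero _ hdet
  refine Prod.ext (SemidirectProduct.ext (funext fun i => Subtype.ext (Units.ext ?_)) hr)
    (funext fun i => Subtype.ext (Units.ext ?_))
  · ext a c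
    have := congrFun (congrFun h1 (a, i)) (c, i)
    simpa [blockMat, hr, Matrix.one_apply] using this
  · have := congrFun (congrFun h2 i) i
    simpa using this

/-- The model inside the general linear group. -/
noncomputable def modelGL (k : ℕ) : Model D T k →* GL (Idx m k) F := (modelMat D T k).toHomUnits

theorem modelGL_injective (k : ℕ) : Function.Injective (modelGL D T k) := fun x y h =>
  modelMat_injective D T k (congrArg Units.val h)

theorem det_modelGL (x : Model D T k) : Matrix.GeneralLinearGroup.det (modelGL D T k x) =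
    (∏ i, Matrix.GeneralLinearGroup.det (x.1.left i : GL (Fin 2) F)) * ∏ i, (x.2 i : Fˣ) := by
  refine Units.ext ?_
  rw [Matrix.GeneralLinearGroup.val_det_apply]
  show (modelMat D T k x).det = _
  simp only [modelMat, MonoidHom.coe_mk, OneHom.coe_mk, Matrix.det_fromBlocks_zero₂₁,
    det_blockMat, Matrix.det_diagonal, Units.val_mul, Units.coe_prod,
    Matrix.GeneralLinearGroup.val_det_apply]

theorem prod_pair {A : Type*} [CommGroup A] {ι : Type*} [Fintype ι] [DecidableEq ι] (i j : ι)
    (c : A) : ∏ l, (Pi.mulSingle i c * Pi.mulSingle j c⁻¹ : ι → A) l = 1 := by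
  simp only [Pi.mul_apply, Finset.prod_mul_distrib, Finset.prod_pi_mulSingle', Finset.mem_univ,
    if_true, mul_inv_cancel]

/-- The part of determinant one of the model has squares among its commutators. -/
theorem sqComm_detKer (hdiag : ∀ c : twoPart F, diagHom c ∈ (D : Subgroup (GL (Fin 2) F)))
    (hQ : SqComm ↥(Matrix.GeneralLinearGroup.det.comp
      (D : Subgroup (GL (Fin 2) F)).subtype).ker)
    (hT : T = Subgroup.closure {t | t ∈ T ∧ t * t = 1})
    (hcase : (∀ c : twoPart F, c * c = 1) ∨ (k = 0 ∧ ∀ i j : Fin m, ∃ t ∈ T, t i = j)) :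
    SqComm ↥(Matrix.GeneralLinearGroup.det.comp (modelGL D T k)).ker := by
  classical
  set χ := Matrix.GeneralLinearGroup.det.comp (modelGL D T k) with hχdef
  set δ := Matrix.GeneralLinearGroup.det.comp (D : Subgroup (GL (Fin 2) F)).subtype with hδdef
  have hχ : ∀ x : Model D T k, χ x = (∏ i, δ (x.1.left i)) * ∏ i, (x.2 i : Fˣ) := fun x =>
    det_modelGL D T x
  -- the three kinds of generators
  let sD : twoPart F →* ↥(D : Subgroup (GL (Fin 2) F)) := diagHom.codRestrict _ hdiag
  have hsD : ∀ c, δ (sD c) = (c : Fˣ) := det_diagHom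
  let embB : (Fin m → ↥(D : Subgroup (GL (Fin 2) F))) →* Model D T k :=
    (MonoidHom.inl _ _).comp SemidirectProduct.inl
  let embT : T →* Model D T k := (MonoidHom.inl _ _).comp SemidirectProduct.inr
  let η : (Fin m ⊕ Fin k → twoPart F) →* Model D T k :=
    { toFun := fun v => (SemidirectProduct.inl fun i => sD (v (Sum.inl i)), fun j => v (Sum.inr j))
      map_one' := by
        refine Prod.ext ?_ rfl
        simp [show (fun _ : Fin m => (1 : ↥(D : Subgroup (GL (Fin 2) F)))) = 1 from rfl]
      map_mul' := fun v w => by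
        refine Prod.ext ?_ rfl
        simp only [Prod.fst_mul, ← map_mul]
        congr 1
        funext i
        simp }
  have hχQ : ∀ (i : Fin m) (q : δ.ker), χ (embB (Pi.mulSingle i (q : ↥(D : Subgroup (GL (Fin 2) F))))) = 1 := by
    intro i q
    rw [hχ]
    simp only [embB, MonoidHom.comp_apply, MonoidHom.inl_apply, SemidirectProduct.left_inl,
      Pi.one_apply, OneMemClass.coe_one, Finset.prod_const_one, mul_one]
    refine Finset.prod_eq_one fun l _ => ?_
    by_cases h : l = i
    · subst h
      rw [Pi.mulSingle_eq_same]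
      exact q.2
    · rw [Pi.mulSingle_eq_of_ne h, map_one]
  have hχT : ∀ t : T, χ (embT t) = 1 := fun t => by
    rw [hχ]
    simp [embT]
  have hχη : ∀ v, χ (η v) = ∏ l, (v l : Fˣ) := fun v => by
    rw [hχ, Fintype.prod_sum_type]
    simp [η, hsD]
  let qHom : Fin m → δ.ker →* χ.ker := fun i =>
    ((embB.comp (MonoidHom.mulSingle (fun _ : Fin m => ↥(D : Subgroup (GL (Fin 2) F))) i)).comp
      δ.ker.subtype).codRestrict χ.ker (hχQ i)
  let tHom : T →* χ.ker := embT.codRestrict χ.ker hχT
  let pair : Fin m ⊕ Fin k → Fin m ⊕ Fin k → twoPart F → χ.ker := fun i j c =>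
    ⟨η (Pi.mulSingle i c * Pi.mulSingle j c⁻¹), by
      rw [MonoidHom.mem_ker, hχη]
      have := congrArg (twoPart F).subtype (prod_pair i j c)
      rwa [map_prod, map_one] at this⟩
  let good : Fin m ⊕ Fin k → Fin m ⊕ Fin k → Prop := fun i j =>
    (∀ c : twoPart F, c * c = 1) ∨ ∃ (t : T) (a b : Fin m),
      t * t = 1 ∧ (t : Perm (Fin m)) a = b ∧ i = Sum.inl a ∧ j = Sum.inl b
  set S : Set χ.ker := {x | (∃ i q, x = qHom i q) ∨ (∃ t : T, t * t = 1 ∧ x = tHom t) ∨
    ∃ i j c, good i j ∧ x = pair i j c} with hS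
  refine sqComm_of_gen (S := S) ?_ ?_
  · rw [eq_top_iff]
    rintro ⟨x, hx⟩ -
    set H := (Subgroup.closure S).map χ.ker.subtype with hH
    suffices hxH : x ∈ H by
      obtain ⟨y, hy, rfl⟩ := hxH
      exact hy
    have hQH : ∀ i (q : δ.ker), embB (Pi.mulSingle i (q : ↥(D : Subgroup (GL (Fin 2) F)))) ∈ H :=
      fun i q => ⟨qHom i q, Subgroup.subset_closure (Or.inl ⟨i, q, rfl⟩), rfl⟩
    have hTH : ∀ t : T, embT t ∈ H := by
      have key : ∀ g ∈ Subgroup.closure {t | t ∈ T ∧ t * t = 1}, g ∈ (H.comap embT).map T.subtype := by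
        refine (Subgroup.closure_le _).2 ?_
        rintro g ⟨hg, hg2⟩
        exact ⟨⟨g, hg⟩, ⟨tHom ⟨g, hg⟩, Subgroup.subset_closure
          (Or.inr (Or.inl ⟨⟨g, hg⟩, Subtype.ext hg2, rfl⟩)), rfl⟩, rfl⟩
      intro t
      obtain ⟨t', ht', hte⟩ := key _ (hT ▸ t.2 : (t : Perm (Fin m)) ∈ _)
      rw [Subtype.ext hte] at ht'
      exact ht'
    -- pairs along a connected graph
    let R : Fin m ⊕ Fin k → Fin m ⊕ Fin k → Prop := fun i j =>
      ∀ c, η (Pi.mulSingle i c * Pi.mulSingle j c⁻¹) ∈ H
    have hRgood : ∀ i j, good i j → R i j := fun i j hij c =>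
      ⟨pair i j c, Subgroup.subset_closure (Or.inr (Or.inr ⟨i, j, c, hij, rfl⟩)), rfl⟩
    have hRrefl : ∀ i, R i i := fun i c => by
      rw [← Pi.mulSingle_mul, mul_inv_cancel, Pi.mulSingle_one, map_one]
      exact one_mem _
    have hRtrans : ∀ i j l, R i j → R j l → R i l := fun i j l h1 h2 c => by
      have h3 := mul_mem (h1 c) (h2 c)
      rw [← map_mul] at h3
      convert h3 using 2
      rw [Pi.mulSingle_inv, Pi.mulSingle_inv]
      group
    have hRall : ∀ i j, R i j := by
      rcases hcase with h | ⟨rfl, htr⟩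
      · exact fun i j => hRgood i j (Or.inl h)
      · have key : ∀ g ∈ Subgroup.closure {t | t ∈ T ∧ t * t = 1}, ∀ a : Fin m,
            R (Sum.inl a) (Sum.inl (g a)) ∧ R (Sum.inl (g a)) (Sum.inl a) := by
          intro g hg
          induction hg using Subgroup.closure_induction with
          | mem t ht =>
            intro a
            have ht' : t (t a) = a := by rw [← Perm.mul_apply, ht.2, Perm.one_apply]
            exact ⟨hRgood _ _ (Or.inr ⟨⟨t, ht.1⟩, a, t a, Subtype.ext ht.2, rfl, rfl, rfl⟩),
              hRgood _ _ (Or.inr ⟨⟨t, ht.1⟩, t a, a, Subtype.ext ht.2, ht', rfl, rfl⟩)⟩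
          | one => exact fun a => ⟨hRrefl _, hRrefl _⟩
          | mul u v _ _ hu hv =>
            intro a
            exact ⟨hRtrans _ _ _ (hv a).1 (hu (v a)).1, hRtrans _ _ _ (hu (v a)).2 (hv a).2⟩
          | inv u _ hu =>
            intro a
            have := hu (u⁻¹ a)
            rw [Perm.coe_inv, apply_symm_apply] at this
            exact ⟨this.2, this.1⟩
        rintro (a | a) (b | b)
        · obtain ⟨t, ht, rfl⟩ := htr a b
          exact (key t (hT ▸ ht) a).1
        all_goals first | exact a.elim0 | exact b.elim0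
    -- decompose
    have hmem : ∀ i : Fin m, δ (x.1.left i) ∈ twoPart F := fun i =>
      mem_twoPart_of_isPGroup D.isPGroup' Matrix.GeneralLinearGroup.det (x.1.left i).2
    let v : Fin m ⊕ Fin k → twoPart F := Sum.elim (fun i => ⟨δ (x.1.left i), hmem i⟩) x.2
    let q : Fin m → δ.ker := fun i => ⟨x.1.left i * (sD (v (Sum.inl i)))⁻¹, by
      rw [MonoidHom.mem_ker, map_mul, map_inv, hsD]
      exact mul_inv_cancel _⟩
    have hdecomp : x = embB (fun i => (q i : ↥(D : Subgroup (GL (Fin 2) F)))) * η v * embT x.1.right := by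
      refine Prod.ext ?_ ?_
      · refine SemidirectProduct.ext (funext fun i => ?_) ?_
        · simp [embB, embT, η, q]
        · simp [embB, embT, η]
      · funext j
        simp [embB, embT, η, v]
    rw [hdecomp]
    refine mul_mem (mul_mem ?_ ?_) (hTH _)
    · exact Subgroup.pi_mem_of_mulSingle_mem (H := H.comap embB) _ fun i => hQH i (q i)
    · have hv : ∏ l, v l = 1 := by
        refine (twoPart F).subtype_injective ?_
        rw [map_prod, map_one, ← hx, hχ, Fintype.prod_sum_type]
        rfl
      rcases isEmpty_or_nonempty (Fin m ⊕ Fin k) with h0 | ⟨⟨i₀⟩⟩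
      · rw [show v = 1 from funext fun l => h0.elim l, map_one]
        exact one_mem _
      · have he : v = ∏ l, (Pi.mulSingle l (v l) * Pi.mulSingle i₀ (v l)⁻¹) := by
          rw [Finset.prod_mul_distrib, Finset.univ_prod_mulSingle]
          have e : ∏ l, (Pi.mulSingle i₀ (v l)⁻¹ : Fin m ⊕ Fin k → twoPart F) =
              Pi.mulSingle i₀ (∏ l, (v l)⁻¹) :=
            (map_prod (MonoidHom.mulSingle (fun _ : Fin m ⊕ Fin k => twoPart F) i₀) _ _).symm
          rw [e, Finset.prod_inv_distrib, hv, inv_one, Pi.mulSingle_one, mul_one]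
        show v ∈ H.comap η
        rw [he]
        exact prod_mem fun l _ => Subgroup.mem_comap.2 (hRall l i₀ (v l))
  · rintro s (⟨i, q, rfl⟩ | ⟨t, ht, rfl⟩ | ⟨i, j, c, hij, rfl⟩)
    · rw [← map_pow]
      have h1 : (commutator δ.ker).map (qHom i) ≤ commutator χ.ker := by
        rw [commutator_def, commutator_def, Subgroup.map_commutator]
        exact Subgroup.commutator_mono le_top le_top
      exact h1 (Subgroup.mem_map_of_mem _ (hQ q))
    · rw [← map_pow, pow_two, ht, map_one]
      exact one_mem _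
    · rcases hij with h | ⟨t, a, b, ht, hab, rfl, rfl⟩
      · rw [show pair i j c ^ 2 = 1 from Subtype.ext (by
          show η _ ^ 2 = 1
          rw [← map_pow, show (Pi.mulSingle i c * Pi.mulSingle j c⁻¹ :
            Fin m ⊕ Fin k → twoPart F) ^ 2 = 1 from funext fun l => by
              rw [pow_two]; exact h _, map_one])]
        exact one_mem _
      · set y := pair (Sum.inl a) (Sum.inl b) c with hy
        have hta : (t : Perm (Fin m)).symm = t := by
          have h2 : (t : Perm (Fin m)) * t = 1 := congrArg Subtype.val ht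
          exact inv_eq_of_mul_eq_one_right h2
        have hba : (t : Perm (Fin m)) b = a := by
          rw [← hab]
          show ((t * t : T) : Perm (Fin m)) a = a
          rw [ht]
          rfl
        have hswap : tHom t * y = y⁻¹ * tHom t := by
          rw [eq_inv_mul_iff_mul_eq]
          refine Subtype.ext ?_
          show η _ * (embT t * η _) = embT t
          refine Prod.ext (SemidirectProduct.ext (funext fun l => ?_) ?_) (funext fun l => ?_)
          · have hl : sD ((Pi.mulSingle (Sum.inl a) c * Pi.mulSingle (Sum.inl b) c⁻¹ :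
                Fin m ⊕ Fin k → twoPart F) (Sum.inl l)) * sD ((Pi.mulSingle (Sum.inl a) c *
                Pi.mulSingle (Sum.inl b) c⁻¹ : Fin m ⊕ Fin k → twoPart F)
                (Sum.inl ((t : Perm (Fin m)).symm l))) = 1 := by
              rw [← map_mul, hta]
              refine (congrArg sD ?_).trans (map_one sD)
              by_cases hab' : a = b
              · subst hab'
                rw [← Pi.mulSingle_mul, mul_inv_cancel, Pi.mulSingle_one]
                exact mul_one _
              · simp only [Pi.mul_apply]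
                by_cases hla : l = a
                · subst hla
                  rw [hab]
                  simp [Pi.mulSingle_apply, hab', Ne.symm hab']
                · by_cases hlb : l = b
                  · subst hlb
                    rw [hba]
                    simp [Pi.mulSingle_apply, hab', Ne.symm hab']
                  · have h1 : (t : Perm (Fin m)) l ≠ a := fun e => hlb ((t : Perm (Fin m)).injective (e.trans hba.symm))
                    have h2 : (t : Perm (Fin m)) l ≠ b := fun e => hla ((t : Perm (Fin m)).injective (e.trans hab.symm))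
                    simp [Pi.mulSingle_apply, hla, hlb, h1, h2]
            simpa [η, embT] using hl
          · simp [η, embT]
          · simp [η, embT, Pi.mulSingle_apply]
        have hcomm : ⁅tHom t, y⁆ = (y ^ 2)⁻¹ := by
          rw [commutatorElement_def, hswap, mul_inv_cancel_right, pow_two, _root_.mul_inv_rev]
        rw [← inv_inv (y ^ 2), ← hcomm, commutator_def]
        exact inv_mem (Subgroup.commutator_mem_commutator (Subgroup.mem_top _) (Subgroup.mem_top _))

/-! ### Orders -/

/-- The factor of the order of the general linear group prime to the characteristic. -/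
def oddProd (q n : ℕ) : ℕ := ∏ i ∈ Finset.range n, (q ^ (i + 1) - 1)

theorem oddProd_ne_zero {q : ℕ} (hq1 : 1 < q) (n : ℕ) : oddProd q n ≠ 0 :=
  Finset.prod_ne_zero_iff.2 fun i _ => by
    have := Nat.one_lt_pow (show i + 1 ≠ 0 by omega) hq1
    omega

theorem val_odd_pow_sub_one {q : ℕ} (hq : Odd q) (hq1 : 1 < q) (i : ℕ) :
    padicValNat 2 (q ^ (2 * i + 1) - 1) = padicValNat 2 (q - 1) := by
  have h1 := val_pow_pm_one hq hq1 (m := 2 * i + 1) (by omega)
  have h2 := val_pow_pm_one hq hq1 (m := 1) one_ne_zero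
  rw [pow_one] at h2
  have h3 : padicValNat 2 (2 * i + 1) = 0 := padicValNat.eq_zero_of_not_dvd (by omega)
  have h5 : q ^ (2 * i + 1) % 4 = q % 4 := by
    rw [pow_succ, pow_mul, Nat.mul_mod, Nat.pow_mod]
    have h6 : q ^ 2 % 4 = 1 := by
      rw [Nat.pow_mod]
      rcases Nat.odd_mod_four_iff.1 (Nat.odd_iff.1 hq) with h | h <;> rw [h] <;> rfl
    rw [h6, one_pow]
    simp
  rw [padicValNat.one] at h2
  rcases Nat.odd_mod_four_iff.1 (Nat.odd_iff.1 hq) with h | h
  · have a := h1.1 (h5.trans h)
    have b := h2.1 h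
    omega
  · have a := h1.2 (h5.trans h)
    have b := h2.2 h
    omega

theorem val_oddProd {q : ℕ} (hq : Odd q) (hq1 : 1 < q) (m : ℕ) :
    padicValNat 2 (oddProd q (2 * m)) =
      m * (padicValNat 2 (q - 1) + padicValNat 2 (q ^ 2 - 1)) + padicValNat 2 m.factorial ∧
    padicValNat 2 (oddProd q (2 * m + 1)) =
      m * (padicValNat 2 (q - 1) + padicValNat 2 (q ^ 2 - 1)) + padicValNat 2 m.factorial +
        padicValNat 2 (q - 1) := by
  haveI := Fact.mk Nat.prime_two
  have hne : ∀ i, i ≠ 0 → q ^ i - 1 ≠ 0 := fun i hi => by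
    have := Nat.one_lt_pow hi hq1
    omega
  induction m with
  | zero => simp [oddProd]
  | succ m ih =>
    have e : padicValNat 2 (oddProd q (2 * (m + 1))) =
        (m + 1) * (padicValNat 2 (q - 1) + padicValNat 2 (q ^ 2 - 1)) +
          padicValNat 2 (m + 1).factorial := by
      rw [show 2 * (m + 1) = 2 * m + 1 + 1 by ring, oddProd, Finset.prod_range_succ, ← oddProd,
        padicValNat.mul (oddProd_ne_zero hq1 _) (hne _ (by omega)), ih.2,
        show 2 * m + 1 + 1 = 2 * (m + 1) by ring, val_sq_pow_sub_one hq hq1 (Nat.succ_ne_zero m),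
        Nat.factorial_succ, padicValNat.mul (Nat.succ_ne_zero m) (Nat.factorial_ne_zero m)]
      ring
    refine ⟨e, ?_⟩
    rw [oddProd, Finset.prod_range_succ, ← oddProd,
      padicValNat.mul (oddProd_ne_zero hq1 _) (hne _ (by omega)), e, val_odd_pow_sub_one hq hq1]

theorem factorization_card_GL (hq : Odd (Fintype.card F)) (n : ℕ) :
    (Nat.card (GL (Fin n) F)).factorization 2 = padicValNat 2 (oddProd (Fintype.card F) n) := by
  haveI := Fact.mk Nat.prime_two
  set q := Fintype.card F
  have hq1 : 1 < q := Fintype.one_lt_card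
  have h : ∏ i : Fin n, (q ^ n - q ^ (i : ℕ)) =
      (∏ i ∈ Finset.range n, q ^ i) * oddProd q n := by
    rw [Fin.prod_univ_eq_prod_range (fun i => q ^ n - q ^ i), oddProd,
      ← Finset.prod_range_reflect (fun i => q ^ (i + 1) - 1), ← Finset.prod_mul_distrib]
    refine Finset.prod_congr rfl fun i hi => ?_
    have hin := Finset.mem_range.1 hi
    rw [Nat.mul_sub, ← pow_add, mul_one, show i + (n - 1 - i + 1) = n by omega]
  rw [Matrix.card_GL_field n, h, Nat.factorization_def _ Nat.prime_two,
    padicValNat.mul (Finset.prod_ne_zero_iff.2 fun i _ => pow_ne_zero _ (by omega))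
      (oddProd_ne_zero hq1 n), padicValNat.eq_zero_of_not_dvd, zero_add]
  intro hd
  obtain ⟨i, -, hi⟩ := (Nat.prime_two.prime.dvd_finsetProd_iff _).1 hd
  have := Nat.prime_two.dvd_of_dvd_pow hi
  rw [Nat.odd_iff] at hq
  omega

/-! ### Transitive Sylow subgroups of the symmetric group -/

theorem sylow_perm_transitive (j : ℕ) (T : Sylow 2 (Perm (Fin (2 ^ j)))) :
    ∀ a b : Fin (2 ^ j), ∃ t ∈ (T : Subgroup (Perm (Fin (2 ^ j)))), t a = b := by
  haveI := Fact.mk Nat.prime_two
  obtain ⟨n, hn⟩ : ∃ n, 2 ^ j = n + 1 := ⟨2 ^ j - 1, by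
    have := Nat.one_le_two_pow (n := j)
    omega⟩
  set r := finRotate (2 ^ j) with hr
  have hval : ∀ (p : ℕ) (a : Fin (2 ^ j)), ((r ^ p) a).val = (a.val + p) % 2 ^ j := by
    intro p
    induction p with
    | zero => exact fun a => by simp [Nat.mod_eq_of_lt a.2]
    | succ p ih =>
      intro a
      have h1 : ∀ x : Fin (2 ^ j), (r x).val = (x.val + 1) % 2 ^ j := by
        rw [hr]
        revert hn
        generalize 2 ^ j = N
        rintro rfl x
        rw [finRotate_succ_apply, Fin.val_add, Fin.val_one', Nat.add_mod_mod]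
      rw [pow_succ', Perm.mul_apply, h1, ih, Nat.mod_add_mod, add_assoc]
  have hord : r ^ 2 ^ j = 1 := Equiv.ext fun a => Fin.ext (by
    rw [hval, Nat.add_mod_right, Nat.mod_eq_of_lt a.2]
    rfl)
  have hp : IsPGroup 2 (Subgroup.zpowers r) := by
    rintro ⟨x, hx⟩
    obtain ⟨z, rfl⟩ := hx
    exact ⟨j, Subtype.ext (by
      show (r ^ z) ^ 2 ^ j = 1
      rw [← zpow_natCast, ← _root_.zpow_mul, mul_comm, _root_.zpow_mul, zpow_natCast, hord, _root_.one_zpow])⟩
  obtain ⟨S, hS⟩ := hp.exists_le_sylow
  obtain ⟨g, rfl⟩ := MulAction.exists_smul_eq (Perm (Fin (2 ^ j))) S T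
  intro a b
  set p := (g⁻¹ b).val + (2 ^ j - (g⁻¹ a).val) with hpdef
  refine ⟨g * r ^ p * g⁻¹, ?_, ?_⟩
  · rw [Sylow.coe_subgroup_smul]
    exact Subgroup.smul_mem_pointwise_smul _ (MulAut.conj g) _
      (hS (Subgroup.pow_mem _ (Subgroup.mem_zpowers r) p))
  · have h1 : (r ^ p) (g⁻¹ a) = g⁻¹ b := Fin.ext (by
      rw [hval, hpdef]
      have := (g⁻¹ a).2
      rw [show (g⁻¹ a).val + ((g⁻¹ b).val + (2 ^ j - (g⁻¹ a).val)) = (g⁻¹ b).val + 2 ^ j by omega,
        Nat.add_mod_right, Nat.mod_eq_of_lt (g⁻¹ b).2])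
    rw [Perm.mul_apply, Perm.mul_apply, h1]
    exact g.apply_symm_apply b

/-! ### The theorem -/

/-- The special linear group as the kernel of the determinant. -/
noncomputable def slEquiv (n : ℕ) :
    SpecialLinearGroup (Fin n) F ≃* (Matrix.GeneralLinearGroup.det : GL (Fin n) F →* Fˣ).ker :=
  MulEquiv.ofBijective (SpecialLinearGroup.toGL.codRestrict _ fun A => MonoidHom.mem_ker.2
    (Units.ext (by rw [Matrix.GeneralLinearGroup.val_det_apply]; exact A.2))) <| by
    refine ⟨fun A B h => SpecialLinearGroup.toGL_injective (congrArg Subtype.val h), ?_⟩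
    rintro ⟨A, hA⟩
    have h : (A : Matrix (Fin n) (Fin n) F).det = 1 := by
      rw [← Matrix.GeneralLinearGroup.val_det_apply, MonoidHom.mem_ker.1 hA, Units.val_one]
    exact ⟨⟨A, h⟩, Subtype.ext (Units.ext rfl)⟩

/-- The range of an embedding meets the kernel of a character in the kernel on the source. -/
noncomputable def kerRangeEquiv {M G A : Type*} [Group M] [Group G] [Group A] (ψ : M →* G)
    (hψ : Function.Injective ψ) (f : G →* A) :
    (f.comp ψ).ker ≃* ψ.range.subgroupOf f.ker :=
  MulEquiv.ofBijective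
    (((ψ.comp (f.comp ψ).ker.subtype).codRestrict f.ker fun x => x.2).codRestrict
      (ψ.range.subgroupOf f.ker) fun x => ⟨x.1, rfl⟩)
    ⟨fun x y h => Subtype.ext (hψ (congrArg (fun z => z.1.1) h)), by
      rintro ⟨⟨g, hk⟩, hg⟩
      obtain ⟨x, hx⟩ := hg
      refine ⟨⟨x, ?_⟩, Subtype.ext (Subtype.ext hx)⟩
      show f (ψ x) = 1
      rw [show ψ x = g from hx]
      exact hk⟩

/-- Sylow two-subgroups of the special linear group are generated up to squares by commutators. -/
theorem sl_sqComm (hq : Odd (Fintype.card F)) {n : ℕ} (e : Idx m k ≃ Fin n) (hk : k ≤ 1)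
    (hcase : 4 ∣ Fintype.card F + 1 ∨ (k = 0 ∧ ∃ j, m = 2 ^ j))
    (P : Sylow 2 (SpecialLinearGroup (Fin n) F)) :
    SqComm ↥(P : Subgroup (SpecialLinearGroup (Fin n) F)) := by
  classical
  haveI := Fact.mk Nat.prime_two
  obtain ⟨p, hp, hcp⟩ : ∃ p, p.Prime ∧ CharP F p :=
    ⟨ringChar F, CharP.char_is_prime F _, inferInstance⟩
  haveI := Fact.mk hp
  set q := Fintype.card F with hqdef
  have hq1 : 1 < q := Fintype.one_lt_card
  have hp2 : p ≠ 2 := by
    rintro rfl
    obtain ⟨a, -, ha⟩ := FiniteField.card F 2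
    rw [← hqdef] at ha
    rw [ha, Nat.odd_iff, Nat.pow_mod] at hq
    simp at hq
  -- the block
  have hdp : IsPGroup 2 (diagHom (F := F)).range :=
    isPGroup_twoPart.of_surjective _ (MonoidHom.rangeRestrict_surjective _)
  obtain ⟨D, hD⟩ := hdp.exists_le_sylow
  have hdiag : ∀ c : twoPart F, diagHom c ∈ (D : Subgroup (GL (Fin 2) F)) := fun c => hD ⟨c, rfl⟩
  obtain ⟨Q, hQeq⟩ := exists_sylow_inf D (Matrix.GeneralLinearGroup.det : GL (Fin 2) F →* Fˣ).ker
  have hQsl : SqComm ↥(Q : Subgroup (Matrix.GeneralLinearGroup.det : GL (Fin 2) F →* Fˣ).ker) := by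
    refine sylow_sqComm_transfer (slEquiv 2).symm (fun Q' => ?_) Q
    obtain ⟨a, ha, ⟨e'⟩⟩ := Linear.sylow_two_SL2 p hp2 Q'
    exact sqComm_congr e'.symm (sqComm_quaternion a ha)
  have hQ : SqComm ↥(Matrix.GeneralLinearGroup.det.comp
      (D : Subgroup (GL (Fin 2) F)).subtype).ker := by
    refine sqComm_congr ?_ hQsl
    refine ((kerRangeEquiv (D : Subgroup (GL (Fin 2) F)).subtype Subtype.val_injective
      Matrix.GeneralLinearGroup.det).trans ?_).symm
    rw [Subgroup.range_subtype, hQeq]
    exact MulEquiv.refl _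
  -- the permutations
  obtain ⟨T, hTc, hTg⟩ := exists_sylow_perm_gen m
  have hcase' : (∀ c : twoPart F, c * c = 1) ∨ (k = 0 ∧ ∀ a b : Fin m, ∃ t ∈ T, t a = b) := by
    rcases hcase with h | ⟨h0, j, rfl⟩
    · refine Or.inl fun c => ?_
      have hv : padicValNat 2 (q - 1) = 1 := by
        have := (val_pow_pm_one hq hq1 (m := 1) one_ne_zero).2
        rw [pow_one] at this
        exact (this (by omega)).2
      have h2 : c ^ Nat.card (twoPart F) = 1 := pow_card_eq_one'
      rw [card_twoPart, ← hqdef, hv, pow_one] at h2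
      rwa [← pow_two]
    · exact Or.inr ⟨h0, sylow_perm_transitive j (Sylow.ofCard T (by
        rw [hTc, Nat.factorization_def _ Nat.prime_two, Nat.card_perm, Nat.card_fin]))⟩
  have hmain := sqComm_detKer D T hdiag hQ hTg hcase'
  -- the Sylow subgroup
  let ι : GL (Idx m k) F ≃* GL (Fin n) F :=
    Units.mapEquiv (Matrix.reindexAlgEquiv F F e).toMulEquiv
  have hdet : (Matrix.GeneralLinearGroup.det : GL (Fin n) F →* Fˣ).comp
      (ι.toMonoidHom.comp (modelGL D T k)) =
      Matrix.GeneralLinearGroup.det.comp (modelGL D T k) := by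
    refine MonoidHom.ext fun x => Units.ext ?_
    simp only [MonoidHom.comp_apply, Matrix.GeneralLinearGroup.val_det_apply]
    exact Matrix.det_reindexAlgEquiv F F e _
  set ψ := ι.toMonoidHom.comp (modelGL D T k) with hψdef
  have hψ : Function.Injective ψ := ι.injective.comp (modelGL_injective D T k)
  have hn : n = 2 * m + k := by
    have := Fintype.card_congr e
    simpa [Idx] using this.symm
  have h2 : oddProd q 2 = (q - 1) * (q ^ 2 - 1) := by
    simp [oddProd, Finset.prod_range_succ]
  have hcard : Nat.card ψ.range = 2 ^ (Nat.card (GL (Fin n) F)).factorization 2 := by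
    rw [← Nat.card_congr (MonoidHom.ofInjective hψ).toEquiv, Nat.card_prod, card_semidirect,
      Nat.card_fun, Nat.card_fun, hTc, D.card_eq_multiplicity, card_twoPart, Nat.card_fin,
      Nat.card_fin, ← pow_mul, ← pow_mul, ← pow_add, ← pow_add, factorization_card_GL hq,
      factorization_card_GL hq, ← hqdef, h2, padicValNat.mul (by omega) (by
        have := Nat.one_lt_pow two_ne_zero hq1
        omega), hn]
    congr 1
    obtain rfl | rfl : k = 0 ∨ k = 1 := by omega
    · rw [add_zero, (val_oddProd hq hq1 m).1]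
      ring
    · rw [(val_oddProd hq hq1 m).2]
      ring
  obtain ⟨S, hS⟩ := exists_sylow_inf (Sylow.ofCard ψ.range hcard)
    (Matrix.GeneralLinearGroup.det : GL (Fin n) F →* Fˣ).ker
  rw [← hdet] at hmain
  refine sylow_sqComm_transfer (slEquiv n) (sylow_sqComm_of_one S ?_) P
  rw [hS]
  exact sqComm_congr (kerRangeEquiv ψ hψ _) hmain

end Cfsg.Agent.Forms.LinTwo
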