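import Cfsg.Agent.Forms.OrthDiag
import Cfsg.Agent.Forms.SylowTwoTools

/-!
# Sylow two-subgroups of the orthogonal groups in odd characteristic

A wreath product of a Sylow two-subgroup of `O(x ^ 2 + y ^ 2)` with one of a symmetric group, times
sign changes, is a Sylow two-subgroup generated by involutions, and so is its part in `Ω`.
-/

set_option autoImplicit false

namespace Cfsg.Agent.Forms

open Module

variable {F : Type*} [Field F]

/-! ### The model -/

/-- The weights of the model form: `1` on the planes, `w` on the lines. -/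
abbrev blockWt {k : ℕ} (l : ℕ) (w : Fin k → F) : (Fin l × Fin 2) ⊕ Fin k → F :=
  Sum.elim (fun _ => 1) w

/-- `l` planes `x ^ 2 + y ^ 2` and `k` lines. -/
abbrev blockForm {k : ℕ} (l : ℕ) (w : Fin k → F) :
    QuadraticForm F ((Fin l × Fin 2) ⊕ Fin k → F) := diagForm (blockWt l w)

variable {l k : ℕ}

theorem blockForm_apply (w : Fin k → F) (v : (Fin l × Fin 2) ⊕ Fin k → F) :
    blockForm l w v = (∑ i, planeForm F fun a => v (Sum.inl (i, a))) +
      ∑ j, w j * (v (Sum.inr j) * v (Sum.inr j)) := by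
  rw [diagForm_apply, Fintype.sum_sum_type, Fintype.sum_prod_type]
  congr 1

/-- Planes turned and then permuted, signs changed on the lines. -/
def wreathFun (b : Fin l → orthGroup (planeForm F)) (t : Equiv.Perm (Fin l)) (ε : Fin k → ℤˣ)
    (v : (Fin l × Fin 2) ⊕ Fin k → F) : (Fin l × Fin 2) ⊕ Fin k → F :=
  Sum.elim (fun p => (b p.1 : (Fin 2 → F) ≃ₗ[F] (Fin 2 → F))
      (fun a => v (Sum.inl (t.symm p.1, a))) p.2)
    (fun j => ((ε j : ℤ) : F) * v (Sum.inr j))

theorem wreathFun_comp (b b' : Fin l → orthGroup (planeForm F)) (t t' : Equiv.Perm (Fin l))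
    (ε ε' : Fin k → ℤˣ) (v : (Fin l × Fin 2) ⊕ Fin k → F) :
    wreathFun b t ε (wreathFun b' t' ε' v) =
      wreathFun (fun i => b i * b' (t.symm i)) (t * t') (ε * ε') v := by
  funext p
  rcases p with ⟨i, a⟩ | j
  · rfl
  · simp [wreathFun, mul_assoc]

theorem wreathFun_one (v : (Fin l × Fin 2) ⊕ Fin k → F) : wreathFun 1 1 1 v = v := by
  funext p
  rcases p with ⟨i, a⟩ | j
  · rfl
  · simp [wreathFun]

theorem wreathFun_inv (b : Fin l → orthGroup (planeForm F)) (t : Equiv.Perm (Fin l))
    (ε : Fin k → ℤˣ) (v : (Fin l × Fin 2) ⊕ Fin k → F) :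
    wreathFun (fun i => (b (t i))⁻¹) t⁻¹ ε⁻¹ (wreathFun b t ε v) = v ∧
      wreathFun b t ε (wreathFun (fun i => (b (t i))⁻¹) t⁻¹ ε⁻¹ v) = v := by
  rw [wreathFun_comp, wreathFun_comp, inv_mul_cancel, inv_mul_cancel, mul_inv_cancel, mul_inv_cancel]
  constructor
  · convert wreathFun_one v using 2
    funext i
    rw [show (t⁻¹).symm i = t i from rfl, inv_mul_cancel]; rfl
  · convert wreathFun_one v using 2
    funext i
    rw [Equiv.apply_symm_apply, mul_inv_cancel]; rfl

/-- The element of the model group. -/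
def wreathElt (w : Fin k → F) (b : Fin l → orthGroup (planeForm F)) (t : Equiv.Perm (Fin l))
    (ε : Fin k → ℤˣ) : orthGroup (blockForm l w) :=
  ⟨{ toFun := wreathFun b t ε
     map_add' := fun u v => by
       funext p
       rcases p with ⟨i, a⟩ | j
       · simp only [wreathFun, Sum.elim_inl, Pi.add_apply]
         exact congrFun ((b i : (Fin 2 → F) ≃ₗ[F] (Fin 2 → F)).map_add
           (fun a => u (Sum.inl (t.symm i, a))) (fun a => v (Sum.inl (t.symm i, a)))) a
       · simp [wreathFun, mul_add]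
     map_smul' := fun c u => by
       funext p
       rcases p with ⟨i, a⟩ | j
       · simp only [wreathFun, Sum.elim_inl, Pi.smul_apply, RingHom.id_apply]
         exact congrFun ((b i : (Fin 2 → F) ≃ₗ[F] (Fin 2 → F)).map_smul c
           (fun a => u (Sum.inl (t.symm i, a)))) a
       · simp [wreathFun]; ring
     invFun := wreathFun (fun i => (b (t i))⁻¹) t⁻¹ ε⁻¹
     left_inv := fun v => (wreathFun_inv b t ε v).1
     right_inv := fun v => (wreathFun_inv b t ε v).2 },
    (orth_mem_iff _ _).2 fun v => by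
      change blockForm l w (wreathFun b t ε v) = blockForm l w v
      rw [blockForm_apply, blockForm_apply]
      congr 1
      · rw [← Equiv.sum_comp t.symm (fun i => planeForm F fun a => v (Sum.inl (i, a)))]
        exact Finset.sum_congr rfl fun i _ => (orth_mem_iff _ _).1 (b i).2 _
      · refine Finset.sum_congr rfl fun j _ => ?_
        rcases Int.units_eq_one_or (ε j) with h | h <;> simp [wreathFun, h]⟩

theorem wreathElt_apply (w : Fin k → F) (b : Fin l → orthGroup (planeForm F)) (t : Equiv.Perm (Fin l))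
    (ε : Fin k → ℤˣ) (v : (Fin l × Fin 2) ⊕ Fin k → F) :
    (wreathElt w b t ε : ((Fin l × Fin 2) ⊕ Fin k → F) ≃ₗ[F] _) v = wreathFun b t ε v := rfl

/-- The wreath product inside the model group. -/
def wreathHom (w : Fin k → F) (D : Subgroup (orthGroup (planeForm F)))
    (T : Subgroup (Equiv.Perm (Fin l))) :
    ((Fin l → D) ⋊[powAct D T] T) × (Fin k → ℤˣ) →* orthGroup (blockForm l w) :=
  MonoidHom.mk' (fun g => wreathElt w (fun i => (g.1.left i : orthGroup (planeForm F)))
      (g.1.right : Equiv.Perm (Fin l)) g.2)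
    fun g h => orth_ext fun v => by
      rw [orth_mul_apply, wreathElt_apply, wreathElt_apply, wreathElt_apply, wreathFun_comp]
      rfl

theorem wreathHom_apply (w : Fin k → F) (D : Subgroup (orthGroup (planeForm F)))
    (T : Subgroup (Equiv.Perm (Fin l))) (g : ((Fin l → D) ⋊[powAct D T] T) × (Fin k → ℤˣ))
    (v : (Fin l × Fin 2) ⊕ Fin k → F) :
    (wreathHom w D T g : ((Fin l × Fin 2) ⊕ Fin k → F) ≃ₗ[F] _) v =
      wreathFun (fun i => (g.1.left i : orthGroup (planeForm F)))
        (g.1.right : Equiv.Perm (Fin l)) g.2 v := rfl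

theorem wreathHom_injective (h2 : (2 : F) ≠ 0) (w : Fin k → F)
    (D : Subgroup (orthGroup (planeForm F))) (T : Subgroup (Equiv.Perm (Fin l))) :
    Function.Injective (wreathHom w D T) := by
  rw [injective_iff_map_eq_one]
  intro g hg
  have h : ∀ v, wreathFun (fun i => (g.1.left i : orthGroup (planeForm F)))
      (g.1.right : Equiv.Perm (Fin l)) g.2 v = v := fun v => by
    rw [← wreathHom_apply, hg, orth_one_apply]
  set t : Equiv.Perm (Fin l) := (g.1.right : Equiv.Perm (Fin l))
  have ht : ∀ i, t.symm i = i := by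
    intro i
    by_contra hne
    have h1 : (g.1.left i : orthGroup (planeForm F)).1 ![1, 0] = 0 := by
      funext a
      have h0 := congrFun (h (Sum.elim (fun p => if p.1 = t.symm i then ![1, 0] p.2 else 0) 0))
        (Sum.inl (i, a))
      simp only [wreathFun, Sum.elim_inl, if_true] at h0
      rw [if_neg (Ne.symm hne)] at h0
      exact h0
    have := congrFun ((g.1.left i : orthGroup (planeForm F)).1.map_eq_zero_iff.1 h1) 0
    simp at this
  have hr : g.1.right = 1 := Subtype.ext (Equiv.ext fun i => by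
    conv_lhs => rw [← ht i]
    exact t.apply_symm_apply i)
  refine Prod.ext (SemidirectProduct.ext (funext fun i => Subtype.ext (orth_ext fun x => ?_)) hr)
    (funext fun j => ?_)
  · funext a
    have h0 := congrFun (h (Sum.elim (fun p => x p.2) 0)) (Sum.inl (i, a))
    exact h0
  · have h0 := congrFun (h (Pi.single (Sum.inr j) 1)) (Sum.inr j)
    simp only [wreathFun, Sum.elim_inr, Pi.single_eq_same, mul_one] at h0
    rcases Int.units_eq_one_or (g.2 j) with h1 | h1
    · exact h1
    · rw [h1, Units.val_neg, Units.val_one, Int.cast_neg, Int.cast_one] at h0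
      exact absurd (by linear_combination -h0) h2

/-- A vector in the `i`-th plane. -/
def planeVec (k : ℕ) (i : Fin l) (x : Fin 2 → F) : (Fin l × Fin 2) ⊕ Fin k → F :=
  Sum.elim (fun p => if p.1 = i then x p.2 else 0) 0

theorem blockForm_planeVec (w : Fin k → F) (i : Fin l) (x : Fin 2 → F) :
    blockForm l w (planeVec k i x) = planeForm F x := by
  rw [blockForm_apply, Finset.sum_eq_single i]
  · simp [planeVec, planeForm_apply]
  · intro j _ hj; simp [planeVec, planeForm_apply, hj]
  · intro h; exact absurd (Finset.mem_univ i) h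

theorem polar_planeVec (w : Fin k → F) (i : Fin l) (x : Fin 2 → F)
    (v : (Fin l × Fin 2) ⊕ Fin k → F) :
    QuadraticMap.polar (blockForm l w) (planeVec k i x) v =
      QuadraticMap.polar (planeForm F) x fun a => v (Sum.inl (i, a)) := by
  rw [diagForm_polar, Fintype.sum_sum_type, Fintype.sum_prod_type, Finset.sum_eq_single i,
    diagForm_polar]
  · simp [planeVec, Fin.sum_univ_two]
  · intro j _ hj; simp [planeVec, hj]
  · intro h; exact absurd (Finset.mem_univ i) h

theorem polar_line (w : Fin k → F) (j : Fin k) (v : (Fin l × Fin 2) ⊕ Fin k → F) :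
    QuadraticMap.polar (blockForm l w) (Pi.single (Sum.inr j) 1) v =
      2 * w j * v (Sum.inr j) := by
  rw [diagForm_polar, Finset.sum_eq_single (Sum.inr j)]
  · simp
  · intro p _ hp; simp [Pi.single_eq_of_ne hp]
  · intro h; exact absurd (Finset.mem_univ _) h

theorem wreathHom_plane (w : Fin k → F) (D : Subgroup (orthGroup (planeForm F)))
    (T : Subgroup (Equiv.Perm (Fin l))) (i : Fin l) (x : Fin 2 → F)
    (hx : reflection (planeForm F) x ∈ D) :
    wreathHom w D T (SemidirectProduct.inl (Pi.mulSingle i ⟨_, hx⟩), 1) =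
      reflection (blockForm l w) (planeVec k i x) := by
  refine orth_ext fun v => ?_
  rw [wreathHom_apply, reflection_apply, blockForm_planeVec, polar_planeVec]
  funext p
  rcases p with ⟨j, a⟩ | j
  · rcases eq_or_ne j i with rfl | hj
    · simp [wreathFun, planeVec, reflection_apply, Equiv.Perm.one_def]
    · simp [wreathFun, planeVec, hj, Equiv.Perm.one_def]
  · simp [wreathFun, planeVec]

theorem wreathHom_line (w : Fin k → F) (hw : ∀ j, w j ≠ 0)
    (D : Subgroup (orthGroup (planeForm F))) (T : Subgroup (Equiv.Perm (Fin l))) (j : Fin k) :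
    wreathHom w D T (1, Pi.mulSingle j (-1)) =
      reflection (blockForm l w) (Pi.single (Sum.inr j) 1) := by
  refine orth_ext fun v => ?_
  rw [wreathHom_apply, reflection_apply, diagForm_single, polar_line]
  funext p
  rcases p with ⟨i, a⟩ | i
  · simp [wreathFun, Equiv.Perm.one_def]
  · rcases eq_or_ne i j with rfl | hi
    · have := hw i
      simp [wreathFun]; field_simp; ring
    · simp [wreathFun, hi]

/-- Permutations of the coordinates of the planes. -/
def coordPerm (l : ℕ) (w : Fin k → F) : Equiv.Perm (Fin l × Fin 2) →* orthGroup (blockForm l w) :=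
  MonoidHom.mk' (fun σ => ⟨LinearEquiv.funCongrLeft F F (Equiv.sumCongr σ (Equiv.refl _)).symm,
      (orth_mem_iff _ _).2 fun v => by
        rw [diagForm_apply, diagForm_apply]
        refine Fintype.sum_equiv (Equiv.sumCongr σ (Equiv.refl _)).symm _ _ fun p => ?_
        rcases p with p | j <;> rfl⟩)
    fun σ τ => orth_ext fun v => funext fun p => by rcases p with p | j <;> rfl

theorem coordPerm_prodCongr (w : Fin k → F) (D : Subgroup (orthGroup (planeForm F)))
    (T : Subgroup (Equiv.Perm (Fin l))) (t : T) :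
    wreathHom w D T (SemidirectProduct.inr t, 1) =
      coordPerm l w (Equiv.prodCongr (t : Equiv.Perm (Fin l)) (Equiv.refl _)) := by
  refine orth_ext fun v => funext fun p => ?_
  rcases p with ⟨i, a⟩ | j
  · rfl
  · simp [wreathHom_apply, wreathFun, coordPerm]

/-- A homomorphism to a commutative group kills the even permutations. -/
theorem hom_eq_one_of_sign {α : Type*} [Fintype α] [DecidableEq α] {A : Type*} [CommGroup A]
    (f : Equiv.Perm α →* A) (σ : Equiv.Perm α) (h : Equiv.Perm.sign σ = 1) : f σ = 1 := by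
  classical
  rcases subsingleton_or_nontrivial α with hα | hα
  · rw [show σ = 1 from Subsingleton.elim _ _, map_one]
  obtain ⟨x, y, hxy⟩ := exists_pair_ne α
  set a := f (Equiv.swap x y)
  have haa : a * a = 1 := by rw [← map_mul, Equiv.swap_mul_self, map_one]
  have hswap : ∀ u v : α, u ≠ v → f (Equiv.swap u v) = a := fun u v huv =>
    isConj_iff_eq.1 (f.map_isConj (Equiv.Perm.isConj_swap huv hxy))
  have key : ∀ τ : Equiv.Perm α, (Equiv.Perm.sign τ = 1 ∧ f τ = 1) ∨
      (Equiv.Perm.sign τ = -1 ∧ f τ = a) := by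
    intro τ
    induction τ using Equiv.Perm.swap_induction_on with
    | one => exact Or.inl ⟨map_one _, map_one _⟩
    | swap_mul τ u v huv ih =>
      rw [map_mul, map_mul, Equiv.Perm.sign_swap huv, hswap u v huv]
      rcases ih with ⟨h1, h3⟩ | ⟨h1, h3⟩
      · exact Or.inr ⟨by rw [h1]; rfl, by rw [h3, mul_one]⟩
      · exact Or.inl ⟨by rw [h1]; rfl, by rw [h3, haa]⟩
  rcases key σ with ⟨-, h1⟩ | ⟨h1, -⟩
  · exact h1
  · rw [h] at h1; exact absurd h1 (by decide)

theorem sign_prodCongr_refl (t : Equiv.Perm (Fin l)) :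
    Equiv.Perm.sign (Equiv.prodCongr t (Equiv.refl (Fin 2))) = 1 := by
  have h : Equiv.prodCongr t (Equiv.refl (Fin 2)) = Equiv.prodCongrLeft fun _ : Fin 2 => t := by
    ext ⟨i, a⟩ <;> rfl
  rw [h, Equiv.Perm.sign_prodCongrLeft, Fin.prod_univ_two, Int.units_mul_self]

/-! ### Its Sylow subgroup and `Ω` -/

theorem exists_plane_sylow [Fintype F] {q : ℕ} (hF : Fintype.card F = q) (hq : Odd q) :
    ∃ D : Subgroup (orthGroup (planeForm F)),
      Nat.card D = 2 ^ padicValNat 2 (q ^ 2 - 1) ∧
      D = Subgroup.closure {g | g ∈ D ∧ ∃ v, planeForm F v ≠ 0 ∧ g = reflection (planeForm F) v} ∧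
      (∃ v, IsSquare (planeForm F v) ∧ planeForm F v ≠ 0 ∧ reflection (planeForm F) v ∈ D) ∧
      ∃ v, ¬ IsSquare (planeForm F v) ∧ planeForm F v ≠ 0 ∧ reflection (planeForm F) v ∈ D := by
  haveI := Fact.mk Nat.prime_two
  have h2 := two_ne_zero_of_odd hF hq
  haveI : Finite (orthGroup (planeForm F)) := inferInstance
  obtain ⟨P₀⟩ : Nonempty (Sylow 2 (orthGroup (planeForm F))) := inferInstance
  have hex : ∀ c : F, c ≠ 0 → ∃ v, planeForm F v = c ∧ reflection (planeForm F) v ∈ P₀ := by
    intro c hc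
    obtain ⟨x, y, hxy⟩ := exists_sq_add_sq_eq (a := (1 : F)) (b := 1) one_ne_zero one_ne_zero c
    set v : Fin 2 → F := ![x, y]
    have hv : planeForm F v = c := by
      rw [planeForm_apply, ← hxy]; simp [v, sq]
    have hp : IsPGroup 2 (Subgroup.zpowers (reflection (planeForm F) v)) := by
      intro g
      refine ⟨1, ?_⟩
      obtain ⟨n, hn⟩ := Subgroup.mem_zpowers_iff.1 g.2
      refine Subtype.ext ?_
      rw [Subgroup.coe_pow, ← hn, pow_one, Subgroup.coe_one, sq, ← (Commute.refl _).mul_zpow,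
        reflection_mul_self, one_zpow]
    obtain ⟨P₁, hP₁⟩ := hp.exists_le_sylow
    obtain ⟨g, hg⟩ := MulAction.exists_smul_eq (orthGroup (planeForm F)) P₁ P₀
    refine ⟨(g : (Fin 2 → F) ≃ₗ[F] (Fin 2 → F)) v, ((orth_mem_iff _ _).1 g.2 v).trans hv, ?_⟩
    rw [← conj_reflection, ← hg]
    exact Set.mem_smul_set.2 ⟨_, hP₁ (Subgroup.mem_zpowers _), rfl⟩
  obtain ⟨v₁, hv₁, hm₁⟩ := hex 1 one_ne_zero
  obtain ⟨v₂, hv₂, hm₂⟩ := hex (nonsquare h2) (nonsquare_ne_zero h2)
  refine ⟨P₀, ?_, le_antisymm ?_ ((Subgroup.closure_le _).2 fun g hg => hg.1),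
    ⟨v₁, hv₁ ▸ IsSquare.one, hv₁ ▸ one_ne_zero, hm₁⟩,
    v₂, hv₂ ▸ not_isSquare_nonsquare h2, hv₂ ▸ nonsquare_ne_zero h2, hm₂⟩
  · rw [P₀.card_eq_multiplicity, Nat.factorization_def _ Nat.prime_two, val_card_plane hF hq]
  · intro g hg
    have hv0 : planeForm F v₁ ≠ 0 := hv₁ ▸ one_ne_zero
    have hr : reflection (planeForm F) v₁ ∈ Subgroup.closure
        {g | g ∈ (P₀ : Subgroup (orthGroup (planeForm F))) ∧
          ∃ v, planeForm F v ≠ 0 ∧ g = reflection (planeForm F) v} :=
      Subgroup.subset_closure ⟨hm₁, v₁, hv0, rfl⟩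
    rcases plane_cases h2 g with h | ⟨-, v, hv, rfl⟩
    · have h1 : (orthDet (planeForm F) (g * reflection (planeForm F) v₁) : F) = -1 := by
        rw [map_mul, Units.val_mul, h, orthDet_reflection _ hv0, one_mul]
      rcases plane_cases h2 (g * reflection (planeForm F) v₁) with h3 | ⟨-, v, hv, hgv⟩
      · exact absurd (h3.symm.trans h1) (fun e => h2 (by linear_combination e))
      · have hin := Subgroup.mul_mem _ (Subgroup.subset_closure (k := {g |
          g ∈ (P₀ : Subgroup (orthGroup (planeForm F))) ∧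
            ∃ v, planeForm F v ≠ 0 ∧ g = reflection (planeForm F) v})
          ⟨(P₀ : Subgroup (orthGroup (planeForm F))).mul_mem hg hm₁, v, hv, hgv⟩) hr
        rwa [mul_assoc, reflection_mul_self, mul_one] at hin
    · exact Subgroup.subset_closure ⟨hg, v, hv, rfl⟩

/-- Indices of the reflections of the wreath product. -/
abbrev WreathIdx (l k : ℕ) (D : Subgroup (orthGroup (planeForm F))) : Type _ :=
  {x : Fin l × (Fin 2 → F) // planeForm F x.2 ≠ 0 ∧ reflection (planeForm F) x.2 ∈ D} ⊕ Fin k

/-- Their vectors. -/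
abbrev wreathVec (D : Subgroup (orthGroup (planeForm F))) :
    WreathIdx l k D → ((Fin l × Fin 2) ⊕ Fin k → F) :=
  Sum.elim (fun x => planeVec k x.1.1 x.1.2) fun j => Pi.single (Sum.inr j) 1

/-- Their places. -/
abbrev wreathLoc (D : Subgroup (orthGroup (planeForm F))) : WreathIdx l k D → Fin l ⊕ Fin k :=
  Sum.map (fun x => x.1.1) id

theorem wreath_range (w : Fin k → F) (hw : ∀ j, w j ≠ 0)
    (D : Subgroup (orthGroup (planeForm F))) (T : Subgroup (Equiv.Perm (Fin l)))
    (hDgen : D = Subgroup.closure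
      {g | g ∈ D ∧ ∃ v, planeForm F v ≠ 0 ∧ g = reflection (planeForm F) v})
    (hTgen : T = Subgroup.closure {t | t ∈ T ∧ t * t = 1}) :
    (wreathHom w D T).range = Subgroup.closure
      (Set.range (fun j => reflection (blockForm l w) (wreathVec D j)) ∪
        {g | ∃ t : T, t * t = 1 ∧ g = wreathHom w D T (SemidirectProduct.inr t, 1)}) := by
  classical
  set Φ := wreathHom w D T
  set ρ : WreathIdx l k D → orthGroup (blockForm l w) :=
    fun j => reflection (blockForm l w) (wreathVec D j)
  set S : Set (orthGroup (blockForm l w)) :=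
    {g | ∃ t : T, t * t = 1 ∧ g = Φ (SemidirectProduct.inr t, 1)}
  let Φ₁ : (Fin l → D) →* orthGroup (blockForm l w) :=
    Φ.comp ((MonoidHom.inl _ _).comp SemidirectProduct.inl)
  let Φ₂ : T →* orthGroup (blockForm l w) :=
    Φ.comp ((MonoidHom.inl _ _).comp SemidirectProduct.inr)
  have hρΦ : ∀ j, ρ j ∈ Φ.range := by
    rintro (⟨⟨i, x⟩, hx, hxD⟩ | j)
    · exact ⟨_, wreathHom_plane w D T i x hxD⟩
    · exact ⟨_, wreathHom_line w hw D T j⟩
  refine le_antisymm ?_ ((Subgroup.closure_le _).2 ?_)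
  · set C := Subgroup.closure (Set.range ρ ∪ S)
    rintro _ ⟨g, rfl⟩
    have hg : g = (SemidirectProduct.inl g.1.left, 1) *
        ((SemidirectProduct.inr g.1.right, 1) * (1, g.2)) := by
      ext1
      · change g.1 = SemidirectProduct.inl g.1.left * (SemidirectProduct.inr g.1.right * 1)
        rw [mul_one, SemidirectProduct.inl_left_mul_inr_right]
      · simp
    rw [hg, map_mul, map_mul]
    refine C.mul_mem ?_ (C.mul_mem ?_ ?_)
    · have hN : ∀ b : Fin l → D, Φ₁ b ∈ C := by
        intro b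
        refine Subgroup.pi_mem_of_mulSingle_mem (H := C.comap Φ₁) b fun i => ?_
        have h1 : ∀ d : D, (d : orthGroup (planeForm F)) ∈ Subgroup.closure {g | g ∈ D ∧
            ∃ v, planeForm F v ≠ 0 ∧ g = reflection (planeForm F) v} := fun d => hDgen ▸ d.2
        have key : ∀ d ∈ Subgroup.closure {g | g ∈ D ∧
            ∃ v, planeForm F v ≠ 0 ∧ g = reflection (planeForm F) v},
            d ∈ (C.comap (Φ₁.comp (MonoidHom.mulSingle (fun _ : Fin l => D) i))).map D.subtype := by
          refine (Subgroup.closure_le _).2 ?_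
          rintro y ⟨hy, v, hv, rfl⟩
          refine ⟨⟨_, hy⟩, ?_, rfl⟩
          exact Subgroup.subset_closure
            (Or.inl ⟨Sum.inl ⟨(i, v), hv, hy⟩, (wreathHom_plane w D T i v hy).symm⟩)
        obtain ⟨d, hd, hde⟩ := key _ (h1 (b i))
        rw [Subtype.ext hde] at hd
        exact hd
      exact hN _
    · have key : ∀ t ∈ Subgroup.closure {t | t ∈ T ∧ t * t = 1},
          t ∈ (C.comap Φ₂).map T.subtype := by
        refine (Subgroup.closure_le _).2 ?_
        rintro y ⟨hy, hy2⟩
        exact ⟨⟨y, hy⟩, Subgroup.subset_closure (Or.inr ⟨⟨y, hy⟩, Subtype.ext hy2, rfl⟩), rfl⟩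
      obtain ⟨t, ht, hte⟩ := key _ (SetLike.le_def.1 hTgen.le g.1.right.2)
      rw [Subtype.ext hte] at ht
      exact ht
    · refine Subgroup.pi_mem_of_mulSingle_mem (H := C.comap (Φ.comp (MonoidHom.inr _ _))) g.2
        fun j => ?_
      rcases Int.units_eq_one_or (g.2 j) with h | h
      · rw [h, Pi.mulSingle_one]; exact Subgroup.one_mem _
      · rw [h]
        exact Subgroup.subset_closure
          (Or.inl ⟨Sum.inr j, (wreathHom_line w hw D T j).symm⟩)
  · rintro g (⟨j, rfl⟩ | ⟨t, -, rfl⟩)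
    · exact hρΦ j
    · exact ⟨_, rfl⟩

theorem detSpinor_reflection [Fintype F] {V : Type*} [AddCommGroup V] [Module F V] [Finite V]
    [FiniteDimensional F V] (h2 : (2 : F) ≠ 0) {Q : QuadraticForm F V}
    (hQ : (QuadraticMap.polarBilin Q).Nondegenerate) {v : V} (hv : Q v ≠ 0) :
    (IsSquare (Q v) → detSpinor Q h2 (reflection Q v) = (-1, 1)) ∧
      (¬ IsSquare (Q v) → detSpinor Q h2 (reflection Q v) = (-1, -1)) := by
  have hd : orthDet Q (reflection Q v) = -1 :=
    Units.ext ((orthDet_reflection Q hv).trans (by simp))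
  exact ⟨fun h => Prod.ext hd ((spinor_reflection h2 hQ hv).1 h),
    fun h => Prod.ext hd ((spinor_reflection h2 hQ hv).2 h)⟩

/-- The Sylow two-subgroups of `Ω` of the model have elementary abelian abelianisation. -/
theorem block_sqComm [Fintype F] {q : ℕ} (hF : Fintype.card F = q) (hq : Odd q) (hl : 2 ≤ l)
    (w : Fin k → F) (hw : ∀ j, w j ≠ 0)
    (hcard : padicValNat 2 (Nat.card (orthGroup (blockForm l w))) =
      l * padicValNat 2 (q ^ 2 - 1) + k + padicValNat 2 l.factorial)
    (P : Sylow 2 ↥(commutator (orthGroup (blockForm l w)))) :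
    SqComm ↥(P : Subgroup ↥(commutator (orthGroup (blockForm l w)))) := by
  classical
  haveI := Fact.mk Nat.prime_two
  have h2 := two_ne_zero_of_odd hF hq
  have hQ : (QuadraticMap.polarBilin (blockForm l w)).Nondegenerate :=
    diagForm_nondegenerate h2 _ (by rintro (p | j) <;> simp [hw])
  obtain ⟨D, hDcard, hDgen, ⟨v₁, hs₁, hn₁, hm₁⟩, v₂, hs₂, hn₂, hm₂⟩ :=
    exists_plane_sylow hF hq
  obtain ⟨T, hTcard, hTgen⟩ := exists_sylow_perm_gen l
  set Φ := wreathHom w D T with hΦdef
  have hΦ : Function.Injective Φ := wreathHom_injective h2 w D T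
  let J := WreathIdx l k D
  let vec : J → ((Fin l × Fin 2) ⊕ Fin k → F) := wreathVec D
  let ρ : J → orthGroup (blockForm l w) := fun j => reflection (blockForm l w) (vec j)
  let loc : J → Fin l ⊕ Fin k := wreathLoc D
  let S : Set (orthGroup (blockForm l w)) :=
    {g | ∃ t : T, t * t = 1 ∧ g = Φ (SemidirectProduct.inr t, 1)}
  have hvec : ∀ j, blockForm l w (vec j) ≠ 0 := by
    rintro (⟨⟨i, x⟩, hx, -⟩ | j)
    · simpa [vec, blockForm_planeVec] using hx
    · simp [vec, diagForm_single, hw j]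
  have hgen : Φ.range = Subgroup.closure (Set.range ρ ∪ S) :=
    wreath_range w hw D T hDgen hTgen
  have hΦcard : Nat.card Φ.range = 2 ^ padicValNat 2 (Nat.card (orthGroup (blockForm l w))) := by
    rw [← Nat.card_congr (MonoidHom.ofInjective hΦ).toEquiv, Nat.card_prod, card_semidirect,
      Nat.card_fun, Nat.card_fun, hDcard, hTcard, hcard, Nat.card_eq_fintype_card (α := ℤˣ),
      Fintype.card_units_int, Nat.card_fin, Nat.card_fin, ← pow_mul, ← pow_add, ← pow_add]
    congr 1
    ring
  let P₁ : Sylow 2 (orthGroup (blockForm l w)) := Sylow.ofCard Φ.range (by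
    rw [hΦcard, Nat.factorization_def _ Nat.prime_two])
  have hfin : 2 ≤ finrank F ((Fin l × Fin 2) ⊕ Fin k → F) := by simp; omega
  set χ := detSpinor (blockForm l w) h2
  have hker : commutator (orthGroup (blockForm l w)) = χ.ker := (commutator_eq_ker h2 hQ hfin).1
  have hval : ∀ j, (IsSquare (blockForm l w (vec j)) → χ (ρ j) = (-1, 1)) ∧
      (¬ IsSquare (blockForm l w (vec j)) → χ (ρ j) = (-1, -1)) := fun j =>
    detSpinor_reflection h2 hQ (hvec j)
  have hm1 : (-1 : Fˣ) ≠ 1 := fun h => h2 (by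
    have := congrArg Units.val h; simp at this; linear_combination -this)
  have hI : ∀ i : Fin l, ∃ ja jb : J, loc ja = Sum.inl i ∧ loc jb = Sum.inl i ∧
      χ (ρ ja) = (-1, 1) ∧ χ (ρ jb) = (-1, -1) := fun i => by
    refine ⟨Sum.inl ⟨(i, v₁), hn₁, hm₁⟩, Sum.inl ⟨(i, v₂), hn₂, hm₂⟩, rfl, rfl, (hval _).1 ?_,
      (hval _).2 ?_⟩
    · simpa [vec, blockForm_planeVec] using hs₁
    · simpa [vec, blockForm_planeVec] using hs₂
  have hT : ∀ g ∈ S, g * g = 1 ∧ χ g = 1 := by
    rintro g ⟨t, ht, rfl⟩
    constructor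
    · rw [← map_mul]
      exact (congrArg Φ (Prod.ext (by change SemidirectProduct.inr t * SemidirectProduct.inr t = _
                                      rw [← map_mul, ht, map_one]; rfl) (one_mul 1))).trans Φ.map_one
    · rw [hΦdef, coordPerm_prodCongr]
      exact hom_eq_one_of_sign (χ.comp (coordPerm l w)) _ (sign_prodCongr_refl _)
  obtain ⟨ja, jb, -, -, hja, hjb⟩ := hI ⟨0, by omega⟩
  have hP := kernel_gen χ Φ.range ρ loc S hgen (fun j => reflection_mul_self _ _) ?_ hT
    (-1, 1) (-1, -1) (fun h => hm1 (congrArg Prod.fst h)) (fun h => hm1 (congrArg Prod.fst h))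
    (fun h => absurd (congrArg Prod.snd h) (by simp))
    (fun j => by
      by_cases h : IsSquare (blockForm l w (vec j))
      · exact Or.inl ((hval j).1 h)
      · exact Or.inr ((hval j).2 h))
    ⟨ja, hja⟩ ⟨jb, hjb⟩ ?_
  · haveI : (commutator (orthGroup (blockForm l w))).Normal := inferInstance
    obtain ⟨P₂, hP₂⟩ := exists_sylow_inf P₁ (commutator (orthGroup (blockForm l w)))
    refine sylow_sqComm_of_one P₂ ?_ P
    rw [hP₂]
    refine sqComm_inf _ _ ?_
    rw [hker]
    exact hP
  · intro a b hne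
    refine orth_ext fun v => ?_
    have hpol : QuadraticMap.polar (blockForm l w) (vec a) (vec b) = 0 := by
      rcases a with ⟨⟨i, x⟩, hx⟩ | i <;> rcases b with ⟨⟨i', y⟩, hy⟩ | i'
      · simp only [vec, Sum.elim_inl, polar_planeVec]
        simp only [loc, Sum.map_inl, ne_eq, Sum.inl.injEq] at hne
        simp [planeVec, hne, planeForm_polar]
      · simp [vec, polar_planeVec, planeForm_polar]
      · simp [vec, polar_line, planeVec]
      · simp only [loc, Sum.map_inr, id_eq, ne_eq, Sum.inr.injEq] at hne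
        simp [vec, polar_line, hne]
    simp only [ρ, orth_mul_apply, reflection_apply, map_sub, map_smul,
      QuadraticMap.polar_sub_right, QuadraticMap.polar_smul_right, hpol,
      QuadraticMap.polar_comm (blockForm l w) (vec b) (vec a)]
    simp only [smul_eq_mul, mul_zero, sub_zero, smul_zero, zero_smul]
    abel
  · intro j
    obtain ⟨i, hi⟩ : ∃ i : Fin l, Sum.inl i ≠ loc j := by
      haveI : Nontrivial (Fin l) := Fin.nontrivial_iff_two_le.2 hl
      rcases loc j with i₀ | j₀
      · obtain ⟨i, hi⟩ := exists_ne i₀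
        exact ⟨i, fun e => hi (Sum.inl.inj e)⟩
      · exact ⟨⟨0, by omega⟩, Sum.inl_ne_inr⟩
    obtain ⟨ka, kb, hla, hlb, hka, hkb⟩ := hI i
    by_cases h : IsSquare (blockForm l w (vec j))
    · exact ⟨ka, hla ▸ hi, hka.trans ((hval j).1 h).symm⟩
    · exact ⟨kb, hlb ▸ hi, hkb.trans ((hval j).2 h).symm⟩

end Cfsg.Agent.Forms
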