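import Cfsg.Agent.Forms.UnitaryOrder
import Cfsg.Agent.Forms.HermOrder

/-!
# Involutions of `SU_n(q)`, `q` even: the rank determines the class
-/

set_option autoImplicit false

namespace Cfsg.Agent.Forms

open Module

variable {F V : Type*} [Field F] [Fintype F] [AddCommGroup V] [Module F V] [FiniteDimensional F V]
variable {σ : F →+* F} {B : V →ₛₗ[σ] V →ₗ[F] F} {q : ℕ}

/-- A square-zero self-adjoint map. -/
structure IsHermNil (B : V →ₛₗ[σ] V →ₗ[F] F) (n : V →ₗ[F] V) : Prop where
  sq : ∀ v, n (n v) = 0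
  adj : ∀ u v, B (n u) v = B u (n v)

/-- A family adapted to a square-zero self-adjoint map. -/
def IsHermFam (B : V →ₛₗ[σ] V →ₗ[F] F) (n : V →ₗ[F] V) {r : ℕ} (w : Fin r → V) : Prop :=
  (∀ i j, B (w i) (n (w j)) = if i = j then 1 else 0) ∧ (∀ i j, B (w i) (w j) = 0) ∧
    ∀ p, (∀ i, B (w i) p = 0) → (∀ i, B (n (w i)) p = 0) → n p = 0

theorem exists_hermFam (h : IsHerm q σ B) (hF : Fintype.card F = q ^ 2) {n : V →ₗ[F] V}
    (hn : IsHermNil B n) : ∃ w : Fin (finrank F (LinearMap.range n)) → V, IsHermFam B n w := by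
  obtain ⟨W, hW⟩ := (LinearMap.ker n).exists_isCompl
  let β : W →ₛₗ[σ] W →ₗ[F] F :=
    LinearMap.mk₂'ₛₗ σ (RingHom.id F) (fun x y => B (x : V) (n (y : V)))
      (by intros; simp) (by intros; simp) (by intros; simp) (by intros; simp)
  have hβ : ∀ x y : W, β x y = B (x : V) (n (y : V)) := fun x y => rfl
  have hsup : ∀ v, ∃ a ∈ W, ∃ k ∈ LinearMap.ker n, a + k = v := fun v =>
    Submodule.mem_sup.1 (show v ∈ W ⊔ LinearMap.ker n by rw [sup_comm, hW.sup_eq_top]; trivial)
  have hsep : ∀ x : W, (∀ y : W, β x y = 0) → x = 0 := by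
    intro u hu
    have h1 : (u : V) ∈ LinearMap.ker n := by
      rw [LinearMap.mem_ker]
      refine h.form.nondeg _ fun v => ?_
      rw [hn.adj]
      obtain ⟨a, ha, k, hk, rfl⟩ := hsup v
      rw [map_add n, LinearMap.mem_ker.1 hk, add_zero]
      exact hu ⟨a, ha⟩
    exact Subtype.ext (Submodule.disjoint_def.1 hW.disjoint _ h1 u.2)
  have hsymm : ∀ x y : W, σ (β x y) = β y x := fun x y => by
    rw [hβ, hβ, h.symm, hn.adj]
  have hS : β.IsSymm := ⟨fun x y => hsymm x y⟩
  have hH : IsHerm q σ β := ⟨h.sigma_eq, hsymm, isForm_hermitian σ h.ne_id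
    (fun a => h.form.sigma_sigma a) β hS ⟨hsep, fun y hy => hsep y fun x => by
      rw [← hsymm, hy x, map_zero]⟩, h.ne_id⟩
  have hd : finrank F W = finrank F (LinearMap.range n) := by
    have := LinearMap.finrank_range_add_finrank_ker n
    have := Submodule.finrank_add_eq_of_isCompl hW
    omega
  rw [← hd]
  set r := finrank F W
  obtain ⟨b, hb⟩ := hH.exists_orthonormal hF
  let w0 : Fin r → V := fun i => (b i : V)
  have hw0 : ∀ i j, B (w0 i) (n (w0 j)) = if i = j then 1 else 0 := hb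
  have hzz : ∀ u v, B (n u) (n v) = 0 := fun u v => by rw [hn.adj, hn.sq, map_zero]
  obtain ⟨t, ht⟩ := exists_add_sigma_eq_one σ h.ne_id (fun a => h.form.sigma_sigma a)
  let M : Fin r → Fin r → F := fun i j => B (w0 i) (w0 j)
  let c : Fin r → Fin r → F := fun i j => if j < i then -M j i else if i = j then -(t * M i i) else 0
  have hc : ∀ i j, M i j + σ (c i j) + c j i = 0 := by
    intro i j
    simp only [c]
    rcases lt_trichotomy i j with hij | rfl | hij
    · rw [if_neg (not_lt.2 hij.le), if_neg hij.ne, if_pos hij, map_zero]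
      ring
    · rw [if_neg (lt_irrefl i), if_pos rfl, map_neg, map_mul, show σ (M i i) = M i i from h.symm _ _]
      linear_combination (-(M i i)) * ht
    · rw [if_pos hij, if_neg (not_lt.2 hij.le), if_neg hij.ne, map_neg,
        show σ (M j i) = M i j from h.symm _ _]
      ring
  let w : Fin r → V := fun i => w0 i + ∑ k, c i k • n (w0 k)
  have hnw : ∀ i, n (w i) = n (w0 i) := fun i => by
    simp [w, map_sum, hn.sq]
  have hzw : ∀ i j, B (n (w0 i)) (w0 j) = if i = j then 1 else 0 := fun i j => by rw [hn.adj, hw0]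
  refine ⟨w, fun i j => ?_, fun i j => ?_, ?_⟩
  · rw [hnw]
    simp [w, hzz, hw0]
  · have := hc i j
    simp only [M] at this
    simp [w, hzz, hw0, hzw]
    linear_combination this
  · intro p h1 h2
    have hspan : ∀ v, ∃ d : Fin r → F, n v = ∑ i, d i • n (w0 i) := by
      intro v
      obtain ⟨a, ha, k, hk, rfl⟩ := hsup v
      refine ⟨fun i => b.equivFun ⟨a, ha⟩ i, ?_⟩
      rw [map_add n, LinearMap.mem_ker.1 hk, add_zero]
      have e := congrArg (fun x : W => n (x : V)) (b.sum_equivFun ⟨a, ha⟩)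
      simp only [Submodule.coe_sum, Submodule.coe_smul, map_sum, map_smul] at e
      exact e.symm
    refine h.form.nondeg _ fun v => ?_
    rw [hn.adj]
    obtain ⟨d, hd'⟩ := hspan v
    rw [hd', map_sum]
    refine Finset.sum_eq_zero fun i _ => ?_
    rw [map_smul, ← hnw, h.form.refl _ _ (h2 i), smul_zero]

/-- Square-zero self-adjoint maps of the same rank are conjugate by an isometry. -/
theorem exists_herm_nil_conj (h : IsHerm q σ B) {n n' : V →ₗ[F] V} {r : ℕ} (hn : IsHermNil B n)
    (hn' : IsHermNil B n') {w w' : Fin r → V} (hw : IsHermFam B n w) (hw' : IsHermFam B n' w') :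
    ∃ g : V ≃ₗ[F] V, (∀ u v, B (g u) (g v) = B u v) ∧ ∀ v, g (n v) = n' (g v) := by
  have gram : ∀ {n : V →ₗ[F] V} {w : Fin r → V}, IsHermNil B n → IsHermFam B n w →
      ∀ a b : Fin r ⊕ Fin r, B (Sum.elim w (fun i => n (w i)) a) (Sum.elim w (fun i => n (w i)) b) =
        if a = Sum.swap b then 1 else 0 := by
    intro n w hn hw a b
    rcases a with a | a <;> rcases b with b | b <;>
      simp [hw.1, hw.2.1, hn.adj, hn.sq]
  set u : Fin r ⊕ Fin r → V := Sum.elim w (fun i => n (w i)) with hu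
  set u' : Fin r ⊕ Fin r → V := Sum.elim w' (fun i => n' (w' i)) with hu'
  have hG := gram hn hw
  have hG' := gram hn' hw'
  rw [← hu] at hG
  rw [← hu'] at hG'
  have coef : ∀ {u : Fin r ⊕ Fin r → V}, (∀ a b, B (u a) (u b) = if a = Sum.swap b then 1 else 0) →
      ∀ (d : Fin r ⊕ Fin r → F) a, B (u a) (∑ b, d b • u b) = d (Sum.swap a) := by
    intro u hu d a
    rw [map_sum, Finset.sum_eq_single (Sum.swap a)]
    · rw [map_smul, hu, if_pos (Sum.swap_swap a).symm, smul_eq_mul, mul_one]
    · intro b _ hb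
      rw [map_smul, hu, if_neg, smul_zero]
      rintro rfl
      exact hb (Sum.swap_swap b).symm
    · simp
  have hli : ∀ {u : Fin r ⊕ Fin r → V}, (∀ a b, B (u a) (u b) = if a = Sum.swap b then 1 else 0) →
      LinearIndependent F u := by
    intro u hu
    rw [Fintype.linearIndependent_iff]
    intro d hd a
    have := coef hu d (Sum.swap a)
    rw [hd, Sum.swap_swap, map_zero] at this
    exact this.symm
  have li := hli hG
  set X := Submodule.span F (Set.range u) with hX
  let b := Basis.span li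
  let φ : X →ₗ[F] V := b.constr F u'
  have hφ : ∀ a, φ (b a) = u' a := fun a => b.constr_basis F u' a
  have hbval : ∀ a, ((b a : X) : V) = u a := fun a => by simp [b, Basis.span_apply]
  have hφsum : ∀ x : X, φ x = ∑ a, b.equivFun x a • u' a := fun x => by
    have e := congrArg φ (b.sum_equivFun x)
    rw [map_sum] at e
    rw [← e]
    exact Finset.sum_congr rfl fun a _ => by rw [map_smul, hφ]
  have hxsum : ∀ x : X, (x : V) = ∑ a, b.equivFun x a • u a := fun x => by
    have e := congrArg (fun y : X => (y : V)) (b.sum_equivFun x)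
    simp only [Submodule.coe_sum, Submodule.coe_smul, hbval] at e
    exact e.symm
  have hinj : Function.Injective φ := by
    rw [← LinearMap.ker_eq_bot, LinearMap.ker_eq_bot']
    intro x hx
    rw [hφsum] at hx
    refine b.equivFun.injective ?_
    rw [map_zero]
    exact funext (Fintype.linearIndependent_iff.1 (hli hG') _ hx)
  have hφB : ∀ x x' : X, B (φ x) (φ x') = B (x : V) (x' : V) := fun x x' => by
    rw [hφsum, hφsum, hxsum x, hxsum x']
    simp [hG, hG']
  obtain ⟨g, hgB, -, hgX⟩ := h.form.witt_extend X φ hinj hφB fun x => hφB x x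
  refine ⟨g, hgB, ?_⟩
  have hgu : ∀ a, g (u a) = u' a := fun a => by rw [← hbval, hgX, hφ]
  have hXn : ∀ x ∈ X, (∀ y ∈ X, B x y = 0) → x = 0 := by
    intro x hx hxy
    obtain ⟨d, hd⟩ : ∃ d : Fin r ⊕ Fin r → F, x = ∑ a, d a • u a := ⟨_, hxsum ⟨x, hx⟩⟩
    subst hd
    refine Finset.sum_eq_zero fun a _ => ?_
    have h1 := h.form.refl _ _ (hxy _ (Submodule.subset_span ⟨Sum.swap a, rfl⟩))
    rw [coef hG, Sum.swap_swap] at h1
    rw [h1, zero_smul]
  have hC := h.form.isCompl_perp hXn
  intro v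
  obtain ⟨x, hx, p, hp, rfl⟩ := Submodule.mem_sup.1
    (show v ∈ X ⊔ perp B X by rw [hC.sup_eq_top]; trivial)
  have hnp : n p = 0 := hw.2.2 p (fun i => hp _ (Submodule.subset_span ⟨Sum.inl i, rfl⟩))
    (fun i => hp _ (Submodule.subset_span ⟨Sum.inr i, rfl⟩))
  have hnp' : n' (g p) = 0 := hw'.2.2 (g p)
    (fun i => by
      rw [show w' i = g (u (Sum.inl i)) from (hgu (Sum.inl i)).symm, hgB]
      exact hp _ (Submodule.subset_span ⟨Sum.inl i, rfl⟩))
    (fun i => by
      rw [show n' (w' i) = g (u (Sum.inr i)) from (hgu (Sum.inr i)).symm, hgB]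
      exact hp _ (Submodule.subset_span ⟨Sum.inr i, rfl⟩))
  rw [map_add n, hnp, add_zero, map_add g x p, map_add n', hnp', add_zero]
  induction hx using Submodule.span_induction with
  | mem y hy =>
    obtain ⟨a, rfl⟩ := hy
    rcases a with i | i
    · rw [show n (u (Sum.inl i)) = u (Sum.inr i) from rfl, hgu, hgu]
      rfl
    · rw [show n (u (Sum.inr i)) = 0 from hn.sq _, map_zero, hgu]
      exact (hn'.sq _).symm
  | zero => simp
  | add y y' _ _ h1 h2 => simp [h1, h2]
  | smul c y _ h1 => simp [h1]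

section SU

open Matrix

variable {m : ℕ}

/-- Involutions of `SU_n(q)`, `q` even, of equal rank are conjugate. -/
theorem su_involution_isConj [CharP F 2] (hF : Fintype.card F = q ^ 2) (a b : Cfsg.SU m F q)
    (ha : orderOf a = 2) (hb : orderOf b = 2)
    (hr : (((a : Matrix.SpecialLinearGroup (Fin m) F) : Matrix (Fin m) (Fin m) F) - 1).rank =
      (((b : Matrix.SpecialLinearGroup (Fin m) F) : Matrix (Fin m) (Fin m) F) - 1).rank) :
    IsConj a b := by
  have hH : IsHerm q (frobQ hF) (hermB m hF) :=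
    ⟨fun x => frobQ_apply hF x, fun x y => (hermB_isSymm hF).eq x y, isForm_herm hF, frobQ_ne_id hF⟩
  set B := hermB m hF
  let mm : Cfsg.SU m F q → Matrix (Fin m) (Fin m) F := fun x =>
    ((x : Matrix.SpecialLinearGroup (Fin m) F) : Matrix (Fin m) (Fin m) F)
  have hpres : ∀ (x : Cfsg.SU m F q) u v, B (mm x *ᵥ u) (mm x *ᵥ v) = B u v := fun x u v => x.2 v u
  have hmul : ∀ x y, mm (x * y) = mm x * mm y := fun x y => rfl
  have hnil : ∀ x : Cfsg.SU m F q, orderOf x = 2 → IsHermNil B (Matrix.mulVecLin (mm x - 1)) := by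
    intro x hx
    have hx2 : mm x * mm x = 1 := by
      rw [← hmul, ← pow_two, ← hx, pow_orderOf_eq_one]; rfl
    have hadj : ∀ u v, B (mm x *ᵥ u) v = B u (mm x *ᵥ v) := fun u v => by
      conv_lhs => rw [show v = mm x *ᵥ (mm x *ᵥ v) by rw [Matrix.mulVec_mulVec, hx2, Matrix.one_mulVec]]
      rw [hpres]
    refine ⟨fun v => ?_, fun u v => ?_⟩
    · show (mm x - 1) *ᵥ ((mm x - 1) *ᵥ v) = 0
      rw [Matrix.mulVec_mulVec, Matrix.sub_mul, Matrix.mul_sub, hx2, Matrix.mul_one, Matrix.one_mul,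
        show (1 : Matrix (Fin m) (Fin m) F) - mm x - (mm x - 1) = 0 from ?_, Matrix.zero_mulVec]
      ext i j
      simp only [Matrix.sub_apply, Matrix.zero_apply]
      linear_combination CharTwo.add_self_eq_zero ((1 : Matrix (Fin m) (Fin m) F) i j - mm x i j)
    · simp only [Matrix.mulVecLin_apply, Matrix.one_mulVec, map_sub,
        LinearMap.sub_apply, hadj]
  have hna := hnil a ha
  have hnb := hnil b hb
  set na := Matrix.mulVecLin (mm a - 1) with hnadef
  obtain ⟨w, hw⟩ := exists_hermFam hH hF hna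
  obtain ⟨w', hw'⟩ := exists_hermFam hH hF hnb
  change (mm a - 1).rank = (mm b - 1).rank at hr
  obtain ⟨g0, hg0, hg0n⟩ : ∃ g : (Fin m → F) ≃ₗ[F] (Fin m → F), (∀ u v, B (g u) (g v) = B u v) ∧
      ∀ v, g (Matrix.mulVecLin (mm a - 1) v) = Matrix.mulVecLin (mm b - 1) (g v) := by
    unfold Matrix.rank at hr
    rw [← hnadef] at hr
    revert w'
    rw [← hr]
    intro w' hw'
    exact exists_herm_nil_conj hH hna hnb hw hw'
  -- the plane of the first pair
  have hr0 : 0 < finrank F (LinearMap.range (Matrix.mulVecLin (mm a - 1))) := by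
    refine Nat.pos_of_ne_zero fun h0 => ?_
    rw [Submodule.finrank_eq_zero, LinearMap.range_eq_bot] at h0
    have : a = 1 := Subtype.ext (Subtype.ext (matrix_ext_mulVec fun v => by
      have := LinearMap.congr_fun h0 v
      rw [Matrix.mulVecLin_apply, Matrix.sub_mulVec, Matrix.one_mulVec, LinearMap.zero_apply,
        sub_eq_zero] at this
      rw [this]
      exact (Matrix.one_mulVec v).symm))
    rw [this, orderOf_one] at ha
    omega
  set w0 := w ⟨0, hr0⟩
  set z0 := na w0 with hz0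
  have hwz : B w0 z0 = 1 := by rw [hz0, hw.1, if_pos rfl]
  have hww : B w0 w0 = 0 := hw.2.1 _ _
  have hzw : B z0 w0 = 1 := by rw [← hH.symm, hwz, map_one]
  have hzz : B z0 z0 = 0 := by rw [hz0, hna.adj, hna.sq, map_zero]
  -- its determinant is a square
  set d := (Matrix.toLin' (LinearMap.toMatrix' (g0 : (Fin m → F) →ₗ[F] (Fin m → F)))).det with hd
  have hd' : d = (LinearMap.toMatrix' (g0 : (Fin m → F) →ₗ[F] (Fin m → F))).det := LinearMap.det_toLin' _
  have hdn : d * frobQ hF d = 1 := det_norm_one hF _ fun x y => by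
    rw [Matrix.toLin'_toMatrix']
    exact hg0 x y
  have hd0 : d ≠ 0 := left_ne_zero_of_mul_eq_one hdn
  obtain ⟨μ, hμ⟩ := FiniteField.isSquare_of_char_two (ringChar.eq F 2) d⁻¹
  have hμn : μ * frobQ hF μ = 1 := by
    have h1 : (μ * frobQ hF μ) ^ 2 = 1 ^ 2 := by
      rw [one_pow, mul_pow, ← map_pow, sq, ← hμ, map_inv₀, ← mul_inv, hdn, inv_one]
    exact frobenius_inj F 2 h1
  set c := μ - 1 with hcdef
  have hc : c + frobQ hF c + c * frobQ hF c = 0 := by
    rw [hcdef, map_sub, map_one]; linear_combination hμn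
  -- the scalar on the plane
  let P : (Fin m → F) →ₗ[F] (Fin m → F) := (B z0).smulRight w0 + (B w0).smulRight z0
  have hP : ∀ v, P v = B z0 v • w0 + B w0 v • z0 := fun v => rfl
  have hPP : ∀ v, P (P v) = P v := fun v => by
    rw [hP (P v), hP v]; simp [hwz, hzw, hww, hzz]
  have hPB : ∀ u v, B (P u) v = B u (P v) := fun u v => by
    simp only [hP, map_add, map_smul, LinearMap.map_smulₛₗ, LinearMap.add_apply, LinearMap.smul_apply,
      smul_eq_mul, hH.symm]
    ring
  let T1 : (Fin m → F) →ₗ[F] (Fin m → F) := LinearMap.id + c • (B z0).smulRight w0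
  let T2 : (Fin m → F) →ₗ[F] (Fin m → F) := LinearMap.id + c • (B w0).smulRight z0
  have hT : ∀ v, (T1.comp T2) v = v + c • P v := fun v => by
    simp [T1, T2, hP, hzz, smul_add]
    abel
  have hdet : ∀ (f : (Fin m → F) →ₗ[F] F) (x : Fin m → F),
      (LinearMap.id + c • f.smulRight x).det = 1 + c * f x := by
    intro f x
    rw [← LinearMap.det_toMatrix']
    have e : LinearMap.toMatrix' (LinearMap.id + c • f.smulRight x) =
        1 + Matrix.replicateCol Unit (c • x) * Matrix.replicateRow Unit (fun j => f (Pi.single j 1)) := by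
      ext i j
      simp [LinearMap.toMatrix'_apply, Matrix.mul_apply, Pi.single_apply, Matrix.one_apply, mul_comm,
        mul_left_comm]
    rw [e, Matrix.det_one_add_replicateCol_mul_replicateRow]
    congr 1
    rw [dotProduct, show f x = f (∑ j, x j • (Pi.single j 1 : Fin m → F)) by
      congr 1; exact pi_eq_sum_univ' x, map_sum, Finset.mul_sum]
    exact Finset.sum_congr rfl fun j _ => by simp; ring
  set H := T1.comp T2 with hHdef
  have hdetH : H.det = d⁻¹ := by
    rw [hHdef, LinearMap.det_comp, hdet, hdet, hzw, hwz, hμ, hcdef]; ring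
  have hHB : ∀ u v, B (H u) (H v) = B u v := fun u v => by
    rw [hT, hT]
    simp only [map_add, map_smul, LinearMap.map_smulₛₗ, LinearMap.add_apply, LinearMap.smul_apply,
      smul_eq_mul]
    rw [hPB u (P v), hPP, hPB u v]
    linear_combination (B u (P v)) * hc
  have hHn : ∀ v, H (na v) = na (H v) := fun v => by
    rw [hT, hT, map_add, map_smul]
    have h1 : P (na v) = na (P v) := by
      rw [hP, hP, map_add, map_smul, map_smul, ← hna.adj w0 v, ← hz0,
        show na z0 = 0 from hna.sq w0, show B z0 (na v) = 0 by rw [hz0, hna.adj, hna.sq, map_zero]]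
      simp
    rw [h1]
  -- the conjugating element
  set G := LinearMap.toMatrix' (g0 : (Fin m → F) →ₗ[F] (Fin m → F)) * LinearMap.toMatrix' H with hG
  have hGdet : G.det = 1 := by
    rw [hG, Matrix.det_mul, ← hd', LinearMap.det_toMatrix', hdetH, mul_inv_cancel₀ hd0]
  have hGv : ∀ v, G *ᵥ v = g0 (H v) := fun v => by
    rw [hG, ← Matrix.mulVec_mulVec, LinearMap.toMatrix'_mulVec, LinearMap.toMatrix'_mulVec]; rfl
  let g : Cfsg.SU m F q := ⟨⟨G, hGdet⟩, fun u v => by
    show Cfsg.hermForm m F q (G *ᵥ u) (G *ᵥ v) = _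
    rw [← hermB_apply hF, ← hermB_apply hF, hGv, hGv, hg0, hHB]⟩
  refine isConj_iff.2 ⟨g, mul_inv_eq_iff_eq_mul.2 (Subtype.ext (Subtype.ext ?_))⟩
  show G * mm a = mm b * G
  refine matrix_ext_mulVec fun v => ?_
  rw [← Matrix.mulVec_mulVec v G (mm a), ← Matrix.mulVec_mulVec v (mm b) G, hGv, hGv]
  have h1 := hg0n (H v)
  rw [← hHn v, hnadef, Matrix.mulVecLin_apply, Matrix.mulVecLin_apply, Matrix.sub_mulVec,
    Matrix.sub_mulVec, Matrix.one_mulVec, Matrix.one_mulVec, map_sub H, map_sub] at h1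
  exact sub_left_injective h1

end SU

end Cfsg.Agent.Forms
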